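import Mathlib
import Cfsg.Agent.Helper12.SL2Orders

set_option autoImplicit false

namespace Cfsg.Agent.Helper12

/-- The group of affine maps `x ↦ u x + t` of a field `K` with `u ^ d = 1`. -/
@[ext] structure Aff (K : Type*) [Field K] (d : ℕ) where
  t : K
  u : Kˣ
  hu : u ^ d = 1

namespace Aff

variable {K : Type*} [Field K] {d : ℕ}

instance instGroup : Group (Aff K d) where
  mul x y := ⟨x.t + (x.u : K) * y.t, x.u * y.u, by rw [mul_pow, x.hu, y.hu, one_mul]⟩
  one := ⟨0, 1, one_pow d⟩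
  inv x := ⟨-((x.u⁻¹ : Kˣ) : K) * x.t, x.u⁻¹, by rw [inv_pow, x.hu, inv_one]⟩
  mul_assoc a b c := by
    apply Aff.ext
    · show a.t + (a.u : K) * b.t + ((a.u * b.u : Kˣ) : K) * c.t =
        a.t + (a.u : K) * (b.t + (b.u : K) * c.t)
      rw [Units.val_mul]; ring
    · show a.u * b.u * c.u = a.u * (b.u * c.u)
      rw [mul_assoc]
  one_mul a := by
    apply Aff.ext
    · show (0 : K) + ((1 : Kˣ) : K) * a.t = a.t
      rw [Units.val_one, one_mul, zero_add]
    · show (1 : Kˣ) * a.u = a.u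
      rw [one_mul]
  mul_one a := by
    apply Aff.ext
    · show a.t + (a.u : K) * 0 = a.t
      rw [mul_zero, add_zero]
    · show a.u * 1 = a.u
      rw [mul_one]
  inv_mul_cancel a := by
    apply Aff.ext
    · show -((a.u⁻¹ : Kˣ) : K) * a.t + ((a.u⁻¹ : Kˣ) : K) * a.t = 0
      ring
    · show a.u⁻¹ * a.u = 1
      rw [inv_mul_cancel]

theorem mul_t (x y : Aff K d) : (x * y).t = x.t + (x.u : K) * y.t := rfl
theorem mul_u (x y : Aff K d) : (x * y).u = x.u * y.u := rfl
theorem one_t : (1 : Aff K d).t = 0 := rfl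
theorem one_u : (1 : Aff K d).u = 1 := rfl

theorem pow_u (x : Aff K d) (n : ℕ) : (x ^ n).u = x.u ^ n := by
  induction n with
  | zero => rw [pow_zero, pow_zero, one_u]
  | succ n ih => rw [pow_succ, pow_succ, mul_u, ih]

theorem pow_t (x : Aff K d) (n : ℕ) :
    (x ^ n).t = (∑ i ∈ Finset.range n, (x.u : K) ^ i) * x.t := by
  induction n with
  | zero => rw [pow_zero, one_t, Finset.sum_range_zero, zero_mul]
  | succ n ih =>
    rw [pow_succ, mul_t, ih, pow_u, Finset.sum_range_succ, Units.val_pow_eq_pow_val]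
    ring

theorem eq_one_iff (x : Aff K d) : x = 1 ↔ x.t = 0 ∧ x.u = 1 := by
  constructor
  · intro h
    rw [h]
    exact ⟨rfl, rfl⟩
  · rintro ⟨h1, h2⟩
    exact Aff.ext (h1.trans one_t.symm) (h2.trans one_u.symm)

theorem pow_eq_one_iff_of_ne (x : Aff K d) (hx : x.u ≠ 1) (n : ℕ) : x ^ n = 1 ↔ x.u ^ n = 1 := by
  rw [eq_one_iff, pow_u, pow_t]
  constructor
  · exact fun h => h.2
  · intro h
    refine ⟨?_, h⟩
    have hu1 : (x.u : K) - 1 ≠ 0 := by
      intro h0
      apply hx
      apply Units.ext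
      rw [Units.val_one]
      exact sub_eq_zero.mp h0
    have hg := mul_geom_sum (x.u : K) n
    have hun : (x.u : K) ^ n = 1 := by
      rw [← Units.val_pow_eq_pow_val, h, Units.val_one]
    rw [hun, sub_self] at hg
    rcases mul_eq_zero.mp hg with h0 | h0
    · exact absurd h0 hu1
    · rw [h0, zero_mul]

theorem orderOf_of_ne (x : Aff K d) (hx : x.u ≠ 1) : orderOf x = orderOf x.u :=
  orderOf_eq_orderOf_iff.mpr (pow_eq_one_iff_of_ne x hx)

theorem pow_char_of_u_eq_one (p : ℕ) [CharP K p] (x : Aff K d) (hx : x.u = 1) : x ^ p = 1 := by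
  rw [eq_one_iff, pow_u, pow_t, hx]
  constructor
  · rw [Units.val_one]
    simp only [one_pow, Finset.sum_const, Finset.card_range, nsmul_eq_mul, mul_one]
    rw [CharP.cast_eq_zero K p, zero_mul]
  · exact one_pow p

instance instFinite [Finite K] : Finite (Aff K d) :=
  Finite.of_injective (fun x : Aff K d => (x.t, x.u))
    (fun _ _ h => Aff.ext (congrArg Prod.fst h) (congrArg Prod.snd h))

/-- The homomorphism `x ↦ x.u`. -/
def uHom : Aff K d →* Kˣ where
  toFun := Aff.u
  map_one' := rfl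
  map_mul' _ _ := rfl

instance instIsSolvable : Group.IsSolvable (Aff K d) := by
  have : Group.IsSolvable ↥(uHom (K := K) (d := d)).ker := by
    apply Group.isSolvable_of_comm
    rintro ⟨a, ha⟩ ⟨b, hb⟩
    apply Subtype.ext
    have ha' : a.u = 1 := ha
    have hb' : b.u = 1 := hb
    apply Aff.ext
    · show a.t + (a.u : K) * b.t = b.t + (b.u : K) * a.t
      rw [ha', hb', Units.val_one, one_mul, one_mul, add_comm]
    · show a.u * b.u = b.u * a.u
      rw [mul_comm]
  exact Group.isSolvable_of_ker_le_range (uHom (K := K) (d := d)).ker.subtype (uHom (K := K) (d := d))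
    (le_of_eq (Subgroup.range_subtype _).symm)

/-- The spectrum of `Aff K d` for a finite field `K` of characteristic `p` with `d ∣ |K| - 1`. -/
theorem range_orderOf (p : ℕ) [Fact p.Prime] [Finite K] [CharP K p] (d : ℕ)
    (hd : d ∣ Nat.card K - 1) :
    Set.range (orderOf : Aff K d → ℕ) = {m | m ∣ p ∨ m ∣ d} := by
  have hpp : p.Prime := Fact.out
  ext m
  simp only [Set.mem_range, Set.mem_ofPred_eq]
  constructor
  · rintro ⟨x, rfl⟩
    by_cases hx : x.u = 1
    · exact Or.inl (orderOf_dvd_of_pow_eq_one (pow_char_of_u_eq_one p x hx))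
    · right
      rw [orderOf_of_ne x hx]
      exact orderOf_dvd_of_pow_eq_one x.hu
  · intro hm
    by_cases hm1 : m = 1
    · exact ⟨1, by rw [orderOf_one, hm1]⟩
    rcases hm with hm | hm
    · rcases (Nat.dvd_prime hpp).mp hm with h | h
      · exact absurd h hm1
      · refine ⟨⟨1, 1, one_pow d⟩, ?_⟩
        rw [h]
        apply orderOf_eq_prime
        · exact pow_char_of_u_eq_one p _ rfl
        · intro h1
          have h2 := ((eq_one_iff _).mp h1).1
          exact one_ne_zero h2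
    · obtain ⟨g, hg⟩ := IsCyclic.exists_generator (α := Kˣ)
      have hog : orderOf g = Nat.card K - 1 := by
        rw [orderOf_eq_card_of_forall_mem_zpowers hg, Nat.card_units]
      have hpos : 0 < orderOf g := orderOf_pos g
      obtain ⟨u, hu⟩ := exists_orderOf_of_dvd g m hpos (by rw [hog]; exact hm.trans hd)
      have hud : u ^ d = 1 := orderOf_dvd_iff_pow_eq_one.mp (by rw [hu]; exact hm)
      have hu1 : u ≠ 1 := by
        intro h
        rw [h, orderOf_one] at hu
        exact hm1 hu.symm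
      refine ⟨⟨0, u, hud⟩, ?_⟩
      rw [orderOf_of_ne _ hu1]
      exact hu

end Aff

/-- The spectrum of a direct product. -/
theorem range_orderOf_prod {G₁ G₂ : Type*} [Group G₁] [Group G₂] (m : ℕ) :
    m ∈ Set.range (orderOf : G₁ × G₂ → ℕ) ↔
      ∃ a ∈ Set.range (orderOf : G₁ → ℕ), ∃ b ∈ Set.range (orderOf : G₂ → ℕ), m = Nat.lcm a b := by
  constructor
  · rintro ⟨⟨x, y⟩, rfl⟩
    exact ⟨orderOf x, ⟨x, rfl⟩, orderOf y, ⟨y, rfl⟩, Prod.orderOf (x, y)⟩
  · rintro ⟨a, ⟨x, rfl⟩, b, ⟨y, rfl⟩, rfl⟩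
    exact ⟨(x, y), Prod.orderOf (x, y)⟩

end Cfsg.Agent.Helper12
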