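import Mathlib
import Cfsg.Agent.Helper12.SL2Count
import Cfsg.Agent.Helper12.SL2Odd

set_option autoImplicit false
open Cfsg

namespace Cfsg.Agent.Helper12

open Cfsg.Agent.S2305 (th)
open Cfsg.Agent.S2308 (belG)

section half1

variable {F : Type*} [Field F]

theorem ell_trace (g : (Matrix.SpecialLinearGroup (Fin 2) F)) (hg : (∀ (c : F) (v : Fin 2 → F), v ≠ 0 → (g : (Matrix (Fin 2) (Fin 2) F)).mulVec v ≠ c • v)) : (g : (Matrix (Fin 2) (Fin 2) F)).trace ^ 2 ≠ 4 := by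
  obtain ⟨p, q, r, s, hgm, hdet⟩ := sl2_eta g
  have h00 : (g : (Matrix (Fin 2) (Fin 2) F)) 0 0 = p := congrFun (congrFun hgm 0) 0
  have h01 : (g : (Matrix (Fin 2) (Fin 2) F)) 0 1 = q := congrFun (congrFun hgm 0) 1
  have h10 : (g : (Matrix (Fin 2) (Fin 2) F)) 1 0 = r := congrFun (congrFun hgm 1) 0
  have h11 : (g : (Matrix (Fin 2) (Fin 2) F)) 1 1 = s := congrFun (congrFun hgm 1) 1
  have hr0 : r ≠ 0 := by
    intro h0
    apply hg p ![1, 0]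
    · intro hv0
      have h1 : (1 : F) = 0 := congrFun hv0 0
      exact one_ne_zero h1
    · have e1 : (g : (Matrix (Fin 2) (Fin 2) F)) 0 0 * 1 + (g : (Matrix (Fin 2) (Fin 2) F)) 0 1 * 0 = p * 1 := by
        rw [h00]
        ring
      have e3 : (g : (Matrix (Fin 2) (Fin 2) F)) 1 0 * 1 + (g : (Matrix (Fin 2) (Fin 2) F)) 1 1 * 0 = p * 0 := by
        rw [h10, h0]
        ring
      rw [mulVec_two, Matrix.smul_vec2, e1, e3]
      rfl
  have hroot : ∀ z : F, z ^ 2 - (p + s) * z + 1 ≠ 0 := by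
    intro z hz
    apply hg z ![z - s, r]
    · intro hv0
      have h2 : r = 0 := congrFun hv0 1
      exact hr0 h2
    · have e1 : (g : (Matrix (Fin 2) (Fin 2) F)) 0 0 * (z - s) + (g : (Matrix (Fin 2) (Fin 2) F)) 0 1 * r = z * (z - s) := by
        rw [h00, h01]
        linear_combination (-1 : F) * hz - hdet
      have e3 : (g : (Matrix (Fin 2) (Fin 2) F)) 1 0 * (z - s) + (g : (Matrix (Fin 2) (Fin 2) F)) 1 1 * r = z * r := by
        rw [h10, h11]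
        ring
      rw [mulVec_two, Matrix.smul_vec2, e1, e3]
      rfl
  rw [hgm, Matrix.trace_fin_two_of]
  intro h4
  have h3 : (p + s - 2) * (p + s + 2) = 0 := by linear_combination h4
  rcases mul_eq_zero.mp h3 with h' | h'
  · exact hroot 1 (by linear_combination (-1 : F) * h')
  · exact hroot (-1) (by linear_combination h')

theorem sl2_tricho (g : (Matrix.SpecialLinearGroup (Fin 2) F)) :
    (∀ (c : F) (v : Fin 2 → F), v ≠ 0 → (g : (Matrix (Fin 2) (Fin 2) F)).mulVec v ≠ c • v) ∨ ∃ (x : (Matrix.SpecialLinearGroup (Fin 2) F)) (a : Fˣ) (c : F), g = x * bel a c * x⁻¹ := by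
  by_cases h : (∀ (c : F) (v : Fin 2 → F), v ≠ 0 → (g : (Matrix (Fin 2) (Fin 2) F)).mulVec v ≠ c • v)
  · exact Or.inl h
  · right
    push Not at h
    obtain ⟨c, v, hv0, hv⟩ := h
    obtain ⟨x, hx⟩ := S2307.exists_conj_upper g c v hv0 hv
    obtain ⟨⟨a, e⟩, hae⟩ := bel_surj (x⁻¹ * g * x) ((mem_BS_iff _).mpr hx)
    have hae' : bel a e = x⁻¹ * g * x := hae
    refine ⟨x, a, e, ?_⟩
    rw [hae']
    group

theorem exists_twist (d : Fˣ) (g : (Matrix.SpecialLinearGroup (Fin 2) F)) :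
    ∃ h : (Matrix.SpecialLinearGroup (Fin 2) F), Matrix.SpecialLinearGroup.toGL h = belG d 1 0 * Matrix.SpecialLinearGroup.toGL g * (belG d 1 0)⁻¹ ∧ (h : (Matrix (Fin 2) (Fin 2) F)).trace = (g : (Matrix (Fin 2) (Fin 2) F)).trace := by
  obtain ⟨p, q, r, s, hgm, hdet⟩ := sl2_eta g
  have hde : (d : F) * ((d⁻¹ : Fˣ) : F) = 1 := Units.mul_inv d
  have hdet' : p * s - ((d : F) * q) * (r * ((d⁻¹ : Fˣ) : F)) = 1 := by
    linear_combination hdet - q * r * hde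
  refine ⟨sl2mk p ((d : F) * q) (r * ((d⁻¹ : Fˣ) : F)) s hdet', ?_, ?_⟩
  · apply eq_mul_inv_of_mul_eq
    apply Units.ext
    rw [Units.val_mul, Units.val_mul]
    show !![p, (d : F) * q; r * ((d⁻¹ : Fˣ) : F), s] * !![(d : F), 0; 0, ((1 : Fˣ) : F)] =
      !![(d : F), 0; 0, ((1 : Fˣ) : F)] * (g : (Matrix (Fin 2) (Fin 2) F))
    rw [hgm, Matrix.mul_fin_two, Matrix.mul_fin_two, Units.val_one]
    apply S5016.mat2_ext <;> first | ring1 | linear_combination r * hde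
  · rw [sl2mk_val, hgm, Matrix.trace_fin_two_of, Matrix.trace_fin_two_of]

theorem twist_tr [Fintype F] (hodd : Odd (Fintype.card F)) (χ χ₂ : (Matrix.SpecialLinearGroup (Fin 2) F) → ℂ)
    (hcl : ∀ x g : (Matrix.SpecialLinearGroup (Fin 2) F), χ₂ (x * g * x⁻¹) = χ₂ g) (d : Fˣ)
    (hd : ∀ g h : (Matrix.SpecialLinearGroup (Fin 2) F), Matrix.SpecialLinearGroup.toGL h = belG d 1 0 * Matrix.SpecialLinearGroup.toGL g * (belG d 1 0)⁻¹ → χ₂ h = χ g)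
    (g : (Matrix.SpecialLinearGroup (Fin 2) F)) (ht : (g : (Matrix (Fin 2) (Fin 2) F)).trace ^ 2 ≠ 4) : χ₂ g = χ g := by
  obtain ⟨h, hh, htr⟩ := exists_twist d g
  obtain ⟨c, hc⟩ := isConj_iff.mp (sl2_odd_isConj_of_trace hodd g h htr.symm ht)
  have e1 : χ₂ h = χ g := hd g h hh
  have e2 : χ₂ (c * g * c⁻¹) = χ₂ g := hcl c g
  rw [hc] at e2
  exact e2.symm.trans e1

theorem bel_mul (a b : Fˣ) (c e : F) :
    bel a c * bel b e = bel (a * b) ((a : F) * e + c * ((b⁻¹ : Fˣ) : F)) := by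
  apply Subtype.ext
  rw [Matrix.SpecialLinearGroup.coe_mul, bel_val, bel_val, bel_val, Matrix.mul_fin_two, mul_inv,
    Units.val_mul, Units.val_mul]
  apply S5016.mat2_ext <;> ring

theorem bel_one_zero : bel (1 : Fˣ) (0 : F) = 1 := by
  apply Subtype.ext
  rw [bel_val, inv_one, Units.val_one, Matrix.SpecialLinearGroup.coe_one, Matrix.one_fin_two]

theorem bel_conj_sq (t a : Fˣ) (c : F) :
    bel t 0 * bel a c * (bel t 0)⁻¹ = bel a ((t : F) ^ 2 * c) := by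
  apply mul_inv_eq_of_eq_mul
  rw [bel_mul, bel_mul, mul_comm t a]
  congr 1
  linear_combination (-(t : F) * c) * Units.mul_inv t

theorem bel_neg_one_central (x : (Matrix.SpecialLinearGroup (Fin 2) F)) : x * (bel (-1 : Fˣ) (0 : F)) = (bel (-1 : Fˣ) (0 : F)) * x := by
  obtain ⟨p, q, r, s, hx, -⟩ := sl2_eta x
  rw [sl2_mul_eq_iff, bel_val, hx, Matrix.mul_fin_two, Matrix.mul_fin_two, inv_neg_one, Units.val_neg,
    Units.val_one]
  apply S5016.mat2_ext <;> ring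

theorem bel_neg_mul (c : F) : (bel (-1 : Fˣ) (0 : F)) * bel 1 c = bel (-1 : Fˣ) (-c) := by
  rw [bel_mul, mul_one]
  congr 1
  rw [Units.val_neg, Units.val_one]
  ring

theorem bel_neg_one_sq : (bel (-1 : Fˣ) (0 : F)) * (bel (-1 : Fˣ) (0 : F)) = 1 := by
  rw [bel_mul, neg_mul_neg, mul_one, ← bel_one_zero]
  congr 1
  ring

theorem bel_unip_inv : ((bel (1 : Fˣ) (1 : F)))⁻¹ = bel 1 (-1) := by
  apply inv_eq_of_mul_eq_one_right
  rw [bel_mul, mul_one, ← bel_one_zero]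
  congr 1
  rw [inv_one, Units.val_one]
  ring

theorem bel_trace_ne (a : Fˣ) (c : F) (hne : (a : F) ≠ ((a⁻¹ : Fˣ) : F)) :
    ((bel a c : (Matrix.SpecialLinearGroup (Fin 2) F)) : (Matrix (Fin 2) (Fin 2) F)).trace ^ 2 ≠ 4 := by
  rw [bel_val, Matrix.trace_fin_two_of]
  intro h4
  have h0 : ((a : F) - ((a⁻¹ : Fˣ) : F)) ^ 2 = 0 := by
    linear_combination h4 - 4 * Units.mul_inv a
  exact hne (sub_eq_zero.mp ((pow_eq_zero_iff two_ne_zero).mp h0))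

theorem unit_inv_cases (a : Fˣ) (h : (a : F) = ((a⁻¹ : Fˣ) : F)) : a = 1 ∨ a = -1 := by
  have h1 : (a : F) ^ 2 = 1 := by
    have h2 := Units.mul_inv a
    rw [← h] at h2
    rw [pow_two]
    exact h2
  rcases sq_eq_one_iff.mp h1 with h2 | h2
  · left
    apply Units.ext
    rw [h2, Units.val_one]
  · right
    apply Units.ext
    rw [h2, Units.val_neg, Units.val_one]

theorem gen_half_pow [Fintype F] [DecidableEq F] (hodd : Odd (Fintype.card F)) (ζ : Fˣ) (hζ : ∀ y : Fˣ, y ∈ Submonoid.powers ζ) :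
    (ζ : F) ^ ((Fintype.card F - 1) / 2) = -1 := by
  have hcard : Fintype.card Fˣ = Fintype.card F - 1 := Fintype.card_units F
  have hz : ∀ x : Fˣ, x ∈ Subgroup.zpowers ζ := by
    intro x
    obtain ⟨n, hn⟩ := (Submonoid.mem_powers_iff x ζ).mp (hζ x)
    exact Subgroup.mem_zpowers_iff.mpr ⟨(n : ℤ), by rw [zpow_natCast, hn]⟩
  have hord : orderOf ζ = Fintype.card F - 1 := by
    rw [orderOf_eq_card_of_forall_mem_zpowers hz, Nat.card_eq_fintype_card, hcard]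
  have hq3 : 3 ≤ Fintype.card F := by
    have h1 := Fintype.one_lt_card (α := F)
    obtain ⟨k, hk⟩ := hodd
    omega
  have hne : ζ ^ ((Fintype.card F - 1) / 2) ≠ 1 := by
    apply pow_ne_one_of_lt_orderOf
    · omega
    · rw [hord]
      omega
  have hsq : (ζ ^ ((Fintype.card F - 1) / 2)) ^ 2 = 1 := by
    rw [← pow_mul]
    have h2 : ((Fintype.card F - 1) / 2) * 2 = Fintype.card Fˣ := by
      rw [hcard]
      obtain ⟨k, hk⟩ := hodd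
      omega
    rw [h2]
    exact pow_card_eq_one
  have hsq' : ((ζ : F) ^ ((Fintype.card F - 1) / 2)) ^ 2 = 1 := by
    rw [← Units.val_pow_eq_pow_val, ← Units.val_pow_eq_pow_val, hsq, Units.val_one]
  rcases sq_eq_one_iff.mp hsq' with h | h
  · exfalso
    apply hne
    apply Units.ext
    rw [Units.val_pow_eq_pow_val, h, Units.val_one]
  · exact h

/-- The difference of two functions. -/
noncomputable def psiF (χ χ₂ : (Matrix.SpecialLinearGroup (Fin 2) F) → ℂ) : (Matrix.SpecialLinearGroup (Fin 2) F) → ℂ := fun g => χ g - χ₂ g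

theorem psiF_apply (χ χ₂ : (Matrix.SpecialLinearGroup (Fin 2) F) → ℂ) (g : (Matrix.SpecialLinearGroup (Fin 2) F)) : psiF χ χ₂ g = χ g - χ₂ g := rfl

/-- The squared absolute value of the difference. -/
noncomputable def psiN (χ χ₂ : (Matrix.SpecialLinearGroup (Fin 2) F) → ℂ) : (Matrix.SpecialLinearGroup (Fin 2) F) → ℂ :=
  fun g => psiF χ χ₂ g * starRingEnd ℂ (psiF χ χ₂ g)

theorem psiN_apply (χ χ₂ : (Matrix.SpecialLinearGroup (Fin 2) F) → ℂ) (g : (Matrix.SpecialLinearGroup (Fin 2) F)) :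
    psiN χ χ₂ g = psiF χ χ₂ g * starRingEnd ℂ (psiF χ χ₂ g) := rfl

/-- A pair of distinct irreducible characters of `SL₂` exchanged by conjugation with `diag(d, 1)`. -/
structure HalfPair (χ χ₂ : (Cfsg.IrrCharacter (Matrix.SpecialLinearGroup (Fin 2) F))) (d : Fˣ) : Prop where
  ne : χ₂ ≠ χ
  tw : ∀ g h : (Matrix.SpecialLinearGroup (Fin 2) F), Matrix.SpecialLinearGroup.toGL h = belG d 1 0 * Matrix.SpecialLinearGroup.toGL g * (belG d 1 0)⁻¹ → (χ₂ : (Matrix.SpecialLinearGroup (Fin 2) F) → ℂ) h = (χ : (Matrix.SpecialLinearGroup (Fin 2) F) → ℂ) g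
  tw' : ∀ g h : (Matrix.SpecialLinearGroup (Fin 2) F), Matrix.SpecialLinearGroup.toGL h = belG d 1 0 * Matrix.SpecialLinearGroup.toGL g * (belG d 1 0)⁻¹ → (χ : (Matrix.SpecialLinearGroup (Fin 2) F) → ℂ) h = (χ₂ : (Matrix.SpecialLinearGroup (Fin 2) F) → ℂ) g

end half1

section half2

variable {F : Type*} [Field F] [Fintype F] [DecidableEq F]

theorem psiF_conj (χ χ₂ : (Cfsg.IrrCharacter (Matrix.SpecialLinearGroup (Fin 2) F))) (x g : (Matrix.SpecialLinearGroup (Fin 2) F)) : psiF (χ : (Matrix.SpecialLinearGroup (Fin 2) F) → ℂ) (χ₂ : (Matrix.SpecialLinearGroup (Fin 2) F) → ℂ) (x * g * x⁻¹) = psiF (χ : (Matrix.SpecialLinearGroup (Fin 2) F) → ℂ) (χ₂ : (Matrix.SpecialLinearGroup (Fin 2) F) → ℂ) g := by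
  rw [psiF_apply, psiF_apply, Helper24.irr_conj, Helper24.irr_conj]

theorem psiN_conj (χ χ₂ : (Cfsg.IrrCharacter (Matrix.SpecialLinearGroup (Fin 2) F))) (x g : (Matrix.SpecialLinearGroup (Fin 2) F)) : psiN (χ : (Matrix.SpecialLinearGroup (Fin 2) F) → ℂ) (χ₂ : (Matrix.SpecialLinearGroup (Fin 2) F) → ℂ) (x * g * x⁻¹) = psiN (χ : (Matrix.SpecialLinearGroup (Fin 2) F) → ℂ) (χ₂ : (Matrix.SpecialLinearGroup (Fin 2) F) → ℂ) g := by
  rw [psiN_apply, psiN_apply, psiF_conj]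

theorem psiF_inv (χ χ₂ : (Cfsg.IrrCharacter (Matrix.SpecialLinearGroup (Fin 2) F))) (g : (Matrix.SpecialLinearGroup (Fin 2) F)) : psiF (χ : (Matrix.SpecialLinearGroup (Fin 2) F) → ℂ) (χ₂ : (Matrix.SpecialLinearGroup (Fin 2) F) → ℂ) g⁻¹ = starRingEnd ℂ (psiF (χ : (Matrix.SpecialLinearGroup (Fin 2) F) → ℂ) (χ₂ : (Matrix.SpecialLinearGroup (Fin 2) F) → ℂ) g) := by
  rw [psiF_apply, psiF_apply, Helper24.irr_inv, Helper24.irr_inv, map_sub]

theorem hp_tr (hodd : Odd (Fintype.card F)) {χ χ₂ : (Cfsg.IrrCharacter (Matrix.SpecialLinearGroup (Fin 2) F))} {d : Fˣ} (hP : HalfPair χ χ₂ d) (g : (Matrix.SpecialLinearGroup (Fin 2) F)) (ht : (g : (Matrix (Fin 2) (Fin 2) F)).trace ^ 2 ≠ 4) : psiF (χ : (Matrix.SpecialLinearGroup (Fin 2) F) → ℂ) (χ₂ : (Matrix.SpecialLinearGroup (Fin 2) F) → ℂ) g = 0 := by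
  rw [psiF_apply, twist_tr hodd (χ : (Matrix.SpecialLinearGroup (Fin 2) F) → ℂ) (χ₂ : (Matrix.SpecialLinearGroup (Fin 2) F) → ℂ) (fun x g => Helper24.irr_conj χ₂ g x) d hP.tw g ht,
    sub_self]

theorem hp_zero {χ χ₂ : (Cfsg.IrrCharacter (Matrix.SpecialLinearGroup (Fin 2) F))} {d : Fˣ} (hP : HalfPair χ χ₂ d) (a : Fˣ) : (χ₂ : (Matrix.SpecialLinearGroup (Fin 2) F) → ℂ) (bel a 0) = (χ : (Matrix.SpecialLinearGroup (Fin 2) F) → ℂ) (bel a 0) := by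
  have h := twist_bel (χ : (Matrix.SpecialLinearGroup (Fin 2) F) → ℂ) (χ₂ : (Matrix.SpecialLinearGroup (Fin 2) F) → ℂ) d hP.tw a 0
  rw [mul_zero] at h
  exact h

theorem hp_one {χ χ₂ : (Cfsg.IrrCharacter (Matrix.SpecialLinearGroup (Fin 2) F))} {d : Fˣ} (hP : HalfPair χ χ₂ d) : (χ₂ : (Matrix.SpecialLinearGroup (Fin 2) F) → ℂ) 1 = (χ : (Matrix.SpecialLinearGroup (Fin 2) F) → ℂ) 1 := by
  have h := hp_zero hP 1
  rw [bel_one_zero] at h
  exact h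

theorem hp_d {χ χ₂ : (Cfsg.IrrCharacter (Matrix.SpecialLinearGroup (Fin 2) F))} {d : Fˣ} (hP : HalfPair χ χ₂ d) (a : Fˣ) (c : F) : psiF (χ : (Matrix.SpecialLinearGroup (Fin 2) F) → ℂ) (χ₂ : (Matrix.SpecialLinearGroup (Fin 2) F) → ℂ) (bel a ((d : F) * c)) = -psiF (χ : (Matrix.SpecialLinearGroup (Fin 2) F) → ℂ) (χ₂ : (Matrix.SpecialLinearGroup (Fin 2) F) → ℂ) (bel a c) := by
  rw [psiF_apply, psiF_apply, twist_bel (χ : (Matrix.SpecialLinearGroup (Fin 2) F) → ℂ) (χ₂ : (Matrix.SpecialLinearGroup (Fin 2) F) → ℂ) d hP.tw a c, twist_bel (χ₂ : (Matrix.SpecialLinearGroup (Fin 2) F) → ℂ) (χ : (Matrix.SpecialLinearGroup (Fin 2) F) → ℂ) d hP.tw' a c]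
  ring

theorem hp_gen (hodd : Odd (Fintype.card F)) {χ χ₂ : (Cfsg.IrrCharacter (Matrix.SpecialLinearGroup (Fin 2) F))} {d : Fˣ} (hP : HalfPair χ χ₂ d) (ζ : Fˣ) (hζ : ∀ y : Fˣ, y ∈ Submonoid.powers ζ) (a : Fˣ) (c : F) :
    psiF (χ : (Matrix.SpecialLinearGroup (Fin 2) F) → ℂ) (χ₂ : (Matrix.SpecialLinearGroup (Fin 2) F) → ℂ) (bel a ((ζ : F) * c)) = -psiF (χ : (Matrix.SpecialLinearGroup (Fin 2) F) → ℂ) (χ₂ : (Matrix.SpecialLinearGroup (Fin 2) F) → ℂ) (bel a c) := by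
  obtain ⟨k, hk⟩ := (Submonoid.mem_powers_iff d ζ).mp (hζ d)
  obtain ⟨j, rfl | rfl⟩ := Nat.even_or_odd' k
  · exfalso
    have e : ζ ^ (2 * j) = (ζ ^ j) ^ 2 := by rw [← pow_mul, mul_comm]
    have hdF : ((ζ ^ j : Fˣ) : F) ^ 2 = (d : F) := by
      rw [← Units.val_pow_eq_pow_val, ← e, hk]
    have hzero : ∀ (a : Fˣ) (c : F), psiF (χ : (Matrix.SpecialLinearGroup (Fin 2) F) → ℂ) (χ₂ : (Matrix.SpecialLinearGroup (Fin 2) F) → ℂ) (bel a c) = 0 := by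
      intro a c
      have h1 := hp_d hP a c
      have h2 : psiF (χ : (Matrix.SpecialLinearGroup (Fin 2) F) → ℂ) (χ₂ : (Matrix.SpecialLinearGroup (Fin 2) F) → ℂ) (bel a (((ζ ^ j : Fˣ) : F) ^ 2 * c)) = psiF (χ : (Matrix.SpecialLinearGroup (Fin 2) F) → ℂ) (χ₂ : (Matrix.SpecialLinearGroup (Fin 2) F) → ℂ) (bel a c) := by
        rw [← bel_conj_sq (ζ ^ j) a c, psiF_conj]
      rw [hdF, h1] at h2
      linear_combination (-1 / 2 : ℂ) * h2
    apply hP.ne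
    apply Subtype.ext
    funext g
    rcases sl2_tricho g with hell | ⟨x, a, c, rfl⟩
    · exact twist_tr hodd (χ : (Matrix.SpecialLinearGroup (Fin 2) F) → ℂ) (χ₂ : (Matrix.SpecialLinearGroup (Fin 2) F) → ℂ) (fun x g => Helper24.irr_conj χ₂ g x) d hP.tw g
        (ell_trace g hell)
    · rw [Helper24.irr_conj, Helper24.irr_conj]
      have h := hzero a c
      rw [psiF_apply] at h
      linear_combination (-1 : ℂ) * h
  · have hu : d * ((ζ ^ j)⁻¹) ^ 2 = ζ := by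
      rw [← hk, inv_pow, ← pow_mul, mul_inv_eq_iff_eq_mul, ← pow_succ']
      congr 1
      omega
    have hdF : (d : F) * ((((ζ ^ j)⁻¹ : Fˣ)) : F) ^ 2 = (ζ : F) := by
      rw [← Units.val_pow_eq_pow_val, ← Units.val_mul, hu]
    have h1 := hp_d hP a (((((ζ ^ j)⁻¹ : Fˣ)) : F) ^ 2 * c)
    have h2 : psiF (χ : (Matrix.SpecialLinearGroup (Fin 2) F) → ℂ) (χ₂ : (Matrix.SpecialLinearGroup (Fin 2) F) → ℂ) (bel a (((((ζ ^ j)⁻¹ : Fˣ)) : F) ^ 2 * c)) = psiF (χ : (Matrix.SpecialLinearGroup (Fin 2) F) → ℂ) (χ₂ : (Matrix.SpecialLinearGroup (Fin 2) F) → ℂ) (bel a c) := by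
      rw [← bel_conj_sq ((ζ ^ j)⁻¹) a c, psiF_conj]
    rw [← mul_assoc, hdF, h2] at h1
    exact h1

theorem hp_pow (hodd : Odd (Fintype.card F)) {χ χ₂ : (Cfsg.IrrCharacter (Matrix.SpecialLinearGroup (Fin 2) F))} {d : Fˣ} (hP : HalfPair χ χ₂ d) (ζ : Fˣ) (hζ : ∀ y : Fˣ, y ∈ Submonoid.powers ζ) (a : Fˣ) (j : ℕ) :
    psiF (χ : (Matrix.SpecialLinearGroup (Fin 2) F) → ℂ) (χ₂ : (Matrix.SpecialLinearGroup (Fin 2) F) → ℂ) (bel a ((ζ : F) ^ j)) = (-1) ^ j * psiF (χ : (Matrix.SpecialLinearGroup (Fin 2) F) → ℂ) (χ₂ : (Matrix.SpecialLinearGroup (Fin 2) F) → ℂ) (bel a 1) := by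
  induction j with
  | zero => rw [pow_zero, pow_zero, one_mul]
  | succ n ih =>
    rw [pow_succ' (ζ : F) n, hp_gen hodd hP ζ hζ a, ih]
    ring

theorem hp_central {χ χ₂ : (Cfsg.IrrCharacter (Matrix.SpecialLinearGroup (Fin 2) F))} {d : Fˣ} (hP : HalfPair χ χ₂ d) (g : (Matrix.SpecialLinearGroup (Fin 2) F)) : psiF (χ : (Matrix.SpecialLinearGroup (Fin 2) F) → ℂ) (χ₂ : (Matrix.SpecialLinearGroup (Fin 2) F) → ℂ) ((bel (-1 : Fˣ) (0 : F)) * g) = (χ : (Matrix.SpecialLinearGroup (Fin 2) F) → ℂ) (bel (-1 : Fˣ) (0 : F)) / (χ : (Matrix.SpecialLinearGroup (Fin 2) F) → ℂ) 1 * psiF (χ : (Matrix.SpecialLinearGroup (Fin 2) F) → ℂ) (χ₂ : (Matrix.SpecialLinearGroup (Fin 2) F) → ℂ) g := by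
  rw [psiF_apply, psiF_apply, irr_central_mul χ _ bel_neg_one_central g,
    irr_central_mul χ₂ _ bel_neg_one_central g, hp_zero hP, hp_one hP]
  ring

theorem irr_central_unit (χ : (Cfsg.IrrCharacter (Matrix.SpecialLinearGroup (Fin 2) F))) :
    (χ : (Matrix.SpecialLinearGroup (Fin 2) F) → ℂ) (bel (-1 : Fˣ) (0 : F)) / (χ : (Matrix.SpecialLinearGroup (Fin 2) F) → ℂ) 1 * starRingEnd ℂ ((χ : (Matrix.SpecialLinearGroup (Fin 2) F) → ℂ) (bel (-1 : Fˣ) (0 : F)) / (χ : (Matrix.SpecialLinearGroup (Fin 2) F) → ℂ) 1) = 1 := by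
  obtain ⟨n, hn⟩ := Helper24.irr_one_eq_natCast χ
  have h1 : (χ : (Matrix.SpecialLinearGroup (Fin 2) F) → ℂ) 1 ≠ 0 := Helper5.irr_one_ne_zero χ
  have h2 := irr_central_normSq χ (bel (-1 : Fˣ) (0 : F)) bel_neg_one_central
  have h3 : starRingEnd ℂ ((χ : (Matrix.SpecialLinearGroup (Fin 2) F) → ℂ) 1) = (χ : (Matrix.SpecialLinearGroup (Fin 2) F) → ℂ) 1 := by rw [hn, Complex.conj_natCast]
  rw [map_div₀, h3, div_mul_div_comm, h2, pow_two]
  exact div_self (mul_ne_zero h1 h1)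

theorem hp_norm_unit (hodd : Odd (Fintype.card F)) {χ χ₂ : (Cfsg.IrrCharacter (Matrix.SpecialLinearGroup (Fin 2) F))} {d : Fˣ} (hP : HalfPair χ χ₂ d) (ζ : Fˣ) (hζ : ∀ y : Fˣ, y ∈ Submonoid.powers ζ) (a y : Fˣ) : psiN (χ : (Matrix.SpecialLinearGroup (Fin 2) F) → ℂ) (χ₂ : (Matrix.SpecialLinearGroup (Fin 2) F) → ℂ) (bel a (y : F)) = psiN (χ : (Matrix.SpecialLinearGroup (Fin 2) F) → ℂ) (χ₂ : (Matrix.SpecialLinearGroup (Fin 2) F) → ℂ) (bel a 1) := by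
  obtain ⟨j, hj⟩ := (Submonoid.mem_powers_iff y ζ).mp (hζ y)
  have hs : ((-1 : ℂ) ^ j) * ((-1 : ℂ) ^ j) = 1 := by
    rw [← mul_pow]
    norm_num
  rw [psiN_apply, psiN_apply, ← hj, Units.val_pow_eq_pow_val, hp_pow hodd hP ζ hζ a j, map_mul,
    map_pow, map_neg, map_one]
  linear_combination (psiF (χ : (Matrix.SpecialLinearGroup (Fin 2) F) → ℂ) (χ₂ : (Matrix.SpecialLinearGroup (Fin 2) F) → ℂ) (bel a 1) * starRingEnd ℂ (psiF (χ : (Matrix.SpecialLinearGroup (Fin 2) F) → ℂ) (χ₂ : (Matrix.SpecialLinearGroup (Fin 2) F) → ℂ) (bel a 1))) * hs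

theorem sum_R1_mul (f : (Matrix.SpecialLinearGroup (Fin 2) F) → ℂ) (hf : ∀ x g : (Matrix.SpecialLinearGroup (Fin 2) F), f (x * g * x⁻¹) = f g) :
    (∑ g : (Matrix.SpecialLinearGroup (Fin 2) F), Cfsg.indFun ((Cfsg.upperTriangularGL 2 F).comap Matrix.SpecialLinearGroup.toGL) (thS (1 : MulChar F ℂ)) g * f g) = ((Fintype.card F : ℂ) + 1) * ∑ a : Fˣ, ∑ c : F, f (bel a c) := by
  have hq0 : (Fintype.card F : ℂ) ≠ 0 := Nat.cast_ne_zero.mpr Fintype.card_ne_zero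
  have hq1 : (Fintype.card F : ℂ) - 1 ≠ 0 := card_sub_one_ne_zero
  have h1 : ∀ (a : Fˣ) (c : F),
      thS (1 : MulChar F ℂ) ⟨bel a c, bel_mem a c⟩ * f (bel a c) = f (bel a c) := by
    intro a c
    have h2 : thS (1 : MulChar F ℂ) ⟨bel a c, bel_mem a c⟩ = 1 := MulChar.one_apply_coe a
    rw [h2, one_mul]
  have e : (((Fintype.card F : ℂ) - 1) * (Fintype.card F : ℂ))⁻¹ *
      ((Fintype.card F : ℂ) * ((Fintype.card F : ℂ) ^ 2 - 1)) = (Fintype.card F : ℂ) + 1 := by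
    rw [inv_mul_eq_div, div_eq_iff (mul_ne_zero hq1 hq0)]
    ring
  have e2 : ∀ S : ℂ, (((Fintype.card F : ℂ) - 1) * (Fintype.card F : ℂ))⁻¹ *
      ((Fintype.card F : ℂ) * ((Fintype.card F : ℂ) ^ 2 - 1) * S) = ((Fintype.card F : ℂ) + 1) * S := by
    intro S
    rw [← mul_assoc, e]
  rw [sum_indFun_mul _ _ f hf, sum_BS, card_BS, card_SL_complex,
    Finset.sum_congr rfl (fun a _ => Finset.sum_congr rfl (fun c _ => h1 a c))]
  exact e2 _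

theorem hp_borel_sum (hodd : Odd (Fintype.card F)) {χ χ₂ : (Cfsg.IrrCharacter (Matrix.SpecialLinearGroup (Fin 2) F))} {d : Fˣ} (hP : HalfPair χ χ₂ d) (ζ : Fˣ) (hζ : ∀ y : Fˣ, y ∈ Submonoid.powers ζ) :
    ∑ a : Fˣ, ∑ c : F, psiN (χ : (Matrix.SpecialLinearGroup (Fin 2) F) → ℂ) (χ₂ : (Matrix.SpecialLinearGroup (Fin 2) F) → ℂ) (bel a c) = 2 * ((Fintype.card F : ℂ) - 1) * psiN (χ : (Matrix.SpecialLinearGroup (Fin 2) F) → ℂ) (χ₂ : (Matrix.SpecialLinearGroup (Fin 2) F) → ℂ) (bel (1 : Fˣ) (1 : F)) := by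
  have hrow : ∀ a : Fˣ, ∑ c : F, psiN (χ : (Matrix.SpecialLinearGroup (Fin 2) F) → ℂ) (χ₂ : (Matrix.SpecialLinearGroup (Fin 2) F) → ℂ) (bel a c) = ((Fintype.card F : ℂ) - 1) * psiN (χ : (Matrix.SpecialLinearGroup (Fin 2) F) → ℂ) (χ₂ : (Matrix.SpecialLinearGroup (Fin 2) F) → ℂ) (bel a 1) := by
    intro a
    have h0 : psiN (χ : (Matrix.SpecialLinearGroup (Fin 2) F) → ℂ) (χ₂ : (Matrix.SpecialLinearGroup (Fin 2) F) → ℂ) (bel a 0) = 0 := by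
      rw [psiN_apply, psiF_apply, hp_zero hP, sub_self, zero_mul]
    have hs : (∑ y : Fˣ, psiN (χ : (Matrix.SpecialLinearGroup (Fin 2) F) → ℂ) (χ₂ : (Matrix.SpecialLinearGroup (Fin 2) F) → ℂ) (bel a (y : F))) = ∑ c : F, psiN (χ : (Matrix.SpecialLinearGroup (Fin 2) F) → ℂ) (χ₂ : (Matrix.SpecialLinearGroup (Fin 2) F) → ℂ) (bel a c) :=
      sum_units_eq (fun c : F => psiN (χ : (Matrix.SpecialLinearGroup (Fin 2) F) → ℂ) (χ₂ : (Matrix.SpecialLinearGroup (Fin 2) F) → ℂ) (bel a c)) h0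
    rw [← hs, Finset.sum_congr rfl (fun y _ => hp_norm_unit hodd hP ζ hζ a y), Finset.sum_const,
      Finset.card_univ, Fintype.card_units, nsmul_eq_mul, Nat.cast_sub Fintype.card_pos, Nat.cast_one]
  have hne1 : (1 : Fˣ) ≠ -1 := by
    intro h
    have h' := congrArg Units.val h
    rw [Units.val_one, Units.val_neg, Units.val_one] at h'
    apply two_ne_zero_of_odd hodd
    linear_combination h'
  have hvan : ∀ a : Fˣ, a ≠ 1 ∧ a ≠ -1 → ∑ c : F, psiN (χ : (Matrix.SpecialLinearGroup (Fin 2) F) → ℂ) (χ₂ : (Matrix.SpecialLinearGroup (Fin 2) F) → ℂ) (bel a c) = 0 := by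
    intro a ha
    have hne : (a : F) ≠ ((a⁻¹ : Fˣ) : F) := by
      intro h
      rcases unit_inv_cases a h with h1 | h1
      · exact ha.1 h1
      · exact ha.2 h1
    refine Finset.sum_eq_zero (fun c _ => ?_)
    rw [psiN_apply, hp_tr hodd hP (bel a c) (bel_trace_ne a c hne), zero_mul]
  have hneg : psiN (χ : (Matrix.SpecialLinearGroup (Fin 2) F) → ℂ) (χ₂ : (Matrix.SpecialLinearGroup (Fin 2) F) → ℂ) (bel (-1) 1) = psiN (χ : (Matrix.SpecialLinearGroup (Fin 2) F) → ℂ) (χ₂ : (Matrix.SpecialLinearGroup (Fin 2) F) → ℂ) (bel (1 : Fˣ) (1 : F)) := by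
    have e : bel (-1 : Fˣ) (1 : F) = (bel (-1 : Fˣ) (0 : F)) * bel 1 (((-1 : Fˣ) : F)) := by
      rw [bel_neg_mul, Units.val_neg, Units.val_one, neg_neg]
    have hu := irr_central_unit χ
    have h3 := hp_norm_unit hodd hP ζ hζ 1 (-1)
    rw [psiN_apply, psiN_apply] at h3
    rw [psiN_apply, psiN_apply, e, hp_central hP, map_mul]
    linear_combination (psiF (χ : (Matrix.SpecialLinearGroup (Fin 2) F) → ℂ) (χ₂ : (Matrix.SpecialLinearGroup (Fin 2) F) → ℂ) (bel 1 ((-1 : Fˣ) : F)) * starRingEnd ℂ (psiF (χ : (Matrix.SpecialLinearGroup (Fin 2) F) → ℂ) (χ₂ : (Matrix.SpecialLinearGroup (Fin 2) F) → ℂ) (bel 1 ((-1 : Fˣ) : F)))) * hu + h3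
  rw [Fintype.sum_eq_add (1 : Fˣ) (-1) hne1 hvan, hrow, hrow, hneg]
  ring

theorem hp_norm (hodd : Odd (Fintype.card F)) {χ χ₂ : (Cfsg.IrrCharacter (Matrix.SpecialLinearGroup (Fin 2) F))} {d : Fˣ} (hP : HalfPair χ χ₂ d) : psiN (χ : (Matrix.SpecialLinearGroup (Fin 2) F) → ℂ) (χ₂ : (Matrix.SpecialLinearGroup (Fin 2) F) → ℂ) (bel (1 : Fˣ) (1 : F)) = (Fintype.card F : ℂ) := by
  obtain ⟨ζ, hζ⟩ := IsCyclic.exists_monoid_generator (α := Fˣ)
  have hG0 : (Fintype.card (Matrix.SpecialLinearGroup (Fin 2) F) : ℂ) ≠ 0 := Nat.cast_ne_zero.mpr Fintype.card_ne_zero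
  have hsum : ∀ A B : (Matrix.SpecialLinearGroup (Fin 2) F) → ℂ, ∑ g : (Matrix.SpecialLinearGroup (Fin 2) F), A g * starRingEnd ℂ (B g) =
      (Fintype.card (Matrix.SpecialLinearGroup (Fin 2) F) : ℂ) * Cfsg.classInner A B := by
    intro A B
    rw [Helper24.classInner_def', Nat.card_eq_fintype_card, ← mul_assoc, mul_inv_cancel₀ hG0, one_mul]
  have hexp : ∀ g : (Matrix.SpecialLinearGroup (Fin 2) F), psiN (χ : (Matrix.SpecialLinearGroup (Fin 2) F) → ℂ) (χ₂ : (Matrix.SpecialLinearGroup (Fin 2) F) → ℂ) g =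
      (χ : (Matrix.SpecialLinearGroup (Fin 2) F) → ℂ) g * starRingEnd ℂ ((χ : (Matrix.SpecialLinearGroup (Fin 2) F) → ℂ) g) - (χ : (Matrix.SpecialLinearGroup (Fin 2) F) → ℂ) g * starRingEnd ℂ ((χ₂ : (Matrix.SpecialLinearGroup (Fin 2) F) → ℂ) g) - (χ₂ : (Matrix.SpecialLinearGroup (Fin 2) F) → ℂ) g * starRingEnd ℂ ((χ : (Matrix.SpecialLinearGroup (Fin 2) F) → ℂ) g) +
        (χ₂ : (Matrix.SpecialLinearGroup (Fin 2) F) → ℂ) g * starRingEnd ℂ ((χ₂ : (Matrix.SpecialLinearGroup (Fin 2) F) → ℂ) g) := by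
    intro g
    rw [psiN_apply, psiF_apply, map_sub]
    ring
  have hA0 : ∑ g : (Matrix.SpecialLinearGroup (Fin 2) F), psiN (χ : (Matrix.SpecialLinearGroup (Fin 2) F) → ℂ) (χ₂ : (Matrix.SpecialLinearGroup (Fin 2) F) → ℂ) g = 2 * (Fintype.card (Matrix.SpecialLinearGroup (Fin 2) F) : ℂ) := by
    rw [Finset.sum_congr rfl (fun g _ => hexp g), Finset.sum_add_distrib, Finset.sum_sub_distrib,
      Finset.sum_sub_distrib, hsum (χ : (Matrix.SpecialLinearGroup (Fin 2) F) → ℂ) (χ : (Matrix.SpecialLinearGroup (Fin 2) F) → ℂ), hsum (χ : (Matrix.SpecialLinearGroup (Fin 2) F) → ℂ) (χ₂ : (Matrix.SpecialLinearGroup (Fin 2) F) → ℂ), hsum (χ₂ : (Matrix.SpecialLinearGroup (Fin 2) F) → ℂ) (χ : (Matrix.SpecialLinearGroup (Fin 2) F) → ℂ), hsum (χ₂ : (Matrix.SpecialLinearGroup (Fin 2) F) → ℂ) (χ₂ : (Matrix.SpecialLinearGroup (Fin 2) F) → ℂ),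
      Helper24.irr_inner_self, Helper24.irr_inner_self, Helper24.irr_inner_ne hP.ne.symm,
      Helper24.irr_inner_ne hP.ne]
    ring
  have hR : ∀ g : (Matrix.SpecialLinearGroup (Fin 2) F), Cfsg.indFun ((Cfsg.upperTriangularGL 2 F).comap Matrix.SpecialLinearGroup.toGL) (thS (1 : MulChar F ℂ)) g * psiN (χ : (Matrix.SpecialLinearGroup (Fin 2) F) → ℂ) (χ₂ : (Matrix.SpecialLinearGroup (Fin 2) F) → ℂ) g = psiN (χ : (Matrix.SpecialLinearGroup (Fin 2) F) → ℂ) (χ₂ : (Matrix.SpecialLinearGroup (Fin 2) F) → ℂ) g := by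
    intro g
    rcases sl2_tricho g with hell | ⟨x, a, c, rfl⟩
    · rw [psiN_apply, hp_tr hodd hP g (ell_trace g hell), zero_mul, mul_zero]
    · rw [indFun_conj, psiN_conj]
      by_cases hne : (a : F) = ((a⁻¹ : Fˣ) : F)
      · by_cases hc : c = 0
        · rw [hc, psiN_apply, psiF_apply, hp_zero hP, sub_self, zero_mul, mul_zero]
        · have heq : ((bel a c : (Matrix.SpecialLinearGroup (Fin 2) F)) : (Matrix (Fin 2) (Fin 2) F)) 0 0 = ((bel a c : (Matrix.SpecialLinearGroup (Fin 2) F)) : (Matrix (Fin 2) (Fin 2) F)) 1 1 := hne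
          have h01 : ((bel a c : (Matrix.SpecialLinearGroup (Fin 2) F)) : (Matrix (Fin 2) (Fin 2) F)) 0 1 ≠ 0 := hc
          have h := indFunS_unip (1 : MulChar F ℂ) (bel a c) rfl heq h01
          have h1 : (1 : MulChar F ℂ) (((bel a c : (Matrix.SpecialLinearGroup (Fin 2) F)) : (Matrix (Fin 2) (Fin 2) F)) 0 0) = 1 :=
            MulChar.one_apply_coe a
          rw [h, h1, one_mul]
      · rw [psiN_apply, hp_tr hodd hP (bel a c) (bel_trace_ne a c hne), zero_mul, mul_zero]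
  have h1 := sum_R1_mul (psiN (χ : (Matrix.SpecialLinearGroup (Fin 2) F) → ℂ) (χ₂ : (Matrix.SpecialLinearGroup (Fin 2) F) → ℂ)) (psiN_conj χ χ₂)
  rw [Finset.sum_congr rfl (fun g _ => hR g), hA0, hp_borel_sum hodd hP ζ hζ, card_SL_complex] at h1
  have hq1 : (Fintype.card F : ℂ) - 1 ≠ 0 := card_sub_one_ne_zero
  have hq2 : (Fintype.card F : ℂ) + 1 ≠ 0 := by
    exact_mod_cast Nat.succ_ne_zero (Fintype.card F)
  have h2 : (2 * ((Fintype.card F : ℂ) + 1) * ((Fintype.card F : ℂ) - 1)) *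
      (psiN (χ : (Matrix.SpecialLinearGroup (Fin 2) F) → ℂ) (χ₂ : (Matrix.SpecialLinearGroup (Fin 2) F) → ℂ) (bel (1 : Fˣ) (1 : F)) - (Fintype.card F : ℂ)) = 0 := by
    linear_combination (-1 : ℂ) * h1
  rcases mul_eq_zero.mp h2 with h3 | h3
  · exact absurd h3 (mul_ne_zero (mul_ne_zero two_ne_zero hq2) hq1)
  · exact sub_eq_zero.mp h3

theorem hp_sq (hodd : Odd (Fintype.card F)) {χ χ₂ : (Cfsg.IrrCharacter (Matrix.SpecialLinearGroup (Fin 2) F))} {d : Fˣ} (hP : HalfPair χ χ₂ d) :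
    ((χ : (Matrix.SpecialLinearGroup (Fin 2) F) → ℂ) (bel (1 : Fˣ) (1 : F)) - (χ₂ : (Matrix.SpecialLinearGroup (Fin 2) F) → ℂ) (bel (1 : Fˣ) (1 : F))) ^ 2 = (-1 : ℂ) ^ ((Fintype.card F - 1) / 2) * (Fintype.card F : ℂ) := by
  obtain ⟨ζ, hζ⟩ := IsCyclic.exists_monoid_generator (α := Fˣ)
  have hN := hp_norm hodd hP
  have hc : starRingEnd ℂ (psiF (χ : (Matrix.SpecialLinearGroup (Fin 2) F) → ℂ) (χ₂ : (Matrix.SpecialLinearGroup (Fin 2) F) → ℂ) (bel (1 : Fˣ) (1 : F))) = (-1 : ℂ) ^ ((Fintype.card F - 1) / 2) * psiF (χ : (Matrix.SpecialLinearGroup (Fin 2) F) → ℂ) (χ₂ : (Matrix.SpecialLinearGroup (Fin 2) F) → ℂ) (bel (1 : Fˣ) (1 : F)) := by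
    rw [← psiF_inv, bel_unip_inv, ← gen_half_pow hodd ζ hζ, hp_pow hodd hP ζ hζ 1]
  have hs : ((-1 : ℂ) ^ ((Fintype.card F - 1) / 2)) * ((-1 : ℂ) ^ ((Fintype.card F - 1) / 2)) = 1 := by
    rw [← mul_pow]
    norm_num
  rw [psiN_apply, hc] at hN
  have hx : (χ : (Matrix.SpecialLinearGroup (Fin 2) F) → ℂ) (bel (1 : Fˣ) (1 : F)) - (χ₂ : (Matrix.SpecialLinearGroup (Fin 2) F) → ℂ) (bel (1 : Fˣ) (1 : F)) = psiF (χ : (Matrix.SpecialLinearGroup (Fin 2) F) → ℂ) (χ₂ : (Matrix.SpecialLinearGroup (Fin 2) F) → ℂ) (bel (1 : Fˣ) (1 : F)) := rfl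
  rw [hx]
  linear_combination ((-1 : ℂ) ^ ((Fintype.card F - 1) / 2)) * hN - (psiF (χ : (Matrix.SpecialLinearGroup (Fin 2) F) → ℂ) (χ₂ : (Matrix.SpecialLinearGroup (Fin 2) F) → ℂ) (bel (1 : Fˣ) (1 : F))) ^ 2 * hs

theorem hp_val_neg (hodd : Odd (Fintype.card F)) {χ χ₂ : (Cfsg.IrrCharacter (Matrix.SpecialLinearGroup (Fin 2) F))} {d : Fˣ} (hP : HalfPair χ χ₂ d) (ζ : Fˣ) (hζ : ∀ y : Fˣ, y ∈ Submonoid.powers ζ) (j : ℕ) :
    psiF (χ : (Matrix.SpecialLinearGroup (Fin 2) F) → ℂ) (χ₂ : (Matrix.SpecialLinearGroup (Fin 2) F) → ℂ) (bel (-1) ((ζ : F) ^ j)) =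
      (χ : (Matrix.SpecialLinearGroup (Fin 2) F) → ℂ) (bel (-1 : Fˣ) (0 : F)) / (χ : (Matrix.SpecialLinearGroup (Fin 2) F) → ℂ) 1 * ((-1) ^ (((Fintype.card F - 1) / 2) + j) * psiF (χ : (Matrix.SpecialLinearGroup (Fin 2) F) → ℂ) (χ₂ : (Matrix.SpecialLinearGroup (Fin 2) F) → ℂ) (bel 1 1)) := by
  have e : bel (-1 : Fˣ) ((ζ : F) ^ j) = (bel (-1 : Fˣ) (0 : F)) * bel 1 ((ζ : F) ^ (((Fintype.card F - 1) / 2) + j)) := by
    rw [bel_neg_mul, pow_add, gen_half_pow hodd ζ hζ]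
    congr 1
    ring
  rw [e, hp_central hP, hp_pow hodd hP ζ hζ 1]

theorem hp_prop (hodd : Odd (Fintype.card F)) {χ χ₂ χ' χ₂' : (Cfsg.IrrCharacter (Matrix.SpecialLinearGroup (Fin 2) F))} {d d' : Fˣ} (hP : HalfPair χ χ₂ d)
    (hP' : HalfPair χ' χ₂' d')
    (hω : (χ : (Matrix.SpecialLinearGroup (Fin 2) F) → ℂ) (bel (-1 : Fˣ) (0 : F)) * (χ' : (Matrix.SpecialLinearGroup (Fin 2) F) → ℂ) 1 = (χ' : (Matrix.SpecialLinearGroup (Fin 2) F) → ℂ) (bel (-1 : Fˣ) (0 : F)) * (χ : (Matrix.SpecialLinearGroup (Fin 2) F) → ℂ) 1) (g : (Matrix.SpecialLinearGroup (Fin 2) F)) :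
    psiF (χ : (Matrix.SpecialLinearGroup (Fin 2) F) → ℂ) (χ₂ : (Matrix.SpecialLinearGroup (Fin 2) F) → ℂ) g * psiF (χ' : (Matrix.SpecialLinearGroup (Fin 2) F) → ℂ) (χ₂' : (Matrix.SpecialLinearGroup (Fin 2) F) → ℂ) (bel (1 : Fˣ) (1 : F)) = psiF (χ' : (Matrix.SpecialLinearGroup (Fin 2) F) → ℂ) (χ₂' : (Matrix.SpecialLinearGroup (Fin 2) F) → ℂ) g * psiF (χ : (Matrix.SpecialLinearGroup (Fin 2) F) → ℂ) (χ₂ : (Matrix.SpecialLinearGroup (Fin 2) F) → ℂ) (bel (1 : Fˣ) (1 : F)) := by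
  obtain ⟨ζ, hζ⟩ := IsCyclic.exists_monoid_generator (α := Fˣ)
  rcases sl2_tricho g with hell | ⟨x, a, c, rfl⟩
  · rw [hp_tr hodd hP g (ell_trace g hell), hp_tr hodd hP' g (ell_trace g hell), zero_mul, zero_mul]
  · rw [psiF_conj, psiF_conj]
    by_cases hne : (a : F) = ((a⁻¹ : Fˣ) : F)
    · by_cases hc : c = 0
      · rw [hc, psiF_apply (χ : (Matrix.SpecialLinearGroup (Fin 2) F) → ℂ) (χ₂ : (Matrix.SpecialLinearGroup (Fin 2) F) → ℂ) (bel a 0), psiF_apply (χ' : (Matrix.SpecialLinearGroup (Fin 2) F) → ℂ) (χ₂' : (Matrix.SpecialLinearGroup (Fin 2) F) → ℂ) (bel a 0), hp_zero hP,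
          hp_zero hP', sub_self, sub_self, zero_mul, zero_mul]
      · obtain ⟨j, hj⟩ := (Submonoid.mem_powers_iff (Units.mk0 c hc) ζ).mp (hζ (Units.mk0 c hc))
        have hcj : c = (ζ : F) ^ j := by
          rw [← Units.val_pow_eq_pow_val, hj, Units.val_mk0]
        rw [hcj]
        rcases unit_inv_cases a hne with h1 | h1
        · rw [h1, hp_pow hodd hP ζ hζ 1, hp_pow hodd hP' ζ hζ 1]
          ring
        · rw [h1, hp_val_neg hodd hP ζ hζ, hp_val_neg hodd hP' ζ hζ]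
          have h1' : (χ : (Matrix.SpecialLinearGroup (Fin 2) F) → ℂ) 1 ≠ 0 := Helper5.irr_one_ne_zero χ
          have h2' : (χ' : (Matrix.SpecialLinearGroup (Fin 2) F) → ℂ) 1 ≠ 0 := Helper5.irr_one_ne_zero χ'
          have hω' : (χ : (Matrix.SpecialLinearGroup (Fin 2) F) → ℂ) (bel (-1 : Fˣ) (0 : F)) / (χ : (Matrix.SpecialLinearGroup (Fin 2) F) → ℂ) 1 = (χ' : (Matrix.SpecialLinearGroup (Fin 2) F) → ℂ) (bel (-1 : Fˣ) (0 : F)) / (χ' : (Matrix.SpecialLinearGroup (Fin 2) F) → ℂ) 1 := by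
            rw [div_eq_div_iff h1' h2']
            exact hω
          rw [hω']
          ring
    · rw [hp_tr hodd hP (bel a c) (bel_trace_ne a c hne),
        hp_tr hodd hP' (bel a c) (bel_trace_ne a c hne), zero_mul, zero_mul]

theorem pair_unique (hodd : Odd (Fintype.card F)) {χ χ₂ χ' χ₂' : (Cfsg.IrrCharacter (Matrix.SpecialLinearGroup (Fin 2) F))} {d d' : Fˣ} (hP : HalfPair χ χ₂ d)
    (hP' : HalfPair χ' χ₂' d')
    (hω : (χ : (Matrix.SpecialLinearGroup (Fin 2) F) → ℂ) (bel (-1 : Fˣ) (0 : F)) * (χ' : (Matrix.SpecialLinearGroup (Fin 2) F) → ℂ) 1 = (χ' : (Matrix.SpecialLinearGroup (Fin 2) F) → ℂ) (bel (-1 : Fˣ) (0 : F)) * (χ : (Matrix.SpecialLinearGroup (Fin 2) F) → ℂ) 1) : χ' = χ ∨ χ' = χ₂ := by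
  have hq0 : (Fintype.card F : ℂ) ≠ 0 := Nat.cast_ne_zero.mpr Fintype.card_ne_zero
  have hnz : ∀ {A A₂ : (Cfsg.IrrCharacter (Matrix.SpecialLinearGroup (Fin 2) F))} {e : Fˣ}, HalfPair A A₂ e →
      psiF (A : (Matrix.SpecialLinearGroup (Fin 2) F) → ℂ) (A₂ : (Matrix.SpecialLinearGroup (Fin 2) F) → ℂ) (bel (1 : Fˣ) (1 : F)) ≠ 0 := by
    intro A A₂ e hA h0
    have hx := hp_sq hodd hA
    have hx' : (A : (Matrix.SpecialLinearGroup (Fin 2) F) → ℂ) (bel (1 : Fˣ) (1 : F)) - (A₂ : (Matrix.SpecialLinearGroup (Fin 2) F) → ℂ) (bel (1 : Fˣ) (1 : F)) = 0 := h0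
    rw [hx', zero_pow two_ne_zero] at hx
    exact (mul_ne_zero (pow_ne_zero _ (by norm_num)) hq0) hx.symm
  have hx := hnz hP
  have hx' := hnz hP'
  have hfun : psiF (χ' : (Matrix.SpecialLinearGroup (Fin 2) F) → ℂ) (χ₂' : (Matrix.SpecialLinearGroup (Fin 2) F) → ℂ) (bel (1 : Fˣ) (1 : F)) • ((χ : (Matrix.SpecialLinearGroup (Fin 2) F) → ℂ) - (χ₂ : (Matrix.SpecialLinearGroup (Fin 2) F) → ℂ)) = psiF (χ : (Matrix.SpecialLinearGroup (Fin 2) F) → ℂ) (χ₂ : (Matrix.SpecialLinearGroup (Fin 2) F) → ℂ) (bel (1 : Fˣ) (1 : F)) • ((χ' : (Matrix.SpecialLinearGroup (Fin 2) F) → ℂ) - (χ₂' : (Matrix.SpecialLinearGroup (Fin 2) F) → ℂ)) := by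
    funext g
    have h := hp_prop hodd hP hP' hω g
    rw [psiF_apply (χ : (Matrix.SpecialLinearGroup (Fin 2) F) → ℂ) (χ₂ : (Matrix.SpecialLinearGroup (Fin 2) F) → ℂ) g, psiF_apply (χ' : (Matrix.SpecialLinearGroup (Fin 2) F) → ℂ) (χ₂' : (Matrix.SpecialLinearGroup (Fin 2) F) → ℂ) g] at h
    simp only [Pi.smul_apply, Pi.sub_apply, smul_eq_mul]
    linear_combination h
  have h1 : Cfsg.classInner (psiF (χ' : (Matrix.SpecialLinearGroup (Fin 2) F) → ℂ) (χ₂' : (Matrix.SpecialLinearGroup (Fin 2) F) → ℂ) (bel (1 : Fˣ) (1 : F)) • ((χ : (Matrix.SpecialLinearGroup (Fin 2) F) → ℂ) - (χ₂ : (Matrix.SpecialLinearGroup (Fin 2) F) → ℂ))) (χ : (Matrix.SpecialLinearGroup (Fin 2) F) → ℂ) =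
      Cfsg.classInner (psiF (χ : (Matrix.SpecialLinearGroup (Fin 2) F) → ℂ) (χ₂ : (Matrix.SpecialLinearGroup (Fin 2) F) → ℂ) (bel (1 : Fˣ) (1 : F)) • ((χ' : (Matrix.SpecialLinearGroup (Fin 2) F) → ℂ) - (χ₂' : (Matrix.SpecialLinearGroup (Fin 2) F) → ℂ))) (χ : (Matrix.SpecialLinearGroup (Fin 2) F) → ℂ) := by rw [hfun]
  have h2 : Cfsg.classInner (psiF (χ' : (Matrix.SpecialLinearGroup (Fin 2) F) → ℂ) (χ₂' : (Matrix.SpecialLinearGroup (Fin 2) F) → ℂ) (bel (1 : Fˣ) (1 : F)) • ((χ : (Matrix.SpecialLinearGroup (Fin 2) F) → ℂ) - (χ₂ : (Matrix.SpecialLinearGroup (Fin 2) F) → ℂ))) (χ₂ : (Matrix.SpecialLinearGroup (Fin 2) F) → ℂ) =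
      Cfsg.classInner (psiF (χ : (Matrix.SpecialLinearGroup (Fin 2) F) → ℂ) (χ₂ : (Matrix.SpecialLinearGroup (Fin 2) F) → ℂ) (bel (1 : Fˣ) (1 : F)) • ((χ' : (Matrix.SpecialLinearGroup (Fin 2) F) → ℂ) - (χ₂' : (Matrix.SpecialLinearGroup (Fin 2) F) → ℂ))) (χ₂ : (Matrix.SpecialLinearGroup (Fin 2) F) → ℂ) := by rw [hfun]
  rw [Helper24.classInner_smul_left, Helper24.classInner_smul_left, Helper24.classInner_sub_left,
    Helper24.classInner_sub_left, Helper24.irr_inner_self, Helper24.irr_inner_ne hP.ne] at h1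
  rw [Helper24.classInner_smul_left, Helper24.classInner_smul_left, Helper24.classInner_sub_left,
    Helper24.classInner_sub_left, Helper24.irr_inner_self, Helper24.irr_inner_ne hP.ne.symm] at h2
  by_cases c1 : χ' = χ
  · exact Or.inl c1
  · right
    rw [Helper24.irr_inner_ne c1] at h1
    have c2 : χ₂' = χ := by
      apply irr_eq_of_inner_ne_zero
      intro h0
      rw [h0] at h1
      apply hx'
      linear_combination h1
    have h3 : Cfsg.classInner (χ₂' : (Matrix.SpecialLinearGroup (Fin 2) F) → ℂ) (χ₂ : (Matrix.SpecialLinearGroup (Fin 2) F) → ℂ) = 0 := by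
      rw [c2]
      exact Helper24.irr_inner_ne hP.ne.symm
    rw [h3] at h2
    apply irr_eq_of_inner_ne_zero
    intro h0
    rw [h0] at h2
    apply hx'
    linear_combination (-1 : ℂ) * h2

theorem irr_neg_one_dich (χ : (Cfsg.IrrCharacter (Matrix.SpecialLinearGroup (Fin 2) F))) : (χ : (Matrix.SpecialLinearGroup (Fin 2) F) → ℂ) (bel (-1 : Fˣ) (0 : F)) = (χ : (Matrix.SpecialLinearGroup (Fin 2) F) → ℂ) 1 ∨ (χ : (Matrix.SpecialLinearGroup (Fin 2) F) → ℂ) (bel (-1 : Fˣ) (0 : F)) = -(χ : (Matrix.SpecialLinearGroup (Fin 2) F) → ℂ) 1 := by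
  have h := irr_central_mul χ (bel (-1 : Fˣ) (0 : F)) bel_neg_one_central (bel (-1 : Fˣ) (0 : F))
  rw [bel_neg_one_sq, eq_div_iff (Helper5.irr_one_ne_zero χ)] at h
  apply sq_eq_sq_iff_eq_or_eq_neg.mp
  rw [pow_two, pow_two]
  exact h.symm

theorem pair_pigeon (hodd : Odd (Fintype.card F)) {φ φ₂ χ χ₂ χ' χ₂' : (Cfsg.IrrCharacter (Matrix.SpecialLinearGroup (Fin 2) F))} {d₀ d d' : Fˣ}
    (hP₀ : HalfPair φ φ₂ d₀) (hP : HalfPair χ χ₂ d) (hP' : HalfPair χ' χ₂' d')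
    (h1 : χ ≠ φ ∧ χ ≠ φ₂) (h2 : χ' ≠ φ ∧ χ' ≠ φ₂) : χ' = χ ∨ χ' = χ₂ := by
  have k1 : ¬ ((φ : (Matrix.SpecialLinearGroup (Fin 2) F) → ℂ) (bel (-1 : Fˣ) (0 : F)) * (χ : (Matrix.SpecialLinearGroup (Fin 2) F) → ℂ) 1 = (χ : (Matrix.SpecialLinearGroup (Fin 2) F) → ℂ) (bel (-1 : Fˣ) (0 : F)) * (φ : (Matrix.SpecialLinearGroup (Fin 2) F) → ℂ) 1) := by
    intro h
    rcases pair_unique hodd hP₀ hP h with h' | h'
    · exact h1.1 h'
    · exact h1.2 h'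
  have k2 : ¬ ((φ : (Matrix.SpecialLinearGroup (Fin 2) F) → ℂ) (bel (-1 : Fˣ) (0 : F)) * (χ' : (Matrix.SpecialLinearGroup (Fin 2) F) → ℂ) 1 = (χ' : (Matrix.SpecialLinearGroup (Fin 2) F) → ℂ) (bel (-1 : Fˣ) (0 : F)) * (φ : (Matrix.SpecialLinearGroup (Fin 2) F) → ℂ) 1) := by
    intro h
    rcases pair_unique hodd hP₀ hP' h with h' | h'
    · exact h2.1 h'
    · exact h2.2 h'
  apply pair_unique hodd hP hP'
  rcases irr_neg_one_dich φ with e0 | e0 <;> rcases irr_neg_one_dich χ with e1 | e1 <;>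
    rcases irr_neg_one_dich χ' with e2 | e2 <;>
    first
      | (rw [e1, e2]; ring1)
      | exact absurd (by rw [e0, e1]; ring1) k1
      | exact absurd (by rw [e0, e2]; ring1) k2

theorem pair_of_res (Θ : Cfsg.IrrCharacter (Matrix.GeneralLinearGroup (Fin 2) F)) (χ χ' : (Cfsg.IrrCharacter (Matrix.SpecialLinearGroup (Fin 2) F))) (hne' : χ' ≠ χ)
    (hdec' : ∀ g : (Matrix.SpecialLinearGroup (Fin 2) F), (Θ : (Matrix.GeneralLinearGroup (Fin 2) F) → ℂ) (Matrix.SpecialLinearGroup.toGL g) = (χ : (Matrix.SpecialLinearGroup (Fin 2) F) → ℂ) g + (χ' : (Matrix.SpecialLinearGroup (Fin 2) F) → ℂ) g) :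
    ∃ d : Fˣ, HalfPair χ χ' d := by
  have hfun : (fun g : (Matrix.SpecialLinearGroup (Fin 2) F) => (Θ : (Matrix.GeneralLinearGroup (Fin 2) F) → ℂ) (Matrix.SpecialLinearGroup.toGL g)) = (χ : (Matrix.SpecialLinearGroup (Fin 2) F) → ℂ) + (χ' : (Matrix.SpecialLinearGroup (Fin 2) F) → ℂ) := funext hdec'
  have hc : Cfsg.classInner (fun g : (Matrix.SpecialLinearGroup (Fin 2) F) => (Θ : (Matrix.GeneralLinearGroup (Fin 2) F) → ℂ) (Matrix.SpecialLinearGroup.toGL g)) (χ : (Matrix.SpecialLinearGroup (Fin 2) F) → ℂ) ≠ 0 := by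
    rw [hfun, Helper24.classInner_add_left, Helper24.irr_inner_self, Helper24.irr_inner_ne hne']
    norm_num
  have hc' : Cfsg.classInner (fun g : (Matrix.SpecialLinearGroup (Fin 2) F) => (Θ : (Matrix.GeneralLinearGroup (Fin 2) F) → ℂ) (Matrix.SpecialLinearGroup.toGL g)) (χ' : (Matrix.SpecialLinearGroup (Fin 2) F) → ℂ) ≠ 0 := by
    rw [hfun, Helper24.classInner_add_left, Helper24.irr_inner_self, Helper24.irr_inner_ne hne'.symm]
    norm_num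
  have hinv : ∀ (D : (Matrix.GeneralLinearGroup (Fin 2) F)) (g h : (Matrix.SpecialLinearGroup (Fin 2) F)), Matrix.SpecialLinearGroup.toGL h = D * Matrix.SpecialLinearGroup.toGL g * D⁻¹ →
      (χ : (Matrix.SpecialLinearGroup (Fin 2) F) → ℂ) h + (χ' : (Matrix.SpecialLinearGroup (Fin 2) F) → ℂ) h = (χ : (Matrix.SpecialLinearGroup (Fin 2) F) → ℂ) g + (χ' : (Matrix.SpecialLinearGroup (Fin 2) F) → ℂ) g := by
    intro D g h hgh
    rw [← hdec' h, ← hdec' g, hgh]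
    exact Helper24.irr_conj Θ _ D
  obtain ⟨x, hx⟩ := S2307.conj_of_constituents (Θ : (Matrix.GeneralLinearGroup (Fin 2) F) → ℂ) Θ.2 χ χ' hc hc'
  obtain ⟨d, hd⟩ := conj_diag_of_conj (χ : (Matrix.SpecialLinearGroup (Fin 2) F) → ℂ) (χ' : (Matrix.SpecialLinearGroup (Fin 2) F) → ℂ) (fun s g => Helper24.irr_conj χ g s) x hx
  refine ⟨d, hne', hd, ?_⟩
  intro g h hgh
  have h1 := hinv _ g h hgh
  have h2 := hd g h hgh
  linear_combination h1 - h2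

theorem exists_ps_pair (hodd : Odd (Fintype.card F)) :
    ∃ (φ φ₂ : (Cfsg.IrrCharacter (Matrix.SpecialLinearGroup (Fin 2) F))) (d : Fˣ) (η : MulChar F ℂ), HalfPair φ φ₂ d ∧ η ≠ 1 ∧ η * η = 1 ∧
      (∀ g : (Matrix.SpecialLinearGroup (Fin 2) F), Cfsg.indFun ((Cfsg.upperTriangularGL 2 F).comap Matrix.SpecialLinearGroup.toGL) (thS η) g = (φ : (Matrix.SpecialLinearGroup (Fin 2) F) → ℂ) g + (φ₂ : (Matrix.SpecialLinearGroup (Fin 2) F) → ℂ) g) ∧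
      2 * (φ : (Matrix.SpecialLinearGroup (Fin 2) F) → ℂ) 1 = (Fintype.card F : ℂ) + 1 ∧ 2 * (φ₂ : (Matrix.SpecialLinearGroup (Fin 2) F) → ℂ) 1 = (Fintype.card F : ℂ) + 1 := by
  classical
  obtain ⟨η, hη1, hη2⟩ := exists_mulChar_invol (F := F) hodd
  have hinv : η = η⁻¹ := eq_inv_of_mul_eq_one_left hη2
  have hnorm : Cfsg.classInner (Cfsg.indFun ((Cfsg.upperTriangularGL 2 F).comap Matrix.SpecialLinearGroup.toGL) (thS η)) (Cfsg.indFun ((Cfsg.upperTriangularGL 2 F).comap Matrix.SpecialLinearGroup.toGL) (thS η)) = 2 := by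
    have h1 := classInner_RS η η
    rw [if_pos rfl, if_pos hinv] at h1
    rw [h1]
    norm_num
  obtain ⟨φ, φ₂, hne, hdec⟩ := S2307.exists_two_irr_of_norm_two (RS_isChar η) hnorm
  have hirr : Cfsg.IsIrrCharacter (Matrix.GeneralLinearGroup (Fin 2) F) (RG η 1) := Helper24.isIrrCharacter_of_inner_self
    (Helper24.isCharacter_induced _ _ (S2304.th_isCharacter η 1)) (S2304.classInner_RG η 1 hη1)
  have hres : ∀ g : (Matrix.SpecialLinearGroup (Fin 2) F), RG η 1 (Matrix.SpecialLinearGroup.toGL g) = (φ : (Matrix.SpecialLinearGroup (Fin 2) F) → ℂ) g + (φ₂ : (Matrix.SpecialLinearGroup (Fin 2) F) → ℂ) g := by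
    intro g
    rw [res_RG, inv_one, mul_one]
    exact congrFun hdec g
  obtain ⟨d, hP⟩ := pair_of_res ⟨RG η 1, hirr⟩ φ φ₂ hne.symm hres
  have h1 := congrFun hdec 1
  have h1' : Cfsg.indFun ((Cfsg.upperTriangularGL 2 F).comap Matrix.SpecialLinearGroup.toGL) (thS η) 1 = (φ : (Matrix.SpecialLinearGroup (Fin 2) F) → ℂ) 1 + (φ₂ : (Matrix.SpecialLinearGroup (Fin 2) F) → ℂ) 1 := h1
  rw [RS_one] at h1'
  have h2 := hp_one hP
  refine ⟨φ, φ₂, d, η, hP, hη1, hη2, fun g => congrFun hdec g, ?_, ?_⟩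
  · linear_combination (-1 : ℂ) * h1' - h2
  · linear_combination (-1 : ℂ) * h1' + h2

theorem half_pair_of_deg (m : ℕ) (hm : Fintype.card F = m + 1) (hm4 : 4 ≤ m)
    (χ : (Cfsg.IrrCharacter (Matrix.SpecialLinearGroup (Fin 2) F))) (n : ℕ) (hn : (χ : (Matrix.SpecialLinearGroup (Fin 2) F) → ℂ) 1 = (n : ℂ)) (h : 2 * n = m + 2 ∨ 2 * n = m) :
    ∃ (χ₂ : (Cfsg.IrrCharacter (Matrix.SpecialLinearGroup (Fin 2) F))) (d : Fˣ), HalfPair χ χ₂ d ∧
      ((2 * n = m + 2 ∧ (χ : (Matrix.SpecialLinearGroup (Fin 2) F) → ℂ) (bel (1 : Fˣ) (1 : F)) + (χ₂ : (Matrix.SpecialLinearGroup (Fin 2) F) → ℂ) (bel (1 : Fˣ) (1 : F)) = 1) ∨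
       (2 * n = m ∧ (χ : (Matrix.SpecialLinearGroup (Fin 2) F) → ℂ) (bel (1 : Fˣ) (1 : F)) + (χ₂ : (Matrix.SpecialLinearGroup (Fin 2) F) → ℂ) (bel (1 : Fˣ) (1 : F)) = -1)) := by
  obtain ⟨Θ, hcl⟩ := sl2_cliff χ
  obtain ⟨k, hk⟩ := Helper24.irr_one_eq_natCast Θ
  have htype := gl2_type_nat (Θ : (Matrix.GeneralLinearGroup (Fin 2) F) → ℂ) Θ.2 m hm k hk
  rcases hcl with hcl | ⟨-, χ₂, hne, hsum, d, hd, hd'⟩
  · exfalso
    have e : (k : ℂ) = (n : ℂ) := by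
      rw [← hk, ← hn, hcl 1, map_one]
    have e' : k = n := by exact_mod_cast e
    rcases htype with ⟨h1, -⟩ | ⟨h1, -⟩ | ⟨h1, -⟩ | ⟨h1, -⟩ <;> omega
  · have hP : HalfPair χ χ₂ d := ⟨hne, hd, hd'⟩
    refine ⟨χ₂, d, hP, ?_⟩
    have e : (k : ℂ) = ((2 * n : ℕ) : ℂ) := by
      rw [← hk]
      have h1 := hsum 1
      rw [map_one, hp_one hP, hn] at h1
      rw [h1]
      first | (push_cast; ring) | push_cast
    have e' : k = 2 * n := by exact_mod_cast e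
    have hu : (χ : (Matrix.SpecialLinearGroup (Fin 2) F) → ℂ) (bel (1 : Fˣ) (1 : F)) + (χ₂ : (Matrix.SpecialLinearGroup (Fin 2) F) → ℂ) (bel (1 : Fˣ) (1 : F)) = (Θ : (Matrix.GeneralLinearGroup (Fin 2) F) → ℂ) (belG 1 1 1) := by
      rw [← hsum, toGL_bel, inv_one]
    rcases htype with ⟨h1, h2, -⟩ | ⟨h1, h2, -⟩ | ⟨h1, -⟩ | ⟨h1, -⟩
    · right
      exact ⟨by omega, by rw [hu, h2]⟩
    · left
      exact ⟨by omega, by rw [hu, h2]⟩
    · omega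
    · omega

theorem cusp_pair_mem (hodd : Odd (Fintype.card F)) (m : ℕ) (hm : Fintype.card F = m + 1)
    {χ χ₂ χ' χ₂' : (Cfsg.IrrCharacter (Matrix.SpecialLinearGroup (Fin 2) F))} {d d' : Fˣ} (hP : HalfPair χ χ₂ d) (hP' : HalfPair χ' χ₂' d')
    (n n' : ℕ) (hn : (χ : (Matrix.SpecialLinearGroup (Fin 2) F) → ℂ) 1 = (n : ℂ)) (hn' : (χ' : (Matrix.SpecialLinearGroup (Fin 2) F) → ℂ) 1 = (n' : ℂ)) (h2n : 2 * n = m)
    (h2n' : 2 * n' = m) : χ' = χ ∨ χ' = χ₂ := by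
  obtain ⟨φ, φ₂, d₀, η, hP₀, -, -, -, hφ, hφ₂⟩ := exists_ps_pair (F := F) hodd
  rw [hm] at hφ hφ₂
  have key : ∀ (A : (Cfsg.IrrCharacter (Matrix.SpecialLinearGroup (Fin 2) F))) (k : ℕ), (A : (Matrix.SpecialLinearGroup (Fin 2) F) → ℂ) 1 = (k : ℂ) → 2 * k = m → A ≠ φ ∧ A ≠ φ₂ := by
    intro A k hk h2k
    have hk2 : 2 * (A : (Matrix.SpecialLinearGroup (Fin 2) F) → ℂ) 1 = (m : ℂ) := by
      rw [hk, ← h2k]
      first | (push_cast; ring) | push_cast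
    constructor
    · intro h
      rw [h] at hk2
      have h2 : (2 : ℂ) = 0 := by
        push_cast at hφ
        linear_combination hk2 - hφ
      norm_num at h2
    · intro h
      rw [h] at hk2
      have h2 : (2 : ℂ) = 0 := by
        push_cast at hφ₂
        linear_combination hk2 - hφ₂
      norm_num at h2
  exact pair_pigeon hodd hP₀ hP hP' (key χ n hn h2n) (key χ' n' hn' h2n')

theorem ps_half_mem (m : ℕ) (hm : Fintype.card F = m + 1) (hm4 : 4 ≤ m)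
    (φ φ₂ : (Cfsg.IrrCharacter (Matrix.SpecialLinearGroup (Fin 2) F))) (η : MulChar F ℂ) (hη1 : η ≠ 1) (hη2 : η * η = 1)
    (hdec : ∀ g : (Matrix.SpecialLinearGroup (Fin 2) F), Cfsg.indFun ((Cfsg.upperTriangularGL 2 F).comap Matrix.SpecialLinearGroup.toGL) (thS η) g = (φ : (Matrix.SpecialLinearGroup (Fin 2) F) → ℂ) g + (φ₂ : (Matrix.SpecialLinearGroup (Fin 2) F) → ℂ) g)
    (χ : (Cfsg.IrrCharacter (Matrix.SpecialLinearGroup (Fin 2) F))) (n : ℕ) (hn : (χ : (Matrix.SpecialLinearGroup (Fin 2) F) → ℂ) 1 = (n : ℂ)) (h2n : 2 * n = m + 2) : χ = φ ∨ χ = φ₂ := by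
  rcases sl2_types χ m n hm hn with (h | ⟨h, -⟩) | ⟨h, -⟩ | ⟨h, -⟩ | ⟨h, -⟩ |
    ⟨-, -, η', hη1', hη2', χ₂, hχ₂, hdec'⟩
  · omega
  · omega
  · omega
  · omega
  · omega
  · have hηeq : η' = η := mulChar_invol_unique η' η hη2' hη2 hη1' hη1
    rw [hηeq] at hdec'
    have hfun : (φ : (Matrix.SpecialLinearGroup (Fin 2) F) → ℂ) + (φ₂ : (Matrix.SpecialLinearGroup (Fin 2) F) → ℂ) = (χ : (Matrix.SpecialLinearGroup (Fin 2) F) → ℂ) + (χ₂ : (Matrix.SpecialLinearGroup (Fin 2) F) → ℂ) := by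
      rw [← hdec']
      funext g
      exact (hdec g).symm
    have hin : Cfsg.classInner ((φ : (Matrix.SpecialLinearGroup (Fin 2) F) → ℂ) + (φ₂ : (Matrix.SpecialLinearGroup (Fin 2) F) → ℂ)) (χ : (Matrix.SpecialLinearGroup (Fin 2) F) → ℂ) = 1 := by
      rw [hfun, Helper24.classInner_add_left, Helper24.irr_inner_self, Helper24.irr_inner_ne hχ₂,
        add_zero]
    rw [Helper24.classInner_add_left] at hin
    by_contra hcon
    rw [not_or] at hcon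
    rw [Helper24.irr_inner_ne (Ne.symm hcon.1), Helper24.irr_inner_ne (Ne.symm hcon.2),
      add_zero] at hin
    exact zero_ne_one hin

end half2

end Cfsg.Agent.Helper12
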