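import Mathlib
import Cfsg.Agent.Helper12.SL2Half
import Cfsg.Agent.Helper12.SL2Card
import Cfsg.Agent.Helper24.CharInd

/-!
# The non-split torus of `SL₂` over a finite field of odd order (helper12)

Centralisers of elements without eigenvectors: their shape, their order `q + 1`, and the values
of functions induced from them.
-/

set_option autoImplicit false
open Cfsg

namespace Cfsg.Agent.Helper12

open Cfsg.Agent.S2305 (th)
open Cfsg.Agent.S2308 (belG)

section tor1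

variable {F : Type*} [Field F]

theorem ell_b_ne (g : (Matrix.SpecialLinearGroup (Fin 2) F)) (hg : (∀ (c₀ : F) (v : Fin 2 → F), v ≠ 0 → (g : (Matrix (Fin 2) (Fin 2) F)).mulVec v ≠ c₀ • v)) : (g : (Matrix (Fin 2) (Fin 2) F)) 0 1 ≠ 0 := by
  intro hq
  apply hg ((g : (Matrix (Fin 2) (Fin 2) F)) 1 1) ![0, 1]
  · intro h0
    have h1 := congrFun h0 1
    simp at h1
  · rw [mulVec_two, hq, Matrix.smul_vec2, smul_eq_mul, smul_eq_mul]
    simp

theorem ell_charpoly (g : (Matrix.SpecialLinearGroup (Fin 2) F)) (hg : (∀ (c₀ : F) (v : Fin 2 → F), v ≠ 0 → (g : (Matrix (Fin 2) (Fin 2) F)).mulVec v ≠ c₀ • v)) (l : F) : l ^ 2 - (g : (Matrix (Fin 2) (Fin 2) F)).trace * l + 1 ≠ 0 := by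
  intro h
  have hdet := g.det_coe
  rw [Matrix.det_fin_two] at hdet
  rw [Matrix.trace_fin_two] at h
  have hq := ell_b_ne g hg
  apply hg l ![(g : (Matrix (Fin 2) (Fin 2) F)) 0 1, l - (g : (Matrix (Fin 2) (Fin 2) F)) 0 0]
  · intro h0
    have h1 := congrFun h0 0
    exact hq (by simpa using h1)
  · have e1 : (g : (Matrix (Fin 2) (Fin 2) F)) 0 0 * (g : (Matrix (Fin 2) (Fin 2) F)) 0 1 + (g : (Matrix (Fin 2) (Fin 2) F)) 0 1 * (l - (g : (Matrix (Fin 2) (Fin 2) F)) 0 0) = l * (g : (Matrix (Fin 2) (Fin 2) F)) 0 1 := by ring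
    have e2 : (g : (Matrix (Fin 2) (Fin 2) F)) 1 0 * (g : (Matrix (Fin 2) (Fin 2) F)) 0 1 + (g : (Matrix (Fin 2) (Fin 2) F)) 1 1 * (l - (g : (Matrix (Fin 2) (Fin 2) F)) 0 0) = l * (l - (g : (Matrix (Fin 2) (Fin 2) F)) 0 0) := by
      linear_combination (-1 : F) * h - hdet
    rw [mulVec_two, e1, e2, Matrix.smul_vec2, smul_eq_mul, smul_eq_mul]

theorem not_ell_tri (g : (Matrix.SpecialLinearGroup (Fin 2) F)) (h10 : (g : (Matrix (Fin 2) (Fin 2) F)) 1 0 = 0) : ¬ (∀ (c₀ : F) (v : Fin 2 → F), v ≠ 0 → (g : (Matrix (Fin 2) (Fin 2) F)).mulVec v ≠ c₀ • v) := by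
  intro hg
  apply hg ((g : (Matrix (Fin 2) (Fin 2) F)) 0 0) ![1, 0]
  · intro h0
    have h1 := congrFun h0 0
    simp at h1
  · rw [mulVec_two, h10, Matrix.smul_vec2, smul_eq_mul, smul_eq_mul]
    simp

theorem ell_conj (x g : (Matrix.SpecialLinearGroup (Fin 2) F)) (h : (∀ (c₀ : F) (v : Fin 2 → F), v ≠ 0 → ((x⁻¹ * g * x : (Matrix.SpecialLinearGroup (Fin 2) F)) : (Matrix (Fin 2) (Fin 2) F)).mulVec v ≠ c₀ • v)) : (∀ (c₀ : F) (v : Fin 2 → F), v ≠ 0 → (g : (Matrix (Fin 2) (Fin 2) F)).mulVec v ≠ c₀ • v) := by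
  intro c v hv hgv
  apply h c (((x⁻¹ : (Matrix.SpecialLinearGroup (Fin 2) F)) : (Matrix (Fin 2) (Fin 2) F)).mulVec v)
  · intro h0
    apply hv
    have h1 : (x : (Matrix (Fin 2) (Fin 2) F)).mulVec (((x⁻¹ : (Matrix.SpecialLinearGroup (Fin 2) F)) : (Matrix (Fin 2) (Fin 2) F)).mulVec v) = v := by
      rw [Matrix.mulVec_mulVec, ← Matrix.SpecialLinearGroup.coe_mul, mul_inv_cancel,
        Matrix.SpecialLinearGroup.coe_one, Matrix.one_mulVec]
    rw [← h1, h0, Matrix.mulVec_zero]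
  · have e : x⁻¹ * g * x * x⁻¹ = x⁻¹ * g := by group
    have h2 : ((x⁻¹ * g * x : (Matrix.SpecialLinearGroup (Fin 2) F)) : (Matrix (Fin 2) (Fin 2) F)) * ((x⁻¹ : (Matrix.SpecialLinearGroup (Fin 2) F)) : (Matrix (Fin 2) (Fin 2) F)) = ((x⁻¹ : (Matrix.SpecialLinearGroup (Fin 2) F)) : (Matrix (Fin 2) (Fin 2) F)) * (g : (Matrix (Fin 2) (Fin 2) F)) := by
      rw [← Matrix.SpecialLinearGroup.coe_mul, ← Matrix.SpecialLinearGroup.coe_mul, e]
    rw [Matrix.mulVec_mulVec, h2, ← Matrix.mulVec_mulVec, hgv, Matrix.mulVec_smul]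

theorem comm_form (M A : (Matrix (Fin 2) (Fin 2) F)) (hb : M 0 1 ≠ 0) (h : A * M = M * A) :
    ∃ s t : F, A = s • (1 : (Matrix (Fin 2) (Fin 2) F)) + t • M := by
  have h00 := congrFun (congrFun h 0) 0
  have h01 := congrFun (congrFun h 0) 1
  rw [Matrix.mul_apply, Matrix.mul_apply, Fin.sum_univ_two, Fin.sum_univ_two] at h00 h01
  obtain ⟨t, ht⟩ : ∃ t, t * M 0 1 = A 0 1 := ⟨A 0 1 / M 0 1, div_mul_cancel₀ _ hb⟩
  have e10 : A 1 0 = t * M 1 0 := by
    apply mul_right_cancel₀ hb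
    linear_combination (-1 : F) * h00 - M 1 0 * ht
  have e11 : A 1 1 = A 0 0 - t * M 0 0 + t * M 1 1 := by
    apply mul_right_cancel₀ hb
    linear_combination (-1 : F) * h01 + (M 0 0 - M 1 1) * ht
  refine ⟨A 0 0 - t * M 0 0, t, ?_⟩
  refine (Matrix.eta_fin_two A).trans ?_
  rw [Matrix.eta_fin_two ((A 0 0 - t * M 0 0) • (1 : (Matrix (Fin 2) (Fin 2) F)) + t • M)]
  apply S5016.mat2_ext
  · rw [Matrix.add_apply, Matrix.smul_apply, Matrix.smul_apply, Matrix.one_apply_eq, smul_eq_mul, smul_eq_mul]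
    ring
  · rw [Matrix.add_apply, Matrix.smul_apply, Matrix.smul_apply, Matrix.one_apply_ne (by decide), smul_eq_mul, smul_eq_mul]
    linear_combination (-1 : F) * ht
  · rw [Matrix.add_apply, Matrix.smul_apply, Matrix.smul_apply, Matrix.one_apply_ne (by decide), smul_eq_mul, smul_eq_mul, e10]
    ring
  · rw [Matrix.add_apply, Matrix.smul_apply, Matrix.smul_apply, Matrix.one_apply_eq, smul_eq_mul, smul_eq_mul, e11]
    ring

theorem sl2_inv_val (c : (Matrix.SpecialLinearGroup (Fin 2) F)) : ((c⁻¹ : (Matrix.SpecialLinearGroup (Fin 2) F)) : (Matrix (Fin 2) (Fin 2) F)) = (c : (Matrix (Fin 2) (Fin 2) F)).trace • (1 : (Matrix (Fin 2) (Fin 2) F)) - (c : (Matrix (Fin 2) (Fin 2) F)) := by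
  rw [Matrix.SpecialLinearGroup.coe_inv, Matrix.adjugate_fin_two, Matrix.trace_fin_two,
    Matrix.eta_fin_two (((c : (Matrix (Fin 2) (Fin 2) F)) 0 0 + (c : (Matrix (Fin 2) (Fin 2) F)) 1 1) • (1 : (Matrix (Fin 2) (Fin 2) F)) - (c : (Matrix (Fin 2) (Fin 2) F)))]
  apply S5016.mat2_ext
  · rw [Matrix.sub_apply, Matrix.smul_apply, Matrix.one_apply_eq, smul_eq_mul]
    ring
  · rw [Matrix.sub_apply, Matrix.smul_apply, Matrix.one_apply_ne (by decide), smul_eq_mul]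
    ring
  · rw [Matrix.sub_apply, Matrix.smul_apply, Matrix.one_apply_ne (by decide), smul_eq_mul]
    ring
  · rw [Matrix.sub_apply, Matrix.smul_apply, Matrix.one_apply_eq, smul_eq_mul]
    ring

theorem sl2_inv_trace (c : (Matrix.SpecialLinearGroup (Fin 2) F)) : ((c⁻¹ : (Matrix.SpecialLinearGroup (Fin 2) F)) : (Matrix (Fin 2) (Fin 2) F)).trace = (c : (Matrix (Fin 2) (Fin 2) F)).trace := by
  rw [Matrix.SpecialLinearGroup.coe_inv, Matrix.adjugate_fin_two, Matrix.trace_fin_two, Matrix.trace_fin_two]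
  show (c : (Matrix (Fin 2) (Fin 2) F)) 1 1 + (c : (Matrix (Fin 2) (Fin 2) F)) 0 0 = (c : (Matrix (Fin 2) (Fin 2) F)) 0 0 + (c : (Matrix (Fin 2) (Fin 2) F)) 1 1
  ring

theorem form_det (g x : (Matrix.SpecialLinearGroup (Fin 2) F)) (s t : F) (hx : (x : (Matrix (Fin 2) (Fin 2) F)) = s • (1 : (Matrix (Fin 2) (Fin 2) F)) + t • (g : (Matrix (Fin 2) (Fin 2) F))) :
    s ^ 2 + s * t * (g : (Matrix (Fin 2) (Fin 2) F)).trace + t ^ 2 = 1 ∧ (x : (Matrix (Fin 2) (Fin 2) F)).trace = 2 * s + t * (g : (Matrix (Fin 2) (Fin 2) F)).trace := by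
  have hdx := x.det_coe
  have hdg := g.det_coe
  rw [Matrix.det_fin_two] at hdx hdg
  have e00 : (x : (Matrix (Fin 2) (Fin 2) F)) 0 0 = s + t * (g : (Matrix (Fin 2) (Fin 2) F)) 0 0 := by
    rw [hx, Matrix.add_apply, Matrix.smul_apply, Matrix.smul_apply, Matrix.one_apply_eq, smul_eq_mul, smul_eq_mul, mul_one]
  have e01 : (x : (Matrix (Fin 2) (Fin 2) F)) 0 1 = t * (g : (Matrix (Fin 2) (Fin 2) F)) 0 1 := by
    rw [hx, Matrix.add_apply, Matrix.smul_apply, Matrix.smul_apply, Matrix.one_apply_ne (by decide), smul_eq_mul, smul_eq_mul, mul_zero, zero_add]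
  have e10 : (x : (Matrix (Fin 2) (Fin 2) F)) 1 0 = t * (g : (Matrix (Fin 2) (Fin 2) F)) 1 0 := by
    rw [hx, Matrix.add_apply, Matrix.smul_apply, Matrix.smul_apply, Matrix.one_apply_ne (by decide), smul_eq_mul, smul_eq_mul, mul_zero, zero_add]
  have e11 : (x : (Matrix (Fin 2) (Fin 2) F)) 1 1 = s + t * (g : (Matrix (Fin 2) (Fin 2) F)) 1 1 := by
    rw [hx, Matrix.add_apply, Matrix.smul_apply, Matrix.smul_apply, Matrix.one_apply_eq, smul_eq_mul, smul_eq_mul, mul_one]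
  rw [e00, e01, e10, e11] at hdx
  rw [Matrix.trace_fin_two, Matrix.trace_fin_two, e00, e11]
  constructor
  · linear_combination hdx - t ^ 2 * hdg
  · ring

theorem ell_of_form (g x : (Matrix.SpecialLinearGroup (Fin 2) F)) (hg : (∀ (c₀ : F) (v : Fin 2 → F), v ≠ 0 → (g : (Matrix (Fin 2) (Fin 2) F)).mulVec v ≠ c₀ • v)) (s t : F) (ht : t ≠ 0)
    (hx : (x : (Matrix (Fin 2) (Fin 2) F)) = s • (1 : (Matrix (Fin 2) (Fin 2) F)) + t • (g : (Matrix (Fin 2) (Fin 2) F))) : (∀ (c₀ : F) (v : Fin 2 → F), v ≠ 0 → (x : (Matrix (Fin 2) (Fin 2) F)).mulVec v ≠ c₀ • v) := by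
  intro c v hv hxv
  apply hg ((c - s) / t) v hv
  rw [hx, Matrix.add_mulVec, Matrix.smul_mulVec, Matrix.smul_mulVec, Matrix.one_mulVec] at hxv
  have h1 : t • ((g : (Matrix (Fin 2) (Fin 2) F)).mulVec v) = (c - s) • v := by
    rw [sub_smul, ← hxv, add_sub_cancel_left]
  rw [div_eq_inv_mul, mul_smul, ← h1, smul_smul, inv_mul_cancel₀ ht, one_smul]

theorem torus_trace_eq [Fintype F] (hodd : Odd (Fintype.card F)) (c c' : (Matrix.SpecialLinearGroup (Fin 2) F)) (hc : (∀ (c₀ : F) (v : Fin 2 → F), v ≠ 0 → (c : (Matrix (Fin 2) (Fin 2) F)).mulVec v ≠ c₀ • v)) (hcomm : c' * c = c * c')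
    (ht : (c' : (Matrix (Fin 2) (Fin 2) F)).trace = (c : (Matrix (Fin 2) (Fin 2) F)).trace) : c' = c ∨ c' = c⁻¹ := by
  have h2 : (2 : F) ≠ 0 := two_ne_zero_of_odd hodd
  have h4 := ell_trace c hc
  obtain ⟨s, t, hst⟩ := comm_form (c : (Matrix (Fin 2) (Fin 2) F)) (c' : (Matrix (Fin 2) (Fin 2) F)) (ell_b_ne c hc) ((sl2_mul_eq_iff c' c c c').mp hcomm)
  obtain ⟨hdet, htr⟩ := form_det c c' s t hst
  rw [ht] at htr
  have ht2 : (t - 1) * (t + 1) = 0 := by
    have h5 : (t ^ 2 - 1) * ((c : (Matrix (Fin 2) (Fin 2) F)).trace ^ 2 - 4) = 0 := by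
      linear_combination (-4 : F) * hdet + (-(c : (Matrix (Fin 2) (Fin 2) F)).trace - 2 * s - t * (c : (Matrix (Fin 2) (Fin 2) F)).trace) * htr
    rcases mul_eq_zero.mp h5 with h6 | h6
    · linear_combination h6
    · exact absurd (sub_eq_zero.mp h6) h4
  rcases mul_eq_zero.mp ht2 with h1 | h1
  · left
    have ht1 : t = 1 := sub_eq_zero.mp h1
    have hs : s = 0 := by
      have h3 : 2 * s = 0 := by
        rw [ht1] at htr
        linear_combination (-1 : F) * htr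
      exact (mul_eq_zero.mp h3).resolve_left h2
    apply Subtype.ext
    rw [hst, hs, ht1, zero_smul, zero_add, one_smul]
  · right
    have ht1 : t = -1 := eq_neg_of_add_eq_zero_left h1
    have hs : s = (c : (Matrix (Fin 2) (Fin 2) F)).trace := by
      have h3 : 2 * (s - (c : (Matrix (Fin 2) (Fin 2) F)).trace) = 0 := by
        rw [ht1] at htr
        linear_combination (-1 : F) * htr
      exact sub_eq_zero.mp ((mul_eq_zero.mp h3).resolve_left h2)
    apply Subtype.ext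
    rw [hst, sl2_inv_val, hs, ht1, neg_smul, one_smul, sub_eq_add_neg]

theorem sl2_scalar_cases (c : (Matrix.SpecialLinearGroup (Fin 2) F)) (r : F) (h : (c : (Matrix (Fin 2) (Fin 2) F)) = r • (1 : (Matrix (Fin 2) (Fin 2) F))) : c = 1 ∨ c = (bel (-1 : Fˣ) (0 : F)) := by
  have hd := c.det_coe
  rw [Matrix.det_fin_two, h, Matrix.smul_apply, Matrix.smul_apply, Matrix.smul_apply, Matrix.smul_apply,
    Matrix.one_apply_eq, Matrix.one_apply_eq, Matrix.one_apply_ne (by decide : (0 : Fin 2) ≠ 1),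
    Matrix.one_apply_ne (by decide : (1 : Fin 2) ≠ 0), smul_eq_mul, smul_eq_mul, mul_one, mul_zero, mul_zero, sub_zero] at hd
  have h2 : (r - 1) * (r + 1) = 0 := by linear_combination hd
  rcases mul_eq_zero.mp h2 with h1 | h1
  · left
    apply Subtype.ext
    rw [h, sub_eq_zero.mp h1, one_smul, Matrix.SpecialLinearGroup.coe_one]
  · right
    apply Subtype.ext
    rw [h, eq_neg_of_add_eq_zero_left h1, bel_val, Matrix.eta_fin_two ((-1 : F) • (1 : (Matrix (Fin 2) (Fin 2) F)))]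
    apply S5016.mat2_ext
    · rw [Matrix.smul_apply, Matrix.one_apply_eq]; simp
    · rw [Matrix.smul_apply, Matrix.one_apply_ne (by decide)]; simp
    · rw [Matrix.smul_apply, Matrix.one_apply_ne (by decide)]; simp
    · rw [Matrix.smul_apply, Matrix.one_apply_eq]; simp

theorem bel_neg_ne_one [Fintype F] (hodd : Odd (Fintype.card F)) : (bel (-1 : Fˣ) (0 : F)) ≠ (1 : (Matrix.SpecialLinearGroup (Fin 2) F)) := by
  intro h
  have h1 : (((bel (-1 : Fˣ) (0 : F)) : (Matrix.SpecialLinearGroup (Fin 2) F)) : (Matrix (Fin 2) (Fin 2) F)) 0 0 = ((1 : (Matrix.SpecialLinearGroup (Fin 2) F)) : (Matrix (Fin 2) (Fin 2) F)) 0 0 := by rw [h]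
  rw [bel_val, Matrix.SpecialLinearGroup.coe_one, Matrix.one_apply_eq] at h1
  have h2 : (-1 : F) = 1 := by simpa using h1
  exact two_ne_zero_of_odd hodd (by linear_combination (-1 : F) * h2)

theorem hom_conj {H : Type*} [Group H] [Finite H] (θ : H →* ℂˣ) (c : H) :
    starRingEnd ℂ ((θ c : ℂˣ) : ℂ) = ((θ c⁻¹ : ℂˣ) : ℂ) := by
  have hpos : orderOf c ≠ 0 := (orderOf_pos c).ne'
  have hpow : ((θ c : ℂˣ) : ℂ) ^ orderOf c = 1 := by
    rw [← Units.val_pow_eq_pow_val, ← map_pow, pow_orderOf_eq_one, map_one, Units.val_one]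
  have hnorm := Complex.norm_eq_one_of_pow_eq_one hpow hpos
  have hmul : ((θ c : ℂˣ) : ℂ) * starRingEnd ℂ ((θ c : ℂˣ) : ℂ) = 1 := by
    rw [Complex.mul_conj, Complex.normSq_eq_norm_sq, hnorm]
    norm_num
  rw [map_inv, Units.val_inv_eq_inv_val]
  exact eq_inv_of_mul_eq_one_right hmul

end tor1

section tor2

variable {F : Type*} [Field F] [Fintype F] [DecidableEq F]

theorem card_trace_eq (g : (Matrix.SpecialLinearGroup (Fin 2) F)) (hg : (∀ (c₀ : F) (v : Fin 2 → F), v ≠ 0 → (g : (Matrix (Fin 2) (Fin 2) F)).mulVec v ≠ c₀ • v)) :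
    (Finset.univ.filter (fun k : (Matrix.SpecialLinearGroup (Fin 2) F) => (k : (Matrix (Fin 2) (Fin 2) F)).trace = (g : (Matrix (Fin 2) (Fin 2) F)).trace)).card =
      Fintype.card F * (Fintype.card F - 1) := by
  have hinj : Function.Injective (fun p : F × Fˣ =>
      (sl2mk p.1 (p.2 : F) (-(p.1 ^ 2 - (g : (Matrix (Fin 2) (Fin 2) F)).trace * p.1 + 1) * ((p.2⁻¹ : Fˣ) : F)) ((g : (Matrix (Fin 2) (Fin 2) F)).trace - p.1)
        (by linear_combination (p.1 ^ 2 - (g : (Matrix (Fin 2) (Fin 2) F)).trace * p.1 + 1) * Units.mul_inv p.2) : (Matrix.SpecialLinearGroup (Fin 2) F))) := by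
    rintro ⟨a, b⟩ ⟨a', b'⟩ hab
    have h00 : a = a' := congrArg (fun k : (Matrix.SpecialLinearGroup (Fin 2) F) => (k : (Matrix (Fin 2) (Fin 2) F)) 0 0) hab
    have h01 : (b : F) = (b' : F) := congrArg (fun k : (Matrix.SpecialLinearGroup (Fin 2) F) => (k : (Matrix (Fin 2) (Fin 2) F)) 0 1) hab
    rw [h00, Units.ext h01]
  have himg : Finset.univ.filter (fun k : (Matrix.SpecialLinearGroup (Fin 2) F) => (k : (Matrix (Fin 2) (Fin 2) F)).trace = (g : (Matrix (Fin 2) (Fin 2) F)).trace) =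
      Finset.univ.image (fun p : F × Fˣ =>
      (sl2mk p.1 (p.2 : F) (-(p.1 ^ 2 - (g : (Matrix (Fin 2) (Fin 2) F)).trace * p.1 + 1) * ((p.2⁻¹ : Fˣ) : F)) ((g : (Matrix (Fin 2) (Fin 2) F)).trace - p.1)
        (by linear_combination (p.1 ^ 2 - (g : (Matrix (Fin 2) (Fin 2) F)).trace * p.1 + 1) * Units.mul_inv p.2) : (Matrix.SpecialLinearGroup (Fin 2) F))) := by
    ext k
    simp only [Finset.mem_filter, Finset.mem_univ, true_and, Finset.mem_image]
    constructor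
    · intro hk
      have hdk := k.det_coe
      rw [Matrix.det_fin_two] at hdk
      rw [Matrix.trace_fin_two] at hk
      have hk01 : (k : (Matrix (Fin 2) (Fin 2) F)) 0 1 ≠ 0 := by
        intro h0
        apply ell_charpoly g hg ((k : (Matrix (Fin 2) (Fin 2) F)) 0 0)
        rw [h0] at hdk
        linear_combination ((k : (Matrix (Fin 2) (Fin 2) F)) 0 0) * hk - hdk
      refine ⟨((k : (Matrix (Fin 2) (Fin 2) F)) 0 0, Units.mk0 _ hk01), ?_⟩
      apply Subtype.ext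
      have h10 : -((k : (Matrix (Fin 2) (Fin 2) F)) 0 0 ^ 2 - (g : (Matrix (Fin 2) (Fin 2) F)).trace * (k : (Matrix (Fin 2) (Fin 2) F)) 0 0 + 1) * (((Units.mk0 _ hk01)⁻¹ : Fˣ) : F) = (k : (Matrix (Fin 2) (Fin 2) F)) 1 0 := by
        rw [Units.val_inv_eq_inv_val, Units.val_mk0, ← div_eq_mul_inv, div_eq_iff hk01]
        linear_combination hdk - ((k : (Matrix (Fin 2) (Fin 2) F)) 0 0) * hk
      have h11 : (g : (Matrix (Fin 2) (Fin 2) F)).trace - (k : (Matrix (Fin 2) (Fin 2) F)) 0 0 = (k : (Matrix (Fin 2) (Fin 2) F)) 1 1 := by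
        linear_combination (-1 : F) * hk
      exact (S5016.mat2_ext rfl rfl h10 h11).trans (Matrix.eta_fin_two (k : (Matrix (Fin 2) (Fin 2) F))).symm
    · rintro ⟨⟨a, b⟩, rfl⟩
      rw [Matrix.trace_fin_two]
      show a + ((g : (Matrix (Fin 2) (Fin 2) F)).trace - a) = (g : (Matrix (Fin 2) (Fin 2) F)).trace
      ring
  rw [himg, Finset.card_image_of_injective _ hinj, Finset.card_univ, Fintype.card_prod, Fintype.card_units]

theorem card_conj_fiber (hodd : Odd (Fintype.card F)) (g h : (Matrix.SpecialLinearGroup (Fin 2) F)) (hg : (∀ (c₀ : F) (v : Fin 2 → F), v ≠ 0 → (g : (Matrix (Fin 2) (Fin 2) F)).mulVec v ≠ c₀ • v))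
    (ht : (h : (Matrix (Fin 2) (Fin 2) F)).trace = (g : (Matrix (Fin 2) (Fin 2) F)).trace) :
    (Finset.univ.filter (fun x : (Matrix.SpecialLinearGroup (Fin 2) F) => x⁻¹ * g * x = h)).card = Fintype.card F + 1 := by
  have hfib : ∀ k : (Matrix.SpecialLinearGroup (Fin 2) F), (k : (Matrix (Fin 2) (Fin 2) F)).trace = (g : (Matrix (Fin 2) (Fin 2) F)).trace →
      (Finset.univ.filter (fun x : (Matrix.SpecialLinearGroup (Fin 2) F) => x⁻¹ * g * x = k)).card =
        (Finset.univ.filter (fun x : (Matrix.SpecialLinearGroup (Fin 2) F) => x⁻¹ * g * x = g)).card := by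
    intro k hk
    obtain ⟨c, hc⟩ := isConj_iff.mp (sl2_odd_isConj_of_trace hodd g k hk.symm (ell_trace g hg))
    refine Finset.card_nbij' (fun x => x * c) (fun x => x * c⁻¹) ?_ ?_ ?_ ?_
    · intro x hx
      rw [Finset.mem_coe, Finset.mem_filter] at hx ⊢
      refine ⟨Finset.mem_univ _, ?_⟩
      have e : (x * c)⁻¹ * g * (x * c) = c⁻¹ * (x⁻¹ * g * x) * c := by group
      rw [e, hx.2, ← hc]
      group
    · intro x hx
      rw [Finset.mem_coe, Finset.mem_filter] at hx ⊢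
      refine ⟨Finset.mem_univ _, ?_⟩
      have e : (x * c⁻¹)⁻¹ * g * (x * c⁻¹) = c * (x⁻¹ * g * x) * c⁻¹ := by group
      rw [e, hx.2, hc]
    · intro x _
      show x * c * c⁻¹ = x
      group
    · intro x _
      show x * c⁻¹ * c = x
      group
  have hmaps : Set.MapsTo (fun x : (Matrix.SpecialLinearGroup (Fin 2) F) => x⁻¹ * g * x) (↑(Finset.univ : Finset (Matrix.SpecialLinearGroup (Fin 2) F)))
      (↑(Finset.univ.filter (fun k : (Matrix.SpecialLinearGroup (Fin 2) F) => (k : (Matrix (Fin 2) (Fin 2) F)).trace = (g : (Matrix (Fin 2) (Fin 2) F)).trace))) := by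
    intro x _
    rw [Finset.mem_coe, Finset.mem_filter]
    refine ⟨Finset.mem_univ _, ?_⟩
    have h1 := sl2_trace_conj x⁻¹ g
    rwa [inv_inv] at h1
  have hsum := Finset.card_eq_sum_card_fiberwise hmaps
  rw [Finset.sum_congr rfl (fun k hk => hfib k (Finset.mem_filter.mp hk).2), Finset.sum_const, card_trace_eq g hg,
    smul_eq_mul, Finset.card_univ, ← Nat.card_eq_fintype_card, sl2_card] at hsum
  rw [hfib h ht]
  have hq1 : 1 < Fintype.card F := Fintype.one_lt_card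
  obtain ⟨m, hm⟩ : ∃ m, Fintype.card F = m + 2 := ⟨Fintype.card F - 2, by omega⟩
  rw [hm] at hsum ⊢
  have e2 : (m + 2) ^ 2 - 1 = (m + 1) * (m + 3) := by
    rw [Nat.sub_eq_iff_eq_add (Nat.one_le_pow _ _ (by omega))]
    ring
  have e3 : m + 2 - 1 = m + 1 := by omega
  rw [e2, e3] at hsum
  have hpos : 0 < (m + 2) * (m + 1) := by positivity
  apply Nat.eq_of_mul_eq_mul_left hpos
  rw [← hsum]
  ring

theorem torus_card (hodd : Odd (Fintype.card F)) (g : (Matrix.SpecialLinearGroup (Fin 2) F)) (hg : (∀ (c₀ : F) (v : Fin 2 → F), v ≠ 0 → (g : (Matrix (Fin 2) (Fin 2) F)).mulVec v ≠ c₀ • v)) :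
    Nat.card ↥(Subgroup.centralizer ({g} : Set (Matrix.SpecialLinearGroup (Fin 2) F))) = Fintype.card F + 1 := by
  classical
  rw [Nat.card_eq_fintype_card, ← card_conj_fiber hodd g g hg rfl]
  apply Fintype.card_of_subtype
  intro x
  simp only [Finset.mem_filter, Finset.mem_univ, true_and]
  rw [Subgroup.mem_centralizer_singleton_iff, mul_assoc, inv_mul_eq_iff_eq_mul]
  exact eq_comm

theorem torus_form (g : (Matrix.SpecialLinearGroup (Fin 2) F)) (hg : (∀ (c₀ : F) (v : Fin 2 → F), v ≠ 0 → (g : (Matrix (Fin 2) (Fin 2) F)).mulVec v ≠ c₀ • v)) (x : (Matrix.SpecialLinearGroup (Fin 2) F)) (hx : x ∈ (Subgroup.centralizer ({g} : Set (Matrix.SpecialLinearGroup (Fin 2) F)))) :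
    ∃ s t : F, (x : (Matrix (Fin 2) (Fin 2) F)) = s • (1 : (Matrix (Fin 2) (Fin 2) F)) + t • (g : (Matrix (Fin 2) (Fin 2) F)) :=
  comm_form (g : (Matrix (Fin 2) (Fin 2) F)) (x : (Matrix (Fin 2) (Fin 2) F)) (ell_b_ne g hg)
    ((sl2_mul_eq_iff x g g x).mp (Subgroup.mem_centralizer_singleton_iff.mp hx))

theorem torus_comm (g : (Matrix.SpecialLinearGroup (Fin 2) F)) (hg : (∀ (c₀ : F) (v : Fin 2 → F), v ≠ 0 → (g : (Matrix (Fin 2) (Fin 2) F)).mulVec v ≠ c₀ • v)) (x y : (Matrix.SpecialLinearGroup (Fin 2) F)) (hx : x ∈ (Subgroup.centralizer ({g} : Set (Matrix.SpecialLinearGroup (Fin 2) F)))) (hy : y ∈ (Subgroup.centralizer ({g} : Set (Matrix.SpecialLinearGroup (Fin 2) F)))) : x * y = y * x := by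
  obtain ⟨s, t, hs⟩ := torus_form g hg x hx
  obtain ⟨s', t', hs'⟩ := torus_form g hg y hy
  rw [sl2_mul_eq_iff, hs, hs']
  have hM : Commute (g : (Matrix (Fin 2) (Fin 2) F)) (s' • (1 : (Matrix (Fin 2) (Fin 2) F)) + t' • (g : (Matrix (Fin 2) (Fin 2) F))) :=
    ((Commute.one_right (g : (Matrix (Fin 2) (Fin 2) F))).smul_right s').add_right ((Commute.refl (g : (Matrix (Fin 2) (Fin 2) F))).smul_right t')
  exact (((Commute.one_left _).smul_left s).add_left (hM.smul_left t)).eq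

theorem torus_dich (g : (Matrix.SpecialLinearGroup (Fin 2) F)) (hg : (∀ (c₀ : F) (v : Fin 2 → F), v ≠ 0 → (g : (Matrix (Fin 2) (Fin 2) F)).mulVec v ≠ c₀ • v)) (c : (Matrix.SpecialLinearGroup (Fin 2) F)) (hc : c ∈ (Subgroup.centralizer ({g} : Set (Matrix.SpecialLinearGroup (Fin 2) F)))) :
    (∀ (c₀ : F) (v : Fin 2 → F), v ≠ 0 → (c : (Matrix (Fin 2) (Fin 2) F)).mulVec v ≠ c₀ • v) ∨ ∃ r : F, (c : (Matrix (Fin 2) (Fin 2) F)) = r • (1 : (Matrix (Fin 2) (Fin 2) F)) := by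
  obtain ⟨s, t, h⟩ := torus_form g hg c hc
  by_cases ht : t = 0
  · right
    exact ⟨s, by rw [h, ht, zero_smul, add_zero]⟩
  · left
    exact ell_of_form g c hg s t ht h

theorem bel_neg_mem_torus (g : (Matrix.SpecialLinearGroup (Fin 2) F)) : (bel (-1 : Fˣ) (0 : F)) ∈ (Subgroup.centralizer ({g} : Set (Matrix.SpecialLinearGroup (Fin 2) F))) :=
  Subgroup.mem_centralizer_singleton_iff.mpr (bel_neg_one_central g).symm

theorem torus_sum_central (hodd : Odd (Fintype.card F)) (g : (Matrix.SpecialLinearGroup (Fin 2) F)) (hg : (∀ (c₀ : F) (v : Fin 2 → F), v ≠ 0 → (g : (Matrix (Fin 2) (Fin 2) F)).mulVec v ≠ c₀ • v)) [Fintype ↥(Subgroup.centralizer ({g} : Set (Matrix.SpecialLinearGroup (Fin 2) F)))]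
    (F' : ↥(Subgroup.centralizer ({g} : Set (Matrix.SpecialLinearGroup (Fin 2) F))) → ℂ) (hF : ∀ c : ↥(Subgroup.centralizer ({g} : Set (Matrix.SpecialLinearGroup (Fin 2) F))), (∀ (c₀ : F) (v : Fin 2 → F), v ≠ 0 → ((c : (Matrix.SpecialLinearGroup (Fin 2) F)) : (Matrix (Fin 2) (Fin 2) F)).mulVec v ≠ c₀ • v) → F' c = 0) :
    ∑ c : ↥(Subgroup.centralizer ({g} : Set (Matrix.SpecialLinearGroup (Fin 2) F))), F' c = F' ⟨1, one_mem _⟩ + F' ⟨(bel (-1 : Fˣ) (0 : F)), bel_neg_mem_torus g⟩ := by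
  classical
  have hne : (⟨1, one_mem _⟩ : ↥(Subgroup.centralizer ({g} : Set (Matrix.SpecialLinearGroup (Fin 2) F)))) ≠ ⟨(bel (-1 : Fˣ) (0 : F)), bel_neg_mem_torus g⟩ := by
    intro h
    exact bel_neg_ne_one hodd (congrArg Subtype.val h).symm
  rw [← Finset.sum_pair hne]
  symm
  apply Finset.sum_subset (Finset.subset_univ _)
  intro c _ hc
  rcases torus_dich g hg c c.2 with hell | ⟨r, hr⟩
  · exact hF c hell
  · exfalso
    apply hc
    rcases sl2_scalar_cases (c : (Matrix.SpecialLinearGroup (Fin 2) F)) r hr with h1 | h1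
    · rw [Finset.mem_insert]
      left
      exact Subtype.ext h1
    · rw [Finset.mem_insert, Finset.mem_singleton]
      right
      exact Subtype.ext h1

theorem indFun_torus (hodd : Odd (Fintype.card F)) (g : (Matrix.SpecialLinearGroup (Fin 2) F)) (hg : (∀ (c₀ : F) (v : Fin 2 → F), v ≠ 0 → (g : (Matrix (Fin 2) (Fin 2) F)).mulVec v ≠ c₀ • v)) (θ' : ↥(Subgroup.centralizer ({g} : Set (Matrix.SpecialLinearGroup (Fin 2) F))) → ℂ) (c : (Matrix.SpecialLinearGroup (Fin 2) F))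
    (hc : c ∈ (Subgroup.centralizer ({g} : Set (Matrix.SpecialLinearGroup (Fin 2) F)))) (hcell : (∀ (c₀ : F) (v : Fin 2 → F), v ≠ 0 → (c : (Matrix (Fin 2) (Fin 2) F)).mulVec v ≠ c₀ • v)) :
    Cfsg.indFun (Subgroup.centralizer ({g} : Set (Matrix.SpecialLinearGroup (Fin 2) F))) θ' c = θ' ⟨c, hc⟩ + θ' ⟨c⁻¹, inv_mem hc⟩ := by
  have hcne : c⁻¹ ≠ c := by
    intro h
    have h1 : ((c⁻¹ : (Matrix.SpecialLinearGroup (Fin 2) F)) : (Matrix (Fin 2) (Fin 2) F)) 0 1 = (c : (Matrix (Fin 2) (Fin 2) F)) 0 1 := by rw [h]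
    rw [Matrix.SpecialLinearGroup.coe_inv, Matrix.adjugate_fin_two] at h1
    have h2 : -(c : (Matrix (Fin 2) (Fin 2) F)) 0 1 = (c : (Matrix (Fin 2) (Fin 2) F)) 0 1 := h1
    have h3 : (2 : F) * (c : (Matrix (Fin 2) (Fin 2) F)) 0 1 = 0 := by linear_combination (-1 : F) * h2
    rcases mul_eq_zero.mp h3 with h4 | h4
    · exact two_ne_zero_of_odd hodd h4
    · exact ell_b_ne c hcell h4
  have key : ∀ x : (Matrix.SpecialLinearGroup (Fin 2) F), Cfsg.extendByZero (Subgroup.centralizer ({g} : Set (Matrix.SpecialLinearGroup (Fin 2) F))) θ' (x⁻¹ * c * x) =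
      (if x⁻¹ * c * x = c then θ' ⟨c, hc⟩ else 0) + (if x⁻¹ * c * x = c⁻¹ then θ' ⟨c⁻¹, inv_mem hc⟩ else 0) := by
    intro x
    by_cases hmem : x⁻¹ * c * x ∈ (Subgroup.centralizer ({g} : Set (Matrix.SpecialLinearGroup (Fin 2) F)))
    · have htr : ((x⁻¹ * c * x : (Matrix.SpecialLinearGroup (Fin 2) F)) : (Matrix (Fin 2) (Fin 2) F)).trace = (c : (Matrix (Fin 2) (Fin 2) F)).trace := by
        have h1 := sl2_trace_conj x⁻¹ c
        rwa [inv_inv] at h1
      rcases torus_trace_eq hodd c (x⁻¹ * c * x) hcell (torus_comm g hg _ _ hmem hc) htr with h1 | h1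
      · rw [Helper24.extendByZero_apply_mem _ _ hmem, if_pos h1, if_neg (by rw [h1]; exact hcne.symm), add_zero]
        congr 1
        exact Subtype.ext h1
      · rw [Helper24.extendByZero_apply_mem _ _ hmem, if_neg (by rw [h1]; exact hcne), if_pos h1, zero_add]
        congr 1
        exact Subtype.ext h1
    · rw [Helper24.extendByZero_apply_not_mem _ _ hmem, if_neg, if_neg, add_zero]
      · intro h1
        exact hmem (by rw [h1]; exact inv_mem hc)
      · intro h1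
        exact hmem (by rw [h1]; exact hc)
  have hq : ((Fintype.card F + 1 : ℕ) : ℂ) ≠ 0 := Nat.cast_ne_zero.mpr (Nat.succ_ne_zero _)
  rw [indFun_def, Finset.sum_congr rfl (fun x _ => key x), Finset.sum_add_distrib, ← Finset.sum_filter, ← Finset.sum_filter,
    Finset.sum_const, Finset.sum_const, card_conj_fiber hodd c c hcell rfl, card_conj_fiber hodd c c⁻¹ hcell (sl2_inv_trace c),
    torus_card hodd g hg, nsmul_eq_mul, nsmul_eq_mul, ← mul_add, inv_mul_cancel_left₀ hq]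

theorem indFun_torus_central (hodd : Odd (Fintype.card F)) (g : (Matrix.SpecialLinearGroup (Fin 2) F)) (hg : (∀ (c₀ : F) (v : Fin 2 → F), v ≠ 0 → (g : (Matrix (Fin 2) (Fin 2) F)).mulVec v ≠ c₀ • v)) (θ' : ↥(Subgroup.centralizer ({g} : Set (Matrix.SpecialLinearGroup (Fin 2) F))) → ℂ) (z : (Matrix.SpecialLinearGroup (Fin 2) F))
    (hz : ∀ x : (Matrix.SpecialLinearGroup (Fin 2) F), x * z = z * x) (hzm : z ∈ (Subgroup.centralizer ({g} : Set (Matrix.SpecialLinearGroup (Fin 2) F)))) :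
    Cfsg.indFun (Subgroup.centralizer ({g} : Set (Matrix.SpecialLinearGroup (Fin 2) F))) θ' z = (Fintype.card F : ℂ) * ((Fintype.card F : ℂ) - 1) * θ' ⟨z, hzm⟩ := by
  have hq : ((Fintype.card F : ℂ) + 1) ≠ 0 := by exact_mod_cast Nat.succ_ne_zero (Fintype.card F)
  have e : ∀ x : (Matrix.SpecialLinearGroup (Fin 2) F), Cfsg.extendByZero (Subgroup.centralizer ({g} : Set (Matrix.SpecialLinearGroup (Fin 2) F))) θ' (x⁻¹ * z * x) = θ' ⟨z, hzm⟩ := by
    intro x
    have h1 : x⁻¹ * z * x = z := by rw [mul_assoc, ← hz x, inv_mul_cancel_left]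
    rw [h1, Helper24.extendByZero_apply_mem _ _ hzm]
  rw [indFun_def, Finset.sum_congr rfl (fun x _ => e x), Finset.sum_const, Finset.card_univ, nsmul_eq_mul, card_SL_complex,
    torus_card hodd g hg]
  push_cast
  rw [inv_mul_eq_div, div_eq_iff hq]
  ring

theorem indFun_torus_tri (g : (Matrix.SpecialLinearGroup (Fin 2) F)) (hg : (∀ (c₀ : F) (v : Fin 2 → F), v ≠ 0 → (g : (Matrix (Fin 2) (Fin 2) F)).mulVec v ≠ c₀ • v)) (θ' : ↥(Subgroup.centralizer ({g} : Set (Matrix.SpecialLinearGroup (Fin 2) F))) → ℂ) (g' : (Matrix.SpecialLinearGroup (Fin 2) F))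
    (h10 : (g' : (Matrix (Fin 2) (Fin 2) F)) 1 0 = 0) (hns : (g' : (Matrix (Fin 2) (Fin 2) F)) 0 1 ≠ 0 ∨ (g' : (Matrix (Fin 2) (Fin 2) F)) 0 0 ≠ (g' : (Matrix (Fin 2) (Fin 2) F)) 1 1) :
    Cfsg.indFun (Subgroup.centralizer ({g} : Set (Matrix.SpecialLinearGroup (Fin 2) F))) θ' g' = 0 := by
  have e : ∀ x : (Matrix.SpecialLinearGroup (Fin 2) F), Cfsg.extendByZero (Subgroup.centralizer ({g} : Set (Matrix.SpecialLinearGroup (Fin 2) F))) θ' (x⁻¹ * g' * x) = 0 := by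
    intro x
    apply Helper24.extendByZero_apply_not_mem
    intro hmem
    rcases torus_dich g hg _ hmem with hell | ⟨r, hr⟩
    · exact not_ell_tri g' h10 (ell_conj x g' hell)
    · have hcomm : x * (x⁻¹ * g' * x) = (x⁻¹ * g' * x) * x := by
        rw [sl2_mul_eq_iff, hr, Matrix.mul_smul, Matrix.smul_mul, mul_one, one_mul]
      have hg' : g' = x⁻¹ * g' * x := by
        have h1 : x * (x⁻¹ * g' * x) = g' * x := by group
        rw [h1] at hcomm
        exact mul_right_cancel hcomm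
      rw [← hg'] at hr
      rcases hns with h | h
      · apply h
        rw [hr, Matrix.smul_apply, Matrix.one_apply_ne (by decide), smul_zero]
      · apply h
        rw [hr, Matrix.smul_apply, Matrix.smul_apply, Matrix.one_apply_eq, Matrix.one_apply_eq]
  rw [indFun_def, Finset.sum_congr rfl (fun x _ => e x), Finset.sum_const_zero, mul_zero]

theorem sum_RS_mul (γ : MulChar F ℂ) (f : (Matrix.SpecialLinearGroup (Fin 2) F) → ℂ) (hf : ∀ x g : (Matrix.SpecialLinearGroup (Fin 2) F), f (x * g * x⁻¹) = f g) :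
    (∑ g : (Matrix.SpecialLinearGroup (Fin 2) F), (Cfsg.indFun ((Cfsg.upperTriangularGL 2 F).comap Matrix.SpecialLinearGroup.toGL) (thS γ)) g * f g) = ((Fintype.card F : ℂ) + 1) * ∑ a : Fˣ, ∑ c : F, γ (a : F) * f (bel a c) := by
  have hq0 : (Fintype.card F : ℂ) ≠ 0 := Nat.cast_ne_zero.mpr Fintype.card_ne_zero
  have hq1 : (Fintype.card F : ℂ) - 1 ≠ 0 := card_sub_one_ne_zero
  have h1 : ∀ (a : Fˣ) (c : F),
      thS γ ⟨bel a c, bel_mem a c⟩ * f (bel a c) = γ (a : F) * f (bel a c) := fun a c => rfl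
  have e : (((Fintype.card F : ℂ) - 1) * (Fintype.card F : ℂ))⁻¹ * ((Fintype.card F : ℂ) * ((Fintype.card F : ℂ) ^ 2 - 1)) = (Fintype.card F : ℂ) + 1 := by
    rw [inv_mul_eq_div, div_eq_iff (mul_ne_zero hq1 hq0)]
    ring
  have e2 : ∀ S : ℂ, (((Fintype.card F : ℂ) - 1) * (Fintype.card F : ℂ))⁻¹ * ((Fintype.card F : ℂ) * ((Fintype.card F : ℂ) ^ 2 - 1) * S) = ((Fintype.card F : ℂ) + 1) * S := by
    intro S
    rw [← mul_assoc, e]
  rw [sum_indFun_mul _ _ f hf, sum_BS, card_BS, card_SL_complex,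
    Finset.sum_congr rfl (fun a _ => Finset.sum_congr rfl (fun c _ => h1 a c))]
  exact e2 _

theorem RS_bel_ne (γ : MulChar F ℂ) (a : Fˣ) (c : F) (hne : (a : F) ≠ ((a⁻¹ : Fˣ) : F)) :
    (Cfsg.indFun ((Cfsg.upperTriangularGL 2 F).comap Matrix.SpecialLinearGroup.toGL) (thS γ)) (bel a c) = γ (a : F) + γ ((a⁻¹ : Fˣ) : F) := by
  obtain ⟨u, hu⟩ := bel_conj a c hne
  rw [hu, indFun_conj]
  exact indFunS_diag γ (bel a 0) rfl rfl hne

theorem RS_bel_unip (γ : MulChar F ℂ) (a : Fˣ) (c : F) (ha : (a : F) = ((a⁻¹ : Fˣ) : F)) (hc : c ≠ 0) :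
    (Cfsg.indFun ((Cfsg.upperTriangularGL 2 F).comap Matrix.SpecialLinearGroup.toGL) (thS γ)) (bel a c) = γ (a : F) :=
  indFunS_unip γ (bel a c) rfl ha hc

theorem RS_bel_central (γ : MulChar F ℂ) (a : Fˣ) (ha : (a : F) = ((a⁻¹ : Fˣ) : F)) :
    (Cfsg.indFun ((Cfsg.upperTriangularGL 2 F).comap Matrix.SpecialLinearGroup.toGL) (thS γ)) (bel a 0) = ((Fintype.card F : ℂ) + 1) * γ (a : F) :=
  indFunS_central γ (bel a 0) rfl rfl ha

theorem exists_mulChar_neg (hodd : Odd (Fintype.card F)) : ∃ α : MulChar F ℂ, α (-1 : F) = -1 := by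
  have hne : (-1 : F) ≠ 1 := by
    intro h
    exact two_ne_zero_of_odd hodd (by linear_combination (-1 : F) * h)
  obtain ⟨χ, hχ⟩ := MulChar.exists_apply_ne_one_of_hasEnoughRootsOfUnity F ℂ hne
  refine ⟨χ, ?_⟩
  have h2 : χ (-1 : F) ^ 2 = 1 := by
    rw [← map_pow, neg_one_sq, map_one]
  have h3 : (χ (-1 : F) - 1) * (χ (-1 : F) + 1) = 0 := by linear_combination h2
  rcases mul_eq_zero.mp h3 with h4 | h4
  · exact absurd (sub_eq_zero.mp h4) hχ
  · exact eq_neg_of_add_eq_zero_left h4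

end tor2

end Cfsg.Agent.Helper12
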