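import Mathlib
import Cfsg.Agent.Helper12.SL2Torus
import Cfsg.Agent.Helper12.SL2IndInner
import Cfsg.Agent.Helper24.CharOdd
import Cfsg.Agent.Helper5.Isom

/-!
# Cuspidal characters of `SL₂` over a finite field of odd order (helper12)

For an element `g` without eigenvectors, a character `θ` of its centraliser `T` (of order `q + 1`)
and a character `α` of the multiplicative group with `α(-1) = θ(-1)`, the class function
`(R(1) - 2) R(α) - Ind_T θ` is an irreducible character of degree `q - 1` when `θ² ≠ 1`.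
-/

set_option autoImplicit false
open Cfsg

namespace Cfsg.Agent.Helper12

open Cfsg.Agent.S2305 (th)
open Cfsg.Agent.S2308 (belG)

section cusp1

variable {F : Type*} [Field F] [Fintype F] [DecidableEq F]

theorem hom_norm {H : Type*} [Group H] [Finite H] (θ : H →* ℂˣ) (c : H) :
    ((θ c : ℂˣ) : ℂ) * starRingEnd ℂ ((θ c : ℂˣ) : ℂ) = 1 := by
  rw [hom_conj, ← Units.val_mul, ← map_mul, mul_inv_cancel, map_one, Units.val_one]

theorem mulChar_unit_norm (α : MulChar F ℂ) (a : Fˣ) : α (a : F) * starRingEnd ℂ (α (a : F)) = 1 := by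
  have hq1 : 1 < Fintype.card F := Fintype.one_lt_card
  have h : (a : F) ^ (Fintype.card F - 1) = 1 := FiniteField.pow_card_sub_one_eq_one (a : F) (Units.ne_zero a)
  have hpow : α (a : F) ^ (Fintype.card F - 1) = 1 := by rw [← map_pow, h, map_one]
  have hnorm := Complex.norm_eq_one_of_pow_eq_one hpow (by omega)
  rw [Complex.mul_conj, Complex.normSq_eq_norm_sq, hnorm]
  norm_num

theorem row_sum (G : F → ℂ) (k : ℂ) (hk : ∀ y : Fˣ, G (y : F) = k) :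
    ∑ c : F, G c = G 0 + ((Fintype.card F : ℂ) - 1) * k := by
  have h1 : ∀ c ∈ Finset.univ.erase (0 : F), G c = k := by
    intro c hc
    have h := hk (Units.mk0 c (Finset.mem_erase.mp hc).1)
    rw [Units.val_mk0] at h
    exact h
  rw [← Finset.add_sum_erase Finset.univ G (Finset.mem_univ (0 : F)), Finset.sum_congr rfl h1,
    Finset.sum_const, Finset.card_erase_of_mem (Finset.mem_univ _), Finset.card_univ, nsmul_eq_mul,
    Nat.cast_sub Fintype.card_pos, Nat.cast_one]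

theorem borel_sum_pm (hodd : Odd (Fintype.card F)) (G : Fˣ → F → ℂ) (A₁ A₂ : ℂ)
    (h0 : ∀ a : Fˣ, (a : F) ≠ ((a⁻¹ : Fˣ) : F) → ∀ c : F, G a c = 0)
    (h1 : ∀ y : Fˣ, G 1 (y : F) = A₁) (h2 : ∀ y : Fˣ, G (-1) (y : F) = A₂) :
    ∑ a : Fˣ, ∑ c : F, G a c = G 1 0 + G (-1) 0 + ((Fintype.card F : ℂ) - 1) * (A₁ + A₂) := by
  have hne : (1 : Fˣ) ≠ -1 := by
    intro h
    have h' : ((1 : Fˣ) : F) = ((-1 : Fˣ) : F) := by rw [← h]
    rw [Units.val_neg, Units.val_one] at h'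
    exact two_ne_zero_of_odd hodd (by linear_combination h')
  have hsub : ∑ a ∈ ({1, -1} : Finset Fˣ), ∑ c : F, G a c = ∑ a : Fˣ, ∑ c : F, G a c := by
    apply Finset.sum_subset (Finset.subset_univ _)
    intro a _ ha
    have hne' : (a : F) ≠ ((a⁻¹ : Fˣ) : F) := by
      intro h
      apply ha
      rcases unit_inv_cases a h with h3 | h3
      · rw [h3]
        exact Finset.mem_insert_self _ _
      · rw [h3]
        exact Finset.mem_insert_of_mem (Finset.mem_singleton_self _)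
    exact Finset.sum_eq_zero (fun c _ => h0 a hne' c)
  rw [← hsub, Finset.sum_pair hne, row_sum (G 1) A₁ h1, row_sum (G (-1)) A₂ h2]
  ring

/-- `(R(1) - 2) R(α)`. -/
noncomputable def psi1 (α : MulChar F ℂ) : (Matrix.SpecialLinearGroup (Fin 2) F) → ℂ := fun x => ((Cfsg.indFun ((Cfsg.upperTriangularGL 2 F).comap Matrix.SpecialLinearGroup.toGL) (thS (1 : MulChar F ℂ))) x - 2) * (Cfsg.indFun ((Cfsg.upperTriangularGL 2 F).comap Matrix.SpecialLinearGroup.toGL) (thS α)) x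

theorem psi1_apply (α : MulChar F ℂ) (x : (Matrix.SpecialLinearGroup (Fin 2) F)) : psi1 α x = ((Cfsg.indFun ((Cfsg.upperTriangularGL 2 F).comap Matrix.SpecialLinearGroup.toGL) (thS (1 : MulChar F ℂ))) x - 2) * (Cfsg.indFun ((Cfsg.upperTriangularGL 2 F).comap Matrix.SpecialLinearGroup.toGL) (thS α)) x := rfl

theorem psi1_conj (α : MulChar F ℂ) (x y : (Matrix.SpecialLinearGroup (Fin 2) F)) : psi1 α (x * y * x⁻¹) = psi1 α y := by
  rw [psi1_apply, psi1_apply, indFun_conj, indFun_conj]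

noncomputable def psi1c (α : MulChar F ℂ) : (Matrix.SpecialLinearGroup (Fin 2) F) → ℂ := fun x => starRingEnd ℂ (psi1 α x)

theorem psi1c_apply (α : MulChar F ℂ) (x : (Matrix.SpecialLinearGroup (Fin 2) F)) : psi1c α x = starRingEnd ℂ (psi1 α x) := rfl

theorem psi1c_conj (α : MulChar F ℂ) (x y : (Matrix.SpecialLinearGroup (Fin 2) F)) : psi1c α (x * y * x⁻¹) = psi1c α y := by
  rw [psi1c_apply, psi1c_apply, psi1_conj]

noncomputable def psi2 (α : MulChar F ℂ) : (Matrix.SpecialLinearGroup (Fin 2) F) → ℂ := fun x => ((Cfsg.indFun ((Cfsg.upperTriangularGL 2 F).comap Matrix.SpecialLinearGroup.toGL) (thS (1 : MulChar F ℂ))) x - 2) * starRingEnd ℂ (psi1 α x)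

theorem psi2_apply (α : MulChar F ℂ) (x : (Matrix.SpecialLinearGroup (Fin 2) F)) : psi2 α x = ((Cfsg.indFun ((Cfsg.upperTriangularGL 2 F).comap Matrix.SpecialLinearGroup.toGL) (thS (1 : MulChar F ℂ))) x - 2) * starRingEnd ℂ (psi1 α x) := rfl

theorem psi2_conj (α : MulChar F ℂ) (x y : (Matrix.SpecialLinearGroup (Fin 2) F)) : psi2 α (x * y * x⁻¹) = psi2 α y := by
  rw [psi2_apply, psi2_apply, psi1_conj, indFun_conj]

theorem psi1_bel_ne (α : MulChar F ℂ) (a : Fˣ) (c : F) (hne : (a : F) ≠ ((a⁻¹ : Fˣ) : F)) : psi1 α (bel a c) = 0 := by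
  rw [psi1_apply, RS_bel_ne (1 : MulChar F ℂ) a c hne, MulChar.one_apply_coe, MulChar.one_apply_coe]
  ring

theorem psi1_bel_unip (α : MulChar F ℂ) (a : Fˣ) (c : F) (ha : (a : F) = ((a⁻¹ : Fˣ) : F)) (hc : c ≠ 0) :
    psi1 α (bel a c) = -α (a : F) := by
  rw [psi1_apply, RS_bel_unip (1 : MulChar F ℂ) a c ha hc, RS_bel_unip α a c ha hc, MulChar.one_apply_coe]
  ring

theorem psi1_bel_central (α : MulChar F ℂ) (a : Fˣ) (ha : (a : F) = ((a⁻¹ : Fˣ) : F)) :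
    psi1 α (bel a 0) = ((Fintype.card F : ℂ) - 1) * (((Fintype.card F : ℂ) + 1) * α (a : F)) := by
  rw [psi1_apply, RS_bel_central (1 : MulChar F ℂ) a ha, RS_bel_central α a ha, MulChar.one_apply_coe]
  ring

theorem psi1_one (α : MulChar F ℂ) : psi1 α 1 = ((Fintype.card F : ℂ) - 1) * ((Fintype.card F : ℂ) + 1) := by
  have h := psi1_bel_central α 1 (by simp)
  rw [bel_one_zero, Units.val_one, map_one, mul_one] at h
  exact h

theorem psi1_ell (α : MulChar F ℂ) (c : (Matrix.SpecialLinearGroup (Fin 2) F)) (hc : (∀ (c₀ : F) (v : Fin 2 → F), v ≠ 0 → (c : (Matrix (Fin 2) (Fin 2) F)).mulVec v ≠ c₀ • v)) : psi1 α c = 0 := by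
  rw [psi1_apply, indFunS_elliptic α c hc, mul_zero]

theorem psi2_bel_ne (α : MulChar F ℂ) (a : Fˣ) (c : F) (hne : (a : F) ≠ ((a⁻¹ : Fˣ) : F)) : psi2 α (bel a c) = 0 := by
  rw [psi2_apply, psi1_bel_ne α a c hne, map_zero, mul_zero]

theorem psi2_bel_unip (α : MulChar F ℂ) (a : Fˣ) (c : F) (ha : (a : F) = ((a⁻¹ : Fˣ) : F)) (hc : c ≠ 0) :
    psi2 α (bel a c) = starRingEnd ℂ (α (a : F)) := by
  rw [psi2_apply, RS_bel_unip (1 : MulChar F ℂ) a c ha hc, MulChar.one_apply_coe, psi1_bel_unip α a c ha hc, map_neg]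
  ring

theorem psi2_bel_central (α : MulChar F ℂ) (a : Fˣ) (ha : (a : F) = ((a⁻¹ : Fˣ) : F)) :
    psi2 α (bel a 0) = ((Fintype.card F : ℂ) - 1) * (((Fintype.card F : ℂ) - 1) * (((Fintype.card F : ℂ) + 1) * starRingEnd ℂ (α (a : F)))) := by
  rw [psi2_apply, RS_bel_central (1 : MulChar F ℂ) a ha, MulChar.one_apply_coe, psi1_bel_central α a ha]
  simp only [map_mul, map_sub, map_add, map_one, map_natCast]
  ring

theorem cusp_N1 (hodd : Odd (Fintype.card F)) (α : MulChar F ℂ) :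
    ∑ x : (Matrix.SpecialLinearGroup (Fin 2) F), psi1 α x * starRingEnd ℂ (psi1 α x) = 2 * (Fintype.card F : ℂ) * ((Fintype.card F : ℂ) * ((Fintype.card F : ℂ) ^ 2 - 1)) := by
  have hstep : ∀ x : (Matrix.SpecialLinearGroup (Fin 2) F), psi1 α x * starRingEnd ℂ (psi1 α x) = (Cfsg.indFun ((Cfsg.upperTriangularGL 2 F).comap Matrix.SpecialLinearGroup.toGL) (thS α)) x * psi2 α x := by
    intro x
    rw [psi2_apply, psi1_apply]
    ring
  have e1 : ((1 : Fˣ) : F) = (((1 : Fˣ)⁻¹ : Fˣ) : F) := by simp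
  have em : (((-1 : Fˣ)) : F) = (((-1 : Fˣ)⁻¹ : Fˣ) : F) := by simp
  have h0 : ∀ a : Fˣ, (a : F) ≠ ((a⁻¹ : Fˣ) : F) → ∀ c : F, α (a : F) * psi2 α (bel a c) = 0 := by
    intro a ha c
    rw [psi2_bel_ne α a c ha, mul_zero]
  have h1 : ∀ y : Fˣ, α ((1 : Fˣ) : F) * psi2 α (bel 1 (y : F)) = 1 := by
    intro y
    rw [psi2_bel_unip α 1 (y : F) e1 (Units.ne_zero y)]
    exact mulChar_unit_norm α 1
  have h2 : ∀ y : Fˣ, α (((-1 : Fˣ)) : F) * psi2 α (bel (-1) (y : F)) = 1 := by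
    intro y
    rw [psi2_bel_unip α (-1) (y : F) em (Units.ne_zero y)]
    exact mulChar_unit_norm α (-1)
  have hB : ∑ a : Fˣ, ∑ c : F, α (a : F) * psi2 α (bel a c) =
      α ((1 : Fˣ) : F) * psi2 α (bel 1 0) + α (((-1 : Fˣ)) : F) * psi2 α (bel (-1) 0) + ((Fintype.card F : ℂ) - 1) * (1 + 1) :=
    borel_sum_pm hodd (fun (a : Fˣ) (c : F) => α (a : F) * psi2 α (bel a c)) 1 1 h0 h1 h2
  rw [Finset.sum_congr rfl (fun x _ => hstep x), sum_RS_mul α (psi2 α) (psi2_conj α), hB,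
    psi2_bel_central α 1 e1, psi2_bel_central α (-1) em]
  linear_combination (((Fintype.card F : ℂ) + 1) * ((Fintype.card F : ℂ) - 1) ^ 2 * ((Fintype.card F : ℂ) + 1)) * mulChar_unit_norm α 1 +
    (((Fintype.card F : ℂ) + 1) * ((Fintype.card F : ℂ) - 1) ^ 2 * ((Fintype.card F : ℂ) + 1)) * mulChar_unit_norm α (-1)

theorem torus_frob (hodd : Odd (Fintype.card F)) (g : (Matrix.SpecialLinearGroup (Fin 2) F)) (hg : (∀ (c₀ : F) (v : Fin 2 → F), v ≠ 0 → (g : (Matrix (Fin 2) (Fin 2) F)).mulVec v ≠ c₀ • v)) [Fintype ↥(Subgroup.centralizer ({g} : Set (Matrix.SpecialLinearGroup (Fin 2) F)))]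
    (θ' : ↥(Subgroup.centralizer ({g} : Set (Matrix.SpecialLinearGroup (Fin 2) F))) → ℂ) (ψ : (Matrix.SpecialLinearGroup (Fin 2) F) → ℂ) (hψ : ∀ x y : (Matrix.SpecialLinearGroup (Fin 2) F), ψ (x * y * x⁻¹) = ψ y) :
    ∑ x : (Matrix.SpecialLinearGroup (Fin 2) F), Cfsg.indFun (Subgroup.centralizer ({g} : Set (Matrix.SpecialLinearGroup (Fin 2) F))) θ' x * ψ x = (Fintype.card F : ℂ) * ((Fintype.card F : ℂ) - 1) * ∑ c : ↥(Subgroup.centralizer ({g} : Set (Matrix.SpecialLinearGroup (Fin 2) F))), θ' c * ψ (c : (Matrix.SpecialLinearGroup (Fin 2) F)) := by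
  have hq : ((Fintype.card F : ℂ) + 1) ≠ 0 := by exact_mod_cast Nat.succ_ne_zero (Fintype.card F)
  rw [sum_indFun_mul _ _ ψ hψ, Helper24.sum_extendByZero_mul, torus_card hodd g hg, card_SL_complex]
  push_cast
  rw [inv_mul_eq_div, div_eq_iff hq]
  ring

/-- The function induced from the character `θ` of the torus. -/
noncomputable def torI (g : (Matrix.SpecialLinearGroup (Fin 2) F)) (θ : ↥(Subgroup.centralizer ({g} : Set (Matrix.SpecialLinearGroup (Fin 2) F))) →* ℂˣ) : (Matrix.SpecialLinearGroup (Fin 2) F) → ℂ :=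
  Cfsg.indFun (Subgroup.centralizer ({g} : Set (Matrix.SpecialLinearGroup (Fin 2) F))) (fun c => ((θ c : ℂˣ) : ℂ))

theorem torI_conj (g : (Matrix.SpecialLinearGroup (Fin 2) F)) (θ : ↥(Subgroup.centralizer ({g} : Set (Matrix.SpecialLinearGroup (Fin 2) F))) →* ℂˣ) (x y : (Matrix.SpecialLinearGroup (Fin 2) F)) : torI g θ (x * y * x⁻¹) = torI g θ y :=
  indFun_conj _ _ x y

noncomputable def torIc (g : (Matrix.SpecialLinearGroup (Fin 2) F)) (θ : ↥(Subgroup.centralizer ({g} : Set (Matrix.SpecialLinearGroup (Fin 2) F))) →* ℂˣ) : (Matrix.SpecialLinearGroup (Fin 2) F) → ℂ := fun x => starRingEnd ℂ (torI g θ x)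

theorem torIc_apply (g : (Matrix.SpecialLinearGroup (Fin 2) F)) (θ : ↥(Subgroup.centralizer ({g} : Set (Matrix.SpecialLinearGroup (Fin 2) F))) →* ℂˣ) (x : (Matrix.SpecialLinearGroup (Fin 2) F)) : torIc g θ x = starRingEnd ℂ (torI g θ x) := rfl

theorem torIc_conj (g : (Matrix.SpecialLinearGroup (Fin 2) F)) (θ : ↥(Subgroup.centralizer ({g} : Set (Matrix.SpecialLinearGroup (Fin 2) F))) →* ℂˣ) (x y : (Matrix.SpecialLinearGroup (Fin 2) F)) : torIc g θ (x * y * x⁻¹) = torIc g θ y := by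
  rw [torIc_apply, torIc_apply, torI_conj]

theorem torI_ell (hodd : Odd (Fintype.card F)) (g : (Matrix.SpecialLinearGroup (Fin 2) F)) (hg : (∀ (c₀ : F) (v : Fin 2 → F), v ≠ 0 → (g : (Matrix (Fin 2) (Fin 2) F)).mulVec v ≠ c₀ • v)) (θ : ↥(Subgroup.centralizer ({g} : Set (Matrix.SpecialLinearGroup (Fin 2) F))) →* ℂˣ) (c : ↥(Subgroup.centralizer ({g} : Set (Matrix.SpecialLinearGroup (Fin 2) F))))
    (hc : (∀ (c₀ : F) (v : Fin 2 → F), v ≠ 0 → ((c : (Matrix.SpecialLinearGroup (Fin 2) F)) : (Matrix (Fin 2) (Fin 2) F)).mulVec v ≠ c₀ • v)) : torI g θ (c : (Matrix.SpecialLinearGroup (Fin 2) F)) = ((θ c : ℂˣ) : ℂ) + ((θ c⁻¹ : ℂˣ) : ℂ) :=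
  indFun_torus hodd g hg _ (c : (Matrix.SpecialLinearGroup (Fin 2) F)) c.2 hc

theorem torI_one (hodd : Odd (Fintype.card F)) (g : (Matrix.SpecialLinearGroup (Fin 2) F)) (hg : (∀ (c₀ : F) (v : Fin 2 → F), v ≠ 0 → (g : (Matrix (Fin 2) (Fin 2) F)).mulVec v ≠ c₀ • v)) (θ : ↥(Subgroup.centralizer ({g} : Set (Matrix.SpecialLinearGroup (Fin 2) F))) →* ℂˣ) :
    torI g θ 1 = (Fintype.card F : ℂ) * ((Fintype.card F : ℂ) - 1) := by
  have h : torI g θ 1 = (Fintype.card F : ℂ) * ((Fintype.card F : ℂ) - 1) * ((θ (⟨1, one_mem _⟩ : ↥(Subgroup.centralizer ({g} : Set (Matrix.SpecialLinearGroup (Fin 2) F)))) : ℂˣ) : ℂ) :=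
    indFun_torus_central hodd g hg _ 1 (fun x => by rw [mul_one, one_mul]) (one_mem _)
  have e : (⟨1, one_mem _⟩ : ↥(Subgroup.centralizer ({g} : Set (Matrix.SpecialLinearGroup (Fin 2) F)))) = 1 := rfl
  rw [h, e, map_one, Units.val_one, mul_one]

theorem torI_neg (hodd : Odd (Fintype.card F)) (g : (Matrix.SpecialLinearGroup (Fin 2) F)) (hg : (∀ (c₀ : F) (v : Fin 2 → F), v ≠ 0 → (g : (Matrix (Fin 2) (Fin 2) F)).mulVec v ≠ c₀ • v)) (θ : ↥(Subgroup.centralizer ({g} : Set (Matrix.SpecialLinearGroup (Fin 2) F))) →* ℂˣ) :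
    torI g θ (bel (-1 : Fˣ) (0 : F)) = (Fintype.card F : ℂ) * ((Fintype.card F : ℂ) - 1) * ((θ (⟨(bel (-1 : Fˣ) (0 : F)), bel_neg_mem_torus g⟩ : ↥(Subgroup.centralizer ({g} : Set (Matrix.SpecialLinearGroup (Fin 2) F)))) : ℂˣ) : ℂ) :=
  indFun_torus_central hodd g hg _ (bel (-1 : Fˣ) (0 : F)) (fun x => bel_neg_one_central x) (bel_neg_mem_torus g)

theorem torI_tri (g : (Matrix.SpecialLinearGroup (Fin 2) F)) (hg : (∀ (c₀ : F) (v : Fin 2 → F), v ≠ 0 → (g : (Matrix (Fin 2) (Fin 2) F)).mulVec v ≠ c₀ • v)) (θ : ↥(Subgroup.centralizer ({g} : Set (Matrix.SpecialLinearGroup (Fin 2) F))) →* ℂˣ) (g' : (Matrix.SpecialLinearGroup (Fin 2) F))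
    (h10 : (g' : (Matrix (Fin 2) (Fin 2) F)) 1 0 = 0) (hns : (g' : (Matrix (Fin 2) (Fin 2) F)) 0 1 ≠ 0 ∨ (g' : (Matrix (Fin 2) (Fin 2) F)) 0 0 ≠ (g' : (Matrix (Fin 2) (Fin 2) F)) 1 1) :
    torI g θ g' = 0 :=
  indFun_torus_tri g hg _ g' h10 hns

theorem hom_neg_sq (g : (Matrix.SpecialLinearGroup (Fin 2) F)) (θ : ↥(Subgroup.centralizer ({g} : Set (Matrix.SpecialLinearGroup (Fin 2) F))) →* ℂˣ) : ((θ (⟨(bel (-1 : Fˣ) (0 : F)), bel_neg_mem_torus g⟩ : ↥(Subgroup.centralizer ({g} : Set (Matrix.SpecialLinearGroup (Fin 2) F)))) : ℂˣ) : ℂ) ^ 2 = 1 := by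
  have e : (⟨(bel (-1 : Fˣ) (0 : F)), bel_neg_mem_torus g⟩ : ↥(Subgroup.centralizer ({g} : Set (Matrix.SpecialLinearGroup (Fin 2) F)))) ^ 2 = 1 := by
    rw [sq]
    exact Subtype.ext bel_neg_one_sq
  rw [← Units.val_pow_eq_pow_val, ← map_pow, e, map_one, Units.val_one]

theorem cusp_N2 (hodd : Odd (Fintype.card F)) (g : (Matrix.SpecialLinearGroup (Fin 2) F)) (hg : (∀ (c₀ : F) (v : Fin 2 → F), v ≠ 0 → (g : (Matrix (Fin 2) (Fin 2) F)).mulVec v ≠ c₀ • v)) (θ : ↥(Subgroup.centralizer ({g} : Set (Matrix.SpecialLinearGroup (Fin 2) F))) →* ℂˣ) (α : MulChar F ℂ)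
    (hα : α (((-1 : Fˣ)) : F) = ((θ (⟨(bel (-1 : Fˣ) (0 : F)), bel_neg_mem_torus g⟩ : ↥(Subgroup.centralizer ({g} : Set (Matrix.SpecialLinearGroup (Fin 2) F)))) : ℂˣ) : ℂ)) :
    ∑ x : (Matrix.SpecialLinearGroup (Fin 2) F), torI g θ x * starRingEnd ℂ (psi1 α x) = 2 * ((Fintype.card F : ℂ) - 1) * ((Fintype.card F : ℂ) * ((Fintype.card F : ℂ) ^ 2 - 1)) := by
  classical
  haveI : Fintype ↥(Subgroup.centralizer ({g} : Set (Matrix.SpecialLinearGroup (Fin 2) F))) := Fintype.ofFinite _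
  have hF : ∀ c : ↥(Subgroup.centralizer ({g} : Set (Matrix.SpecialLinearGroup (Fin 2) F))), (∀ (c₀ : F) (v : Fin 2 → F), v ≠ 0 → ((c : (Matrix.SpecialLinearGroup (Fin 2) F)) : (Matrix (Fin 2) (Fin 2) F)).mulVec v ≠ c₀ • v) → ((θ c : ℂˣ) : ℂ) * psi1c α (c : (Matrix.SpecialLinearGroup (Fin 2) F)) = 0 := by
    intro c hc
    rw [psi1c_apply, psi1_ell α _ hc, map_zero, mul_zero]
  have hsum : ∑ c : ↥(Subgroup.centralizer ({g} : Set (Matrix.SpecialLinearGroup (Fin 2) F))), ((θ c : ℂˣ) : ℂ) * psi1c α (c : (Matrix.SpecialLinearGroup (Fin 2) F)) =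
      ((θ (⟨1, one_mem _⟩ : ↥(Subgroup.centralizer ({g} : Set (Matrix.SpecialLinearGroup (Fin 2) F)))) : ℂˣ) : ℂ) * psi1c α 1 + ((θ (⟨(bel (-1 : Fˣ) (0 : F)), bel_neg_mem_torus g⟩ : ↥(Subgroup.centralizer ({g} : Set (Matrix.SpecialLinearGroup (Fin 2) F)))) : ℂˣ) : ℂ) * psi1c α (bel (-1 : Fˣ) (0 : F)) :=
    torus_sum_central hodd g hg (fun c => ((θ c : ℂˣ) : ℂ) * psi1c α (c : (Matrix.SpecialLinearGroup (Fin 2) F))) hF
  have hstep : ∑ x : (Matrix.SpecialLinearGroup (Fin 2) F), torI g θ x * starRingEnd ℂ (psi1 α x) =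
      (Fintype.card F : ℂ) * ((Fintype.card F : ℂ) - 1) * ∑ c : ↥(Subgroup.centralizer ({g} : Set (Matrix.SpecialLinearGroup (Fin 2) F))), ((θ c : ℂˣ) : ℂ) * psi1c α (c : (Matrix.SpecialLinearGroup (Fin 2) F)) :=
    torus_frob hodd g hg (fun c => ((θ c : ℂˣ) : ℂ)) (psi1c α) (psi1c_conj α)
  have e : (⟨1, one_mem _⟩ : ↥(Subgroup.centralizer ({g} : Set (Matrix.SpecialLinearGroup (Fin 2) F)))) = 1 := rfl
  have em : (((-1 : Fˣ)) : F) = (((-1 : Fˣ)⁻¹ : Fˣ) : F) := by simp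
  rw [hstep, hsum, psi1c_apply, psi1c_apply, psi1_one, psi1_bel_central α (-1) em, hα, e, map_one, Units.val_one]
  simp only [map_mul, map_sub, map_add, map_one, map_natCast]
  linear_combination ((Fintype.card F : ℂ) * ((Fintype.card F : ℂ) - 1) * ((Fintype.card F : ℂ) - 1) * ((Fintype.card F : ℂ) + 1)) * hom_norm θ (⟨(bel (-1 : Fˣ) (0 : F)), bel_neg_mem_torus g⟩ : ↥(Subgroup.centralizer ({g} : Set (Matrix.SpecialLinearGroup (Fin 2) F))))

theorem cusp_N3 (hodd : Odd (Fintype.card F)) (g : (Matrix.SpecialLinearGroup (Fin 2) F)) (hg : (∀ (c₀ : F) (v : Fin 2 → F), v ≠ 0 → (g : (Matrix (Fin 2) (Fin 2) F)).mulVec v ≠ c₀ • v)) (θ : ↥(Subgroup.centralizer ({g} : Set (Matrix.SpecialLinearGroup (Fin 2) F))) →* ℂˣ)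
    (hθ : ∃ c : ↥(Subgroup.centralizer ({g} : Set (Matrix.SpecialLinearGroup (Fin 2) F))), θ c ^ 2 ≠ 1) :
    ∑ x : (Matrix.SpecialLinearGroup (Fin 2) F), torI g θ x * starRingEnd ℂ (torI g θ x) = (2 * (Fintype.card F : ℂ) - 3) * ((Fintype.card F : ℂ) * ((Fintype.card F : ℂ) ^ 2 - 1)) := by
  classical
  haveI : Fintype ↥(Subgroup.centralizer ({g} : Set (Matrix.SpecialLinearGroup (Fin 2) F))) := Fintype.ofFinite _
  have hstep : ∑ x : (Matrix.SpecialLinearGroup (Fin 2) F), torI g θ x * starRingEnd ℂ (torI g θ x) =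
      (Fintype.card F : ℂ) * ((Fintype.card F : ℂ) - 1) * ∑ c : ↥(Subgroup.centralizer ({g} : Set (Matrix.SpecialLinearGroup (Fin 2) F))), ((θ c : ℂˣ) : ℂ) * torIc g θ (c : (Matrix.SpecialLinearGroup (Fin 2) F)) :=
    torus_frob hodd g hg (fun c => ((θ c : ℂˣ) : ℂ)) (torIc g θ) (torIc_conj g θ)
  have hD : ∀ c : ↥(Subgroup.centralizer ({g} : Set (Matrix.SpecialLinearGroup (Fin 2) F))), (∀ (c₀ : F) (v : Fin 2 → F), v ≠ 0 → ((c : (Matrix.SpecialLinearGroup (Fin 2) F)) : (Matrix (Fin 2) (Fin 2) F)).mulVec v ≠ c₀ • v) → ((θ c : ℂˣ) : ℂ) * torIc g θ (c : (Matrix.SpecialLinearGroup (Fin 2) F)) - (1 + ((θ c : ℂˣ) : ℂ) ^ 2) = 0 := by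
    intro c hc
    have h2 : ((θ c : ℂˣ) : ℂ) * ((θ c⁻¹ : ℂˣ) : ℂ) = 1 := by
      rw [← Units.val_mul, ← map_mul, mul_inv_cancel, map_one, Units.val_one]
    rw [torIc_apply, torI_ell hodd g hg θ c hc, map_add, hom_conj θ c, hom_conj θ c⁻¹, inv_inv]
    linear_combination h2
  have hsumD : ∑ c : ↥(Subgroup.centralizer ({g} : Set (Matrix.SpecialLinearGroup (Fin 2) F))), (((θ c : ℂˣ) : ℂ) * torIc g θ (c : (Matrix.SpecialLinearGroup (Fin 2) F)) - (1 + ((θ c : ℂˣ) : ℂ) ^ 2)) =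
      (((θ (⟨1, one_mem _⟩ : ↥(Subgroup.centralizer ({g} : Set (Matrix.SpecialLinearGroup (Fin 2) F)))) : ℂˣ) : ℂ) * torIc g θ 1 - (1 + ((θ (⟨1, one_mem _⟩ : ↥(Subgroup.centralizer ({g} : Set (Matrix.SpecialLinearGroup (Fin 2) F)))) : ℂˣ) : ℂ) ^ 2)) +
      (((θ (⟨(bel (-1 : Fˣ) (0 : F)), bel_neg_mem_torus g⟩ : ↥(Subgroup.centralizer ({g} : Set (Matrix.SpecialLinearGroup (Fin 2) F)))) : ℂˣ) : ℂ) * torIc g θ (bel (-1 : Fˣ) (0 : F)) - (1 + ((θ (⟨(bel (-1 : Fˣ) (0 : F)), bel_neg_mem_torus g⟩ : ↥(Subgroup.centralizer ({g} : Set (Matrix.SpecialLinearGroup (Fin 2) F)))) : ℂˣ) : ℂ) ^ 2)) :=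
    torus_sum_central hodd g hg (fun c => ((θ c : ℂˣ) : ℂ) * torIc g θ (c : (Matrix.SpecialLinearGroup (Fin 2) F)) - (1 + ((θ c : ℂˣ) : ℂ) ^ 2)) hD
  have hne : (Units.coeHom ℂ).comp (θ * θ) ≠ 1 := by
    intro h
    obtain ⟨c, hc⟩ := hθ
    apply hc
    have h1 := DFunLike.congr_fun h c
    rw [MonoidHom.comp_apply, MonoidHom.mul_apply, MonoidHom.one_apply, Units.coeHom_apply] at h1
    rw [sq]
    exact Units.ext (by rw [h1, Units.val_one])
  have hzero : ∑ c : ↥(Subgroup.centralizer ({g} : Set (Matrix.SpecialLinearGroup (Fin 2) F))), ((θ c : ℂˣ) : ℂ) ^ 2 = 0 := by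
    rw [← sum_hom_units_eq_zero _ hne]
    refine Finset.sum_congr rfl (fun c _ => ?_)
    rw [MonoidHom.comp_apply, MonoidHom.mul_apply, Units.coeHom_apply, Units.val_mul, sq]
  have hcard : (Fintype.card ↥(Subgroup.centralizer ({g} : Set (Matrix.SpecialLinearGroup (Fin 2) F))) : ℂ) = (Fintype.card F : ℂ) + 1 := by
    rw [← Nat.card_eq_fintype_card, torus_card hodd g hg]
    push_cast
    rfl
  have hsplit : ∑ c : ↥(Subgroup.centralizer ({g} : Set (Matrix.SpecialLinearGroup (Fin 2) F))), ((θ c : ℂˣ) : ℂ) * torIc g θ (c : (Matrix.SpecialLinearGroup (Fin 2) F)) =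
      ∑ c : ↥(Subgroup.centralizer ({g} : Set (Matrix.SpecialLinearGroup (Fin 2) F))), (((θ c : ℂˣ) : ℂ) * torIc g θ (c : (Matrix.SpecialLinearGroup (Fin 2) F)) - (1 + ((θ c : ℂˣ) : ℂ) ^ 2)) + (((Fintype.card F : ℂ) + 1) + 0) := by
    rw [← hzero, ← hcard, Finset.sum_sub_distrib, Finset.sum_add_distrib, Finset.sum_const, Finset.card_univ,
      nsmul_eq_mul, mul_one]
    ring
  have e : (⟨1, one_mem _⟩ : ↥(Subgroup.centralizer ({g} : Set (Matrix.SpecialLinearGroup (Fin 2) F)))) = 1 := rfl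
  rw [hstep, hsplit, hsumD, torIc_apply, torIc_apply, torI_one hodd g hg θ, torI_neg hodd g hg θ, e, map_one, Units.val_one]
  simp only [map_mul, map_sub, map_add, map_one, map_natCast]
  linear_combination ((Fintype.card F : ℂ) * ((Fintype.card F : ℂ) - 1) * ((Fintype.card F : ℂ) * ((Fintype.card F : ℂ) - 1))) * hom_norm θ (⟨(bel (-1 : Fˣ) (0 : F)), bel_neg_mem_torus g⟩ : ↥(Subgroup.centralizer ({g} : Set (Matrix.SpecialLinearGroup (Fin 2) F)))) - ((Fintype.card F : ℂ) * ((Fintype.card F : ℂ) - 1)) * hom_neg_sq g θ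

/-- The cuspidal class function attached to `θ`. -/
noncomputable def cuspF (g : (Matrix.SpecialLinearGroup (Fin 2) F)) (θ : ↥(Subgroup.centralizer ({g} : Set (Matrix.SpecialLinearGroup (Fin 2) F))) →* ℂˣ) (α : MulChar F ℂ) : (Matrix.SpecialLinearGroup (Fin 2) F) → ℂ :=
  fun x => psi1 α x - torI g θ x

theorem cuspF_apply (g : (Matrix.SpecialLinearGroup (Fin 2) F)) (θ : ↥(Subgroup.centralizer ({g} : Set (Matrix.SpecialLinearGroup (Fin 2) F))) →* ℂˣ) (α : MulChar F ℂ) (x : (Matrix.SpecialLinearGroup (Fin 2) F)) :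
    cuspF g θ α x = psi1 α x - torI g θ x := rfl

theorem cuspF_genChar (g : (Matrix.SpecialLinearGroup (Fin 2) F)) (θ : ↥(Subgroup.centralizer ({g} : Set (Matrix.SpecialLinearGroup (Fin 2) F))) →* ℂˣ) (α : MulChar F ℂ) :
    Cfsg.IsGeneralizedCharacter (Matrix.SpecialLinearGroup (Fin 2) F) (cuspF g θ α) := by
  refine ⟨(Cfsg.indFun ((Cfsg.upperTriangularGL 2 F).comap Matrix.SpecialLinearGroup.toGL) (thS (1 : MulChar F ℂ))) * (Cfsg.indFun ((Cfsg.upperTriangularGL 2 F).comap Matrix.SpecialLinearGroup.toGL) (thS α)), (Cfsg.indFun ((Cfsg.upperTriangularGL 2 F).comap Matrix.SpecialLinearGroup.toGL) (thS α)) + (Cfsg.indFun ((Cfsg.upperTriangularGL 2 F).comap Matrix.SpecialLinearGroup.toGL) (thS α)) + torI g θ, Helper5.isCharacter_mul (RS_isChar 1) (RS_isChar α),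
    Helper24.isCharacter_add (Helper24.isCharacter_add (RS_isChar α) (RS_isChar α))
      (Helper24.isCharacter_induced _ _ (Helper24.isCharacter_of_isIrrCharacter (isIrrCharacter_of_hom' θ))), ?_⟩
  funext x
  show ((Cfsg.indFun ((Cfsg.upperTriangularGL 2 F).comap Matrix.SpecialLinearGroup.toGL) (thS (1 : MulChar F ℂ))) x - 2) * (Cfsg.indFun ((Cfsg.upperTriangularGL 2 F).comap Matrix.SpecialLinearGroup.toGL) (thS α)) x - torI g θ x = (Cfsg.indFun ((Cfsg.upperTriangularGL 2 F).comap Matrix.SpecialLinearGroup.toGL) (thS (1 : MulChar F ℂ))) x * (Cfsg.indFun ((Cfsg.upperTriangularGL 2 F).comap Matrix.SpecialLinearGroup.toGL) (thS α)) x - ((Cfsg.indFun ((Cfsg.upperTriangularGL 2 F).comap Matrix.SpecialLinearGroup.toGL) (thS α)) x + (Cfsg.indFun ((Cfsg.upperTriangularGL 2 F).comap Matrix.SpecialLinearGroup.toGL) (thS α)) x + torI g θ x)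
  ring

theorem cuspF_norm (hodd : Odd (Fintype.card F)) (g : (Matrix.SpecialLinearGroup (Fin 2) F)) (hg : (∀ (c₀ : F) (v : Fin 2 → F), v ≠ 0 → (g : (Matrix (Fin 2) (Fin 2) F)).mulVec v ≠ c₀ • v)) (θ : ↥(Subgroup.centralizer ({g} : Set (Matrix.SpecialLinearGroup (Fin 2) F))) →* ℂˣ)
    (hθ : ∃ c : ↥(Subgroup.centralizer ({g} : Set (Matrix.SpecialLinearGroup (Fin 2) F))), θ c ^ 2 ≠ 1) (α : MulChar F ℂ) (hα : α (((-1 : Fˣ)) : F) = ((θ (⟨(bel (-1 : Fˣ) (0 : F)), bel_neg_mem_torus g⟩ : ↥(Subgroup.centralizer ({g} : Set (Matrix.SpecialLinearGroup (Fin 2) F)))) : ℂˣ) : ℂ)) :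
    Cfsg.classInner (cuspF g θ α) (cuspF g θ α) = 1 := by
  have h1 := cusp_N1 hodd α
  have h2 := cusp_N2 hodd g hg θ α hα
  have h3 := cusp_N3 hodd g hg θ hθ
  have h2' : ∑ x : (Matrix.SpecialLinearGroup (Fin 2) F), psi1 α x * starRingEnd ℂ (torI g θ x) = 2 * ((Fintype.card F : ℂ) - 1) * ((Fintype.card F : ℂ) * ((Fintype.card F : ℂ) ^ 2 - 1)) := by
    have e : ∑ x : (Matrix.SpecialLinearGroup (Fin 2) F), psi1 α x * starRingEnd ℂ (torI g θ x) =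
        starRingEnd ℂ (∑ x : (Matrix.SpecialLinearGroup (Fin 2) F), torI g θ x * starRingEnd ℂ (psi1 α x)) := by
      rw [map_sum]
      refine Finset.sum_congr rfl (fun x _ => ?_)
      rw [map_mul, Complex.conj_conj, mul_comm]
    rw [e, h2]
    simp only [map_mul, map_sub, map_pow, map_one, map_natCast, map_ofNat]
  have hexp : ∀ x : (Matrix.SpecialLinearGroup (Fin 2) F), cuspF g θ α x * starRingEnd ℂ (cuspF g θ α x) =
      psi1 α x * starRingEnd ℂ (psi1 α x) - psi1 α x * starRingEnd ℂ (torI g θ x) - torI g θ x * starRingEnd ℂ (psi1 α x) +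
        torI g θ x * starRingEnd ℂ (torI g θ x) := by
    intro x
    rw [cuspF_apply, map_sub]
    ring
  have hq0 : (Fintype.card F : ℂ) ≠ 0 := Nat.cast_ne_zero.mpr Fintype.card_ne_zero
  have hq1 : (Fintype.card F : ℂ) - 1 ≠ 0 := card_sub_one_ne_zero
  have hq2 : (Fintype.card F : ℂ) + 1 ≠ 0 := by exact_mod_cast Nat.succ_ne_zero (Fintype.card F)
  have hne : (Fintype.card F : ℂ) * ((Fintype.card F : ℂ) ^ 2 - 1) ≠ 0 := by
    have e : (Fintype.card F : ℂ) ^ 2 - 1 = ((Fintype.card F : ℂ) - 1) * ((Fintype.card F : ℂ) + 1) := by ring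
    rw [e]
    exact mul_ne_zero hq0 (mul_ne_zero hq1 hq2)
  unfold Cfsg.classInner
  rw [Finset.sum_congr rfl (fun x _ => hexp x), Finset.sum_add_distrib, Finset.sum_sub_distrib, Finset.sum_sub_distrib,
    h1, h2', h2, h3, Nat.card_eq_fintype_card, card_SL_complex, inv_mul_eq_div, div_eq_iff hne]
  ring

theorem cuspF_one (hodd : Odd (Fintype.card F)) (g : (Matrix.SpecialLinearGroup (Fin 2) F)) (hg : (∀ (c₀ : F) (v : Fin 2 → F), v ≠ 0 → (g : (Matrix (Fin 2) (Fin 2) F)).mulVec v ≠ c₀ • v)) (θ : ↥(Subgroup.centralizer ({g} : Set (Matrix.SpecialLinearGroup (Fin 2) F))) →* ℂˣ) (α : MulChar F ℂ) :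
    cuspF g θ α 1 = (Fintype.card F : ℂ) - 1 := by
  rw [cuspF_apply, psi1_one, torI_one hodd g hg θ]
  ring

theorem cuspF_irr (hodd : Odd (Fintype.card F)) (g : (Matrix.SpecialLinearGroup (Fin 2) F)) (hg : (∀ (c₀ : F) (v : Fin 2 → F), v ≠ 0 → (g : (Matrix (Fin 2) (Fin 2) F)).mulVec v ≠ c₀ • v)) (θ : ↥(Subgroup.centralizer ({g} : Set (Matrix.SpecialLinearGroup (Fin 2) F))) →* ℂˣ)
    (hθ : ∃ c : ↥(Subgroup.centralizer ({g} : Set (Matrix.SpecialLinearGroup (Fin 2) F))), θ c ^ 2 ≠ 1) (α : MulChar F ℂ) (hα : α (((-1 : Fˣ)) : F) = ((θ (⟨(bel (-1 : Fˣ) (0 : F)), bel_neg_mem_torus g⟩ : ↥(Subgroup.centralizer ({g} : Set (Matrix.SpecialLinearGroup (Fin 2) F)))) : ℂˣ) : ℂ)) :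
    Cfsg.IsIrrCharacter (Matrix.SpecialLinearGroup (Fin 2) F) (cuspF g θ α) := by
  obtain ⟨μ, h | h⟩ := Helper24.genChar_norm_one (cuspF_genChar g θ α) (cuspF_norm hodd g hg θ hθ α hα)
  · rw [h]
    exact μ.2
  · exfalso
    obtain ⟨n, hn⟩ := Helper24.irr_one_eq_natCast μ
    have h1 := congrFun h 1
    rw [cuspF_one hodd g hg θ α] at h1
    have h3 : (-(μ : (Matrix.SpecialLinearGroup (Fin 2) F) → ℂ)) 1 = -((μ : (Matrix.SpecialLinearGroup (Fin 2) F) → ℂ) 1) := rfl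
    rw [h3, hn] at h1
    have h2 : ((Fintype.card F + n : ℕ) : ℂ) = ((1 : ℕ) : ℂ) := by
      push_cast
      linear_combination h1
    have h4 : Fintype.card F + n = 1 := by exact_mod_cast h2
    have h5 : 1 < Fintype.card F := Fintype.one_lt_card
    omega

theorem cuspF_neg (hodd : Odd (Fintype.card F)) (g : (Matrix.SpecialLinearGroup (Fin 2) F)) (hg : (∀ (c₀ : F) (v : Fin 2 → F), v ≠ 0 → (g : (Matrix (Fin 2) (Fin 2) F)).mulVec v ≠ c₀ • v)) (θ : ↥(Subgroup.centralizer ({g} : Set (Matrix.SpecialLinearGroup (Fin 2) F))) →* ℂˣ) (α : MulChar F ℂ)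
    (hα : α (((-1 : Fˣ)) : F) = ((θ (⟨(bel (-1 : Fˣ) (0 : F)), bel_neg_mem_torus g⟩ : ↥(Subgroup.centralizer ({g} : Set (Matrix.SpecialLinearGroup (Fin 2) F)))) : ℂˣ) : ℂ)) :
    cuspF g θ α (bel (-1 : Fˣ) (0 : F)) = ((Fintype.card F : ℂ) - 1) * ((θ (⟨(bel (-1 : Fˣ) (0 : F)), bel_neg_mem_torus g⟩ : ↥(Subgroup.centralizer ({g} : Set (Matrix.SpecialLinearGroup (Fin 2) F)))) : ℂˣ) : ℂ) := by
  have em : (((-1 : Fˣ)) : F) = (((-1 : Fˣ)⁻¹ : Fˣ) : F) := by simp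
  rw [cuspF_apply, psi1_bel_central α (-1) em, torI_neg hodd g hg θ, hα]
  ring

theorem cuspF_ell (hodd : Odd (Fintype.card F)) (g : (Matrix.SpecialLinearGroup (Fin 2) F)) (hg : (∀ (c₀ : F) (v : Fin 2 → F), v ≠ 0 → (g : (Matrix (Fin 2) (Fin 2) F)).mulVec v ≠ c₀ • v)) (θ : ↥(Subgroup.centralizer ({g} : Set (Matrix.SpecialLinearGroup (Fin 2) F))) →* ℂˣ) (α : MulChar F ℂ)
    (c : ↥(Subgroup.centralizer ({g} : Set (Matrix.SpecialLinearGroup (Fin 2) F)))) (hc : (∀ (c₀ : F) (v : Fin 2 → F), v ≠ 0 → ((c : (Matrix.SpecialLinearGroup (Fin 2) F)) : (Matrix (Fin 2) (Fin 2) F)).mulVec v ≠ c₀ • v)) :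
    cuspF g θ α (c : (Matrix.SpecialLinearGroup (Fin 2) F)) = -(((θ c : ℂˣ) : ℂ) + (((θ c)⁻¹ : ℂˣ) : ℂ)) := by
  rw [cuspF_apply, psi1_ell α _ hc, torI_ell hodd g hg θ c hc, map_inv]
  ring

theorem cuspF_diag (g : (Matrix.SpecialLinearGroup (Fin 2) F)) (hg : (∀ (c₀ : F) (v : Fin 2 → F), v ≠ 0 → (g : (Matrix (Fin 2) (Fin 2) F)).mulVec v ≠ c₀ • v)) (θ : ↥(Subgroup.centralizer ({g} : Set (Matrix.SpecialLinearGroup (Fin 2) F))) →* ℂˣ) (α : MulChar F ℂ) (g' : (Matrix.SpecialLinearGroup (Fin 2) F))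
    (h01 : (g' : (Matrix (Fin 2) (Fin 2) F)) 0 1 = 0) (h10 : (g' : (Matrix (Fin 2) (Fin 2) F)) 1 0 = 0) (hsq : (g' : (Matrix (Fin 2) (Fin 2) F)) 0 0 ^ 2 ≠ 1) :
    cuspF g θ α g' = 0 := by
  have hdet := g'.det_coe
  rw [Matrix.det_fin_two, h01, zero_mul, sub_zero] at hdet
  have hne : (g' : (Matrix (Fin 2) (Fin 2) F)) 0 0 ≠ (g' : (Matrix (Fin 2) (Fin 2) F)) 1 1 := by
    intro h
    apply hsq
    rw [← h] at hdet
    rw [sq]
    exact hdet
  have hu0 : IsUnit ((g' : (Matrix (Fin 2) (Fin 2) F)) 0 0) := IsUnit.mk0 _ (left_ne_zero_of_mul_eq_one hdet)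
  have hu1 : IsUnit ((g' : (Matrix (Fin 2) (Fin 2) F)) 1 1) := IsUnit.mk0 _ (right_ne_zero_of_mul_eq_one hdet)
  rw [cuspF_apply, psi1_apply, indFunS_diag (1 : MulChar F ℂ) g' h01 h10 hne, MulChar.one_apply hu0, MulChar.one_apply hu1,
    torI_tri g hg θ g' h10 (Or.inr hne)]
  ring

theorem cuspF_unip (g : (Matrix.SpecialLinearGroup (Fin 2) F)) (hg : (∀ (c₀ : F) (v : Fin 2 → F), v ≠ 0 → (g : (Matrix (Fin 2) (Fin 2) F)).mulVec v ≠ c₀ • v)) (θ : ↥(Subgroup.centralizer ({g} : Set (Matrix.SpecialLinearGroup (Fin 2) F))) →* ℂˣ) (α : MulChar F ℂ) (g' : (Matrix.SpecialLinearGroup (Fin 2) F))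
    (h10 : (g' : (Matrix (Fin 2) (Fin 2) F)) 1 0 = 0) (h00 : (g' : (Matrix (Fin 2) (Fin 2) F)) 0 0 = 1) (h11 : (g' : (Matrix (Fin 2) (Fin 2) F)) 1 1 = 1)
    (h01 : (g' : (Matrix (Fin 2) (Fin 2) F)) 0 1 ≠ 0) : cuspF g θ α g' = -1 := by
  have heq : (g' : (Matrix (Fin 2) (Fin 2) F)) 0 0 = (g' : (Matrix (Fin 2) (Fin 2) F)) 1 1 := by rw [h00, h11]
  rw [cuspF_apply, psi1_apply, indFunS_unip (1 : MulChar F ℂ) g' h10 heq h01, indFunS_unip α g' h10 heq h01, h00,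
    map_one, map_one, torI_tri g hg θ g' h10 (Or.inl h01)]
  ring

theorem exists_alpha (hodd : Odd (Fintype.card F)) (g : (Matrix.SpecialLinearGroup (Fin 2) F)) (θ : ↥(Subgroup.centralizer ({g} : Set (Matrix.SpecialLinearGroup (Fin 2) F))) →* ℂˣ) :
    ∃ α : MulChar F ℂ, α (((-1 : Fˣ)) : F) = ((θ (⟨(bel (-1 : Fˣ) (0 : F)), bel_neg_mem_torus g⟩ : ↥(Subgroup.centralizer ({g} : Set (Matrix.SpecialLinearGroup (Fin 2) F)))) : ℂˣ) : ℂ) := by
  have h1 := hom_neg_sq g θ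
  have h2 : (((θ (⟨(bel (-1 : Fˣ) (0 : F)), bel_neg_mem_torus g⟩ : ↥(Subgroup.centralizer ({g} : Set (Matrix.SpecialLinearGroup (Fin 2) F)))) : ℂˣ) : ℂ) - 1) * (((θ (⟨(bel (-1 : Fˣ) (0 : F)), bel_neg_mem_torus g⟩ : ↥(Subgroup.centralizer ({g} : Set (Matrix.SpecialLinearGroup (Fin 2) F)))) : ℂˣ) : ℂ) + 1) = 0 := by linear_combination h1
  rcases mul_eq_zero.mp h2 with h | h
  · refine ⟨1, ?_⟩
    rw [sub_eq_zero.mp h]
    exact MulChar.one_apply_coe (-1 : Fˣ)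
  · obtain ⟨α, hα⟩ := exists_mulChar_neg hodd (F := F)
    refine ⟨α, ?_⟩
    rw [eq_neg_of_add_eq_zero_left h, Units.val_neg, Units.val_one]
    exact hα

theorem sl2_center_two (c : (Matrix.SpecialLinearGroup (Fin 2) F)) (hc : c ∈ Subgroup.center (Matrix.SpecialLinearGroup (Fin 2) F)) : c = 1 ∨ c = (bel (-1 : Fˣ) (0 : F)) := by
  obtain ⟨r, -, hr⟩ := Matrix.SpecialLinearGroup.mem_center_iff.mp hc
  exact sl2_scalar_cases c r (by rw [← hr, Matrix.scalar_apply, Matrix.smul_one_eq_diagonal])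

theorem torus_noncentral (g : (Matrix.SpecialLinearGroup (Fin 2) F)) (hg : (∀ (c₀ : F) (v : Fin 2 → F), v ≠ 0 → (g : (Matrix (Fin 2) (Fin 2) F)).mulVec v ≠ c₀ • v)) (c : (Matrix.SpecialLinearGroup (Fin 2) F)) (hc : c ∈ (Subgroup.centralizer ({g} : Set (Matrix.SpecialLinearGroup (Fin 2) F))))
    (hnc : c ∉ Subgroup.center (Matrix.SpecialLinearGroup (Fin 2) F)) : (∀ (c₀ : F) (v : Fin 2 → F), v ≠ 0 → (c : (Matrix (Fin 2) (Fin 2) F)).mulVec v ≠ c₀ • v) := by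
  rcases torus_dich g hg c hc with h | ⟨r, hr⟩
  · exact h
  · exfalso
    apply hnc
    rcases sl2_scalar_cases c r hr with h1 | h1
    · rw [h1]
      exact one_mem _
    · rw [h1]
      exact Subgroup.mem_center_iff.mpr (fun x => bel_neg_one_central x)

theorem bel_pow (a : Fˣ) (c : F) (n : ℕ) : ∃ e : F, (bel a c) ^ n = bel (a ^ n) e := by
  induction n with
  | zero => exact ⟨0, by rw [pow_zero, pow_zero, bel_one_zero]⟩
  | succ k ih =>
    obtain ⟨e, he⟩ := ih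
    exact ⟨_, by rw [pow_succ, he, bel_mul, ← pow_succ]⟩

theorem bel_one_pow (e : F) (n : ℕ) : (bel (1 : Fˣ) e) ^ n = bel 1 ((n : F) * e) := by
  induction n with
  | zero => rw [pow_zero, Nat.cast_zero, zero_mul, bel_one_zero]
  | succ k ih =>
    rw [pow_succ, ih, bel_mul, mul_one]
    congr 1
    simp only [Units.val_one, inv_one, mul_one, one_mul]
    push_cast
    ring

theorem bel_pow_big (a : Fˣ) (c : F) : (bel a c) ^ ((Fintype.card F - 1) * Fintype.card F) = 1 := by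
  obtain ⟨e, he⟩ := bel_pow a c (Fintype.card F - 1)
  have ha : a ^ (Fintype.card F - 1) = 1 := by
    rw [← Fintype.card_units]
    exact pow_card_eq_one
  rw [pow_mul, he, ha, bel_one_pow, Nat.cast_card_eq_zero, zero_mul, bel_one_zero]

theorem ell_of_order (g : (Matrix.SpecialLinearGroup (Fin 2) F)) (hord : orderOf g = Fintype.card F + 1) : (∀ (c₀ : F) (v : Fin 2 → F), v ≠ 0 → (g : (Matrix (Fin 2) (Fin 2) F)).mulVec v ≠ c₀ • v) := by
  rcases sl2_tricho g with h | ⟨x, a, c, hx⟩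
  · exact h
  · exfalso
    have h1 : g ^ ((Fintype.card F - 1) * Fintype.card F) = 1 := by
      rw [hx, conj_pow, bel_pow_big, mul_one, mul_inv_cancel]
    have h2 := orderOf_dvd_of_pow_eq_one h1
    rw [hord] at h2
    have hq1 : 1 < Fintype.card F := Fintype.one_lt_card
    obtain ⟨m, hm⟩ : ∃ m, Fintype.card F = m + 2 := ⟨Fintype.card F - 2, by omega⟩
    rw [hm] at h2
    have e1 : m + 2 - 1 = m + 1 := by omega
    rw [e1] at h2
    have h3 : m + 2 + 1 ∣ (m + 2 + 1) * m := dvd_mul_right _ _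
    have h4 := Nat.dvd_sub h2 h3
    have e2 : (m + 1) * (m + 2) - (m + 2 + 1) * m = 2 := by
      have e3 : (m + 1) * (m + 2) = (m + 2 + 1) * m + 2 := by ring
      omega
    rw [e2] at h4
    have h5 := Nat.le_of_dvd (by norm_num) h4
    omega

theorem exists_torus_hom (hodd : Odd (Fintype.card F)) (g : (Matrix.SpecialLinearGroup (Fin 2) F)) (hg : (∀ (c₀ : F) (v : Fin 2 → F), v ≠ 0 → (g : (Matrix (Fin 2) (Fin 2) F)).mulVec v ≠ c₀ • v))
    (hgen : ∀ x ∈ (Subgroup.centralizer ({g} : Set (Matrix.SpecialLinearGroup (Fin 2) F))), x ∈ Subgroup.zpowers g) (ω : ℂˣ) (hω : ω ^ (Fintype.card F + 1) = 1) :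
    ∃ θ : ↥(Subgroup.centralizer ({g} : Set (Matrix.SpecialLinearGroup (Fin 2) F))) →* ℂˣ, θ ⟨g, Subgroup.mem_centralizer_singleton_iff.mpr rfl⟩ = ω := by
  have hgen' : ∀ x : ↥(Subgroup.centralizer ({g} : Set (Matrix.SpecialLinearGroup (Fin 2) F))), x ∈ Subgroup.zpowers (⟨g, Subgroup.mem_centralizer_singleton_iff.mpr rfl⟩ : ↥(Subgroup.centralizer ({g} : Set (Matrix.SpecialLinearGroup (Fin 2) F)))) := by
    intro x
    obtain ⟨k, hk⟩ := Subgroup.mem_zpowers_iff.mp (hgen x.1 x.2)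
    refine Subgroup.mem_zpowers_iff.mpr ⟨k, ?_⟩
    apply Subtype.ext
    rw [Subgroup.coe_zpow]
    exact hk
  have hord : orderOf (⟨g, Subgroup.mem_centralizer_singleton_iff.mpr rfl⟩ : ↥(Subgroup.centralizer ({g} : Set (Matrix.SpecialLinearGroup (Fin 2) F)))) = Fintype.card F + 1 := by
    rw [orderOf_eq_card_of_forall_mem_zpowers hgen', torus_card hodd g hg]
  have hdvd : orderOf ω ∣ orderOf (⟨g, Subgroup.mem_centralizer_singleton_iff.mpr rfl⟩ : ↥(Subgroup.centralizer ({g} : Set (Matrix.SpecialLinearGroup (Fin 2) F)))) := by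
    rw [hord]
    exact orderOf_dvd_of_pow_eq_one hω
  exact ⟨monoidHomOfForallMemZpowers hgen' hdvd, monoidHomOfForallMemZpowers_apply_gen hgen' hdvd⟩

end cusp1

end Cfsg.Agent.Helper12
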