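import Mathlib
import Cfsg.Agent.Helper12.SL2Cusp
import Cfsg.Agent.Helper24.BS1
import Cfsg.Agent.S2324

/-!
# Characters of degree `(q ± 1)/2` of `SL₂` over a finite field of odd order (helper12)

The centraliser of an element without eigenvectors is cyclic; for its character `θ` of order two
the class function `(R(1) - 2) R(α) - Ind θ` has norm two and is the sum of the two irreducible
characters of degree `(q - 1)/2`.  This gives their values on elements without eigenvectors.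
-/

set_option autoImplicit false
open Cfsg

namespace Cfsg.Agent.Helper12

section cusp2

variable {F : Type*} [Field F] [Fintype F] [DecidableEq F]

theorem torus_mat_det (g : (Matrix.SpecialLinearGroup (Fin 2) F)) (s t : F) :
    (s • (1 : (Matrix (Fin 2) (Fin 2) F)) + t • (g : (Matrix (Fin 2) (Fin 2) F))).det = s ^ 2 + s * t * (g : (Matrix (Fin 2) (Fin 2) F)).trace + t ^ 2 := by
  have hdg := g.det_coe
  rw [Matrix.det_fin_two] at hdg
  have e00 : (s • (1 : (Matrix (Fin 2) (Fin 2) F)) + t • (g : (Matrix (Fin 2) (Fin 2) F))) 0 0 = s + t * (g : (Matrix (Fin 2) (Fin 2) F)) 0 0 := by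
    rw [Matrix.add_apply, Matrix.smul_apply, Matrix.smul_apply, Matrix.one_apply_eq, smul_eq_mul, smul_eq_mul, mul_one]
  have e01 : (s • (1 : (Matrix (Fin 2) (Fin 2) F)) + t • (g : (Matrix (Fin 2) (Fin 2) F))) 0 1 = t * (g : (Matrix (Fin 2) (Fin 2) F)) 0 1 := by
    rw [Matrix.add_apply, Matrix.smul_apply, Matrix.smul_apply, Matrix.one_apply_ne (by decide), smul_eq_mul, smul_eq_mul, mul_zero, zero_add]
  have e10 : (s • (1 : (Matrix (Fin 2) (Fin 2) F)) + t • (g : (Matrix (Fin 2) (Fin 2) F))) 1 0 = t * (g : (Matrix (Fin 2) (Fin 2) F)) 1 0 := by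
    rw [Matrix.add_apply, Matrix.smul_apply, Matrix.smul_apply, Matrix.one_apply_ne (by decide), smul_eq_mul, smul_eq_mul, mul_zero, zero_add]
  have e11 : (s • (1 : (Matrix (Fin 2) (Fin 2) F)) + t • (g : (Matrix (Fin 2) (Fin 2) F))) 1 1 = s + t * (g : (Matrix (Fin 2) (Fin 2) F)) 1 1 := by
    rw [Matrix.add_apply, Matrix.smul_apply, Matrix.smul_apply, Matrix.one_apply_eq, smul_eq_mul, smul_eq_mul, mul_one]
  rw [Matrix.det_fin_two, e00, e01, e10, e11, Matrix.trace_fin_two]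
  linear_combination t ^ 2 * hdg

theorem torus_mat_det_ne (g : (Matrix.SpecialLinearGroup (Fin 2) F)) (hg : (∀ (c₀ : F) (v : Fin 2 → F), v ≠ 0 → (g : (Matrix (Fin 2) (Fin 2) F)).mulVec v ≠ c₀ • v)) (s t : F) (hst : s ≠ 0 ∨ t ≠ 0) :
    s ^ 2 + s * t * (g : (Matrix (Fin 2) (Fin 2) F)).trace + t ^ 2 ≠ 0 := by
  intro hN
  by_cases ht : t = 0
  · rw [ht] at hN
    rcases hst with h | h
    · apply h
      have h2 : s * s = 0 := by linear_combination hN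
      exact mul_self_eq_zero.mp h2
    · exact h ht
  · apply ell_charpoly g hg (-s * t⁻¹)
    have hinv : t * t⁻¹ = 1 := mul_inv_cancel₀ ht
    linear_combination (t⁻¹) ^ 2 * hN - ((g : (Matrix (Fin 2) (Fin 2) F)).trace * s * t⁻¹ + (t * t⁻¹ + 1)) * hinv

/-- The centraliser of an element without eigenvectors is cyclic. -/
theorem torus_cyclic (hodd : Odd (Fintype.card F)) (g : (Matrix.SpecialLinearGroup (Fin 2) F)) (hg : (∀ (c₀ : F) (v : Fin 2 → F), v ≠ 0 → (g : (Matrix (Fin 2) (Fin 2) F)).mulVec v ≠ c₀ • v)) : IsCyclic ↥(Subgroup.centralizer ({g} : Set (Matrix.SpecialLinearGroup (Fin 2) F))) := by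
  classical
  have hb := ell_b_ne g hg
  have hform : ∀ A : (Matrix (Fin 2) (Fin 2) F), A ∈ Subring.centralizer ({(g : (Matrix (Fin 2) (Fin 2) F))} : Set (Matrix (Fin 2) (Fin 2) F)) → ∃ s t : F, A = s • (1 : (Matrix (Fin 2) (Fin 2) F)) + t • (g : (Matrix (Fin 2) (Fin 2) F)) := by
    intro A hA
    exact comm_form (g : (Matrix (Fin 2) (Fin 2) F)) A hb ((Subring.mem_centralizer_iff.mp hA (g : (Matrix (Fin 2) (Fin 2) F)) (Set.mem_singleton _)).symm)
  have hcomm : ∀ A B : (Matrix (Fin 2) (Fin 2) F), A ∈ Subring.centralizer ({(g : (Matrix (Fin 2) (Fin 2) F))} : Set (Matrix (Fin 2) (Fin 2) F)) → B ∈ Subring.centralizer ({(g : (Matrix (Fin 2) (Fin 2) F))} : Set (Matrix (Fin 2) (Fin 2) F)) → A * B = B * A := by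
    intro A B hA hB
    obtain ⟨s, t, hs⟩ := hform A hA
    obtain ⟨s', t', hs'⟩ := hform B hB
    rw [hs, hs']
    have hM : Commute (g : (Matrix (Fin 2) (Fin 2) F)) (s' • (1 : (Matrix (Fin 2) (Fin 2) F)) + t' • (g : (Matrix (Fin 2) (Fin 2) F))) :=
      ((Commute.one_right (g : (Matrix (Fin 2) (Fin 2) F))).smul_right s').add_right ((Commute.refl (g : (Matrix (Fin 2) (Fin 2) F))).smul_right t')
    exact (((Commute.one_left _).smul_left s).add_left (hM.smul_left t)).eq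
  have hnz : ∀ A B : (Matrix (Fin 2) (Fin 2) F), A ∈ Subring.centralizer ({(g : (Matrix (Fin 2) (Fin 2) F))} : Set (Matrix (Fin 2) (Fin 2) F)) → A * B = 0 → A = 0 ∨ B = 0 := by
    intro A B hA hAB
    obtain ⟨s, t, hs⟩ := hform A hA
    by_cases h0 : s = 0 ∧ t = 0
    · left
      rw [hs, h0.1, h0.2, zero_smul, zero_smul, add_zero]
    · right
      have hst : s ≠ 0 ∨ t ≠ 0 := by
        by_contra hcon
        apply h0
        constructor
        · by_contra hs0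
          exact hcon (Or.inl hs0)
        · by_contra ht0
          exact hcon (Or.inr ht0)
      have hd : A.det ≠ 0 := by
        rw [hs, torus_mat_det]
        exact torus_mat_det_ne g hg s t hst
      have hu : IsUnit A.det := IsUnit.mk0 _ hd
      have h1 : A⁻¹ * (A * B) = B := by
        rw [← mul_assoc, Matrix.nonsing_inv_mul A hu, one_mul]
      rw [← h1, hAB, mul_zero]
  letI instK : CommRing ↥(Subring.centralizer ({(g : (Matrix (Fin 2) (Fin 2) F))} : Set (Matrix (Fin 2) (Fin 2) F))) :=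
    { (inferInstance : Ring ↥(Subring.centralizer ({(g : (Matrix (Fin 2) (Fin 2) F))} : Set (Matrix (Fin 2) (Fin 2) F)))) with
      mul_comm := fun A B => Subtype.ext (hcomm A.1 B.1 A.2 B.2) }
  haveI : NoZeroDivisors ↥(Subring.centralizer ({(g : (Matrix (Fin 2) (Fin 2) F))} : Set (Matrix (Fin 2) (Fin 2) F))) :=
    ⟨fun {A B} hAB => by
      have h := hnz A.1 B.1 A.2 (congrArg Subtype.val hAB)
      rcases h with h | h
      · exact Or.inl (Subtype.ext h)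
      · exact Or.inr (Subtype.ext h)⟩
  haveI : IsDomain ↥(Subring.centralizer ({(g : (Matrix (Fin 2) (Fin 2) F))} : Set (Matrix (Fin 2) (Fin 2) F))) := NoZeroDivisors.to_isDomain _
  let f : ↥(Subgroup.centralizer ({g} : Set (Matrix.SpecialLinearGroup (Fin 2) F))) →* ↥(Subring.centralizer ({(g : (Matrix (Fin 2) (Fin 2) F))} : Set (Matrix (Fin 2) (Fin 2) F))) :=
    { toFun := fun x => ⟨((x : (Matrix.SpecialLinearGroup (Fin 2) F)) : (Matrix (Fin 2) (Fin 2) F)), Subring.mem_centralizer_iff.mpr (fun M hM => by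
          rw [Set.mem_singleton_iff.mp hM]
          exact ((sl2_mul_eq_iff (x : (Matrix.SpecialLinearGroup (Fin 2) F)) g g (x : (Matrix.SpecialLinearGroup (Fin 2) F))).mp (Subgroup.mem_centralizer_singleton_iff.mp x.2)).symm)⟩
      map_one' := Subtype.ext rfl
      map_mul' := fun x y => Subtype.ext rfl }
  have hf : Function.Injective f := by
    intro x y hxy
    have h2 := congrArg Subtype.val hxy
    have h1 : ((x : (Matrix.SpecialLinearGroup (Fin 2) F)) : (Matrix (Fin 2) (Fin 2) F)) = ((y : (Matrix.SpecialLinearGroup (Fin 2) F)) : (Matrix (Fin 2) (Fin 2) F)) := h2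
    exact Subtype.ext (Subtype.ext h1)
  exact isCyclic_of_subgroup_isDomain f hf

theorem cusp_N3' (hodd : Odd (Fintype.card F)) (g : (Matrix.SpecialLinearGroup (Fin 2) F)) (hg : (∀ (c₀ : F) (v : Fin 2 → F), v ≠ 0 → (g : (Matrix (Fin 2) (Fin 2) F)).mulVec v ≠ c₀ • v)) (θ : ↥(Subgroup.centralizer ({g} : Set (Matrix.SpecialLinearGroup (Fin 2) F))) →* ℂˣ)
    (hθ : ∀ c : ↥(Subgroup.centralizer ({g} : Set (Matrix.SpecialLinearGroup (Fin 2) F))), θ c ^ 2 = 1) :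
    ∑ x : (Matrix.SpecialLinearGroup (Fin 2) F), torI g θ x * starRingEnd ℂ (torI g θ x) = 2 * ((Fintype.card F : ℂ) - 1) * ((Fintype.card F : ℂ) * ((Fintype.card F : ℂ) ^ 2 - 1)) := by
  classical
  haveI : Fintype ↥(Subgroup.centralizer ({g} : Set (Matrix.SpecialLinearGroup (Fin 2) F))) := Fintype.ofFinite _
  have hstep : ∑ x : (Matrix.SpecialLinearGroup (Fin 2) F), torI g θ x * starRingEnd ℂ (torI g θ x) =
      (Fintype.card F : ℂ) * ((Fintype.card F : ℂ) - 1) * ∑ c : ↥(Subgroup.centralizer ({g} : Set (Matrix.SpecialLinearGroup (Fin 2) F))), ((θ c : ℂˣ) : ℂ) * torIc g θ (c : (Matrix.SpecialLinearGroup (Fin 2) F)) :=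
    torus_frob hodd g hg (fun c => ((θ c : ℂˣ) : ℂ)) (torIc g θ) (torIc_conj g θ)
  have hD : ∀ c : ↥(Subgroup.centralizer ({g} : Set (Matrix.SpecialLinearGroup (Fin 2) F))), (∀ (c₀ : F) (v : Fin 2 → F), v ≠ 0 → ((c : (Matrix.SpecialLinearGroup (Fin 2) F)) : (Matrix (Fin 2) (Fin 2) F)).mulVec v ≠ c₀ • v) → ((θ c : ℂˣ) : ℂ) * torIc g θ (c : (Matrix.SpecialLinearGroup (Fin 2) F)) - (1 + ((θ c : ℂˣ) : ℂ) ^ 2) = 0 := by
    intro c hc
    have h2 : ((θ c : ℂˣ) : ℂ) * ((θ c⁻¹ : ℂˣ) : ℂ) = 1 := by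
      rw [← Units.val_mul, ← map_mul, mul_inv_cancel, map_one, Units.val_one]
    rw [torIc_apply, torI_ell hodd g hg θ c hc, map_add, hom_conj θ c, hom_conj θ c⁻¹, inv_inv]
    linear_combination h2
  have hsumD : ∑ c : ↥(Subgroup.centralizer ({g} : Set (Matrix.SpecialLinearGroup (Fin 2) F))), (((θ c : ℂˣ) : ℂ) * torIc g θ (c : (Matrix.SpecialLinearGroup (Fin 2) F)) - (1 + ((θ c : ℂˣ) : ℂ) ^ 2)) =
      (((θ (⟨1, one_mem _⟩ : ↥(Subgroup.centralizer ({g} : Set (Matrix.SpecialLinearGroup (Fin 2) F)))) : ℂˣ) : ℂ) * torIc g θ 1 - (1 + ((θ (⟨1, one_mem _⟩ : ↥(Subgroup.centralizer ({g} : Set (Matrix.SpecialLinearGroup (Fin 2) F)))) : ℂˣ) : ℂ) ^ 2)) +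
      (((θ (⟨(bel (-1 : Fˣ) (0 : F)), bel_neg_mem_torus g⟩ : ↥(Subgroup.centralizer ({g} : Set (Matrix.SpecialLinearGroup (Fin 2) F)))) : ℂˣ) : ℂ) * torIc g θ (bel (-1 : Fˣ) (0 : F)) - (1 + ((θ (⟨(bel (-1 : Fˣ) (0 : F)), bel_neg_mem_torus g⟩ : ↥(Subgroup.centralizer ({g} : Set (Matrix.SpecialLinearGroup (Fin 2) F)))) : ℂˣ) : ℂ) ^ 2)) :=
    torus_sum_central hodd g hg (fun c => ((θ c : ℂˣ) : ℂ) * torIc g θ (c : (Matrix.SpecialLinearGroup (Fin 2) F)) - (1 + ((θ c : ℂˣ) : ℂ) ^ 2)) hD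
  have hcard : (Fintype.card ↥(Subgroup.centralizer ({g} : Set (Matrix.SpecialLinearGroup (Fin 2) F))) : ℂ) = (Fintype.card F : ℂ) + 1 := by
    rw [← Nat.card_eq_fintype_card, torus_card hodd g hg]
    push_cast
    rfl
  have hone : ∑ c : ↥(Subgroup.centralizer ({g} : Set (Matrix.SpecialLinearGroup (Fin 2) F))), ((θ c : ℂˣ) : ℂ) ^ 2 = (Fintype.card F : ℂ) + 1 := by
    have h1 : ∀ c : ↥(Subgroup.centralizer ({g} : Set (Matrix.SpecialLinearGroup (Fin 2) F))), ((θ c : ℂˣ) : ℂ) ^ 2 = 1 := by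
      intro c
      rw [← Units.val_pow_eq_pow_val, hθ c, Units.val_one]
    rw [Finset.sum_congr rfl (fun c _ => h1 c), Finset.sum_const, Finset.card_univ, nsmul_eq_mul, mul_one, hcard]
  have hsplit : ∑ c : ↥(Subgroup.centralizer ({g} : Set (Matrix.SpecialLinearGroup (Fin 2) F))), ((θ c : ℂˣ) : ℂ) * torIc g θ (c : (Matrix.SpecialLinearGroup (Fin 2) F)) =
      ∑ c : ↥(Subgroup.centralizer ({g} : Set (Matrix.SpecialLinearGroup (Fin 2) F))), (((θ c : ℂˣ) : ℂ) * torIc g θ (c : (Matrix.SpecialLinearGroup (Fin 2) F)) - (1 + ((θ c : ℂˣ) : ℂ) ^ 2)) + (((Fintype.card F : ℂ) + 1) + ((Fintype.card F : ℂ) + 1)) := by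
    rw [Finset.sum_sub_distrib, Finset.sum_add_distrib, Finset.sum_const, Finset.card_univ,
      nsmul_eq_mul, mul_one, hone, hcard]
    ring
  have e : (⟨1, one_mem _⟩ : ↥(Subgroup.centralizer ({g} : Set (Matrix.SpecialLinearGroup (Fin 2) F)))) = 1 := rfl
  rw [hstep, hsplit, hsumD, torIc_apply, torIc_apply, torI_one hodd g hg θ, torI_neg hodd g hg θ, e, map_one, Units.val_one]
  simp only [map_mul, map_sub, map_add, map_one, map_natCast]
  linear_combination ((Fintype.card F : ℂ) * ((Fintype.card F : ℂ) - 1) * ((Fintype.card F : ℂ) * ((Fintype.card F : ℂ) - 1))) * hom_norm θ (⟨(bel (-1 : Fˣ) (0 : F)), bel_neg_mem_torus g⟩ : ↥(Subgroup.centralizer ({g} : Set (Matrix.SpecialLinearGroup (Fin 2) F)))) - ((Fintype.card F : ℂ) * ((Fintype.card F : ℂ) - 1)) * hom_neg_sq g θ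

theorem cuspF_norm2 (hodd : Odd (Fintype.card F)) (g : (Matrix.SpecialLinearGroup (Fin 2) F)) (hg : (∀ (c₀ : F) (v : Fin 2 → F), v ≠ 0 → (g : (Matrix (Fin 2) (Fin 2) F)).mulVec v ≠ c₀ • v)) (θ : ↥(Subgroup.centralizer ({g} : Set (Matrix.SpecialLinearGroup (Fin 2) F))) →* ℂˣ)
    (hθ : ∀ c : ↥(Subgroup.centralizer ({g} : Set (Matrix.SpecialLinearGroup (Fin 2) F))), θ c ^ 2 = 1) (α : MulChar F ℂ) (hα : α (((-1 : Fˣ)) : F) = ((θ (⟨(bel (-1 : Fˣ) (0 : F)), bel_neg_mem_torus g⟩ : ↥(Subgroup.centralizer ({g} : Set (Matrix.SpecialLinearGroup (Fin 2) F)))) : ℂˣ) : ℂ)) :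
    Cfsg.classInner (cuspF g θ α) (cuspF g θ α) = 2 := by
  have h1 := cusp_N1 hodd α
  have h2 := cusp_N2 hodd g hg θ α hα
  have h3 := cusp_N3' hodd g hg θ hθ
  have h2' : ∑ x : (Matrix.SpecialLinearGroup (Fin 2) F), psi1 α x * starRingEnd ℂ (torI g θ x) = 2 * ((Fintype.card F : ℂ) - 1) * ((Fintype.card F : ℂ) * ((Fintype.card F : ℂ) ^ 2 - 1)) := by
    have e : ∑ x : (Matrix.SpecialLinearGroup (Fin 2) F), psi1 α x * starRingEnd ℂ (torI g θ x) =
        starRingEnd ℂ (∑ x : (Matrix.SpecialLinearGroup (Fin 2) F), torI g θ x * starRingEnd ℂ (psi1 α x)) := by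
      rw [map_sum]
      refine Finset.sum_congr rfl (fun x _ => ?_)
      rw [map_mul, Complex.conj_conj, mul_comm]
    rw [e, h2]
    simp only [map_mul, map_sub, map_pow, map_one, map_natCast, map_ofNat]
  have hexp : ∀ x : (Matrix.SpecialLinearGroup (Fin 2) F), cuspF g θ α x * starRingEnd ℂ (cuspF g θ α x) =
      psi1 α x * starRingEnd ℂ (psi1 α x) - psi1 α x * starRingEnd ℂ (torI g θ x) - torI g θ x * starRingEnd ℂ (psi1 α x) +
        torI g θ x * starRingEnd ℂ (torI g θ x) := by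
    intro x
    rw [cuspF_apply, map_sub]
    ring
  have hq0 : (Fintype.card F : ℂ) ≠ 0 := Nat.cast_ne_zero.mpr Fintype.card_ne_zero
  have hq1 : (Fintype.card F : ℂ) - 1 ≠ 0 := card_sub_one_ne_zero
  have hq2 : (Fintype.card F : ℂ) + 1 ≠ 0 := by exact_mod_cast Nat.succ_ne_zero (Fintype.card F)
  have hne : (Fintype.card F : ℂ) * ((Fintype.card F : ℂ) ^ 2 - 1) ≠ 0 := by
    have e : (Fintype.card F : ℂ) ^ 2 - 1 = ((Fintype.card F : ℂ) - 1) * ((Fintype.card F : ℂ) + 1) := by ring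
    rw [e]
    exact mul_ne_zero hq0 (mul_ne_zero hq1 hq2)
  unfold Cfsg.classInner
  rw [Finset.sum_congr rfl (fun x _ => hexp x), Finset.sum_add_distrib, Finset.sum_sub_distrib, Finset.sum_sub_distrib,
    h1, h2', h2, h3, Nat.card_eq_fintype_card, card_SL_complex, inv_mul_eq_div, div_eq_iff hne]
  ring

/-- The class function `R(1) - 2`. -/
noncomputable def r1m : (Matrix.SpecialLinearGroup (Fin 2) F) → ℂ := fun x => (Cfsg.indFun ((Cfsg.upperTriangularGL 2 F).comap Matrix.SpecialLinearGroup.toGL) (thS (1 : MulChar F ℂ))) x - 2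

theorem r1m_apply (x : (Matrix.SpecialLinearGroup (Fin 2) F)) : r1m x = (Cfsg.indFun ((Cfsg.upperTriangularGL 2 F).comap Matrix.SpecialLinearGroup.toGL) (thS (1 : MulChar F ℂ))) x - 2 := rfl

theorem r1m_conj (x y : (Matrix.SpecialLinearGroup (Fin 2) F)) : r1m (x * y * x⁻¹) = r1m y := by
  rw [r1m_apply, r1m_apply, indFun_conj]

theorem psi1_sum (hodd : Odd (Fintype.card F)) (α : MulChar F ℂ) : ∑ x : (Matrix.SpecialLinearGroup (Fin 2) F), psi1 α x = 0 := by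
  have hstep : ∀ x : (Matrix.SpecialLinearGroup (Fin 2) F), psi1 α x = (Cfsg.indFun ((Cfsg.upperTriangularGL 2 F).comap Matrix.SpecialLinearGroup.toGL) (thS α)) x * r1m x := by
    intro x
    rw [psi1_apply, r1m_apply]
    ring
  have e1 : ((1 : Fˣ) : F) = (((1 : Fˣ)⁻¹ : Fˣ) : F) := by simp
  have em : (((-1 : Fˣ)) : F) = (((-1 : Fˣ)⁻¹ : Fˣ) : F) := by simp
  have h0 : ∀ a : Fˣ, (a : F) ≠ ((a⁻¹ : Fˣ) : F) → ∀ c : F, α (a : F) * r1m (bel a c) = 0 := by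
    intro a ha c
    rw [r1m_apply, RS_bel_ne (1 : MulChar F ℂ) a c ha, MulChar.one_apply_coe, MulChar.one_apply_coe]
    ring
  have h1 : ∀ y : Fˣ, α ((1 : Fˣ) : F) * r1m (bel 1 (y : F)) = -α ((1 : Fˣ) : F) := by
    intro y
    rw [r1m_apply, RS_bel_unip (1 : MulChar F ℂ) 1 (y : F) e1 (Units.ne_zero y), MulChar.one_apply_coe]
    ring
  have h2 : ∀ y : Fˣ, α (((-1 : Fˣ)) : F) * r1m (bel (-1) (y : F)) = -α (((-1 : Fˣ)) : F) := by
    intro y
    rw [r1m_apply, RS_bel_unip (1 : MulChar F ℂ) (-1) (y : F) em (Units.ne_zero y), MulChar.one_apply_coe]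
    ring
  have hB : ∑ a : Fˣ, ∑ c : F, α (a : F) * r1m (bel a c) =
      α ((1 : Fˣ) : F) * r1m (bel (1 : Fˣ) (0 : F)) + α (((-1 : Fˣ)) : F) * r1m (bel (-1 : Fˣ) (0 : F)) + ((Fintype.card F : ℂ) - 1) * (-α ((1 : Fˣ) : F) + -α (((-1 : Fˣ)) : F)) :=
    borel_sum_pm hodd (fun (a : Fˣ) (c : F) => α (a : F) * r1m (bel a c)) (-α ((1 : Fˣ) : F)) (-α (((-1 : Fˣ)) : F)) h0 h1 h2
  rw [Finset.sum_congr rfl (fun x _ => hstep x), sum_RS_mul α r1m r1m_conj, hB,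
    r1m_apply, r1m_apply, RS_bel_central (1 : MulChar F ℂ) 1 e1, RS_bel_central (1 : MulChar F ℂ) (-1) em, MulChar.one_apply_coe, MulChar.one_apply_coe]
  ring

theorem torI_sum (hodd : Odd (Fintype.card F)) (g : (Matrix.SpecialLinearGroup (Fin 2) F)) (hg : (∀ (c₀ : F) (v : Fin 2 → F), v ≠ 0 → (g : (Matrix (Fin 2) (Fin 2) F)).mulVec v ≠ c₀ • v)) (θ : ↥(Subgroup.centralizer ({g} : Set (Matrix.SpecialLinearGroup (Fin 2) F))) →* ℂˣ)
    (hθ1 : ∃ c : ↥(Subgroup.centralizer ({g} : Set (Matrix.SpecialLinearGroup (Fin 2) F))), θ c ≠ 1) : ∑ x : (Matrix.SpecialLinearGroup (Fin 2) F), torI g θ x = 0 := by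
  classical
  haveI : Fintype ↥(Subgroup.centralizer ({g} : Set (Matrix.SpecialLinearGroup (Fin 2) F))) := Fintype.ofFinite _
  have hstep : ∑ x : (Matrix.SpecialLinearGroup (Fin 2) F), torI g θ x * (1 : ℂ) = (Fintype.card F : ℂ) * ((Fintype.card F : ℂ) - 1) * ∑ c : ↥(Subgroup.centralizer ({g} : Set (Matrix.SpecialLinearGroup (Fin 2) F))), ((θ c : ℂˣ) : ℂ) * (1 : ℂ) :=
    torus_frob hodd g hg (fun c => ((θ c : ℂˣ) : ℂ)) (fun _ => (1 : ℂ)) (fun _ _ => rfl)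
  have hne : (Units.coeHom ℂ).comp θ ≠ 1 := by
    intro h
    obtain ⟨c, hc⟩ := hθ1
    apply hc
    have h1 := DFunLike.congr_fun h c
    rw [MonoidHom.comp_apply, MonoidHom.one_apply, Units.coeHom_apply] at h1
    exact Units.ext (by rw [h1, Units.val_one])
  have hzero : ∑ c : ↥(Subgroup.centralizer ({g} : Set (Matrix.SpecialLinearGroup (Fin 2) F))), ((θ c : ℂˣ) : ℂ) = 0 := by
    rw [← sum_hom_units_eq_zero _ hne]
    refine Finset.sum_congr rfl (fun c _ => ?_)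
    rw [MonoidHom.comp_apply, Units.coeHom_apply]
  simp only [mul_one] at hstep
  rw [hstep, hzero, mul_zero]

theorem cuspF_sum_zero (hodd : Odd (Fintype.card F)) (g : (Matrix.SpecialLinearGroup (Fin 2) F)) (hg : (∀ (c₀ : F) (v : Fin 2 → F), v ≠ 0 → (g : (Matrix (Fin 2) (Fin 2) F)).mulVec v ≠ c₀ • v)) (θ : ↥(Subgroup.centralizer ({g} : Set (Matrix.SpecialLinearGroup (Fin 2) F))) →* ℂˣ)
    (hθ1 : ∃ c : ↥(Subgroup.centralizer ({g} : Set (Matrix.SpecialLinearGroup (Fin 2) F))), θ c ≠ 1) (α : MulChar F ℂ) : ∑ x : (Matrix.SpecialLinearGroup (Fin 2) F), cuspF g θ α x = 0 := by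
  rw [Finset.sum_congr rfl (fun x _ => cuspF_apply g θ α x), Finset.sum_sub_distrib, psi1_sum hodd α,
    torI_sum hodd g hg θ hθ1, sub_zero]

theorem cuspF_inner_one (hodd : Odd (Fintype.card F)) (g : (Matrix.SpecialLinearGroup (Fin 2) F)) (hg : (∀ (c₀ : F) (v : Fin 2 → F), v ≠ 0 → (g : (Matrix (Fin 2) (Fin 2) F)).mulVec v ≠ c₀ • v)) (θ : ↥(Subgroup.centralizer ({g} : Set (Matrix.SpecialLinearGroup (Fin 2) F))) →* ℂˣ)
    (hθ1 : ∃ c : ↥(Subgroup.centralizer ({g} : Set (Matrix.SpecialLinearGroup (Fin 2) F))), θ c ≠ 1) (α : MulChar F ℂ) : Cfsg.classInner (cuspF g θ α) (fun _ => (1 : ℂ)) = 0 := by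
  rw [Helper24.classInner_def']
  simp only [map_one, mul_one]
  rw [cuspF_sum_zero hodd g hg θ hθ1 α, mul_zero]

theorem cusp_excl (hodd : Odd (Fintype.card F)) (hq : 5 ≤ Fintype.card F) (g : (Matrix.SpecialLinearGroup (Fin 2) F)) (hg : (∀ (c₀ : F) (v : Fin 2 → F), v ≠ 0 → (g : (Matrix (Fin 2) (Fin 2) F)).mulVec v ≠ c₀ • v)) (θ : ↥(Subgroup.centralizer ({g} : Set (Matrix.SpecialLinearGroup (Fin 2) F))) →* ℂˣ) (α : MulChar F ℂ)
    (ψ ψ' : Cfsg.IrrCharacter (Matrix.SpecialLinearGroup (Fin 2) F)) (γ : MulChar F ℂ) (hψ : (ψ : (Matrix.SpecialLinearGroup (Fin 2) F) → ℂ) = (Cfsg.indFun ((Cfsg.upperTriangularGL 2 F).comap Matrix.SpecialLinearGroup.toGL) (thS γ)))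
    (hψ' : (ψ' : (Matrix.SpecialLinearGroup (Fin 2) F) → ℂ) 1 = ((2 : ℕ) : ℂ)) (hc5 : Fintype.card F = 5)
    (hV : ∀ x : (Matrix.SpecialLinearGroup (Fin 2) F), cuspF g θ α x = (ψ : (Matrix.SpecialLinearGroup (Fin 2) F) → ℂ) x - (ψ' : (Matrix.SpecialLinearGroup (Fin 2) F) → ℂ) x) : False := by
  have h10 : ((bel (1 : Fˣ) (1 : F) : (Matrix.SpecialLinearGroup (Fin 2) F)) : (Matrix (Fin 2) (Fin 2) F)) 1 0 = 0 := rfl
  have h00 : ((bel (1 : Fˣ) (1 : F) : (Matrix.SpecialLinearGroup (Fin 2) F)) : (Matrix (Fin 2) (Fin 2) F)) 0 0 = 1 := Units.val_one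
  have h11 : ((bel (1 : Fˣ) (1 : F) : (Matrix.SpecialLinearGroup (Fin 2) F)) : (Matrix (Fin 2) (Fin 2) F)) 1 1 = 1 := by
    show (((1 : Fˣ)⁻¹ : Fˣ) : F) = 1
    rw [inv_one, Units.val_one]
  have h01 : ((bel (1 : Fˣ) (1 : F) : (Matrix.SpecialLinearGroup (Fin 2) F)) : (Matrix (Fin 2) (Fin 2) F)) 0 1 ≠ 0 := one_ne_zero
  have hVu := cuspF_unip g hg θ α (bel (1 : Fˣ) (1 : F)) h10 h00 h11 h01
  have e1 : ((1 : Fˣ) : F) = (((1 : Fˣ)⁻¹ : Fˣ) : F) := by simp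
  have hψu : (ψ : (Matrix.SpecialLinearGroup (Fin 2) F) → ℂ) (bel (1 : Fˣ) (1 : F)) = 1 := by
    rw [hψ, RS_bel_unip γ 1 (1 : F) e1 one_ne_zero, Units.val_one, map_one]
  have hψ'u : (ψ' : (Matrix.SpecialLinearGroup (Fin 2) F) → ℂ) (bel (1 : Fˣ) (1 : F)) = 2 := by
    have h := hV (bel (1 : Fˣ) (1 : F))
    rw [hVu, hψu] at h
    linear_combination h
  have hu : ((bel (1 : Fˣ) (1 : F) : (Matrix.SpecialLinearGroup (Fin 2) F)) : (Matrix (Fin 2) (Fin 2) F)) = !![1, 1; 0, 1] := by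
    rw [bel_val, inv_one, Units.val_one]
  have e2 : (Fintype.card F - 1) / 2 = 2 := by omega
  have hdeg : (ψ' : (Matrix.SpecialLinearGroup (Fin 2) F) → ℂ) 1 = (((Fintype.card F - 1) / 2 : ℕ) : ℂ) := by
    rw [hψ', e2]
  have h := (S2324.result hodd hq (bel (1 : Fˣ) (1 : F)) hu).2.1 (ψ' : (Matrix.SpecialLinearGroup (Fin 2) F) → ℂ) ψ'.2 hdeg
  rw [hψ'u, e2, hc5] at h
  norm_num at h

/-- For the character `θ` of order two, the cuspidal class function is the sum of two distinct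
irreducible characters of degree `(q - 1)/2`. -/
theorem cuspF_half (hodd : Odd (Fintype.card F)) (hq : 5 ≤ Fintype.card F) (g : (Matrix.SpecialLinearGroup (Fin 2) F)) (hg : (∀ (c₀ : F) (v : Fin 2 → F), v ≠ 0 → (g : (Matrix (Fin 2) (Fin 2) F)).mulVec v ≠ c₀ • v)) (θ : ↥(Subgroup.centralizer ({g} : Set (Matrix.SpecialLinearGroup (Fin 2) F))) →* ℂˣ)
    (hθ1 : ∃ c : ↥(Subgroup.centralizer ({g} : Set (Matrix.SpecialLinearGroup (Fin 2) F))), θ c ≠ 1) (hθ2 : ∀ c : ↥(Subgroup.centralizer ({g} : Set (Matrix.SpecialLinearGroup (Fin 2) F))), θ c ^ 2 = 1) (α : MulChar F ℂ) (hα : α (((-1 : Fˣ)) : F) = ((θ (⟨(bel (-1 : Fˣ) (0 : F)), bel_neg_mem_torus g⟩ : ↥(Subgroup.centralizer ({g} : Set (Matrix.SpecialLinearGroup (Fin 2) F)))) : ℂˣ) : ℂ)) :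
    ∃ A B : Cfsg.IrrCharacter (Matrix.SpecialLinearGroup (Fin 2) F), A ≠ B ∧ (∃ n : ℕ, (A : (Matrix.SpecialLinearGroup (Fin 2) F) → ℂ) 1 = (n : ℂ) ∧ 2 * n + 1 = Fintype.card F) ∧
      (∃ n : ℕ, (B : (Matrix.SpecialLinearGroup (Fin 2) F) → ℂ) 1 = (n : ℂ) ∧ 2 * n + 1 = Fintype.card F) ∧ cuspF g θ α = (A : (Matrix.SpecialLinearGroup (Fin 2) F) → ℂ) + (B : (Matrix.SpecialLinearGroup (Fin 2) F) → ℂ) := by
  classical
  obtain ⟨m, hm⟩ : ∃ m : ℕ, Fintype.card F = m + 1 := ⟨Fintype.card F - 1, by omega⟩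
  have hm4 : 4 ≤ m := by omega
  obtain ⟨μ, ν, a, b, hμν, ha, hb, hV⟩ := Helper24.genChar_norm_two' (cuspF_genChar g θ α) (cuspF_norm2 hodd g hg θ hθ2 α hα)
  obtain ⟨n₁, hn₁⟩ := Helper24.irr_one_eq_natCast μ
  obtain ⟨n₂, hn₂⟩ := Helper24.irr_one_eq_natCast ν
  obtain ⟨triv, htriv⟩ : ∃ triv : Cfsg.IrrCharacter (Matrix.SpecialLinearGroup (Fin 2) F), (triv : (Matrix.SpecialLinearGroup (Fin 2) F) → ℂ) = fun _ => (1 : ℂ) :=
    ⟨⟨fun _ => 1, Helper24.isIrrCharacter_one⟩, rfl⟩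
  have hV1 : Cfsg.classInner (cuspF g θ α) (triv : (Matrix.SpecialLinearGroup (Fin 2) F) → ℂ) = 0 := by
    rw [htriv]
    exact cuspF_inner_one hodd g hg θ hθ1 α
  have hexp : Cfsg.classInner (cuspF g θ α) (triv : (Matrix.SpecialLinearGroup (Fin 2) F) → ℂ) = (a : ℂ) * Cfsg.classInner (μ : (Matrix.SpecialLinearGroup (Fin 2) F) → ℂ) (triv : (Matrix.SpecialLinearGroup (Fin 2) F) → ℂ) + (b : ℂ) * Cfsg.classInner (ν : (Matrix.SpecialLinearGroup (Fin 2) F) → ℂ) (triv : (Matrix.SpecialLinearGroup (Fin 2) F) → ℂ) := by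
    rw [hV, Helper24.classInner_add_left, Helper24.classInner_smul_left, Helper24.classInner_smul_left]
  have hμt : μ ≠ triv := by
    intro h
    have h1 : Cfsg.classInner (μ : (Matrix.SpecialLinearGroup (Fin 2) F) → ℂ) (triv : (Matrix.SpecialLinearGroup (Fin 2) F) → ℂ) = 1 := by
      rw [h]
      exact Helper24.irr_inner_self triv
    have h2 : Cfsg.classInner (ν : (Matrix.SpecialLinearGroup (Fin 2) F) → ℂ) (triv : (Matrix.SpecialLinearGroup (Fin 2) F) → ℂ) = 0 := Helper24.irr_inner_ne (fun h' => hμν (h.trans h'.symm))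
    rw [hV1, h1, h2] at hexp
    rcases ha with rfl | rfl <;> norm_num at hexp
  have hνt : ν ≠ triv := by
    intro h
    have h1 : Cfsg.classInner (ν : (Matrix.SpecialLinearGroup (Fin 2) F) → ℂ) (triv : (Matrix.SpecialLinearGroup (Fin 2) F) → ℂ) = 1 := by
      rw [h]
      exact Helper24.irr_inner_self triv
    have h2 : Cfsg.classInner (μ : (Matrix.SpecialLinearGroup (Fin 2) F) → ℂ) (triv : (Matrix.SpecialLinearGroup (Fin 2) F) → ℂ) = 0 := Helper24.irr_inner_ne (fun h' => hμν (h'.trans h.symm))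
    rw [hV1, h1, h2] at hexp
    rcases hb with rfl | rfl <;> norm_num at hexp
  have key : ∀ (ψ : Cfsg.IrrCharacter (Matrix.SpecialLinearGroup (Fin 2) F)) (n : ℕ), (ψ : (Matrix.SpecialLinearGroup (Fin 2) F) → ℂ) 1 = (n : ℂ) → ψ ≠ triv →
      (2 * n = m ∨ (m < 2 * n ∧ n < m + 2) ∨ (n = m + 2 ∧ ∃ γ : MulChar F ℂ, (ψ : (Matrix.SpecialLinearGroup (Fin 2) F) → ℂ) = (Cfsg.indFun ((Cfsg.upperTriangularGL 2 F).comap Matrix.SpecialLinearGroup.toGL) (thS γ)))) := by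
    intro ψ n hn hne
    rcases sl2_types ψ m n hm hn with (h | ⟨h, -⟩) | ⟨h, γ, -, hγ⟩ | ⟨-, h⟩ | ⟨h, -⟩ | ⟨h, -⟩
    · right; left; omega
    · left; exact h
    · right; right; exact ⟨h, γ, hγ⟩
    · exact absurd (Subtype.ext (h.trans htriv.symm)) hne
    · right; left; omega
    · right; left; omega
  have hVx : ∀ x : (Matrix.SpecialLinearGroup (Fin 2) F), cuspF g θ α x = (a : ℂ) * (μ : (Matrix.SpecialLinearGroup (Fin 2) F) → ℂ) x + (b : ℂ) * (ν : (Matrix.SpecialLinearGroup (Fin 2) F) → ℂ) x := fun x => congrFun hV x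
  have h1 := hVx 1
  rw [cuspF_one hodd g hg θ α, hn₁, hn₂, hm] at h1
  push_cast at h1
  have h2 : ((a * n₁ + b * n₂ : ℤ) : ℂ) = ((m : ℤ) : ℂ) := by
    push_cast
    linear_combination -h1
  have h3 : a * n₁ + b * n₂ = (m : ℤ) := by exact_mod_cast h2
  have kμ := key μ n₁ hn₁ hμt
  have kν := key ν n₂ hn₂ hνt
  rcases ha with rfl | rfl <;> rcases hb with rfl | rfl
  · have h4 : 2 * n₁ = m ∧ 2 * n₂ = m := by
      rcases kμ with h | ⟨h, h'⟩ | ⟨h, -⟩ <;> rcases kν with k | ⟨k, k'⟩ | ⟨k, -⟩ <;> omega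
    refine ⟨μ, ν, hμν, ⟨n₁, hn₁, by omega⟩, ⟨n₂, hn₂, by omega⟩, ?_⟩
    funext x
    rw [hVx x]
    simp only [Int.cast_one, Pi.add_apply]
    ring
  · exfalso
    rcases kμ with h | ⟨h, h'⟩ | ⟨h, γ, hγ⟩
    · omega
    · rcases kν with k | ⟨k, k'⟩ | ⟨k, -⟩ <;> omega
    · rcases kν with k | ⟨k, k'⟩ | ⟨k, -⟩
      · have hn2 : n₂ = 2 := by omega
        refine cusp_excl hodd hq g hg θ α μ ν γ hγ (by rw [hn₂, hn2]) (by omega) (fun x => ?_)
        rw [hVx x]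
        simp only [Int.cast_one, Int.cast_neg]
        ring
      · omega
      · omega
  · exfalso
    rcases kν with h | ⟨h, h'⟩ | ⟨h, γ, hγ⟩
    · omega
    · rcases kμ with k | ⟨k, k'⟩ | ⟨k, -⟩ <;> omega
    · rcases kμ with k | ⟨k, k'⟩ | ⟨k, -⟩
      · have hn1 : n₁ = 2 := by omega
        refine cusp_excl hodd hq g hg θ α ν μ γ hγ (by rw [hn₁, hn1]) (by omega) (fun x => ?_)
        rw [hVx x]
        simp only [Int.cast_one, Int.cast_neg]
        ring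
      · omega
      · omega
  · exfalso
    omega

/-- Values of the characters of degree `(q - 1)/2` on elements without eigenvectors. -/
theorem half_cusp_ell (hodd : Odd (Fintype.card F)) (hq : 5 ≤ Fintype.card F) (χ : Cfsg.IrrCharacter (Matrix.SpecialLinearGroup (Fin 2) F)) (n : ℕ)
    (hn : (χ : (Matrix.SpecialLinearGroup (Fin 2) F) → ℂ) 1 = (n : ℂ)) (h2n : 2 * n + 1 = Fintype.card F) (k : ℕ) (hk : 2 * k = Fintype.card F + 1)
    (g : (Matrix.SpecialLinearGroup (Fin 2) F)) (hg : (∀ (c₀ : F) (v : Fin 2 → F), v ≠ 0 → (g : (Matrix (Fin 2) (Fin 2) F)).mulVec v ≠ c₀ • v)) :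
    (g ^ k = 1 → (χ : (Matrix.SpecialLinearGroup (Fin 2) F) → ℂ) g = -1) ∧ (g ^ k ≠ 1 → (χ : (Matrix.SpecialLinearGroup (Fin 2) F) → ℂ) g = 1) := by
  classical
  obtain ⟨m, hm⟩ : ∃ m : ℕ, Fintype.card F = m + 1 := ⟨Fintype.card F - 1, by omega⟩
  have hm4 : 4 ≤ m := by omega
  have h2nm : 2 * n = m := by omega
  haveI := torus_cyclic hodd g hg
  obtain ⟨γ, hγ⟩ := IsCyclic.exists_generator (α := ↥(Subgroup.centralizer ({g} : Set (Matrix.SpecialLinearGroup (Fin 2) F))))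
  have hord : orderOf γ = 2 * k := by
    rw [orderOf_eq_card_of_forall_mem_zpowers hγ, torus_card hodd g hg, hk]
  have hk0 : k ≠ 0 := by omega
  have hγ2k : γ ^ (2 * k) = 1 := by
    rw [← hord]
    exact pow_orderOf_eq_one γ
  have hdvd : orderOf (-1 : ℂˣ) ∣ orderOf γ := by
    rw [hord]
    exact orderOf_dvd_of_pow_eq_one (Even.neg_one_pow (even_two_mul k))
  obtain ⟨θ, hθγ⟩ : ∃ θ : ↥(Subgroup.centralizer ({g} : Set (Matrix.SpecialLinearGroup (Fin 2) F))) →* ℂˣ, θ γ = -1 :=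
    ⟨monoidHomOfForallMemZpowers hγ hdvd, monoidHomOfForallMemZpowers_apply_gen hγ hdvd⟩
  have hT : ∀ (c : ↥(Subgroup.centralizer ({g} : Set (Matrix.SpecialLinearGroup (Fin 2) F)))) (j : ℤ), γ ^ j = c → ((θ c : ℂˣ) : ℂ) = (-1 : ℂ) ^ j := by
    intro c j hj
    subst hj
    rw [map_zpow, hθγ, Units.val_zpow_eq_zpow_val, Units.val_neg, Units.val_one]
  have hθ2 : ∀ c : ↥(Subgroup.centralizer ({g} : Set (Matrix.SpecialLinearGroup (Fin 2) F))), θ c ^ 2 = 1 := by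
    intro c
    obtain ⟨j, hj⟩ := Subgroup.mem_zpowers_iff.mp (hγ c)
    apply Units.ext
    rw [Units.val_pow_eq_pow_val, hT c j hj, Units.val_one]
    rcases Int.even_or_odd j with h | h
    · rw [h.neg_one_zpow, one_pow]
    · rw [h.neg_one_zpow, neg_one_sq]
  have hθ1 : ∃ c : ↥(Subgroup.centralizer ({g} : Set (Matrix.SpecialLinearGroup (Fin 2) F))), θ c ≠ 1 := by
    refine ⟨γ, ?_⟩
    rw [hθγ]
    intro h
    have h1 := congrArg Units.val h
    rw [Units.val_neg, Units.val_one] at h1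
    norm_num at h1
  obtain ⟨α, hα⟩ := exists_alpha hodd g θ
  obtain ⟨A, B, hAB, ⟨nA, hnA, h2A⟩, ⟨nB, hnB, h2B⟩, hdec⟩ := cuspF_half hodd hq g hg θ hθ1 hθ2 α hα
  obtain ⟨χ₂, d, hP, -⟩ := half_pair_of_deg m hm hm4 χ n hn (Or.inr h2nm)
  obtain ⟨A₂, dA, hPA, -⟩ := half_pair_of_deg m hm hm4 A nA hnA (Or.inr (by omega))
  obtain ⟨B₂, dB, hPB, -⟩ := half_pair_of_deg m hm hm4 B nB hnB (Or.inr (by omega))
  have hA := cusp_pair_mem hodd m hm hP hPA n nA hn hnA h2nm (by omega)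
  have hB := cusp_pair_mem hodd m hm hP hPB n nB hn hnB h2nm (by omega)
  have hsum : cuspF g θ α g = (χ : (Matrix.SpecialLinearGroup (Fin 2) F) → ℂ) g + (χ₂ : (Matrix.SpecialLinearGroup (Fin 2) F) → ℂ) g := by
    rw [hdec]
    rcases hA with rfl | rfl <;> rcases hB with rfl | rfl
    · exact absurd rfl hAB
    · rfl
    · exact add_comm _ _
    · exact absurd rfl hAB
  have hmem : g ∈ (Subgroup.centralizer ({g} : Set (Matrix.SpecialLinearGroup (Fin 2) F))) := Subgroup.mem_centralizer_singleton_iff.mpr rfl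
  have hval : cuspF g θ α g = -(((θ ⟨g, hmem⟩ : ℂˣ) : ℂ) + (((θ ⟨g, hmem⟩)⁻¹ : ℂˣ) : ℂ)) := cuspF_ell hodd g hg θ α ⟨g, hmem⟩ hg
  have hpsi : (χ : (Matrix.SpecialLinearGroup (Fin 2) F) → ℂ) g - (χ₂ : (Matrix.SpecialLinearGroup (Fin 2) F) → ℂ) g = 0 := hp_tr hodd hP g (ell_trace g hg)
  obtain ⟨j, hj⟩ := Subgroup.mem_zpowers_iff.mp (hγ ⟨g, hmem⟩)
  have hTg := hT ⟨g, hmem⟩ j hj
  have hpow : ∀ e : ℕ, (⟨g, hmem⟩ : ↥(Subgroup.centralizer ({g} : Set (Matrix.SpecialLinearGroup (Fin 2) F)))) ^ e = 1 ↔ g ^ e = 1 := by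
    intro e
    rw [Subtype.ext_iff, Subgroup.coe_pow, Subgroup.coe_one]
  have hinv : (((θ ⟨g, hmem⟩)⁻¹ : ℂˣ) : ℂ) = (((θ ⟨g, hmem⟩ : ℂˣ) : ℂ))⁻¹ := Units.val_inv_eq_inv_val _
  have E1 := hsum.symm.trans hval
  obtain ⟨i, hi | hi⟩ := Int.even_or_odd' j
  · have hT1 : ((θ ⟨g, hmem⟩ : ℂˣ) : ℂ) = 1 := by
      rw [hTg, hi]
      exact (even_two_mul i).neg_one_zpow
    have hinv' : (((θ ⟨g, hmem⟩)⁻¹ : ℂˣ) : ℂ) = 1 := by rw [hinv, hT1, inv_one]
    have hck : g ^ k = 1 := by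
      rw [← hpow k, ← hj, hi]
      have e : (2 * i) * (k : ℤ) = ((2 * k : ℕ) : ℤ) * i := by
        push_cast
        ring
      rw [← zpow_natCast (γ ^ (2 * i)) k, ← zpow_mul, e, zpow_mul, zpow_natCast, hγ2k, one_zpow]
    have hχ : (χ : (Matrix.SpecialLinearGroup (Fin 2) F) → ℂ) g = -1 := by
      rw [hT1, hinv'] at E1
      linear_combination (1 / 2 : ℂ) * E1 + (1 / 2 : ℂ) * hpsi
    exact ⟨fun _ => hχ, fun h => absurd hck h⟩
  · have hT1 : ((θ ⟨g, hmem⟩ : ℂˣ) : ℂ) = -1 := by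
      rw [hTg, hi]
      exact (odd_two_mul_add_one i).neg_one_zpow
    have hinv' : (((θ ⟨g, hmem⟩)⁻¹ : ℂˣ) : ℂ) = -1 := by
      rw [hinv, hT1]
      norm_num
    have hck : g ^ k ≠ 1 := by
      intro h
      rw [← hpow k, ← hj, hi] at h
      have e : (2 * i + 1) * (k : ℤ) = ((2 * k : ℕ) : ℤ) * i + (k : ℤ) := by
        push_cast
        ring
      rw [← zpow_natCast (γ ^ (2 * i + 1)) k, ← zpow_mul, e, zpow_add, zpow_mul, zpow_natCast γ (2 * k), hγ2k, one_zpow,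
        one_mul, zpow_natCast] at h
      exact pow_ne_one_of_lt_orderOf hk0 (by rw [hord]; omega) h
    have hχ : (χ : (Matrix.SpecialLinearGroup (Fin 2) F) → ℂ) g = 1 := by
      rw [hT1, hinv'] at E1
      linear_combination (1 / 2 : ℂ) * E1 + (1 / 2 : ℂ) * hpsi
    exact ⟨fun h => absurd h hck, fun _ => hχ⟩

theorem quad_val (η : MulChar F ℂ) (hη1 : η ≠ 1) (hη2 : η * η = 1) (a : F) (ha : a ≠ 0) :
    (IsSquare a → η a = 1) ∧ (¬ IsSquare a → η a = -1) := by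
  obtain ⟨ζ, hζ⟩ := IsCyclic.exists_generator (α := Fˣ)
  have hζv : η (ζ : F) = -1 := mulChar_gen_val ζ hζ η hη2 hη1
  have hsq : ∀ b : F, b ≠ 0 → η (b * b) = 1 := by
    intro b hb
    have h : (η * η) b = (1 : MulChar F ℂ) b := by rw [hη2]
    rw [MulChar.mul_apply, MulChar.one_apply (IsUnit.mk0 b hb)] at h
    rw [map_mul]
    exact h
  constructor
  · rintro ⟨b, rfl⟩
    exact hsq b (fun hb => ha (by rw [hb, mul_zero]))
  · intro hns
    obtain ⟨k, hk⟩ := Subgroup.mem_zpowers_iff.mp (hζ (Units.mk0 a ha))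
    obtain ⟨i, hi | hi⟩ := Int.even_or_odd' k
    · exfalso
      apply hns
      have h1 : Units.mk0 a ha = ζ ^ i * ζ ^ i := by
        rw [← hk, hi, ← zpow_add]
        congr 1
        ring
      have h2 := congrArg Units.val h1
      rw [Units.val_mk0, Units.val_mul] at h2
      exact ⟨((ζ ^ i : Fˣ) : F), h2⟩
    · have h1 : Units.mk0 a ha = ζ ^ i * ζ ^ i * ζ := by
        rw [← hk, hi, ← zpow_add, ← zpow_add_one]
        congr 1
        ring
      have h2 := congrArg Units.val h1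
      rw [Units.val_mk0, Units.val_mul, Units.val_mul] at h2
      rw [h2, map_mul, hsq _ (Units.ne_zero _), hζv, one_mul]

/-- Values of the characters of degree `(q + 1)/2` on diagonal elements. -/
theorem half_ps_diag (hodd : Odd (Fintype.card F)) (hq : 5 ≤ Fintype.card F) (χ : Cfsg.IrrCharacter (Matrix.SpecialLinearGroup (Fin 2) F)) (n : ℕ)
    (hn : (χ : (Matrix.SpecialLinearGroup (Fin 2) F) → ℂ) 1 = (n : ℂ)) (h2n : 2 * n = Fintype.card F + 1) (g : (Matrix.SpecialLinearGroup (Fin 2) F))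
    (h01 : (g : (Matrix (Fin 2) (Fin 2) F)) 0 1 = 0) (h10 : (g : (Matrix (Fin 2) (Fin 2) F)) 1 0 = 0) (hsq : (g : (Matrix (Fin 2) (Fin 2) F)) 0 0 ^ 2 ≠ 1) :
    (IsSquare ((g : (Matrix (Fin 2) (Fin 2) F)) 0 0) → (χ : (Matrix.SpecialLinearGroup (Fin 2) F) → ℂ) g = 1) ∧ (¬ IsSquare ((g : (Matrix (Fin 2) (Fin 2) F)) 0 0) → (χ : (Matrix.SpecialLinearGroup (Fin 2) F) → ℂ) g = -1) := by
  classical
  obtain ⟨m, hm⟩ : ∃ m : ℕ, Fintype.card F = m + 1 := ⟨Fintype.card F - 1, by omega⟩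
  have hm4 : 4 ≤ m := by omega
  obtain ⟨φ, φ₂, d, η, hP, hη1, hη2, hdec, -, -⟩ := exists_ps_pair (F := F) hodd
  have hmem := ps_half_mem m hm hm4 φ φ₂ η hη1 hη2 hdec χ n hn (by omega)
  have hdet := g.det_coe
  rw [Matrix.det_fin_two, h01, zero_mul, sub_zero] at hdet
  have h0 : (g : (Matrix (Fin 2) (Fin 2) F)) 0 0 ≠ 0 := left_ne_zero_of_mul_eq_one hdet
  have hne : (g : (Matrix (Fin 2) (Fin 2) F)) 0 0 ≠ (g : (Matrix (Fin 2) (Fin 2) F)) 1 1 := by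
    intro h
    apply hsq
    rw [← h] at hdet
    rw [sq]
    exact hdet
  have htr : (g : (Matrix (Fin 2) (Fin 2) F)).trace ^ 2 ≠ 4 := by
    rw [Matrix.trace_fin_two]
    intro h
    apply hne
    have h2 : ((g : (Matrix (Fin 2) (Fin 2) F)) 0 0 - (g : (Matrix (Fin 2) (Fin 2) F)) 1 1) ^ 2 = 0 := by linear_combination h - 4 * hdet
    exact sub_eq_zero.mp ((pow_eq_zero_iff two_ne_zero).mp h2)
  have hR := indFunS_diag η g h01 h10 hne
  have hu0 : IsUnit ((g : (Matrix (Fin 2) (Fin 2) F)) 0 0) := IsUnit.mk0 _ h0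
  have hηeq : η ((g : (Matrix (Fin 2) (Fin 2) F)) 1 1) = η ((g : (Matrix (Fin 2) (Fin 2) F)) 0 0) := by
    have e1 : η ((g : (Matrix (Fin 2) (Fin 2) F)) 0 0) * η ((g : (Matrix (Fin 2) (Fin 2) F)) 1 1) = 1 := by rw [← map_mul, hdet, map_one]
    have e2 : η ((g : (Matrix (Fin 2) (Fin 2) F)) 0 0) * η ((g : (Matrix (Fin 2) (Fin 2) F)) 0 0) = 1 := by
      have h : (η * η) ((g : (Matrix (Fin 2) (Fin 2) F)) 0 0) = (1 : MulChar F ℂ) ((g : (Matrix (Fin 2) (Fin 2) F)) 0 0) := by rw [hη2]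
      rw [MulChar.mul_apply, MulChar.one_apply hu0] at h
      exact h
    linear_combination (η ((g : (Matrix (Fin 2) (Fin 2) F)) 0 0)) * e1 - (η ((g : (Matrix (Fin 2) (Fin 2) F)) 1 1)) * e2
  have hpsi := hp_tr hodd hP g htr
  rw [psiF_apply] at hpsi
  have hd := hdec g
  rw [hR, hηeq] at hd
  have hχ : (χ : (Matrix.SpecialLinearGroup (Fin 2) F) → ℂ) g = η ((g : (Matrix (Fin 2) (Fin 2) F)) 0 0) := by
    rcases hmem with rfl | rfl
    · linear_combination (1 / 2 : ℂ) * hpsi - (1 / 2 : ℂ) * hd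
    · linear_combination (-1 / 2 : ℂ) * hpsi - (1 / 2 : ℂ) * hd
  rw [hχ]
  exact quad_val η hη1 hη2 _ h0

end cusp2

end Cfsg.Agent.Helper12
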