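import Mathlib
import Cfsg.Agent.Helper12.SL2Cusp2
import Cfsg.Agent.Helper12.SL2Orders
import Cfsg.Agent.Helper22.IrrKer
import Cfsg.Agent.S2308
import Cfsg.Prelude.Def_DegreeGraph

/-!
# Character degrees of `SL₂` and `PSL₂` over a finite field and the degree graph (helper12)
-/

set_option autoImplicit false
open Cfsg

namespace Cfsg.Agent.Helper12

universe u w

theorem isIrrCharacter_comp_surj' {X : Type u} {K : Type w} [Group X] [Group K] (f : X →* K)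
    (hf : Function.Surjective f) (μ : K → ℂ) (hμ : Cfsg.IsIrrCharacter K μ) :
    Cfsg.IsIrrCharacter X (fun g => μ (f g)) := by
  obtain ⟨n, ρ, hρ, hρμ⟩ := hμ
  refine ⟨n, MonoidHom.comp ρ f, (Helper24.isIrreducible_comp_iff f hf ρ).mpr hρ, ?_⟩
  funext g
  rw [← hρμ]
  rfl

theorem charDegrees_mulEquiv {S : Type u} {P : Type w} [Group S] [Group P] (e : S ≃* P) :
    Cfsg.charDegrees S = Cfsg.charDegrees P := by
  ext d
  constructor
  · rintro ⟨ψ, hψ⟩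
    refine ⟨⟨fun g => (ψ : S → ℂ) (e.symm g), isIrrCharacter_comp_surj' e.symm.toMonoidHom e.symm.surjective _ ψ.2⟩, ?_⟩
    rw [← hψ]
    unfold Cfsg.charDegree
    show ⌊((ψ : S → ℂ) (e.symm 1)).re⌋₊ = _
    rw [map_one]
  · rintro ⟨ψ, hψ⟩
    refine ⟨⟨fun g => (ψ : P → ℂ) (e g), isIrrCharacter_comp_surj' e.toMonoidHom e.surjective _ ψ.2⟩, ?_⟩
    rw [← hψ]
    unfold Cfsg.charDegree
    show ⌊((ψ : P → ℂ) (e 1)).re⌋₊ = _
    rw [map_one]

theorem charDegree_natCast {G : Type*} [Group G] (χ : G → ℂ) (n : ℕ) (h : χ 1 = (n : ℂ)) : Cfsg.charDegree χ = n := by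
  unfold Cfsg.charDegree
  rw [h, Complex.natCast_re, Nat.floor_natCast]

theorem sq_sub_one_aux (q m : ℕ) (hq : q = m + 1) : q ^ 2 - 1 = m * (m + 2) := by
  have h : q ^ 2 = m * (m + 2) + 1 := by
    rw [hq]
    ring
  omega

/-- The degree graph of a group whose character degrees are those of `SL₂(q)` or `PSL₂(q)`. -/
theorem degree_graph_core {S : Type*} [Group S] (q m t a : ℕ) (hq : q = m + 1) (ht : t.Prime) (hqt : q = t ^ a)
    (hA : ∀ d ∈ Cfsg.charDegrees S, d ∣ m ∨ d ∣ m + 2 ∨ d = 1 ∨ d = m + 1)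
    (hB1 : m ∈ Cfsg.charDegrees S) (hB2 : m + 1 ∈ Cfsg.charDegrees S) (hB3 : m + 2 ∈ Cfsg.charDegrees S) :
    Cfsg.degreePrimes S = {r : ℕ | r.Prime ∧ r ∣ q * (q ^ 2 - 1)} ∧
    ∀ r s : ℕ, (Cfsg.degreeGraph S).Adj r s ↔ (r ≠ s ∧ r.Prime ∧ s.Prime ∧ ((r ∣ q + 1 ∧ s ∣ q + 1) ∨ (r ∣ q - 1 ∧ s ∣ q - 1))) := by
  have e1 : q - 1 = m := by omega
  have e2 : q + 1 = m + 2 := by omega
  have e3 : q ^ 2 - 1 = m * (m + 2) := sq_sub_one_aux q m hq
  rw [e1, e2, e3]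
  constructor
  · ext r
    show (r.Prime ∧ ∃ d ∈ Cfsg.charDegrees S, r ∣ d) ↔ (r.Prime ∧ r ∣ q * (m * (m + 2)))
    constructor
    · rintro ⟨hr, d, hd, hrd⟩
      refine ⟨hr, ?_⟩
      rcases hA d hd with h | h | h | h
      · exact dvd_mul_of_dvd_right (dvd_mul_of_dvd_left (hrd.trans h) _) _
      · exact dvd_mul_of_dvd_right (dvd_mul_of_dvd_right (hrd.trans h) _) _
      · rw [h] at hrd
        exact absurd (Nat.dvd_one.mp hrd) hr.ne_one
      · rw [h, ← hq] at hrd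
        exact dvd_mul_of_dvd_left hrd _
    · rintro ⟨hr, hdvd⟩
      refine ⟨hr, ?_⟩
      rcases (Nat.Prime.dvd_mul hr).mp hdvd with h | h
      · exact ⟨m + 1, hB2, by rw [← hq]; exact h⟩
      · rcases (Nat.Prime.dvd_mul hr).mp h with h' | h'
        · exact ⟨m, hB1, h'⟩
        · exact ⟨m + 2, hB3, h'⟩
  · intro r s
    show (r ≠ s ∧ r.Prime ∧ s.Prime ∧ ∃ d ∈ Cfsg.charDegrees S, r * s ∣ d) ↔ _
    constructor
    · rintro ⟨hne, hr, hs, d, hd, hrs⟩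
      refine ⟨hne, hr, hs, ?_⟩
      have hrd : r ∣ d := (dvd_mul_right r s).trans hrs
      have hsd : s ∣ d := (dvd_mul_left s r).trans hrs
      rcases hA d hd with h | h | h | h
      · exact Or.inr ⟨hrd.trans h, hsd.trans h⟩
      · exact Or.inl ⟨hrd.trans h, hsd.trans h⟩
      · rw [h] at hrd
        exact absurd (Nat.dvd_one.mp hrd) hr.ne_one
      · exfalso
        rw [h, ← hq, hqt] at hrd hsd
        have h1 := (Nat.prime_dvd_prime_iff_eq hr ht).mp (hr.dvd_of_dvd_pow hrd)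
        have h2 := (Nat.prime_dvd_prime_iff_eq hs ht).mp (hs.dvd_of_dvd_pow hsd)
        exact hne (h1.trans h2.symm)
    · rintro ⟨hne, hr, hs, h | h⟩
      · exact ⟨hne, hr, hs, m + 2, hB3, Nat.Coprime.mul_dvd_of_dvd_of_dvd ((Nat.coprime_primes hr hs).mpr hne) h.1 h.2⟩
      · exact ⟨hne, hr, hs, m, hB1, Nat.Coprime.mul_dvd_of_dvd_of_dvd ((Nat.coprime_primes hr hs).mpr hne) h.1 h.2⟩

theorem odd_adj_iff (q m r s : ℕ) (hq : q = m + 1) (hm2 : 2 ∣ m) (hr : r.Prime) (hs : s.Prime) :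
    ((r ∣ q + 1 ∧ s ∣ q + 1) ∨ (r ∣ q - 1 ∧ s ∣ q - 1)) ↔
    (r ∣ q ^ 2 - 1 ∧ s ∣ q ^ 2 - 1 ∧ (r = 2 ∨ s = 2 ∨ (r ∣ q + 1 ∧ s ∣ q + 1) ∨ (r ∣ q - 1 ∧ s ∣ q - 1))) := by
  have e1 : q - 1 = m := by omega
  have e2 : q + 1 = m + 2 := by omega
  have e3 : q ^ 2 - 1 = m * (m + 2) := sq_sub_one_aux q m hq
  rw [e1, e2, e3]
  have h2 : 2 ∣ m + 2 := (Nat.dvd_add_right hm2).mpr (dvd_refl 2)
  constructor
  · rintro (⟨h1, h2'⟩ | ⟨h1, h2'⟩)
    · exact ⟨dvd_mul_of_dvd_right h1 _, dvd_mul_of_dvd_right h2' _, Or.inr (Or.inr (Or.inl ⟨h1, h2'⟩))⟩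
    · exact ⟨dvd_mul_of_dvd_left h1 _, dvd_mul_of_dvd_left h2' _, Or.inr (Or.inr (Or.inr ⟨h1, h2'⟩))⟩
  · rintro ⟨hrq, hsq, h | h | h | h⟩
    · rw [h]
      rcases (Nat.Prime.dvd_mul hs).mp hsq with h' | h'
      · exact Or.inr ⟨hm2, h'⟩
      · exact Or.inl ⟨h2, h'⟩
    · rw [h]
      rcases (Nat.Prime.dvd_mul hr).mp hrq with h' | h'
      · exact Or.inr ⟨h', hm2⟩
      · exact Or.inl ⟨h', h2⟩
    · exact Or.inl h
    · exact Or.inr h

theorem exists_root_unit (n : ℕ) (hn : n ≠ 0) : ∃ ω : ℂˣ, orderOf ω = n := by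
  obtain ⟨z, hz⟩ : ∃ z : ℂ, IsPrimitiveRoot z n := ⟨_, Complex.isPrimitiveRoot_exp n hn⟩
  refine ⟨Units.mk0 z (hz.ne_zero hn), ?_⟩
  rw [← orderOf_units, Units.val_mk0]
  exact hz.eq_orderOf.symm

section sl2deg

variable {F : Type*} [Field F] [Fintype F] [DecidableEq F]

theorem sl2_charDegrees_sub (m : ℕ) (hm : Fintype.card F = m + 1) (d : ℕ) (hd : d ∈ Cfsg.charDegrees (Matrix.SpecialLinearGroup (Fin 2) F)) :
    d = m ∨ (2 * d = m ∧ Odd (Fintype.card F)) ∨ d = m + 2 ∨ d = 1 ∨ d = m + 1 ∨ (2 * d = m + 2 ∧ Odd (Fintype.card F)) := by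
  obtain ⟨χ, hχ⟩ := hd
  obtain ⟨n, hn⟩ := Helper24.irr_one_eq_natCast χ
  rw [charDegree_natCast _ n hn] at hχ
  subst hχ
  rcases sl2_types χ m n hm hn with (h | ⟨h, ho⟩) | ⟨h, -⟩ | ⟨h, -⟩ | ⟨h, -⟩ | ⟨h, ho, -⟩
  · exact Or.inl h
  · exact Or.inr (Or.inl ⟨h, ho⟩)
  · exact Or.inr (Or.inr (Or.inl h))
  · exact Or.inr (Or.inr (Or.inr (Or.inl h)))
  · exact Or.inr (Or.inr (Or.inr (Or.inr (Or.inl h))))
  · exact Or.inr (Or.inr (Or.inr (Or.inr (Or.inr ⟨h, ho⟩))))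

theorem psl2_charDegrees_sub (m : ℕ) (hm : Fintype.card F = m + 1) (d : ℕ)
    (hd : d ∈ Cfsg.charDegrees (Matrix.ProjectiveSpecialLinearGroup (Fin 2) F)) :
    d = m ∨ (2 * d = m ∧ Odd (Fintype.card F)) ∨ d = m + 2 ∨ d = 1 ∨ d = m + 1 ∨ (2 * d = m + 2 ∧ Odd (Fintype.card F)) := by
  obtain ⟨ψ, hψ⟩ := hd
  have hπ : Function.Surjective (QuotientGroup.mk' (Subgroup.center (Matrix.SpecialLinearGroup (Fin 2) F))) := QuotientGroup.mk'_surjective _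
  apply sl2_charDegrees_sub m hm d
  refine ⟨Helper22.inflIrr (QuotientGroup.mk' (Subgroup.center (Matrix.SpecialLinearGroup (Fin 2) F))) hπ ψ, ?_⟩
  rw [← hψ]
  unfold Cfsg.charDegree
  rw [Helper22.inflIrr_apply, map_one]

theorem family_sub {S : Type*} [Group S]
    (hS : Nonempty (S ≃* Matrix.ProjectiveSpecialLinearGroup (Fin 2) F) ∨ Nonempty (S ≃* (Matrix.SpecialLinearGroup (Fin 2) F)))
    (m : ℕ) (hm : Fintype.card F = m + 1) (d : ℕ) (hd : d ∈ Cfsg.charDegrees S) :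
    d = m ∨ (2 * d = m ∧ Odd (Fintype.card F)) ∨ d = m + 2 ∨ d = 1 ∨ d = m + 1 ∨ (2 * d = m + 2 ∧ Odd (Fintype.card F)) := by
  rcases hS with ⟨⟨e⟩⟩ | ⟨⟨e⟩⟩
  · rw [charDegrees_mulEquiv e] at hd
    exact psl2_charDegrees_sub m hm d hd
  · rw [charDegrees_mulEquiv e] at hd
    exact sl2_charDegrees_sub m hm d hd

theorem family_mem {S : Type*} [Group S]
    (hS : Nonempty (S ≃* Matrix.ProjectiveSpecialLinearGroup (Fin 2) F) ∨ Nonempty (S ≃* (Matrix.SpecialLinearGroup (Fin 2) F)))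
    (χ : Cfsg.IrrCharacter (Matrix.SpecialLinearGroup (Fin 2) F)) (hker : ∀ u : (Matrix.SpecialLinearGroup (Fin 2) F), u ∈ Subgroup.center (Matrix.SpecialLinearGroup (Fin 2) F) → (χ : (Matrix.SpecialLinearGroup (Fin 2) F) → ℂ) u = (χ : (Matrix.SpecialLinearGroup (Fin 2) F) → ℂ) 1)
    (n : ℕ) (hn : (χ : (Matrix.SpecialLinearGroup (Fin 2) F) → ℂ) 1 = (n : ℂ)) : n ∈ Cfsg.charDegrees S := by
  rcases hS with ⟨⟨e⟩⟩ | ⟨⟨e⟩⟩
  · rw [charDegrees_mulEquiv e]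
    have hπ : Function.Surjective (QuotientGroup.mk' (Subgroup.center (Matrix.SpecialLinearGroup (Fin 2) F))) := QuotientGroup.mk'_surjective _
    obtain ⟨ψ, hψ⟩ := Helper22.exists_irr_of_ker (QuotientGroup.mk' (Subgroup.center (Matrix.SpecialLinearGroup (Fin 2) F))) hπ χ
      (fun u hu => hker u ((QuotientGroup.eq_one_iff u).mp hu))
    refine ⟨ψ, charDegree_natCast _ n ?_⟩
    rw [← map_one (QuotientGroup.mk' (Subgroup.center (Matrix.SpecialLinearGroup (Fin 2) F))), ← hψ 1, hn]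
  · rw [charDegrees_mulEquiv e]
    exact ⟨χ, charDegree_natCast _ n hn⟩

theorem central_St : ∃ χ : Cfsg.IrrCharacter (Matrix.SpecialLinearGroup (Fin 2) F), (χ : (Matrix.SpecialLinearGroup (Fin 2) F) → ℂ) 1 = (Fintype.card F : ℂ) ∧
    ∀ u : (Matrix.SpecialLinearGroup (Fin 2) F), u ∈ Subgroup.center (Matrix.SpecialLinearGroup (Fin 2) F) → (χ : (Matrix.SpecialLinearGroup (Fin 2) F) → ℂ) u = (χ : (Matrix.SpecialLinearGroup (Fin 2) F) → ℂ) 1 := by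
  obtain ⟨St, hSt⟩ := exists_sl2_St (F := F)
  have hSt1 : Cfsg.indFun (Cfsg.upperTriangularGL 2 F) (fun _ => (1 : ℂ)) (Matrix.SpecialLinearGroup.toGL (1 : (Matrix.SpecialLinearGroup (Fin 2) F))) - 1 = (Fintype.card F : ℂ) := by
    rw [S2308.indFun1_scalar (Matrix.SpecialLinearGroup.toGL (1 : (Matrix.SpecialLinearGroup (Fin 2) F))) 1 (by rw [map_one, one_smul]; rfl)]
    ring
  refine ⟨St, by rw [hSt 1]; exact hSt1, ?_⟩
  intro u hu'
  obtain ⟨r, -, hr⟩ := Matrix.SpecialLinearGroup.mem_center_iff.mp hu'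
  have hr' : ((Matrix.SpecialLinearGroup.toGL u : (Matrix.GeneralLinearGroup (Fin 2) F)) : (Matrix (Fin 2) (Fin 2) F)) = r • (1 : (Matrix (Fin 2) (Fin 2) F)) := by
    show (u : (Matrix (Fin 2) (Fin 2) F)) = r • (1 : (Matrix (Fin 2) (Fin 2) F))
    rw [← hr, Matrix.scalar_apply, Matrix.smul_one_eq_diagonal]
  rw [hSt u, hSt 1, S2308.indFun1_scalar (Matrix.SpecialLinearGroup.toGL u) r hr',
    S2308.indFun1_scalar (Matrix.SpecialLinearGroup.toGL (1 : (Matrix.SpecialLinearGroup (Fin 2) F))) 1 (by rw [map_one, one_smul]; rfl)]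

theorem central_ps (h4 : ¬ (Fintype.card F - 1) ∣ 4) : ∃ χ : Cfsg.IrrCharacter (Matrix.SpecialLinearGroup (Fin 2) F), (χ : (Matrix.SpecialLinearGroup (Fin 2) F) → ℂ) 1 = (Fintype.card F : ℂ) + 1 ∧
    ∀ u : (Matrix.SpecialLinearGroup (Fin 2) F), u ∈ Subgroup.center (Matrix.SpecialLinearGroup (Fin 2) F) → (χ : (Matrix.SpecialLinearGroup (Fin 2) F) → ℂ) u = (χ : (Matrix.SpecialLinearGroup (Fin 2) F) → ℂ) 1 := by
  obtain ⟨ζ, hζ⟩ := IsCyclic.exists_generator (α := Fˣ)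
  have hordζ : orderOf ζ = Fintype.card F - 1 := by
    rw [orderOf_eq_card_of_forall_mem_zpowers hζ, Nat.card_eq_fintype_card, Fintype.card_units]
  have hζ4 : ((ζ ^ 4 : Fˣ) : F) ≠ 1 := by
    intro h
    apply h4
    rw [← hordζ]
    apply orderOf_dvd_of_pow_eq_one
    exact Units.ext (by rw [h, Units.val_one])
  obtain ⟨β, hβ⟩ := MulChar.exists_apply_ne_one_of_hasEnoughRootsOfUnity F ℂ hζ4
  have hγ : β * β ≠ (β * β)⁻¹ := by
    intro h
    apply hβ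
    have h2 : (β * β) * (β * β) = 1 := by
      have h3 : (β * β) * (β * β)⁻¹ = 1 := mul_inv_cancel _
      rw [← h] at h3
      exact h3
    have h4' : ((β * β) * (β * β)) (ζ : F) = (1 : MulChar F ℂ) (ζ : F) := by rw [h2]
    rw [MulChar.mul_apply, MulChar.mul_apply, MulChar.one_apply_coe] at h4'
    rw [Units.val_pow_eq_pow_val, map_pow]
    linear_combination h4'
  have e1 : ((1 : Fˣ) : F) = (((1 : Fˣ)⁻¹ : Fˣ) : F) := by simp
  have em : (((-1 : Fˣ)) : F) = (((-1 : Fˣ)⁻¹ : Fˣ) : F) := by simp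
  have h1 : (Cfsg.indFun ((Cfsg.upperTriangularGL 2 F).comap Matrix.SpecialLinearGroup.toGL) (thS (β * β))) 1 = (Fintype.card F : ℂ) + 1 := by
    have h := RS_bel_central (β * β) 1 e1
    rw [bel_one_zero, Units.val_one, map_one, mul_one] at h
    exact h
  have hm : (β * β) (((-1 : Fˣ)) : F) = 1 := by
    have e : (-1 : Fˣ) * (-1 : Fˣ) = 1 := by simp
    rw [MulChar.mul_apply, ← map_mul, ← Units.val_mul, e, Units.val_one, map_one]
  refine ⟨⟨(Cfsg.indFun ((Cfsg.upperTriangularGL 2 F).comap Matrix.SpecialLinearGroup.toGL) (thS (β * β))), RS_irr (β * β) hγ⟩, h1, ?_⟩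
  intro u hu
  rcases sl2_center_two u hu with h | h
  · rw [h]
  · show (Cfsg.indFun ((Cfsg.upperTriangularGL 2 F).comap Matrix.SpecialLinearGroup.toGL) (thS (β * β))) u = (Cfsg.indFun ((Cfsg.upperTriangularGL 2 F).comap Matrix.SpecialLinearGroup.toGL) (thS (β * β))) 1
    rw [h, RS_bel_central (β * β) (-1) em, hm, mul_one, h1]

theorem central_cusp (hodd : Odd (Fintype.card F)) (h4 : ¬ (Fintype.card F + 1) ∣ 4) (p : ℕ) [Fact p.Prime] [CharP F p] :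
    ∃ χ : Cfsg.IrrCharacter (Matrix.SpecialLinearGroup (Fin 2) F), (χ : (Matrix.SpecialLinearGroup (Fin 2) F) → ℂ) 1 = (Fintype.card F : ℂ) - 1 ∧
    ∀ u : (Matrix.SpecialLinearGroup (Fin 2) F), u ∈ Subgroup.center (Matrix.SpecialLinearGroup (Fin 2) F) → (χ : (Matrix.SpecialLinearGroup (Fin 2) F) → ℂ) u = (χ : (Matrix.SpecialLinearGroup (Fin 2) F) → ℂ) 1 := by
  obtain ⟨g, hord⟩ := sl2_exists_orderOf_card_add_one (F := F) p
  have hg := ell_of_order g hord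
  haveI := torus_cyclic hodd g hg
  obtain ⟨c₀, hc₀⟩ := IsCyclic.exists_generator (α := ↥(Subgroup.centralizer ({g} : Set (Matrix.SpecialLinearGroup (Fin 2) F))))
  have hordc : orderOf c₀ = Fintype.card F + 1 := by
    rw [orderOf_eq_card_of_forall_mem_zpowers hc₀, torus_card hodd g hg]
  obtain ⟨ω, hω⟩ := exists_root_unit (Fintype.card F + 1) (Nat.succ_ne_zero _)
  have hdvd : orderOf ω ∣ orderOf c₀ := by rw [hω, hordc]
  obtain ⟨δ, hδ⟩ : ∃ δ : ↥(Subgroup.centralizer ({g} : Set (Matrix.SpecialLinearGroup (Fin 2) F))) →* ℂˣ, δ c₀ = ω :=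
    ⟨monoidHomOfForallMemZpowers hc₀ hdvd, monoidHomOfForallMemZpowers_apply_gen hc₀ hdvd⟩
  have hθ : ∃ c : ↥(Subgroup.centralizer ({g} : Set (Matrix.SpecialLinearGroup (Fin 2) F))), (δ * δ) c ^ 2 ≠ 1 := by
    refine ⟨c₀, ?_⟩
    rw [MonoidHom.mul_apply, hδ]
    intro h
    apply h4
    rw [← hω]
    apply orderOf_dvd_of_pow_eq_one
    rw [← h, ← pow_two, ← pow_mul]
  have hm1 : (δ * δ) (⟨(bel (-1 : Fˣ) (0 : F)), bel_neg_mem_torus g⟩ : ↥(Subgroup.centralizer ({g} : Set (Matrix.SpecialLinearGroup (Fin 2) F)))) = 1 := by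
    have e : (⟨(bel (-1 : Fˣ) (0 : F)), bel_neg_mem_torus g⟩ : ↥(Subgroup.centralizer ({g} : Set (Matrix.SpecialLinearGroup (Fin 2) F)))) * (⟨(bel (-1 : Fˣ) (0 : F)), bel_neg_mem_torus g⟩ : ↥(Subgroup.centralizer ({g} : Set (Matrix.SpecialLinearGroup (Fin 2) F)))) = 1 := Subtype.ext bel_neg_one_sq
    rw [MonoidHom.mul_apply, ← map_mul, e, map_one]
  have hα : (1 : MulChar F ℂ) (((-1 : Fˣ)) : F) = (((δ * δ) (⟨(bel (-1 : Fˣ) (0 : F)), bel_neg_mem_torus g⟩ : ↥(Subgroup.centralizer ({g} : Set (Matrix.SpecialLinearGroup (Fin 2) F)))) : ℂˣ) : ℂ) := by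
    rw [hm1, Units.val_one]
    exact MulChar.one_apply_coe (-1 : Fˣ)
  refine ⟨⟨cuspF g (δ * δ) 1, cuspF_irr hodd g hg (δ * δ) hθ 1 hα⟩, cuspF_one hodd g hg (δ * δ) 1, ?_⟩
  intro u hu
  rcases sl2_center_two u hu with h | h
  · rw [h]
  · show cuspF g (δ * δ) 1 u = cuspF g (δ * δ) 1 1
    rw [h, cuspF_neg hodd g hg (δ * δ) 1 hα, cuspF_one hodd g hg (δ * δ) 1, hm1, Units.val_one, mul_one]

/-- In even characteristic there is an irreducible character of degree `q - 1`. -/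
theorem exists_cusp_even (heven : Even (Fintype.card F)) (hq4 : 4 ≤ Fintype.card F) :
    ∃ χ : Cfsg.IrrCharacter (Matrix.SpecialLinearGroup (Fin 2) F), (χ : (Matrix.SpecialLinearGroup (Fin 2) F) → ℂ) 1 = ((Fintype.card F - 1 : ℕ) : ℂ) := by
  classical
  obtain ⟨m, hm⟩ : ∃ m : ℕ, Fintype.card F = m + 1 := ⟨Fintype.card F - 1, by omega⟩
  by_contra hno
  have hno' : ∀ (χ : Cfsg.IrrCharacter (Matrix.SpecialLinearGroup (Fin 2) F)) (n : ℕ), (χ : (Matrix.SpecialLinearGroup (Fin 2) F) → ℂ) 1 = (n : ℂ) → n ≠ m := by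
    intro χ n hn hnm
    apply hno
    refine ⟨χ, ?_⟩
    rw [hn, hnm, hm, Nat.add_sub_cancel]
  choose deg hdeg using (fun χ : Cfsg.IrrCharacter (Matrix.SpecialLinearGroup (Fin 2) F) => Helper24.irr_one_eq_natCast χ)
  obtain ⟨St, hSt⟩ := exists_sl2_St (F := F)
  obtain ⟨triv, htriv⟩ : ∃ triv : Cfsg.IrrCharacter (Matrix.SpecialLinearGroup (Fin 2) F), (triv : (Matrix.SpecialLinearGroup (Fin 2) F) → ℂ) = fun _ => (1 : ℂ) :=
    ⟨⟨fun _ => 1, Helper24.isIrrCharacter_one⟩, rfl⟩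
  have hnot_odd : ¬ Odd (Fintype.card F) := Nat.not_odd_iff_even.mpr heven
  have hcases : ∀ χ : Cfsg.IrrCharacter (Matrix.SpecialLinearGroup (Fin 2) F), deg χ = m + 2 ∨ (deg χ = 1 ∧ χ = triv) ∨ (deg χ = m + 1 ∧ χ = St) := by
    intro χ
    rcases sl2_types χ m (deg χ) hm (hdeg χ) with (h | ⟨-, ho⟩) | ⟨h, -⟩ | ⟨h, h'⟩ | ⟨h, h'⟩ | ⟨-, ho, -⟩
    · exact absurd h (hno' χ (deg χ) (hdeg χ))
    · exact absurd ho hnot_odd
    · exact Or.inl h
    · exact Or.inr (Or.inl ⟨h, Subtype.ext (h'.trans htriv.symm)⟩)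
    · exact Or.inr (Or.inr ⟨h, Subtype.ext (funext (fun g => (h' g).trans (hSt g).symm))⟩)
    · exact absurd ho hnot_odd
  have hk : ∀ χ : Cfsg.IrrCharacter (Matrix.SpecialLinearGroup (Fin 2) F), ∃ k : ℕ, deg χ ^ 2 = (m + 2) * k + (if deg χ ≠ m + 2 then 1 else 0) := by
    intro χ
    rcases hcases χ with h | ⟨h, -⟩ | ⟨h, -⟩
    · exact ⟨m + 2, by rw [h, if_neg (not_not.mpr rfl)]; ring⟩
    · exact ⟨0, by rw [h, if_pos (by omega)]; ring⟩
    · exact ⟨m, by rw [h, if_pos (by omega)]; ring⟩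
  choose k hk' using hk
  have hsumC : ∑ χ : Cfsg.IrrCharacter (Matrix.SpecialLinearGroup (Fin 2) F), ((deg χ : ℂ)) ^ 2 = (Nat.card (Matrix.SpecialLinearGroup (Fin 2) F) : ℂ) := by
    rw [← Helper24.sum_irr_one_sq]
    exact Finset.sum_congr rfl (fun χ _ => by rw [hdeg χ])
  have hsumN : ∑ χ : Cfsg.IrrCharacter (Matrix.SpecialLinearGroup (Fin 2) F), deg χ ^ 2 = Nat.card (Matrix.SpecialLinearGroup (Fin 2) F) := by
    have h : ((∑ χ : Cfsg.IrrCharacter (Matrix.SpecialLinearGroup (Fin 2) F), deg χ ^ 2 : ℕ) : ℂ) = ((Nat.card (Matrix.SpecialLinearGroup (Fin 2) F) : ℕ) : ℂ) := by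
      push_cast
      exact hsumC
    exact_mod_cast h
  have hsplit : ∑ χ : Cfsg.IrrCharacter (Matrix.SpecialLinearGroup (Fin 2) F), deg χ ^ 2 =
      (m + 2) * ∑ χ : Cfsg.IrrCharacter (Matrix.SpecialLinearGroup (Fin 2) F), k χ + ∑ χ : Cfsg.IrrCharacter (Matrix.SpecialLinearGroup (Fin 2) F), (if deg χ ≠ m + 2 then 1 else 0) := by
    rw [Finset.mul_sum, ← Finset.sum_add_distrib]
    exact Finset.sum_congr rfl (fun χ _ => hk' χ)
  have hcardG : (m + 2) ∣ Nat.card (Matrix.SpecialLinearGroup (Fin 2) F) := by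
    rw [sl2_card, sq_sub_one_aux (Fintype.card F) m hm]
    exact dvd_mul_of_dvd_right (dvd_mul_left _ _) _
  have hdvd : (m + 2) ∣ ∑ χ : Cfsg.IrrCharacter (Matrix.SpecialLinearGroup (Fin 2) F), (if deg χ ≠ m + 2 then 1 else 0) := by
    have h := hcardG
    rw [← hsumN, hsplit] at h
    exact (Nat.dvd_add_right (dvd_mul_right _ _)).mp h
  rw [← Finset.card_filter] at hdvd
  have hpos : 0 < (Finset.univ.filter (fun χ : Cfsg.IrrCharacter (Matrix.SpecialLinearGroup (Fin 2) F) => deg χ ≠ m + 2)).card := by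
    apply Finset.card_pos.mpr
    refine ⟨triv, Finset.mem_filter.mpr ⟨Finset.mem_univ _, ?_⟩⟩
    have h1 : ((deg triv : ℕ) : ℂ) = ((1 : ℕ) : ℂ) := by
      rw [← hdeg triv, htriv, Nat.cast_one]
    have h2 : deg triv = 1 := by exact_mod_cast h1
    omega
  have hle : (Finset.univ.filter (fun χ : Cfsg.IrrCharacter (Matrix.SpecialLinearGroup (Fin 2) F) => deg χ ≠ m + 2)).card ≤ 2 := by
    have hsub : Finset.univ.filter (fun χ : Cfsg.IrrCharacter (Matrix.SpecialLinearGroup (Fin 2) F) => deg χ ≠ m + 2) ⊆ {triv, St} := by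
      intro χ hχ
      have hne := (Finset.mem_filter.mp hχ).2
      rcases hcases χ with h | ⟨-, h⟩ | ⟨-, h⟩
      · exact absurd h hne
      · rw [h]
        exact Finset.mem_insert_self _ _
      · rw [h]
        exact Finset.mem_insert_of_mem (Finset.mem_singleton_self _)
    exact (Finset.card_le_card hsub).trans Finset.card_le_two
  have h5 := Nat.le_of_dvd hpos hdvd
  omega

end sl2deg

end Cfsg.Agent.Helper12
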