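import Cfsg.Agent.S0261
import Cfsg.Agent.S0807
import Cfsg.Agent.Helper12.TorusB

set_option autoImplicit false
open Cfsg

namespace Cfsg.Agent.Helper12.TB


theorem isKleinFour_of_card_sq {G : Type*} [Group G] (h4 : Nat.card G = 4)
    (hsq : ∀ g : G, g * g = 1) : IsKleinFour G := by
  refine ⟨h4, ?_⟩
  have h1 : Monoid.exponent G ∣ 2 :=
    Monoid.exponent_dvd_of_forall_pow_eq_one (fun g => by rw [pow_two]; exact hsq g)
  rcases (Nat.dvd_prime Nat.prime_two).mp h1 with h | h
  · exfalso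
    have hs : Subsingleton G := Monoid.exp_eq_one_iff.mp h
    have h5 := Nat.card_of_subsingleton (1 : G)
    omega
  · exact h

theorem card_two_part (q : ℕ) (h : q % 8 = 3 ∨ q % 8 = 5) :
    ∃ r, Odd r ∧ q * (q ^ 2 - 1) = 2 ^ 3 * r := by
  rcases h with h | h
  · obtain ⟨j, rfl⟩ : ∃ j, q = 8 * j + 3 := ⟨q / 8, by omega⟩
    have e : (8 * j + 3) ^ 2 - 1 = 8 * (8 * j ^ 2 + 6 * j + 1) := by
      apply Nat.sub_eq_of_eq_add; ring
    refine ⟨(8 * j + 3) * (8 * j ^ 2 + 6 * j + 1),
      Odd.mul ⟨4 * j + 1, by ring⟩ ⟨4 * j ^ 2 + 3 * j, by ring⟩, ?_⟩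
    rw [e]; ring
  · obtain ⟨j, rfl⟩ : ∃ j, q = 8 * j + 5 := ⟨q / 8, by omega⟩
    have e : (8 * j + 5) ^ 2 - 1 = 8 * (8 * j ^ 2 + 10 * j + 3) := by
      apply Nat.sub_eq_of_eq_add; ring
    refine ⟨(8 * j + 5) * (8 * j ^ 2 + 10 * j + 3),
      Odd.mul ⟨4 * j + 2, by ring⟩ ⟨4 * j ^ 2 + 5 * j + 1, by ring⟩, ?_⟩
    rw [e]; ring

theorem sixteen_dvd (q : ℕ) (h : q % 8 = 1 ∨ q % 8 = 7) : 2 ^ 4 ∣ q * (q ^ 2 - 1) := by
  rcases h with h | h
  · obtain ⟨j, rfl⟩ : ∃ j, q = 8 * j + 1 := ⟨q / 8, by omega⟩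
    have e : (8 * j + 1) ^ 2 - 1 = 2 ^ 4 * (4 * j ^ 2 + j) := by
      apply Nat.sub_eq_of_eq_add; ring
    rw [e]
    exact (Dvd.intro _ rfl).mul_left _
  · obtain ⟨j, rfl⟩ : ∃ j, q = 8 * j + 7 := ⟨q / 8, by omega⟩
    have e : (8 * j + 7) ^ 2 - 1 = 2 ^ 4 * (4 * j ^ 2 + 7 * j + 3) := by
      apply Nat.sub_eq_of_eq_add; ring
    rw [e]
    exact (Dvd.intro _ rfl).mul_left _

theorem sylow_card_of_eq {G : Type*} [Group G] [Finite G] (p m r : ℕ) [Fact p.Prime]
    (h : Nat.card G = p ^ m * r) (hr : ¬ p ∣ r) (P : Sylow p G) :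
    Nat.card (P : Subgroup G) = p ^ m := by
  have hp : p.Prime := Fact.out
  have hr0 : r ≠ 0 := by rintro rfl; exact hr (dvd_zero p)
  rw [Sylow.card_eq_multiplicity, h, Nat.factorization_mul (pow_ne_zero m hp.ne_zero) hr0,
    Finsupp.add_apply, Nat.factorization_eq_zero_of_not_dvd hr, add_zero,
    Nat.Prime.factorization_pow hp, Finsupp.single_eq_same]

variable {F : Type*} [Field F]

/-- Structure of a Sylow 2-subgroup of `SL₂(q)`, `q` odd. -/
theorem sylow2_struct [Fintype F] (hodd : Odd (Fintype.card F))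
    (P : Sylow 2 (Matrix.SpecialLinearGroup (Fin 2) F)) :
    ∃ (k : ℕ) (x y : Matrix.SpecialLinearGroup (Fin 2) F), 1 ≤ k ∧
      x ∈ (P : Subgroup (Matrix.SpecialLinearGroup (Fin 2) F)) ∧
      y ∈ (P : Subgroup (Matrix.SpecialLinearGroup (Fin 2) F)) ∧
      orderOf x = 2 ^ (k + 1) ∧
      Nat.card (P : Subgroup (Matrix.SpecialLinearGroup (Fin 2) F)) = 2 ^ (k + 2) ∧
      y * x * y⁻¹ = x⁻¹ ∧
      sl2NegOne ∈ (P : Subgroup (Matrix.SpecialLinearGroup (Fin 2) F)) ∧
      (∀ g ∈ (P : Subgroup (Matrix.SpecialLinearGroup (Fin 2) F)), g ∈ Subgroup.zpowers x ∨ orderOf g = 4) := by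
  obtain ⟨k, hk, ⟨e⟩⟩ := S0261.result hodd P
  have : NeZero (2 ^ k) := ⟨pow_ne_zero k two_ne_zero⟩
  have : NeZero (2 * 2 ^ k) := ⟨by positivity⟩
  obtain ⟨X, hX⟩ : ∃ X : (P : Subgroup (Matrix.SpecialLinearGroup (Fin 2) F)), X = e.symm (QuaternionGroup.a 1) := ⟨_, rfl⟩
  obtain ⟨Y, hY⟩ : ∃ Y : (P : Subgroup (Matrix.SpecialLinearGroup (Fin 2) F)), Y = e.symm (QuaternionGroup.xa 0) := ⟨_, rfl⟩
  have hXo : orderOf (X : Matrix.SpecialLinearGroup (Fin 2) F) = 2 ^ (k + 1) := by
    rw [Subgroup.orderOf_coe, hX, MulEquiv.orderOf_eq, QuaternionGroup.orderOf_a_one, pow_succ']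
  have hcard : Nat.card (P : Subgroup (Matrix.SpecialLinearGroup (Fin 2) F)) = 2 ^ (k + 2) := by
    rw [Nat.card_congr e.toEquiv, Nat.card_eq_fintype_card, QuaternionGroup.card]
    ring
  have hrelQ : (QuaternionGroup.a 1 : QuaternionGroup (2 ^ k)) *
      (QuaternionGroup.xa 0 * QuaternionGroup.a 1) = QuaternionGroup.xa 0 := by
    rw [QuaternionGroup.xa_mul_a, QuaternionGroup.a_mul_xa]
    congr 1
    ring
  have hrel : X * (Y * X) = Y := by
    rw [hX, hY, ← map_mul, ← map_mul, hrelQ]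
  have hrel' : (X : Matrix.SpecialLinearGroup (Fin 2) F) * ((Y : Matrix.SpecialLinearGroup (Fin 2) F) * (X : Matrix.SpecialLinearGroup (Fin 2) F)) = (Y : Matrix.SpecialLinearGroup (Fin 2) F) := congrArg Subtype.val hrel
  have hyx : (Y : Matrix.SpecialLinearGroup (Fin 2) F) * (X : Matrix.SpecialLinearGroup (Fin 2) F) * (Y : Matrix.SpecialLinearGroup (Fin 2) F)⁻¹ = (X : Matrix.SpecialLinearGroup (Fin 2) F)⁻¹ := by
    rw [mul_inv_eq_iff_eq_mul, eq_inv_mul_iff_mul_eq]
    exact hrel'
  have hz : (X : Matrix.SpecialLinearGroup (Fin 2) F) ^ (2 ^ k) = sl2NegOne := by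
    have hz1 : (X : Matrix.SpecialLinearGroup (Fin 2) F) ^ (2 ^ k) ≠ 1 := by
      intro h
      have h1 := orderOf_dvd_of_pow_eq_one h
      rw [hXo] at h1
      have h2 := Nat.le_of_dvd (by positivity) h1
      have h3 : 2 ^ (k + 1) = 2 * 2 ^ k := by rw [pow_succ, mul_comm]
      have h5 : 0 < 2 ^ k := by positivity
      omega
    have hz2 : (X : Matrix.SpecialLinearGroup (Fin 2) F) ^ (2 ^ k) * (X : Matrix.SpecialLinearGroup (Fin 2) F) ^ (2 ^ k) = 1 := by
      rw [← pow_add, ← two_mul, ← pow_succ', ← hXo, pow_orderOf_eq_one]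
    apply Subtype.ext
    rw [S0268.result hodd _ hz1 hz2, S0809.negOne_val]
  refine ⟨k, X, Y, hk, X.2, Y.2, hXo, hcard, hyx, ?_, ?_⟩
  · rw [← hz]; exact Subgroup.pow_mem _ X.2 _
  · intro g hg
    obtain ⟨q, hq⟩ : ∃ q : QuaternionGroup (2 ^ k), q = e ⟨g, hg⟩ := ⟨_, rfl⟩
    rcases q with i | i
    · left
      have h1 : (⟨g, hg⟩ : (P : Subgroup (Matrix.SpecialLinearGroup (Fin 2) F))) = X ^ i.val := by
        rw [hX, ← map_pow, QuaternionGroup.a_one_pow, ZMod.natCast_zmod_val, hq,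
          MulEquiv.symm_apply_apply]
      have h2 : g = (X : Matrix.SpecialLinearGroup (Fin 2) F) ^ i.val := congrArg Subtype.val h1
      rw [h2]
      exact Subgroup.pow_mem _ (Subgroup.mem_zpowers _) _
    · right
      have h1 : orderOf (⟨g, hg⟩ : (P : Subgroup (Matrix.SpecialLinearGroup (Fin 2) F))) = 4 := by
        rw [← MulEquiv.orderOf_eq e, ← hq]
        exact QuaternionGroup.orderOf_xa i
      rw [← h1]
      exact Subgroup.orderOf_coe (⟨g, hg⟩ : (P : Subgroup (Matrix.SpecialLinearGroup (Fin 2) F)))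

/-- Let F be a finite field with q elements, q odd, and S a Sylow 2-subgroup of SL₂ over F. The centraliser of S is the centre of SL₂ (of order 2); S is its own normaliser when q ≡ ±1 mod 8, and has index 3 in its normaliser when q ≡ ±3 mod 8. -/
theorem s2431 {F : Type*} [Field F] [Fintype F] (hodd : Odd (Fintype.card F)) (S : Sylow 2 (Matrix.SpecialLinearGroup (Fin 2) F)) :
    Subgroup.centralizer ((S : Subgroup (Matrix.SpecialLinearGroup (Fin 2) F)) : Set (Matrix.SpecialLinearGroup (Fin 2) F)) = Subgroup.center (Matrix.SpecialLinearGroup (Fin 2) F) ∧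
    ((Fintype.card F % 8 = 1 ∨ Fintype.card F % 8 = 7) →
      Subgroup.normalizer ((S : Subgroup (Matrix.SpecialLinearGroup (Fin 2) F)) : Set (Matrix.SpecialLinearGroup (Fin 2) F)) = (S : Subgroup (Matrix.SpecialLinearGroup (Fin 2) F))) ∧
    ((Fintype.card F % 8 = 3 ∨ Fintype.card F % 8 = 5) →
      Nat.card (Subgroup.normalizer ((S : Subgroup (Matrix.SpecialLinearGroup (Fin 2) F)) : Set (Matrix.SpecialLinearGroup (Fin 2) F))) = 3 * Nat.card S) := by
  classical
  have h2 : (2 : F) ≠ 0 := two_ne_zero_of_odd hodd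
  obtain ⟨k, x, y, hk, hxP, hyP, hxo, hcardP, hyx, hzP, hall⟩ := sylow2_struct hodd S
  obtain ⟨p, hp⟩ := CharP.exists F
  have hpp : p.Prime := CharP.char_is_prime F p
  have : Fact p.Prime := ⟨hpp⟩
  have h4 := S0261.trace_sq_ne_four hodd p x k hk hxo
  have hxs : ¬ Sl2Scalar x := fun hs => h4 (sl2Scalar_trace_sq x hs)
  refine ⟨?_, ?_, ?_⟩
  · apply le_antisymm
    · intro g hg
      rw [Subgroup.mem_centralizer_iff] at hg
      have hgx : x * g = g * x := hg x hxP
      have hgy : y * g = g * y := hg y hyP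
      by_contra hgc
      have hgs : ¬ Sl2Scalar g := fun hs => hgc (sl2Scalar_mem_center g hs)
      have hcent := torus_cent_eq x g hxs hgs hgx
      have hy1 : y ∈ Subgroup.centralizer ({g} : Set (Matrix.SpecialLinearGroup (Fin 2) F)) :=
        Subgroup.mem_centralizer_singleton_iff.mpr hgy
      rw [hcent, Subgroup.mem_centralizer_singleton_iff] at hy1
      apply torus_ne_inv hodd x hxs
      rw [← hyx, hy1, mul_inv_cancel_right]
    · exact Subgroup.center_le_centralizer _
  · intro h8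
    have hk2 : 2 ≤ k := by
      have h16 : 2 ^ 4 ∣ Nat.card (Matrix.SpecialLinearGroup (Fin 2) F) := by
        rw [sl2_card]; exact sixteen_dvd _ h8
      have h1 := S.pow_dvd_card_of_pow_dvd_card h16
      rw [hcardP] at h1
      have h3 := (Nat.pow_dvd_pow_iff_le_right (by norm_num : 1 < 2)).mp h1
      omega
    have h8' : 8 ≤ 2 ^ (k + 1) := by
      calc 8 = 2 ^ 3 := by norm_num
        _ ≤ 2 ^ (k + 1) := Nat.pow_le_pow_right (by norm_num) (by omega)
    have key : ∀ g ∈ Subgroup.normalizer ((S : Subgroup (Matrix.SpecialLinearGroup (Fin 2) F)) : Set (Matrix.SpecialLinearGroup (Fin 2) F)),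
        ∃ m : ℕ, g ^ 2 ^ m = 1 := by
      intro g hg
      have hconj : g * x * g⁻¹ ∈ (S : Subgroup (Matrix.SpecialLinearGroup (Fin 2) F)) :=
        (Subgroup.mem_normalizer_iff.mp hg x).mp hxP
      have hord : orderOf (g * x * g⁻¹) = orderOf x := MulEquiv.orderOf_eq (MulAut.conj g) x
      rcases hall _ hconj with hzp | ho
      · obtain ⟨m, hm⟩ := Subgroup.mem_zpowers_iff.mp hzp
        have hcomm : x * (g * x * g⁻¹) = (g * x * g⁻¹) * x := by
          rw [← hm]; exact (Commute.zpow_self x m).eq.symm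
        have htr := sl2_trace_conj g x
        rcases torus_same_trace h2 x (g * x * g⁻¹) h4 hxs hcomm htr with hA | hB
        · have hgx : x * g⁻¹ = g⁻¹ * x := by
            calc x * g⁻¹ = g⁻¹ * (g * x * g⁻¹) := by group
              _ = g⁻¹ * x := by rw [hA]
          have hinv := torus_inv_conj x g⁻¹ y hxs hgx hyx
          have hyconj : g * y * g⁻¹ ∈ (S : Subgroup (Matrix.SpecialLinearGroup (Fin 2) F)) :=
            (Subgroup.mem_normalizer_iff.mp hg y).mp hyP
          have hgg : g * g ∈ (S : Subgroup (Matrix.SpecialLinearGroup (Fin 2) F)) := by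
            have e : g * g = (g * y * g⁻¹) * y⁻¹ := by
              calc g * g = g * g⁻¹⁻¹ := by rw [inv_inv]
                _ = g * (y * g⁻¹ * y⁻¹) := by rw [hinv]
                _ = (g * y * g⁻¹) * y⁻¹ := by group
            rw [e]
            exact Subgroup.mul_mem _ hyconj (Subgroup.inv_mem _ hyP)
          have h1 : (g * g) ^ 2 ^ (k + 2) = 1 := by
            rw [← hcardP]
            exact orderOf_dvd_iff_pow_eq_one.mp (Subgroup.orderOf_dvd_natCard _ hgg)
          refine ⟨k + 2 + 1, ?_⟩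
          rw [← pow_two, ← pow_mul, ← pow_succ'] at h1
          exact h1
        · have hgN := torus_inverter_mem_normalizer x g hxs hB
          have hgK : g ∉ Subgroup.centralizer ({x} : Set (Matrix.SpecialLinearGroup (Fin 2) F)) := by
            intro hc
            rw [Subgroup.mem_centralizer_singleton_iff] at hc
            apply torus_ne_inv hodd x hxs
            rw [← hB, hc, mul_inv_cancel_right]
          have hsq := torus_sq hodd x g h4 hgN hgK
          refine ⟨2, ?_⟩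
          have e22 : (2 : ℕ) ^ 2 = 2 + 2 := by norm_num
          rw [e22, pow_add, pow_two, hsq, sl2NegOne_mul_self]
      · exfalso
        rw [hord, hxo] at ho
        omega
    have hN : IsPGroup 2 (Subgroup.normalizer ((S : Subgroup (Matrix.SpecialLinearGroup (Fin 2) F)) : Set (Matrix.SpecialLinearGroup (Fin 2) F))) := by
      unfold IsPGroup
      rintro ⟨g, hg⟩
      obtain ⟨m, hm⟩ := key g hg
      exact ⟨m, Subtype.ext (by rw [Subgroup.coe_pow]; exact hm)⟩
    exact S.is_maximal' hN Subgroup.le_normalizer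
  · intro h8
    obtain ⟨r, hr, hqr⟩ := card_two_part _ h8
    have hSL : Nat.card (Matrix.SpecialLinearGroup (Fin 2) F) = 2 ^ 3 * r := by rw [sl2_card, hqr]
    have hr2 : ¬ 2 ∣ r := by
      rintro ⟨c, hc⟩
      obtain ⟨d, hd⟩ := hr
      omega
    have hP8 : ∀ Q : Sylow 2 (Matrix.SpecialLinearGroup (Fin 2) F), Nat.card (Q : Subgroup (Matrix.SpecialLinearGroup (Fin 2) F)) = 8 := by
      intro Q
      exact (sylow_card_of_eq 2 3 r hSL hr2 Q).trans (by norm_num)
    have hfac : (2 : ℕ) ^ (Nat.card (Matrix.SpecialLinearGroup (Fin 2) F)).factorization 2 = 8 := by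
      rw [← Sylow.card_eq_multiplicity S]; exact hP8 S
    have hPSL : Nat.card (Matrix.ProjectiveSpecialLinearGroup (Fin 2) F) * 2 = Nat.card (Matrix.SpecialLinearGroup (Fin 2) F) := by
      rw [sl2_card]; exact psl2_card_odd h2
    obtain ⟨π, hπ⟩ : ∃ π : Matrix.SpecialLinearGroup (Fin 2) F →* Matrix.ProjectiveSpecialLinearGroup (Fin 2) F, π = QuotientGroup.mk' (Subgroup.center (Matrix.SpecialLinearGroup (Fin 2) F)) :=
      ⟨_, rfl⟩
    have hsurj : Function.Surjective π := by rw [hπ]; exact QuotientGroup.mk'_surjective _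
    have hker : π.ker = Subgroup.center (Matrix.SpecialLinearGroup (Fin 2) F) := by rw [hπ]; exact QuotientGroup.ker_mk' _
    have hZle : ∀ Q : Sylow 2 (Matrix.SpecialLinearGroup (Fin 2) F), Subgroup.center (Matrix.SpecialLinearGroup (Fin 2) F) ≤ (Q : Subgroup (Matrix.SpecialLinearGroup (Fin 2) F)) := by
      intro Q z hz
      obtain ⟨k', x', y', -, -, -, -, -, -, hzQ, -⟩ := sylow2_struct hodd Q
      rcases sl2_center_cases z hz with h | h
      · rw [h]; exact Subgroup.one_mem _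
      · rw [h]; exact hzQ
    have hcm : ∀ Q : Sylow 2 (Matrix.SpecialLinearGroup (Fin 2) F),
        ((Q : Subgroup (Matrix.SpecialLinearGroup (Fin 2) F)).map π).comap π = (Q : Subgroup (Matrix.SpecialLinearGroup (Fin 2) F)) := by
      intro Q
      rw [Subgroup.comap_map_eq, hker]
      exact sup_eq_left.mpr (hZle Q)
    have hsqc : ∀ Q : Sylow 2 (Matrix.SpecialLinearGroup (Fin 2) F), ∀ g ∈ (Q : Subgroup (Matrix.SpecialLinearGroup (Fin 2) F)),
        g * g ∈ Subgroup.center (Matrix.SpecialLinearGroup (Fin 2) F) := by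
      intro Q g hg
      obtain ⟨k', x', y', hk', hx'Q, -, hx'o, hcard', -, -, hall'⟩ := sylow2_struct hodd Q
      have hk1 : k' = 1 := by
        rw [hP8 Q] at hcard'
        have h3 : (2 : ℕ) ^ 3 = 2 ^ (k' + 2) := by
          have e8 : (2 : ℕ) ^ 3 = 8 := by norm_num
          rw [e8]; exact hcard'
        have h5 := Nat.pow_right_injective (le_refl 2) h3
        omega
      subst hk1
      have hg4 : orderOf g ∣ 4 := by
        rcases hall' g hg with h | h
        · have h6 := orderOf_dvd_of_mem_zpowers h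
          have e4 : (2 : ℕ) ^ (1 + 1) = 4 := by norm_num
          rw [hx'o, e4] at h6
          exact h6
        · rw [h]
      have h1 : g ^ 4 = 1 := orderOf_dvd_iff_pow_eq_one.mp hg4
      apply S0807.central_of_sq_one hodd
      have e4' : g ^ 4 = g * g * (g * g) := by
        have e22 : (4 : ℕ) = 2 + 2 := rfl
        rw [e22, pow_add, pow_two]
      rw [← e4']
      exact h1
    have hidx : ∀ V : Subgroup (Matrix.ProjectiveSpecialLinearGroup (Fin 2) F), (V.comap π).index = V.index :=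
      fun V => Subgroup.index_comap_of_surjective V hsurj
    have hklein : ∀ Q : Sylow 2 (Matrix.SpecialLinearGroup (Fin 2) F), IsKleinFour ((Q : Subgroup (Matrix.SpecialLinearGroup (Fin 2) F)).map π) := by
      intro Q
      apply isKleinFour_of_card_sq
      · have e1 := Subgroup.card_mul_index ((Q : Subgroup (Matrix.SpecialLinearGroup (Fin 2) F)).map π)
        have e2 := Subgroup.card_mul_index (Q : Subgroup (Matrix.SpecialLinearGroup (Fin 2) F))
        have e3 := hidx ((Q : Subgroup (Matrix.SpecialLinearGroup (Fin 2) F)).map π)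
        rw [hcm Q] at e3
        rw [← e3] at e1
        rw [hP8 Q] at e2
        have hI : 0 < (Q : Subgroup (Matrix.SpecialLinearGroup (Fin 2) F)).index := by
          rcases Nat.eq_zero_or_pos (Q : Subgroup (Matrix.SpecialLinearGroup (Fin 2) F)).index with h0 | h0
          · rw [h0, mul_zero] at e2
            have h9 := Nat.card_pos (α := Matrix.SpecialLinearGroup (Fin 2) F)
            omega
          · exact h0
        have e4 : (2 * Nat.card ((Q : Subgroup (Matrix.SpecialLinearGroup (Fin 2) F)).map π)) * (Q : Subgroup (Matrix.SpecialLinearGroup (Fin 2) F)).index =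
            8 * (Q : Subgroup (Matrix.SpecialLinearGroup (Fin 2) F)).index := by
          calc (2 * Nat.card ((Q : Subgroup (Matrix.SpecialLinearGroup (Fin 2) F)).map π)) * (Q : Subgroup (Matrix.SpecialLinearGroup (Fin 2) F)).index
              = 2 * (Nat.card ((Q : Subgroup (Matrix.SpecialLinearGroup (Fin 2) F)).map π) * (Q : Subgroup (Matrix.SpecialLinearGroup (Fin 2) F)).index) := by
                ring
            _ = 2 * Nat.card (Matrix.ProjectiveSpecialLinearGroup (Fin 2) F) := by rw [e1]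
            _ = 8 * (Q : Subgroup (Matrix.SpecialLinearGroup (Fin 2) F)).index := by omega
        have e5 := Nat.eq_of_mul_eq_mul_right hI e4
        omega
      · rintro ⟨v, hv⟩
        obtain ⟨g, hg, rfl⟩ := Subgroup.mem_map.mp hv
        apply Subtype.ext
        show π g * π g = 1
        rw [← map_mul, hπ]
        exact (QuotientGroup.eq_one_iff (g * g)).mpr (hsqc Q g hg)
    have hle1 : Nat.card (Sylow 2 (Matrix.SpecialLinearGroup (Fin 2) F)) ≤
        Nat.card {V : Subgroup (Matrix.ProjectiveSpecialLinearGroup (Fin 2) F) // IsKleinFour V} := by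
      apply Nat.card_le_card_of_injective (fun Q : Sylow 2 (Matrix.SpecialLinearGroup (Fin 2) F) =>
        (⟨(Q : Subgroup (Matrix.SpecialLinearGroup (Fin 2) F)).map π, hklein Q⟩ : {V : Subgroup (Matrix.ProjectiveSpecialLinearGroup (Fin 2) F) // IsKleinFour V}))
      intro Q Q' h
      have h1 : (Q : Subgroup (Matrix.SpecialLinearGroup (Fin 2) F)).map π = (Q' : Subgroup (Matrix.SpecialLinearGroup (Fin 2) F)).map π :=
        congrArg Subtype.val h
      apply Sylow.ext
      rw [← hcm Q, ← hcm Q', h1]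
    have hcomap8 : ∀ V : Subgroup (Matrix.ProjectiveSpecialLinearGroup (Fin 2) F), IsKleinFour V → Nat.card (V.comap π) = 8 := by
      intro V hV
      have e1 := Subgroup.card_mul_index V
      have e2 := Subgroup.card_mul_index (V.comap π)
      rw [hidx V] at e2
      rw [hV.card_four] at e1
      have hI : 0 < V.index := by
        rcases Nat.eq_zero_or_pos V.index with h0 | h0
        · rw [h0, mul_zero] at e1
          have h9 := Nat.card_pos (α := Matrix.ProjectiveSpecialLinearGroup (Fin 2) F)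
          omega
        · exact h0
      have e4 : Nat.card (V.comap π) * V.index = 8 * V.index := by omega
      exact Nat.eq_of_mul_eq_mul_right hI e4
    have hle2 : Nat.card {V : Subgroup (Matrix.ProjectiveSpecialLinearGroup (Fin 2) F) // IsKleinFour V} ≤
        Nat.card (Sylow 2 (Matrix.SpecialLinearGroup (Fin 2) F)) := by
      apply Nat.card_le_card_of_injective
        (fun V : {V : Subgroup (Matrix.ProjectiveSpecialLinearGroup (Fin 2) F) // IsKleinFour V} =>
          (Sylow.ofCard (V.1.comap π) ((hcomap8 V.1 V.2).trans hfac.symm) : Sylow 2 (Matrix.SpecialLinearGroup (Fin 2) F)))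
      intro V V' h
      have h1 : V.1.comap π = V'.1.comap π := by
        have h5 := congrArg (fun Q : Sylow 2 (Matrix.SpecialLinearGroup (Fin 2) F) => (Q : Subgroup (Matrix.SpecialLinearGroup (Fin 2) F))) h
        exact h5
      exact Subtype.ext (Subgroup.comap_injective hsurj h1)
    have hn : Nat.card (Sylow 2 (Matrix.SpecialLinearGroup (Fin 2) F)) = Nat.card {V : Subgroup (Matrix.ProjectiveSpecialLinearGroup (Fin 2) F) // IsKleinFour V} :=
      le_antisymm hle1 hle2
    have h12 := S0807.result (F := F) rfl hodd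
    have hidxN : Nat.card (Sylow 2 (Matrix.SpecialLinearGroup (Fin 2) F)) =
        (Subgroup.normalizer ((S : Subgroup (Matrix.SpecialLinearGroup (Fin 2) F)) : Set (Matrix.SpecialLinearGroup (Fin 2) F))).index :=
      Sylow.card_eq_index_normalizer S
    have hmulN := Subgroup.index_mul_card
      (Subgroup.normalizer ((S : Subgroup (Matrix.SpecialLinearGroup (Fin 2) F)) : Set (Matrix.SpecialLinearGroup (Fin 2) F)))
    rw [← hidxN, hn] at hmulN
    have hKpos : 0 < Nat.card {V : Subgroup (Matrix.ProjectiveSpecialLinearGroup (Fin 2) F) // IsKleinFour V} := by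
      rw [← hn]; exact Nat.card_pos
    have e4 : Nat.card {V : Subgroup (Matrix.ProjectiveSpecialLinearGroup (Fin 2) F) // IsKleinFour V} *
        Nat.card (Subgroup.normalizer ((S : Subgroup (Matrix.SpecialLinearGroup (Fin 2) F)) : Set (Matrix.SpecialLinearGroup (Fin 2) F))) =
        Nat.card {V : Subgroup (Matrix.ProjectiveSpecialLinearGroup (Fin 2) F) // IsKleinFour V} * 24 := by omega
    have e5 := Nat.eq_of_mul_eq_mul_left hKpos e4
    have h8S : Nat.card S = 8 := hP8 S
    omega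


theorem fac_sub {q ℓ : ℕ} (hq : 1 < q) (hℓp : ℓ.Prime) (hℓ2 : ℓ ≠ 2) (hd : ℓ ∣ q - 1) :
    (q * (q ^ 2 - 1)).factorization ℓ = (q - 1).factorization ℓ := by
  have hnq : ¬ ℓ ∣ q := by
    intro h
    have h1 := Nat.dvd_sub h hd
    have e : q - (q - 1) = 1 := by omega
    rw [e] at h1
    have h2 := Nat.le_of_dvd one_pos h1
    have h3 := hℓp.two_le
    omega
  have hnq1 : ¬ ℓ ∣ q + 1 := by
    intro h
    have h1 := Nat.dvd_sub h hd
    have e : q + 1 - (q - 1) = 2 := by omega
    rw [e] at h1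
    have h2 := Nat.le_of_dvd (by norm_num) h1
    have h3 := hℓp.two_le
    omega
  have hq0 : q ≠ 0 := by omega
  have hq1 : q - 1 ≠ 0 := by omega
  have hq2 : q + 1 ≠ 0 := by omega
  rw [sq_sub_one_eq q (by omega), Nat.factorization_mul hq0 (Nat.mul_ne_zero hq1 hq2),
    Nat.factorization_mul hq1 hq2, Finsupp.add_apply, Finsupp.add_apply,
    Nat.factorization_eq_zero_of_not_dvd hnq, Nat.factorization_eq_zero_of_not_dvd hnq1]
  omega

theorem fac_add {q ℓ : ℕ} (hq : 1 < q) (hℓp : ℓ.Prime) (hℓ2 : ℓ ≠ 2) (hd : ℓ ∣ q + 1) :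
    (q * (q ^ 2 - 1)).factorization ℓ = (q + 1).factorization ℓ := by
  have hnq : ¬ ℓ ∣ q := by
    intro h
    have h1 := Nat.dvd_sub hd h
    have e : q + 1 - q = 1 := by omega
    rw [e] at h1
    have h2 := Nat.le_of_dvd one_pos h1
    have h3 := hℓp.two_le
    omega
  have hnq1 : ¬ ℓ ∣ q - 1 := by
    intro h
    have h1 := Nat.dvd_sub hd h
    have e : q + 1 - (q - 1) = 2 := by omega
    rw [e] at h1
    have h2 := Nat.le_of_dvd (by norm_num) h1
    have h3 := hℓp.two_le
    omega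
  have hq0 : q ≠ 0 := by omega
  have hq1 : q - 1 ≠ 0 := by omega
  have hq2 : q + 1 ≠ 0 := by omega
  rw [sq_sub_one_eq q (by omega), Nat.factorization_mul hq0 (Nat.mul_ne_zero hq1 hq2),
    Nat.factorization_mul hq1 hq2, Finsupp.add_apply, Finsupp.add_apply,
    Nat.factorization_eq_zero_of_not_dvd hnq, Nat.factorization_eq_zero_of_not_dvd hnq1]
  omega

theorem sylow2_struct' [Fintype F] (hodd : Odd (Fintype.card F))
    (P : Sylow 2 (Matrix.SpecialLinearGroup (Fin 2) F)) :
    ∃ (k : ℕ) (x y : Matrix.SpecialLinearGroup (Fin 2) F), 1 ≤ k ∧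
      x ∈ (P : Subgroup (Matrix.SpecialLinearGroup (Fin 2) F)) ∧
      y ∈ (P : Subgroup (Matrix.SpecialLinearGroup (Fin 2) F)) ∧
      orderOf x = 2 ^ (k + 1) ∧
      Nat.card (P : Subgroup (Matrix.SpecialLinearGroup (Fin 2) F)) = 2 ^ (k + 2) ∧
      y * x * y⁻¹ = x⁻¹ ∧
      x ^ 2 ^ k = sl2NegOne ∧
      (∀ g ∈ (P : Subgroup (Matrix.SpecialLinearGroup (Fin 2) F)), g ∈ Subgroup.zpowers x ∨ g * x * g⁻¹ = x⁻¹) := by
  obtain ⟨k, hk, ⟨e⟩⟩ := S0261.result hodd P
  have : NeZero (2 ^ k) := ⟨pow_ne_zero k two_ne_zero⟩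
  have : NeZero (2 * 2 ^ k) := ⟨by positivity⟩
  obtain ⟨X, hX⟩ : ∃ X : (P : Subgroup (Matrix.SpecialLinearGroup (Fin 2) F)), X = e.symm (QuaternionGroup.a 1) := ⟨_, rfl⟩
  obtain ⟨Y, hY⟩ : ∃ Y : (P : Subgroup (Matrix.SpecialLinearGroup (Fin 2) F)), Y = e.symm (QuaternionGroup.xa 0) := ⟨_, rfl⟩
  have hXo : orderOf (X : Matrix.SpecialLinearGroup (Fin 2) F) = 2 ^ (k + 1) := by
    rw [Subgroup.orderOf_coe, hX, MulEquiv.orderOf_eq, QuaternionGroup.orderOf_a_one, pow_succ']
  have hcard : Nat.card (P : Subgroup (Matrix.SpecialLinearGroup (Fin 2) F)) = 2 ^ (k + 2) := by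
    rw [Nat.card_congr e.toEquiv, Nat.card_eq_fintype_card, QuaternionGroup.card]
    ring
  have hrelQ : ∀ i : ZMod (2 * 2 ^ k), (QuaternionGroup.a 1 : QuaternionGroup (2 ^ k)) *
      (QuaternionGroup.xa i * QuaternionGroup.a 1) = QuaternionGroup.xa i := by
    intro i
    rw [QuaternionGroup.xa_mul_a, QuaternionGroup.a_mul_xa]
    congr 1
    ring
  have hconjP : ∀ (G : (P : Subgroup (Matrix.SpecialLinearGroup (Fin 2) F))) (i : ZMod (2 * 2 ^ k)),
      e G = QuaternionGroup.xa i →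
      (G : Matrix.SpecialLinearGroup (Fin 2) F) * (X : Matrix.SpecialLinearGroup (Fin 2) F) * (G : Matrix.SpecialLinearGroup (Fin 2) F)⁻¹ = (X : Matrix.SpecialLinearGroup (Fin 2) F)⁻¹ := by
    intro G i hG
    have hG' : G = e.symm (QuaternionGroup.xa i) := by rw [← hG, MulEquiv.symm_apply_apply]
    have hrel : X * (G * X) = G := by
      rw [hX, hG', ← map_mul, ← map_mul, hrelQ]
    have hrel' : (X : Matrix.SpecialLinearGroup (Fin 2) F) * ((G : Matrix.SpecialLinearGroup (Fin 2) F) * (X : Matrix.SpecialLinearGroup (Fin 2) F)) = (G : Matrix.SpecialLinearGroup (Fin 2) F) := congrArg Subtype.val hrel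
    rw [mul_inv_eq_iff_eq_mul, eq_inv_mul_iff_mul_eq]
    exact hrel'
  have hyx : (Y : Matrix.SpecialLinearGroup (Fin 2) F) * (X : Matrix.SpecialLinearGroup (Fin 2) F) * (Y : Matrix.SpecialLinearGroup (Fin 2) F)⁻¹ = (X : Matrix.SpecialLinearGroup (Fin 2) F)⁻¹ :=
    hconjP Y 0 (by rw [hY, MulEquiv.apply_symm_apply])
  have hz : (X : Matrix.SpecialLinearGroup (Fin 2) F) ^ (2 ^ k) = sl2NegOne := by
    have hz1 : (X : Matrix.SpecialLinearGroup (Fin 2) F) ^ (2 ^ k) ≠ 1 := by
      intro h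
      have h1 := orderOf_dvd_of_pow_eq_one h
      rw [hXo] at h1
      have h2 := Nat.le_of_dvd (by positivity) h1
      have h3 : 2 ^ (k + 1) = 2 * 2 ^ k := by rw [pow_succ, mul_comm]
      have h5 : 0 < 2 ^ k := by positivity
      omega
    have hz2 : (X : Matrix.SpecialLinearGroup (Fin 2) F) ^ (2 ^ k) * (X : Matrix.SpecialLinearGroup (Fin 2) F) ^ (2 ^ k) = 1 := by
      rw [← pow_add, ← two_mul, ← pow_succ', ← hXo, pow_orderOf_eq_one]
    apply Subtype.ext
    rw [S0268.result hodd _ hz1 hz2, S0809.negOne_val]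
  refine ⟨k, X, Y, hk, X.2, Y.2, hXo, hcard, hyx, hz, ?_⟩
  intro g hg
  obtain ⟨q, hq⟩ : ∃ q : QuaternionGroup (2 ^ k), q = e ⟨g, hg⟩ := ⟨_, rfl⟩
  rcases q with i | i
  · left
    have h1 : (⟨g, hg⟩ : (P : Subgroup (Matrix.SpecialLinearGroup (Fin 2) F))) = X ^ i.val := by
      rw [hX, ← map_pow, QuaternionGroup.a_one_pow, ZMod.natCast_zmod_val, hq,
        MulEquiv.symm_apply_apply]
    have h2 : g = (X : Matrix.SpecialLinearGroup (Fin 2) F) ^ i.val := congrArg Subtype.val h1
    rw [h2]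
    exact Subgroup.pow_mem _ (Subgroup.mem_zpowers _) _
  · right
    exact hconjP ⟨g, hg⟩ i hq.symm

end Cfsg.Agent.Helper12.TB
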