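import Mathlib
import Cfsg.Agent.Helper12.McKayGen
import Cfsg.Agent.Helper12.TorusB
import Cfsg.Agent.Helper12.SylowB
import Cfsg.Agent.Helper12.BorelClasses
import Cfsg.Agent.Helper12.SL2Unip
import Cfsg.Agent.Helper12.SL2Blocks
import Cfsg.Agent.S0807

/-!
helper12: characters of degree prime to `ℓ` of the Sylow normalizers of `SL₂(q)`, `q` odd.
-/

set_option autoImplicit false

namespace Cfsg.Agent.Helper12.TB

open Cfsg

variable {F : Type*} [Field F]

/-! ### odd primes not dividing `q`: normalizers of tori -/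

theorem sylow_torus' [Fintype F] (hodd : Odd (Fintype.card F)) (ℓ : ℕ) [Fact ℓ.Prime]
    (a : Matrix.SpecialLinearGroup (Fin 2) F) (m : ℕ) (ha : orderOf a = m)
    (h4 : (a : Matrix (Fin 2) (Fin 2) F).trace ^ 2 ≠ 4)
    (hcard : ∀ b : Matrix.SpecialLinearGroup (Fin 2) F,
      (b : Matrix (Fin 2) (Fin 2) F).trace = (a : Matrix (Fin 2) (Fin 2) F).trace →
      Nat.card (Subgroup.centralizer ({b} : Set (Matrix.SpecialLinearGroup (Fin 2) F))) = m)
    (hℓ : ℓ ∣ m) (hℓ2 : ℓ ≠ 2)
    (hfac : (Nat.card (Matrix.SpecialLinearGroup (Fin 2) F)).factorization ℓ = m.factorization ℓ)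
    (P : Sylow ℓ (Matrix.SpecialLinearGroup (Fin 2) F)) :
    ∃ x : Matrix.SpecialLinearGroup (Fin 2) F,
      (x : Matrix (Fin 2) (Fin 2) F).trace ^ 2 ≠ 4 ∧
      Nat.card (Subgroup.centralizer ({x} : Set (Matrix.SpecialLinearGroup (Fin 2) F))) = m ∧
      Subgroup.normalizer ((P : Subgroup (Matrix.SpecialLinearGroup (Fin 2) F)) :
        Set (Matrix.SpecialLinearGroup (Fin 2) F)) =
      Subgroup.normalizer ((Subgroup.centralizer
        ({x} : Set (Matrix.SpecialLinearGroup (Fin 2) F)) :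
        Subgroup (Matrix.SpecialLinearGroup (Fin 2) F)) :
        Set (Matrix.SpecialLinearGroup (Fin 2) F)) := by
  have hℓp : ℓ.Prime := Fact.out
  have hm0 : 0 < m := by rw [← ha]; exact orderOf_pos a
  have hk1 : 1 ≤ m.factorization ℓ := (hℓp.dvd_iff_one_le_factorization hm0.ne').mp hℓ
  obtain ⟨j, hj⟩ := Nat.ordProj_dvd m ℓ
  have hj' : m = j * ℓ ^ m.factorization ℓ := by rw [mul_comm]; exact hj
  have hpow : 0 < ℓ ^ m.factorization ℓ := pow_pos hℓp.pos _
  have hj0 : j ≠ 0 := by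
    rintro rfl
    rw [zero_mul] at hj'
    omega
  have hoj : orderOf (a ^ j) = ℓ ^ m.factorization ℓ := by
    rw [orderOf_pow_of_dvd hj0 (by rw [ha, hj']; exact Dvd.intro _ rfl), ha]
    exact Nat.div_eq_of_eq_mul_right (Nat.pos_of_ne_zero hj0) hj'
  have hcardP1 : Nat.card (Subgroup.zpowers (a ^ j)) =
      ℓ ^ (Nat.card (Matrix.SpecialLinearGroup (Fin 2) F)).factorization ℓ := by
    rw [Nat.card_zpowers, hoj, hfac]
  obtain ⟨g, hg⟩ := MulAction.exists_smul_eq (Matrix.SpecialLinearGroup (Fin 2) F)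
    (Sylow.ofCard (Subgroup.zpowers (a ^ j)) hcardP1) P
  have hP : (P : Subgroup (Matrix.SpecialLinearGroup (Fin 2) F)) =
      Subgroup.zpowers ((g * a * g⁻¹) ^ j) := by
    rw [← hg, Sylow.coe_subgroup_smul, Sylow.coe_ofCard, conj_smul_zpowers, conj_pow]
  have ha' : orderOf (g * a * g⁻¹) = m := by
    have h := MulEquiv.orderOf_eq (MulAut.conj g) a
    rw [ha] at h
    exact h
  have htr' : ((g * a * g⁻¹ : Matrix.SpecialLinearGroup (Fin 2) F) :
      Matrix (Fin 2) (Fin 2) F).trace = (a : Matrix (Fin 2) (Fin 2) F).trace :=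
    sl2_trace_conj g a
  have h4' : ((g * a * g⁻¹ : Matrix.SpecialLinearGroup (Fin 2) F) :
      Matrix (Fin 2) (Fin 2) F).trace ^ 2 ≠ 4 := by rw [htr']; exact h4
  have hx' : ¬ Sl2Scalar (g * a * g⁻¹) := fun hs => h4' (sl2Scalar_trace_sq _ hs)
  have hc' := hcard (g * a * g⁻¹) htr'
  have hcz := cent_eq_zpowers_of_card (g * a * g⁻¹) (hc'.trans ha'.symm)
  have hoj' : orderOf ((g * a * g⁻¹) ^ j) = ℓ ^ m.factorization ℓ := by
    rw [conj_pow]
    have h := MulEquiv.orderOf_eq (MulAut.conj g) (a ^ j)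
    rw [hoj] at h
    exact h
  have hxns : ¬ Sl2Scalar ((g * a * g⁻¹) ^ j) := by
    intro hs
    have hcen := sl2Scalar_mem_center _ hs
    have hsq : ((g * a * g⁻¹) ^ j) ^ 2 = 1 := by
      rw [pow_two]
      rcases sl2_center_cases _ hcen with h | h
      · rw [h, mul_one]
      · rw [h]; exact sl2NegOne_mul_self
    have hdvd := orderOf_dvd_of_pow_eq_one hsq
    rw [hoj'] at hdvd
    have hℓdvd : ℓ ∣ 2 := (dvd_pow_self ℓ (by omega)).trans hdvd
    have hle := Nat.le_of_dvd (by norm_num) hℓdvd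
    have h2le := hℓp.two_le
    omega
  have hPle : (P : Subgroup (Matrix.SpecialLinearGroup (Fin 2) F)) ≤
      Subgroup.centralizer ({g * a * g⁻¹} : Set (Matrix.SpecialLinearGroup (Fin 2) F)) := by
    rw [hP, hcz, Subgroup.zpowers_le]
    exact Subgroup.pow_mem _ (Subgroup.mem_zpowers _) j
  have hxP : (g * a * g⁻¹) ^ j ∈ (P : Subgroup (Matrix.SpecialLinearGroup (Fin 2) F)) := by
    rw [hP]; exact Subgroup.mem_zpowers _
  have hCP := torus_cent_subgroup (g * a * g⁻¹) hx' _ hPle _ hxP hxns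
  have hNP : Subgroup.normalizer ((P : Subgroup (Matrix.SpecialLinearGroup (Fin 2) F)) :
      Set (Matrix.SpecialLinearGroup (Fin 2) F)) =
      Subgroup.normalizer ((Subgroup.centralizer
        ({g * a * g⁻¹} : Set (Matrix.SpecialLinearGroup (Fin 2) F)) :
        Subgroup (Matrix.SpecialLinearGroup (Fin 2) F)) :
        Set (Matrix.SpecialLinearGroup (Fin 2) F)) := by
    apply le_antisymm
    · have h := normalizer_le_normalizer_centralizer
        (P : Subgroup (Matrix.SpecialLinearGroup (Fin 2) F))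
      rw [hCP] at h
      exact h
    · rw [hcz, hP]
      exact normalizer_zpowers_le (g * a * g⁻¹) j (ℓ ^ m.factorization ℓ) hpow
        (by rw [ha']; exact hj')
  exact ⟨g * a * g⁻¹, h4', hc', hNP⟩

theorem sylow_norm_torus [Fintype F] (hodd : Odd (Fintype.card F)) (ℓ : ℕ) [Fact ℓ.Prime]
    (hℓ : ℓ ≠ 2) (P : Sylow ℓ (Matrix.SpecialLinearGroup (Fin 2) F)) :
    (ℓ ∣ Fintype.card F - 1 → ∃ x : Matrix.SpecialLinearGroup (Fin 2) F,
      (x : Matrix (Fin 2) (Fin 2) F).trace ^ 2 ≠ 4 ∧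
      Nat.card (Subgroup.centralizer ({x} : Set (Matrix.SpecialLinearGroup (Fin 2) F))) =
        Fintype.card F - 1 ∧
      Subgroup.normalizer ((P : Subgroup (Matrix.SpecialLinearGroup (Fin 2) F)) :
        Set (Matrix.SpecialLinearGroup (Fin 2) F)) =
      Subgroup.normalizer ((Subgroup.centralizer
        ({x} : Set (Matrix.SpecialLinearGroup (Fin 2) F)) :
        Subgroup (Matrix.SpecialLinearGroup (Fin 2) F)) :
        Set (Matrix.SpecialLinearGroup (Fin 2) F))) ∧
    (ℓ ∣ Fintype.card F + 1 → ∃ x : Matrix.SpecialLinearGroup (Fin 2) F,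
      (x : Matrix (Fin 2) (Fin 2) F).trace ^ 2 ≠ 4 ∧
      Nat.card (Subgroup.centralizer ({x} : Set (Matrix.SpecialLinearGroup (Fin 2) F))) =
        Fintype.card F + 1 ∧
      Subgroup.normalizer ((P : Subgroup (Matrix.SpecialLinearGroup (Fin 2) F)) :
        Set (Matrix.SpecialLinearGroup (Fin 2) F)) =
      Subgroup.normalizer ((Subgroup.centralizer
        ({x} : Set (Matrix.SpecialLinearGroup (Fin 2) F)) :
        Subgroup (Matrix.SpecialLinearGroup (Fin 2) F)) :
        Set (Matrix.SpecialLinearGroup (Fin 2) F))) := by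
  have hq1 : 1 < Fintype.card F := Fintype.one_lt_card
  have hℓp : ℓ.Prime := Fact.out
  constructor
  · intro hd
    have hge3 : 3 ≤ Fintype.card F - 1 := by
      have h1 := Nat.le_of_dvd (by omega) hd
      have h2 := hℓp.two_le
      omega
    obtain ⟨u, hu⟩ := sl2_exists_orderOf_card_sub_one (F := F)
    have hinv : (u : F) * ((u⁻¹ : Fˣ) : F) = 1 := Units.mul_inv u
    have hroot : (u : F) ^ 2 - ((sl2diag u : Matrix.SpecialLinearGroup (Fin 2) F) :
        Matrix (Fin 2) (Fin 2) F).trace * (u : F) + 1 = 0 := by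
      rw [sl2diag_val, Matrix.trace_fin_two_of]
      linear_combination -hinv
    have hne : (u : F) ≠ ((sl2diag u : Matrix.SpecialLinearGroup (Fin 2) F) :
        Matrix (Fin 2) (Fin 2) F).trace - (u : F) := by
      rw [sl2diag_val, Matrix.trace_fin_two_of]
      intro h
      have h1 : (u : F) = ((u⁻¹ : Fˣ) : F) := by linear_combination h
      have h2 : u = u⁻¹ := Units.ext h1
      have h5 : u * u = 1 := by
        calc u * u = u * u⁻¹ := by rw [← h2]
          _ = 1 := mul_inv_cancel u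
      have h3 : (sl2diag u : Matrix.SpecialLinearGroup (Fin 2) F) * sl2diag u = 1 := by
        rw [← sl2diagHom_apply, ← map_mul, h5, map_one]
      have h4 : orderOf (sl2diag u : Matrix.SpecialLinearGroup (Fin 2) F) ∣ 2 :=
        orderOf_dvd_of_pow_eq_one (by rw [pow_two]; exact h3)
      rw [hu] at h4
      have h6 := Nat.le_of_dvd (by norm_num) h4
      omega
    have h4 := sq_ne_four_of_split _ _ hroot hne
    exact sylow_torus' hodd ℓ (sl2diag u) (Fintype.card F - 1) hu h4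
      (fun b hb => torus_card_split hodd b (u : F) (by rw [hb]; exact hroot)
        (by rw [hb]; exact hne))
      hd hℓ (by rw [sl2_card]; exact fac_sub hq1 hℓp hℓ hd) P
  · intro hd
    obtain ⟨p, hp⟩ := CharP.exists F
    haveI : CharP F p := hp
    haveI : Fact p.Prime := ⟨CharP.char_is_prime F p⟩
    obtain ⟨a, ha⟩ := sl2_exists_orderOf_card_add_one (F := F) p
    have hirr := irr_of_order_odd a ha
    have h4 := sq_ne_four_of_no_root _ hirr
    exact sylow_torus' hodd ℓ a (Fintype.card F + 1) ha h4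
      (fun b hb => torus_card_irr hodd b (by rw [hb]; exact hirr))
      hd hℓ (by rw [sl2_card]; exact fac_add hq1 hℓp hℓ hd) P

theorem mckay_torus [Fintype F] (hodd : Odd (Fintype.card F)) (ℓ : ℕ) (hℓ2 : ¬ ℓ ∣ 2)
    (x : Matrix.SpecialLinearGroup (Fin 2) F)
    (h4 : (x : Matrix (Fin 2) (Fin 2) F).trace ^ 2 ≠ 4)
    (N : Subgroup (Matrix.SpecialLinearGroup (Fin 2) F))
    (hN : N = Subgroup.normalizer ((Subgroup.centralizer
        ({x} : Set (Matrix.SpecialLinearGroup (Fin 2) F)) :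
        Subgroup (Matrix.SpecialLinearGroup (Fin 2) F)) :
        Set (Matrix.SpecialLinearGroup (Fin 2) F))) :
    Nat.card {ψ : IrrCharacter ↥N // ¬ ℓ ∣ charDegree (ψ : ↥N → ℂ)} * 2 =
      Nat.card (Subgroup.centralizer ({x} : Set (Matrix.SpecialLinearGroup (Fin 2) F))) + 6 := by
  subst hN
  have hx : ¬ Sl2Scalar x := fun hs => h4 (sl2Scalar_trace_sq x hs)
  rw [← torus_normalizer_classes hodd x h4]
  congr 1
  refine count_eq_classes_of_abelian ℓ
    ((Subgroup.centralizer ({x} : Set (Matrix.SpecialLinearGroup (Fin 2) F))).subgroupOf _) ?_ ?_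
  · rintro ⟨a, ha⟩ ha' ⟨b, hb⟩ hb'
    rw [Subgroup.mem_subgroupOf] at ha' hb'
    apply Subtype.ext
    exact torus_comm x a b hx (Subgroup.mem_centralizer_singleton_iff.mp ha').symm
      (Subgroup.mem_centralizer_singleton_iff.mp hb').symm
  · have h1 := Subgroup.card_mul_index
      ((Subgroup.centralizer ({x} : Set (Matrix.SpecialLinearGroup (Fin 2) F))).subgroupOf
        (Subgroup.normalizer ((Subgroup.centralizer
          ({x} : Set (Matrix.SpecialLinearGroup (Fin 2) F)) :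
          Subgroup (Matrix.SpecialLinearGroup (Fin 2) F)) :
          Set (Matrix.SpecialLinearGroup (Fin 2) F))))
    rw [Nat.card_congr (Subgroup.subgroupOfEquivOfLe (Subgroup.le_normalizer
      (H := Subgroup.centralizer ({x} : Set (Matrix.SpecialLinearGroup (Fin 2) F))))).toEquiv,
      torus_card_normalizer hodd x h4] at h1
    have hpos : 0 < Nat.card (Subgroup.centralizer
      ({x} : Set (Matrix.SpecialLinearGroup (Fin 2) F))) := Nat.card_pos
    rw [Nat.eq_of_mul_eq_mul_left hpos (h1.trans (Nat.mul_comm 2 _))]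
    exact hℓ2

theorem mckay_rhs_torus [Fintype F] (hodd : Odd (Fintype.card F)) (ℓ : ℕ) [Fact ℓ.Prime]
    (hℓ : ℓ ≠ 2) (P : Sylow ℓ (Matrix.SpecialLinearGroup (Fin 2) F)) :
    (ℓ ∣ Fintype.card F - 1 →
      Nat.card {ψ : IrrCharacter ↥(Subgroup.normalizer
        ((P : Subgroup (Matrix.SpecialLinearGroup (Fin 2) F)) :
          Set (Matrix.SpecialLinearGroup (Fin 2) F))) //
        ¬ ℓ ∣ charDegree (ψ : ↥(Subgroup.normalizer
          ((P : Subgroup (Matrix.SpecialLinearGroup (Fin 2) F)) :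
            Set (Matrix.SpecialLinearGroup (Fin 2) F))) → ℂ)} * 2 = Fintype.card F - 1 + 6) ∧
    (ℓ ∣ Fintype.card F + 1 →
      Nat.card {ψ : IrrCharacter ↥(Subgroup.normalizer
        ((P : Subgroup (Matrix.SpecialLinearGroup (Fin 2) F)) :
          Set (Matrix.SpecialLinearGroup (Fin 2) F))) //
        ¬ ℓ ∣ charDegree (ψ : ↥(Subgroup.normalizer
          ((P : Subgroup (Matrix.SpecialLinearGroup (Fin 2) F)) :
            Set (Matrix.SpecialLinearGroup (Fin 2) F))) → ℂ)} * 2 = Fintype.card F + 1 + 6) := by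
  have hℓp : ℓ.Prime := Fact.out
  have hℓ2 : ¬ ℓ ∣ 2 := fun h => hℓ ((Nat.prime_dvd_prime_iff_eq hℓp Nat.prime_two).mp h)
  constructor
  · intro hd
    obtain ⟨x, hx4, hxc, hNx⟩ := (sylow_norm_torus hodd ℓ hℓ P).1 hd
    rw [← hxc]
    exact mckay_torus hodd ℓ hℓ2 x hx4 _ hNx
  · intro hd
    obtain ⟨x, hx4, hxc, hNx⟩ := (sylow_norm_torus hodd ℓ hℓ P).2 hd
    rw [← hxc]
    exact mckay_torus hodd ℓ hℓ2 x hx4 _ hNx

/-! ### the defining characteristic: the Borel subgroup -/

/-- the upper unitriangular subgroup -/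
def sl2USub : Subgroup (Matrix.SpecialLinearGroup (Fin 2) F) where
  carrier := Set.range (sl2U : F → Matrix.SpecialLinearGroup (Fin 2) F)
  mul_mem' := by
    rintro _ _ ⟨a, rfl⟩ ⟨b, rfl⟩
    exact ⟨a + b, (sl2U_mul a b).symm⟩
  one_mem' := ⟨0, sl2U_zero⟩
  inv_mem' := by
    rintro _ ⟨a, rfl⟩
    exact ⟨-a, (inv_eq_of_mul_eq_one_right (by rw [sl2U_mul, add_neg_cancel, sl2U_zero])).symm⟩

theorem mem_sl2USub (g : Matrix.SpecialLinearGroup (Fin 2) F) :
    g ∈ sl2USub (F := F) ↔ ∃ a : F, sl2U a = g := Iff.rfl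

theorem sl2USub_card [Fintype F] : Nat.card (sl2USub (F := F)) = Fintype.card F := by
  rw [← Nat.card_eq_fintype_card]
  exact (Nat.card_congr (Equiv.ofInjective sl2U sl2U_injective)).symm

theorem sl2USub_conj (g : Matrix.SpecialLinearGroup (Fin 2) F)
    (hg : (g : Matrix (Fin 2) (Fin 2) F) 1 0 = 0) (h : Matrix.SpecialLinearGroup (Fin 2) F)
    (hh : h ∈ sl2USub (F := F)) : g * h * g⁻¹ ∈ sl2USub (F := F) := by
  obtain ⟨e, rfl⟩ := hh
  obtain ⟨x, y, z, w, hgm, hdet⟩ := sl2_eta g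
  have hz : z = 0 := by rw [hgm] at hg; exact hg
  subst hz
  have hxw : x * w = 1 := by linear_combination hdet
  refine ⟨x * x * e, ?_⟩
  rw [eq_mul_inv_iff_mul_eq, sl2_mul_eq_iff, hgm, sl2U_val, sl2U_val, Matrix.mul_fin_two,
    Matrix.mul_fin_two]
  apply S5016.mat2_ext
  · ring
  · linear_combination (x * e) * hxw
  · ring
  · ring

theorem sl2USub_normalizer :
    Subgroup.normalizer ((sl2USub (F := F) : Subgroup (Matrix.SpecialLinearGroup (Fin 2) F)) :
      Set (Matrix.SpecialLinearGroup (Fin 2) F)) =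
      (Cfsg.upperTriangularGL 2 F).comap Matrix.SpecialLinearGroup.toGL := by
  ext g
  rw [mem_BS_iff]
  constructor
  · intro hg
    have h1 : g * sl2U 1 * g⁻¹ ∈ sl2USub (F := F) :=
      (Subgroup.mem_normalizer_iff.mp hg (sl2U 1)).mp ⟨1, rfl⟩
    obtain ⟨c, hc⟩ := h1
    rw [eq_mul_inv_iff_mul_eq, sl2_mul_eq_iff] at hc
    obtain ⟨x, y, z, w, hgm, hdet⟩ := sl2_eta g
    rw [hgm, sl2U_val, sl2U_val, Matrix.mul_fin_two, Matrix.mul_fin_two] at hc
    have e11 : 0 * y + 1 * w = z * 1 + w * 1 := congrFun (congrFun hc 1) 1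
    rw [hgm]
    show z = 0
    linear_combination (-1 : F) * e11
  · intro hg
    rw [Subgroup.mem_normalizer_iff]
    intro h
    constructor
    · exact sl2USub_conj g hg h
    · intro hh
      have hg' : ((g⁻¹ : Matrix.SpecialLinearGroup (Fin 2) F) : Matrix (Fin 2) (Fin 2) F) 1 0 = 0 := by
        rw [← mem_BS_iff] at hg ⊢
        exact Subgroup.inv_mem _ hg
      have h2 := sl2USub_conj g⁻¹ hg' _ hh
      have e : g⁻¹ * (g * h * g⁻¹) * g⁻¹⁻¹ = h := by group
      rw [e] at h2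
      exact h2

theorem borel_card [Fintype F] :
    Nat.card ↥((Cfsg.upperTriangularGL 2 F).comap Matrix.SpecialLinearGroup.toGL) =
      (Fintype.card F - 1) * Fintype.card F := by
  classical
  rw [← Nat.card_congr (belEquiv (F := F)), Nat.card_prod, Nat.card_eq_fintype_card,
    Nat.card_eq_fintype_card, Fintype.card_units]

theorem mckay_unip [Fintype F] (hodd : Odd (Fintype.card F)) (ℓ : ℕ)
    (hℓ : ¬ ℓ ∣ Fintype.card F - 1) :
    Nat.card {ψ : IrrCharacter ↥(Subgroup.normalizer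
        ((sl2USub (F := F) : Subgroup (Matrix.SpecialLinearGroup (Fin 2) F)) :
          Set (Matrix.SpecialLinearGroup (Fin 2) F))) //
        ¬ ℓ ∣ charDegree (ψ : ↥(Subgroup.normalizer
          ((sl2USub (F := F) : Subgroup (Matrix.SpecialLinearGroup (Fin 2) F)) :
            Set (Matrix.SpecialLinearGroup (Fin 2) F))) → ℂ)} = Fintype.card F + 3 := by
  classical
  have hk : Nat.card (ConjClasses ↥(Subgroup.normalizer
      ((sl2USub (F := F) : Subgroup (Matrix.SpecialLinearGroup (Fin 2) F)) :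
        Set (Matrix.SpecialLinearGroup (Fin 2) F)))) = Fintype.card F + 3 := by
    rw [sl2USub_normalizer]
    exact borel_card_conjClasses hodd
  have hc : Nat.card ↥(Subgroup.normalizer
      ((sl2USub (F := F) : Subgroup (Matrix.SpecialLinearGroup (Fin 2) F)) :
        Set (Matrix.SpecialLinearGroup (Fin 2) F))) = (Fintype.card F - 1) * Fintype.card F := by
    rw [sl2USub_normalizer]
    exact borel_card
  rw [← hk]
  refine count_eq_classes_of_abelian ℓ ((sl2USub (F := F)).subgroupOf _) ?_ ?_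
  · rintro ⟨a, ha⟩ ha' ⟨b, hb⟩ hb'
    rw [Subgroup.mem_subgroupOf] at ha' hb'
    obtain ⟨u, hu⟩ := ha'
    obtain ⟨v, hv⟩ := hb'
    have hu' : sl2U u = a := hu
    have hv' : sl2U v = b := hv
    subst hu' hv'
    apply Subtype.ext
    show sl2U u * sl2U v = sl2U v * sl2U u
    rw [sl2U_mul, sl2U_mul, add_comm]
  · have h1 := Subgroup.card_mul_index ((sl2USub (F := F)).subgroupOf
      (Subgroup.normalizer ((sl2USub (F := F) : Subgroup (Matrix.SpecialLinearGroup (Fin 2) F)) :
        Set (Matrix.SpecialLinearGroup (Fin 2) F))))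
    rw [Nat.card_congr (Subgroup.subgroupOfEquivOfLe (Subgroup.le_normalizer
      (H := sl2USub (F := F)))).toEquiv, hc, sl2USub_card] at h1
    have hpos : 0 < Fintype.card F := Fintype.card_pos
    rw [Nat.eq_of_mul_eq_mul_left hpos (h1.trans (Nat.mul_comm _ _))]
    exact hℓ

theorem mckay_sylow_char [Fintype F] (hodd : Odd (Fintype.card F)) (p : ℕ) [Fact p.Prime]
    [CharP F p] (S : Sylow p (Matrix.SpecialLinearGroup (Fin 2) F)) :
    Nat.card {ψ : IrrCharacter ↥(Subgroup.normalizer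
        ((S : Subgroup (Matrix.SpecialLinearGroup (Fin 2) F)) :
          Set (Matrix.SpecialLinearGroup (Fin 2) F))) //
        ¬ p ∣ charDegree (ψ : ↥(Subgroup.normalizer
          ((S : Subgroup (Matrix.SpecialLinearGroup (Fin 2) F)) :
            Set (Matrix.SpecialLinearGroup (Fin 2) F))) → ℂ)} = Fintype.card F + 3 := by
  classical
  have hpp : p.Prime := Fact.out
  have hpq : p ∣ Fintype.card F := char_dvd_card p
  have hq1 : 1 < Fintype.card F := Fintype.one_lt_card
  have hq0 : Fintype.card F ≠ 0 := by omega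
  obtain ⟨n, -, hn⟩ := FiniteField.card F p
  have hSL : Nat.card (Matrix.SpecialLinearGroup (Fin 2) F) =
      p ^ (n : ℕ) * (Fintype.card F ^ 2 - 1) := by
    rw [sl2_card, ← hn]
  have hr : ¬ p ∣ Fintype.card F ^ 2 - 1 := by
    intro h
    have h1 : p ∣ Fintype.card F ^ 2 - 1 + 1 := by
      rw [Nat.sub_add_cancel (Nat.pos_of_ne_zero (pow_ne_zero 2 hq0))]
      exact dvd_pow hpq two_ne_zero
    exact hpp.one_lt.ne' (Nat.dvd_one.mp ((Nat.dvd_add_right h).mp h1))
  have hScard : Nat.card (S : Subgroup (Matrix.SpecialLinearGroup (Fin 2) F)) =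
      Fintype.card F := by
    rw [hn]
    exact sylow_card_of_eq p (n : ℕ) _ hSL hr S
  have hU : Nat.card (sl2USub (F := F)) =
      p ^ (Nat.card (Matrix.SpecialLinearGroup (Fin 2) F)).factorization p := by
    rw [sl2USub_card, ← hScard]
    exact Sylow.card_eq_multiplicity S
  obtain ⟨g, hg⟩ := MulAction.exists_smul_eq (Matrix.SpecialLinearGroup (Fin 2) F)
    (Sylow.ofCard (sl2USub (F := F)) hU) S
  have hS : (S : Subgroup (Matrix.SpecialLinearGroup (Fin 2) F)) =
      (sl2USub (F := F)).map (MulAut.conj g).toMonoidHom := by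
    rw [← hg, Sylow.coe_subgroup_smul, Sylow.coe_ofCard]
    rfl
  have hN : Subgroup.normalizer ((S : Subgroup (Matrix.SpecialLinearGroup (Fin 2) F)) :
      Set (Matrix.SpecialLinearGroup (Fin 2) F)) =
      (Subgroup.normalizer ((sl2USub (F := F) : Subgroup (Matrix.SpecialLinearGroup (Fin 2) F)) :
        Set (Matrix.SpecialLinearGroup (Fin 2) F))).map (MulAut.conj g).toMonoidHom := by
    rw [hS]
    exact (Subgroup.map_equiv_normalizer_eq _ _).symm
  have hℓ' : ¬ p ∣ Fintype.card F - 1 := by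
    intro h
    have h1 : p ∣ Fintype.card F - 1 + 1 := by
      rw [Nat.sub_add_cancel hq1.le]
      exact hpq
    exact hpp.one_lt.ne' (Nat.dvd_one.mp ((Nat.dvd_add_right h).mp h1))
  exact (count_map_equiv (MulAut.conj g) _ _ hN p).trans (mckay_unip hodd p hℓ')

/-! ### the prime 2 -/

theorem mckay_two_self [Fintype F] (hodd : Odd (Fintype.card F))
    (S : Sylow 2 (Matrix.SpecialLinearGroup (Fin 2) F)) :
    Nat.card {ψ : IrrCharacter ↥(S : Subgroup (Matrix.SpecialLinearGroup (Fin 2) F)) //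
      ¬ 2 ∣ charDegree (ψ : ↥(S : Subgroup (Matrix.SpecialLinearGroup (Fin 2) F)) → ℂ)} = 4 := by
  obtain ⟨k, x, y, hk, hxS, hyS, hxo, hcard, hyx, hxz, hall⟩ := sylow2_struct' hodd S
  have h2 : (2 : F) ≠ 0 := two_ne_zero_of_odd hodd
  obtain ⟨T, hT⟩ : ∃ T : Subgroup ↥(S : Subgroup (Matrix.SpecialLinearGroup (Fin 2) F)),
      T = (Subgroup.zpowers x).subgroupOf (S : Subgroup (Matrix.SpecialLinearGroup (Fin 2) F)) :=
    ⟨_, rfl⟩
  have hxle : Subgroup.zpowers x ≤ (S : Subgroup (Matrix.SpecialLinearGroup (Fin 2) F)) := by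
    rw [Subgroup.zpowers_le]; exact hxS
  have hTcard : Nat.card T = 2 ^ (k + 1) := by
    rw [hT, Nat.card_congr (Subgroup.subgroupOfEquivOfLe hxle).toEquiv, Nat.card_zpowers, hxo]
  have hmemT : ∀ g : ↥(S : Subgroup (Matrix.SpecialLinearGroup (Fin 2) F)),
      g ∈ T ↔ (g : Matrix.SpecialLinearGroup (Fin 2) F) ∈ Subgroup.zpowers x := by
    intro g; rw [hT, Subgroup.mem_subgroupOf]
  have hidx : Nat.card ↥(S : Subgroup (Matrix.SpecialLinearGroup (Fin 2) F)) =
      2 * Nat.card T := by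
    rw [hTcard, hcard]; ring
  have hab : ∀ s ∈ T, ∀ t ∈ T, s * t = t * s := by
    intro s hs t ht
    rw [hmemT] at hs ht
    obtain ⟨i, hi⟩ := Subgroup.mem_zpowers_iff.mp hs
    obtain ⟨j, hj⟩ := Subgroup.mem_zpowers_iff.mp ht
    apply Subtype.ext
    rw [Subgroup.coe_mul, Subgroup.coe_mul, ← hi, ← hj]
    exact (Commute.zpow_zpow (Commute.refl x) i j).eq
  have hzS : sl2NegOne ∈ (S : Subgroup (Matrix.SpecialLinearGroup (Fin 2) F)) := by
    rw [← hxz]; exact Subgroup.pow_mem _ hxS _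
  have hzT : (⟨sl2NegOne, hzS⟩ : ↥(S : Subgroup (Matrix.SpecialLinearGroup (Fin 2) F))) ∈ T := by
    rw [hmemT]
    show sl2NegOne ∈ Subgroup.zpowers x
    rw [← hxz]; exact Subgroup.pow_mem _ (Subgroup.mem_zpowers x) _
  have hz1 : (⟨sl2NegOne, hzS⟩ : ↥(S : Subgroup (Matrix.SpecialLinearGroup (Fin 2) F))) ≠ 1 :=
    fun h => sl2NegOne_ne_one h2 (congrArg Subtype.val h)
  have hzz : (⟨sl2NegOne, hzS⟩ : ↥(S : Subgroup (Matrix.SpecialLinearGroup (Fin 2) F))) *
      ⟨sl2NegOne, hzS⟩ = 1 := Subtype.ext sl2NegOne_mul_self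
  have hsq : ∀ t ∈ T, t * t = 1 → t = 1 ∨ t = ⟨sl2NegOne, hzS⟩ := by
    intro t _ h
    have h' : (t : Matrix.SpecialLinearGroup (Fin 2) F) * (t : Matrix.SpecialLinearGroup (Fin 2) F)
        = 1 := congrArg Subtype.val h
    rcases sl2_center_cases _ (S0807.central_of_sq_one hodd _ h') with h1 | h1
    · left; exact Subtype.ext h1
    · right; exact Subtype.ext h1
  have hinv : ∀ g : ↥(S : Subgroup (Matrix.SpecialLinearGroup (Fin 2) F)), g ∉ T →
      ∀ t ∈ T, g * t * g⁻¹ = t⁻¹ := by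
    intro g hg t ht
    rw [hmemT] at hg ht
    rcases hall (g : Matrix.SpecialLinearGroup (Fin 2) F) g.2 with h | h
    · exact absurd h hg
    · obtain ⟨i, hi⟩ := Subgroup.mem_zpowers_iff.mp ht
      apply Subtype.ext
      show (g : Matrix.SpecialLinearGroup (Fin 2) F) * (t : Matrix.SpecialLinearGroup (Fin 2) F) *
        (g : Matrix.SpecialLinearGroup (Fin 2) F)⁻¹ = (t : Matrix.SpecialLinearGroup (Fin 2) F)⁻¹
      rw [← hi, ← conj_zpow, h, inv_zpow]
  have hk' := dicyclic_classes T ⟨sl2NegOne, hzS⟩ hidx hab hzT hz1 hzz hsq hinv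
  have hindex : T.index = 2 := by
    have h := Subgroup.card_mul_index T
    have hpos : 0 < Nat.card T := Nat.card_pos
    exact Nat.eq_of_mul_eq_mul_left hpos (h.trans (hidx.trans (Nat.mul_comm 2 _)))
  haveI : T.Normal := Subgroup.normal_of_index_eq_two hindex
  have h5 := count_odd_of_index_two T hab hindex
  rw [hidx] at h5
  omega

theorem mckay_two_norm_self [Fintype F] (hodd : Odd (Fintype.card F))
    (S : Sylow 2 (Matrix.SpecialLinearGroup (Fin 2) F))
    (N : Subgroup (Matrix.SpecialLinearGroup (Fin 2) F))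
    (hN : N = (S : Subgroup (Matrix.SpecialLinearGroup (Fin 2) F))) :
    Nat.card {ψ : IrrCharacter ↥N // ¬ 2 ∣ charDegree (ψ : ↥N → ℂ)} = 4 := by
  subst hN
  exact mckay_two_self hodd S

theorem mckay_two_24 [Fintype F] (hodd : Odd (Fintype.card F))
    (h8 : Fintype.card F % 8 = 3 ∨ Fintype.card F % 8 = 5)
    (S : Sylow 2 (Matrix.SpecialLinearGroup (Fin 2) F)) :
    Nat.card {ψ : IrrCharacter ↥(Subgroup.normalizer
        ((S : Subgroup (Matrix.SpecialLinearGroup (Fin 2) F)) :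
          Set (Matrix.SpecialLinearGroup (Fin 2) F))) //
        ¬ 2 ∣ charDegree (ψ : ↥(Subgroup.normalizer
          ((S : Subgroup (Matrix.SpecialLinearGroup (Fin 2) F)) :
            Set (Matrix.SpecialLinearGroup (Fin 2) F))) → ℂ)} = 4 := by
  have h2 : (2 : F) ≠ 0 := two_ne_zero_of_odd hodd
  obtain ⟨hcent, -, hnorm⟩ := s2431 hodd S
  have hN3 := hnorm h8
  obtain ⟨r, hr, hqr⟩ := card_two_part _ h8
  have hSL : Nat.card (Matrix.SpecialLinearGroup (Fin 2) F) = 2 ^ 3 * r := by rw [sl2_card, hqr]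
  have hr2 : ¬ 2 ∣ r := by
    rintro ⟨c, hc⟩
    obtain ⟨d, hd⟩ := hr
    omega
  have hS8 : Nat.card (S : Subgroup (Matrix.SpecialLinearGroup (Fin 2) F)) = 8 :=
    (sylow_card_of_eq 2 3 r hSL hr2 S).trans (by norm_num)
  have hN24 : Nat.card ↥(Subgroup.normalizer
      ((S : Subgroup (Matrix.SpecialLinearGroup (Fin 2) F)) :
        Set (Matrix.SpecialLinearGroup (Fin 2) F))) = 24 := by
    rw [hS8] at hN3
    exact hN3
  obtain ⟨k, x, y, hk, hxS, hyS, hxo, hcard, hyx, hzS, hall⟩ := sylow2_struct hodd S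
  have hk1 : k = 1 := by
    rw [hS8] at hcard
    have h3 : (2 : ℕ) ^ 3 = 2 ^ (k + 2) := by
      have e8 : (2 : ℕ) ^ 3 = 8 := by norm_num
      rw [e8]; exact hcard
    have h5 := Nat.pow_right_injective (le_refl 2) h3
    omega
  subst hk1
  have hxo4 : orderOf x = 4 := hxo.trans (by norm_num)
  apply count_odd_of_card_24 hN24
  have hSle : (S : Subgroup (Matrix.SpecialLinearGroup (Fin 2) F)) ≤ Subgroup.normalizer
      ((S : Subgroup (Matrix.SpecialLinearGroup (Fin 2) F)) :
        Set (Matrix.SpecialLinearGroup (Fin 2) F)) := Subgroup.le_normalizer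
  refine comm_index_three hN24 ((S : Subgroup (Matrix.SpecialLinearGroup (Fin 2) F)).subgroupOf
    (Subgroup.normalizer ((S : Subgroup (Matrix.SpecialLinearGroup (Fin 2) F)) :
      Set (Matrix.SpecialLinearGroup (Fin 2) F)))) ?_ ⟨sl2NegOne, hSle hzS⟩ ?_ ?_ ?_ ?_ ?_ ?_
  · rw [Nat.card_congr (Subgroup.subgroupOfEquivOfLe hSle).toEquiv]
    exact hS8
  · intro g
    apply Subtype.ext
    exact Subgroup.mem_center_iff.mp sl2NegOne_mem_center (g : Matrix.SpecialLinearGroup (Fin 2) F)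
  · intro h
    exact sl2NegOne_ne_one h2 (congrArg Subtype.val h)
  · exact Subtype.ext sl2NegOne_mul_self
  · intro s _ h
    have h' : (s : Matrix.SpecialLinearGroup (Fin 2) F) * (s : Matrix.SpecialLinearGroup (Fin 2) F)
        = 1 := congrArg Subtype.val h
    rcases sl2_center_cases _ (S0807.central_of_sq_one hodd _ h') with h1 | h1
    · left; exact Subtype.ext h1
    · right; exact Subtype.ext h1
  · intro s hs
    rw [Subgroup.mem_subgroupOf] at hs
    have h4 : (s : Matrix.SpecialLinearGroup (Fin 2) F) ^ 4 = 1 := by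
      rcases hall _ hs with h | h
      · have hd := orderOf_dvd_of_mem_zpowers h
        rw [hxo4] at hd
        exact orderOf_dvd_iff_pow_eq_one.mp hd
      · rw [← h]; exact pow_orderOf_eq_one _
    have h' : ((s : Matrix.SpecialLinearGroup (Fin 2) F) * (s : Matrix.SpecialLinearGroup (Fin 2) F)) *
        ((s : Matrix.SpecialLinearGroup (Fin 2) F) * (s : Matrix.SpecialLinearGroup (Fin 2) F)) = 1 := by
      rw [← pow_two, ← pow_two, ← pow_mul]
      exact h4
    rcases sl2_center_cases _ (S0807.central_of_sq_one hodd _ h') with h1 | h1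
    · left; exact Subtype.ext h1
    · right; exact Subtype.ext h1
  · intro t ht hall'
    have htc : (t : Matrix.SpecialLinearGroup (Fin 2) F) ∈ Subgroup.centralizer
        ((S : Subgroup (Matrix.SpecialLinearGroup (Fin 2) F)) :
          Set (Matrix.SpecialLinearGroup (Fin 2) F)) := by
      rw [Subgroup.mem_centralizer_iff]
      intro s hs
      have h := hall' ⟨s, hSle hs⟩ (Subgroup.mem_subgroupOf.mpr hs)
      exact (congrArg Subtype.val h).symm
    rw [hcent] at htc
    have hsq1 : (t : Matrix.SpecialLinearGroup (Fin 2) F) ^ 2 = 1 := by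
      rcases sl2_center_cases _ htc with h | h
      · rw [h, one_pow]
      · rw [h, pow_two]; exact sl2NegOne_mul_self
    have ht2 : t ^ 2 = 1 := Subtype.ext (by rw [Subgroup.coe_pow]; exact hsq1)
    have hdvd := orderOf_dvd_of_pow_eq_one ht2
    rw [ht] at hdvd
    exact absurd hdvd (by norm_num)

end Cfsg.Agent.Helper12.TB
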