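import Mathlib
import Cfsg.Agent.Helper5.PRes
import Cfsg.Agent.Helper24.CharComplete

/-!
Groups of order 60 without nontrivial abelian normal subgroups are alternating of degree 5;
the character degrees of the alternating group of degree 5.
-/

set_option autoImplicit false

namespace Cfsg.Agent.Helper12

open Cfsg

theorem fact_eq_one_of {p n : ℕ} (hp : p.Prime) (h1 : p ∣ n) (h2 : ¬ p ^ 2 ∣ n) (hn : n ≠ 0) :
    n.factorization p = 1 := by
  have ha : 0 < n.factorization p := hp.factorization_pos_of_dvd hn h1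
  have hb : n.factorization p < 2 := by
    by_contra hc
    push_neg at hc
    exact h2 (dvd_trans (pow_dvd_pow p hc) (Nat.ordProj_dvd n p))
  omega

/-- Boolean check used for the sum of five squares. -/
def sqChk : Bool :=
  (List.range 8).all fun a => (List.range 8).all fun b => (List.range 8).all fun c =>
  (List.range 8).all fun d => (List.range 8).all fun e =>
    decide (¬ (0 < a ∧ 0 < b ∧ 0 < c ∧ 0 < d ∧ 0 < e ∧
      a ^ 2 + b ^ 2 + c ^ 2 + d ^ 2 + e ^ 2 = 60) ∨
      ((a = 5 ∨ b = 5 ∨ c = 5 ∨ d = 5 ∨ e = 5) ∧ (a = 3 ∨ b = 3 ∨ c = 3 ∨ d = 3 ∨ e = 3) ∧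
        (a = 4 ∨ b = 4 ∨ c = 4 ∨ d = 4 ∨ e = 4)))

set_option maxRecDepth 100000 in
theorem sqChk_true : sqChk = true := by decide +kernel

theorem five_sq_sum (a b c d e : ℕ) (ha : a < 8) (hb : b < 8) (hc : c < 8) (hd : d < 8) (he : e < 8)
    (pa : 0 < a) (pb : 0 < b) (pc : 0 < c) (pd : 0 < d) (pe : 0 < e)
    (hs : a ^ 2 + b ^ 2 + c ^ 2 + d ^ 2 + e ^ 2 = 60) :
    ((a = 5 ∨ b = 5 ∨ c = 5 ∨ d = 5 ∨ e = 5) ∧ (a = 3 ∨ b = 3 ∨ c = 3 ∨ d = 3 ∨ e = 3) ∧
        (a = 4 ∨ b = 4 ∨ c = 4 ∨ d = 4 ∨ e = 4)) := by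
  have h := sqChk_true
  simp only [sqChk, List.all_eq_true, List.mem_range, decide_eq_true_eq] at h
  rcases h a ha b hb c hc d hd e he with h1 | h1
  · exact absurd ⟨pa, pb, pc, pd, pe, hs⟩ h1
  · exact h1

theorem comm_of_prime_card {α : Type*} [Group α] {p : ℕ} [hp : Fact p.Prime] (h : Nat.card α = p)
    (a b : α) : a * b = b * a := by
  haveI := isCyclic_of_prime_card h
  obtain ⟨g, hg⟩ := IsCyclic.exists_generator (α := α)
  obtain ⟨m, rfl⟩ := Subgroup.mem_zpowers_iff.mp (hg a)
  obtain ⟨n, rfl⟩ := Subgroup.mem_zpowers_iff.mp (hg b)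
  exact zpow_mul_comm g m n

theorem exists_normal_sylow_of_normal {G : Type*} [Group G] [Finite G] (K : Subgroup G)
    [hK : K.Normal] (p : ℕ) [hp : Fact p.Prime]
    (hnum : ∀ n : ℕ, n ∣ Nat.card K → n % p = 1 → n = 1) :
    ∃ S : Subgroup G, S.Normal ∧ S ≤ K ∧ Nat.card S = p ^ (Nat.card K).factorization p := by
  obtain ⟨S₀⟩ : Nonempty (Sylow p K) := inferInstance
  have h1 : Nat.card (Sylow p K) = 1 := by
    apply hnum
    · exact dvd_trans (Sylow.card_dvd_index S₀) (Subgroup.index_dvd_card _)
    · have h2 := card_sylow_modEq_one (p := p) (G := K)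
      have h3 : Nat.card (Sylow p K) % p = 1 % p := h2
      rw [h3]
      exact Nat.mod_eq_of_lt hp.out.one_lt
  haveI : Subsingleton (Sylow p K) := (Nat.card_eq_one_iff_unique.mp h1).1
  haveI : (S₀ : Subgroup K).Characteristic := Sylow.characteristic_of_subsingleton S₀
  refine ⟨(S₀ : Subgroup K).map K.subtype, inferInstance, Subgroup.map_subtype_le _, ?_⟩
  rw [Subgroup.card_map_of_injective K.subtype_injective]
  exact Sylow.card_eq_multiplicity S₀

theorem no_normal_abelian {G : Type*} [Group G] [Finite G]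
    (hab : ∀ A : Subgroup G, A.Normal → (∀ a ∈ A, ∀ b ∈ A, a * b = b * a) → Nat.card A ≤ 2)
    (S : Subgroup G) (hS : S.Normal)
    (hc : Nat.card S = 3 ∨ Nat.card S = 4 ∨ Nat.card S = 5) : False := by
  have hcomm : ∀ a ∈ S, ∀ b ∈ S, a * b = b * a := by
    intro a ha b hb
    rcases hc with h3 | h4 | h5
    · haveI : Fact (Nat.Prime 3) := ⟨by norm_num⟩
      exact congrArg Subtype.val (comm_of_prime_card (α := S) h3 ⟨a, ha⟩ ⟨b, hb⟩)
    · haveI : Fact (Nat.Prime 2) := ⟨Nat.prime_two⟩
      exact congrArg Subtype.val (IsPGroup.commutative_of_card_eq_prime_sq (p := 2) (G := S)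
        (by rw [h4]; norm_num) ⟨a, ha⟩ ⟨b, hb⟩)
    · haveI : Fact (Nat.Prime 5) := ⟨by norm_num⟩
      exact congrArg Subtype.val (comm_of_prime_card (α := S) h5 ⟨a, ha⟩ ⟨b, hb⟩)
  have := hab S hS hcomm
  omega

theorem no_normal_two {G : Type*} [Group G] [Finite G] (h : Nat.card G = 60)
    (hab : ∀ A : Subgroup G, A.Normal → (∀ a ∈ A, ∀ b ∈ A, a * b = b * a) → Nat.card A ≤ 2)
    (K : Subgroup G) (hK : K.Normal) (hK2 : Nat.card K = 2) : False := by
  classical
  haveI : Fact (Nat.Prime 3) := ⟨by norm_num⟩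
  obtain ⟨z', hz'1, hz'u⟩ := (Nat.card_eq_two_iff' (1 : K)).mp hK2
  have hzc : ∀ g : G, g * (z' : G) * g⁻¹ = (z' : G) := by
    intro g
    have hmem : g * (z' : G) * g⁻¹ ∈ K := hK.conj_mem _ z'.2 g
    have hne : (⟨g * (z' : G) * g⁻¹, hmem⟩ : K) ≠ 1 := by
      intro h1
      apply hz'1
      have h2 : g * (z' : G) * g⁻¹ = 1 := congrArg Subtype.val h1
      have h3 : (z' : G) = 1 := by
        have e1 : (z' : G) = g⁻¹ * (g * (z' : G) * g⁻¹) * g := by group
        rw [e1, h2]; group
      exact Subtype.ext h3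
    exact congrArg Subtype.val (hz'u _ hne)
  have hzcomm : ∀ g : G, g * (z' : G) = (z' : G) * g := by
    intro g
    have h1 := hzc g
    calc g * (z' : G) = g * (z' : G) * g⁻¹ * g := by group
      _ = (z' : G) * g := by rw [h1]
  have hz2 : (z' : G) ^ 2 = 1 := by
    have h1 : z' ^ Nat.card K = 1 := pow_card_eq_one'
    rw [hK2] at h1
    have h2 := congrArg Subtype.val h1
    simpa using h2
  have hz1 : (z' : G) ≠ 1 := fun h1 => hz'1 (Subtype.ext h1)
  obtain ⟨R⟩ : Nonempty (Sylow 3 G) := inferInstance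
  have hR3 : Nat.card (R : Subgroup G) = 3 := by
    have h1 := Sylow.card_eq_multiplicity R
    rw [h, fact_eq_one_of (by norm_num : Nat.Prime 3) (by norm_num) (by norm_num) (by norm_num)] at h1
    simpa using h1
  obtain ⟨N, hN⟩ : ∃ N : Subgroup G, N = Subgroup.normalizer (R : Set G) := ⟨_, rfl⟩
  have hRN : (R : Subgroup G) ≤ N := by
    rw [hN]
    exact Subgroup.le_normalizer
  have hzN : (z' : G) ∈ N := by
    rw [hN]
    show (z' : G) ∈ Subgroup.normalizer ((R : Subgroup G) : Set G)
    rw [Subgroup.mem_normalizer_iff]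
    intro r
    have hr : (z' : G) * r * (z' : G)⁻¹ = r := by rw [← hzcomm r]; group
    rw [hr]
  have h2N : 2 ∣ Nat.card N := by
    have hKN : K ≤ N := by
      intro x hx
      by_cases hx1 : x = 1
      · rw [hx1]; exact N.one_mem
      · have e1 : (⟨x, hx⟩ : K) = z' := hz'u _ (fun h1 => hx1 (congrArg Subtype.val h1))
        have e2 : x = (z' : G) := congrArg Subtype.val e1
        rw [e2]; exact hzN
    have h1 := Subgroup.card_dvd_of_le hKN
    rwa [hK2] at h1
  have h3N : 3 ∣ Nat.card N := by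
    have h1 := Subgroup.card_dvd_of_le hRN
    rwa [hR3] at h1
  have hNcard : Nat.card N * N.index = 60 := by rw [Subgroup.card_mul_index, h]
  have hn3 : N.index % 3 = 1 := by
    have h1 := card_sylow_modEq_one (p := 3) (G := G)
    rw [Sylow.card_eq_index_normalizer R, ← hN] at h1
    have h2 : N.index % 3 = 1 % 3 := h1
    omega
  have hcases : Nat.card N = 6 ∨ Nat.card N = 60 := by
    obtain ⟨k, hk⟩ : 6 ∣ Nat.card N :=
      Nat.Coprime.mul_dvd_of_dvd_of_dvd (by norm_num : Nat.Coprime 2 3) h2N h3N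
    obtain ⟨i, hi⟩ : ∃ i, i = N.index := ⟨_, rfl⟩
    rw [← hi] at hNcard hn3
    have hki : 6 * (k * i) = 60 := by rw [← hNcard, hk]; ring
    have hki' : k * i = 10 := by omega
    have hidvd : i ∣ 10 := Dvd.intro_left k hki'
    have hile : i ≤ 10 := Nat.le_of_dvd (by norm_num) hidvd
    interval_cases i <;> omega
  rcases hcases with h6 | h60
  · have hidx2 : ((R : Subgroup G).subgroupOf N).index = 2 := by
      have h1 := Subgroup.card_mul_index ((R : Subgroup G).subgroupOf N)
      have h2 : Nat.card ((R : Subgroup G).subgroupOf N) = 3 := by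
        exact (Nat.card_congr (Subgroup.subgroupOfEquivOfLe hRN).toEquiv).trans hR3
      rw [h2, h6] at h1
      omega
    have hzR : (z' : G) ∉ (R : Subgroup G) := by
      intro hzR
      have h3 : (⟨(z' : G), hzR⟩ : (R : Subgroup G)) ^ Nat.card (R : Subgroup G) = 1 :=
        pow_card_eq_one'
      rw [hR3] at h3
      have h3' : (z' : G) ^ 3 = 1 := by simpa using congrArg Subtype.val h3
      apply hz1
      calc (z' : G) = (z' : G) ^ 3 * ((z' : G) ^ 2)⁻¹ := by group
        _ = 1 := by rw [h3', hz2]; simp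
    have hRcomm : ∀ a ∈ (R : Subgroup G), ∀ b ∈ (R : Subgroup G), a * b = b * a := by
      intro a ha b hb
      exact congrArg Subtype.val
        (comm_of_prime_card (α := (R : Subgroup G)) hR3 ⟨a, ha⟩ ⟨b, hb⟩)
    have hNC : Subgroup.normalizer (R : Set G) ≤ Subgroup.centralizer (R : Set G) := by
      rw [← hN]
      intro x hx
      rw [Subgroup.mem_centralizer_iff]
      intro r hr
      by_cases hxR : x ∈ (R : Subgroup G)
      · exact hRcomm r hr x hxR
      · have hmem : (⟨(z' : G), hzN⟩ : N)⁻¹ * ⟨x, hx⟩ ∈ (R : Subgroup G).subgroupOf N := by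
          rw [Subgroup.mul_mem_iff_of_index_two hidx2]
          constructor
          · intro h1
            exfalso
            apply hzR
            rw [Subgroup.inv_mem_iff] at h1
            exact Subgroup.mem_subgroupOf.mp h1
          · intro h1
            exact absurd (Subgroup.mem_subgroupOf.mp h1) hxR
        have hy : (z' : G)⁻¹ * x ∈ (R : Subgroup G) := Subgroup.mem_subgroupOf.mp hmem
        have h4 := hRcomm r hr _ hy
        have hzr := hzcomm r
        have e1 : r * x = (r * (z' : G)) * ((z' : G)⁻¹ * x) := by group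
        rw [e1, hzr, mul_assoc, h4]
        group
    have hcompl := MonoidHom.ker_transferSylow_isComplement' R hNC
    have hcard := hcompl.card_mul_card
    rw [hR3, h] at hcard
    have hM20 : Nat.card (MonoidHom.transferSylow R hNC).ker = 20 := by omega
    haveI : Fact (Nat.Prime 5) := ⟨by norm_num⟩
    obtain ⟨S, hSn, -, hSc⟩ := exists_normal_sylow_of_normal (MonoidHom.transferSylow R hNC).ker 5 (by
      intro n hn hmod
      rw [hM20] at hn
      have hle : n ≤ 20 := Nat.le_of_dvd (by norm_num) hn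
      interval_cases n <;> omega)
    rw [hM20, fact_eq_one_of (by norm_num : Nat.Prime 5) (by norm_num) (by norm_num) (by norm_num)] at hSc
    exact no_normal_abelian hab S hSn (Or.inr (Or.inr (by simpa using hSc)))
  · have hNtop : N = ⊤ := Subgroup.eq_top_of_card_eq N (by rw [h60, h])
    have hRn : (R : Subgroup G).Normal := by
      apply Subgroup.normalizer_eq_top_iff.mp
      have e1 : Subgroup.normalizer ((R : Subgroup G) : Set G) = N := hN.symm
      rw [e1]
      exact hNtop
    exact no_normal_abelian hab (R : Subgroup G) hRn (Or.inl hR3)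

theorem ord60_iso {G : Type*} [Group G] [Finite G] (h : Nat.card G = 60)
    (hab : ∀ A : Subgroup G, A.Normal → (∀ a ∈ A, ∀ b ∈ A, a * b = b * a) → Nat.card A ≤ 2) :
    Nonempty (G ≃* alternatingGroup (Fin 5)) := by
  classical
  haveI : Fact (Nat.Prime 2) := ⟨Nat.prime_two⟩
  obtain ⟨P⟩ : Nonempty (Sylow 2 G) := inferInstance
  have hP4 : Nat.card (P : Subgroup G) = 4 := by
    have h1 := Sylow.card_eq_multiplicity P
    rw [h] at h1
    have hfac : (60 : ℕ).factorization 2 = 2 := by
      have e : (60 : ℕ) = 2 ^ 2 * 15 := by norm_num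
      rw [e, Nat.factorization_mul (by norm_num) (by norm_num),
        Nat.Prime.factorization_pow Nat.prime_two]
      have : (15 : ℕ).factorization 2 = 0 := Nat.factorization_eq_zero_of_not_dvd (by norm_num)
      simp [this]
    rw [hfac] at h1
    exact h1
  obtain ⟨N, hN⟩ : ∃ N : Subgroup G, N = Subgroup.normalizer (P : Set G) := ⟨_, rfl⟩
  have hPN : (P : Subgroup G) ≤ N := by
    rw [hN]
    exact Subgroup.le_normalizer
  have hNcard : Nat.card N * N.index = 60 := by rw [Subgroup.card_mul_index, h]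
  have hPidx : (P : Subgroup G).index = 15 := by
    have := Subgroup.card_mul_index (P : Subgroup G)
    rw [hP4, h] at this
    omega
  have hk15 : N.index ∣ 15 := by
    rw [← hPidx]
    exact Subgroup.index_dvd_of_le hPN
  have hNtop : N ≠ ⊤ := by
    intro hN'
    rw [hN] at hN'
    have hnorm : (P : Subgroup G).Normal := Subgroup.normalizer_eq_top_iff.mp hN'
    exact no_normal_abelian hab _ hnorm (Or.inr (Or.inl hP4))
  have hk : N.index = 3 ∨ N.index = 5 ∨ N.index = 15 := by
    have hmem : N.index ∈ Nat.divisors 15 := Nat.mem_divisors.mpr ⟨hk15, by norm_num⟩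
    have hdiv : Nat.divisors 15 = {1, 3, 5, 15} := by decide
    rw [hdiv] at hmem
    simp only [Finset.mem_insert, Finset.mem_singleton] at hmem
    rcases hmem with h1 | h3 | h5 | h15
    · exact absurd (Subgroup.index_eq_one.mp h1) hNtop
    · exact Or.inl h3
    · exact Or.inr (Or.inl h5)
    · exact Or.inr (Or.inr h15)
  have hKle : N.normalCore ≤ N := Subgroup.normalCore_le N
  have hKidx : N.normalCore.index ∣ (N.index).factorial := by
    rw [Subgroup.normalCore_eq_ker, Subgroup.index_ker]
    have h1 := Subgroup.card_subgroup_dvd_card (MulAction.toPermHom G (G ⧸ N)).range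
    rwa [Nat.card_perm, ← Subgroup.index_eq_card] at h1
  have hKcard : Nat.card N.normalCore * N.normalCore.index = 60 := by
    rw [Subgroup.card_mul_index, h]
  have hKdvd : Nat.card N.normalCore ∣ Nat.card N := Subgroup.card_dvd_of_le hKle
  rcases hk with hk | hk | hk
  · exfalso
    have hN20 : Nat.card N = 20 := by
      rw [hk] at hNcard
      omega
    have h3f : Nat.factorial 3 = 6 := rfl
    rw [hk, h3f] at hKidx
    rw [hN20] at hKdvd
    have hK : Nat.card N.normalCore = 10 ∨ Nat.card N.normalCore = 20 := by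
      have hle : N.normalCore.index ≤ 6 := Nat.le_of_dvd (by norm_num) hKidx
      have hle2 : Nat.card N.normalCore ≤ 20 := Nat.le_of_dvd (by norm_num) hKdvd
      obtain ⟨i, hi⟩ : ∃ i, i = N.normalCore.index := ⟨_, rfl⟩
      rw [← hi] at hKcard hKidx hle
      interval_cases i <;> omega
    haveI : Fact (Nat.Prime 5) := ⟨by norm_num⟩
    obtain ⟨S, hSn, -, hSc⟩ := exists_normal_sylow_of_normal N.normalCore 5 (by
      intro n hn hmod
      rcases hK with hK | hK
      · rw [hK] at hn
        have hle : n ≤ 10 := Nat.le_of_dvd (by norm_num) hn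
        interval_cases n <;> omega
      · rw [hK] at hn
        have hle : n ≤ 20 := Nat.le_of_dvd (by norm_num) hn
        interval_cases n <;> omega)
    have hf : (Nat.card N.normalCore).factorization 5 = 1 := by
      rcases hK with hK | hK
      · rw [hK]
        exact fact_eq_one_of (by norm_num : Nat.Prime 5) (by norm_num) (by norm_num) (by norm_num)
      · rw [hK]
        exact fact_eq_one_of (by norm_num : Nat.Prime 5) (by norm_num) (by norm_num) (by norm_num)
    rw [hf] at hSc
    exact no_normal_abelian hab S hSn (Or.inr (Or.inr (by simpa using hSc)))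
  · by_cases hbot : N.normalCore = ⊥
    · have hker : (MulAction.toPermHom G (G ⧸ N)).ker = ⊥ := by
        rw [← Subgroup.normalCore_eq_ker]
        exact hbot
      have hinj : Function.Injective (MulAction.toPermHom G (G ⧸ N)) :=
        (MonoidHom.ker_eq_bot_iff _).mp hker
      have hcard5 : Nat.card (G ⧸ N) = 5 := by
        rw [← Subgroup.index_eq_card]
        exact hk
      have e : (G ⧸ N) ≃ Fin 5 := Finite.equivFinOfCardEq hcard5
      let ψ : G →* Equiv.Perm (Fin 5) :=
        (e.permCongrHom.toMonoidHom).comp (MulAction.toPermHom G (G ⧸ N))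
      have hψ : Function.Injective ψ := by
        intro a b hab'
        apply hinj
        exact e.permCongrHom.injective hab'
      have hrange : Nat.card ψ.range = 60 := by
        rw [← Nat.card_congr (MonoidHom.ofInjective hψ).toEquiv, h]
      have hidx : ψ.range.index = 2 := by
        have h1 := Subgroup.card_mul_index ψ.range
        rw [hrange, Nat.card_perm, Nat.card_fin] at h1
        have h120 : Nat.factorial 5 = 120 := by decide
        omega
      have heq := Equiv.Perm.eq_alternatingGroup_of_index_eq_two hidx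
      exact ⟨(MonoidHom.ofInjective hψ).trans (MulEquiv.subgroupCongr heq)⟩
    · exfalso
      have hN12 : Nat.card N = 12 := by
        rw [hk] at hNcard
        omega
      rw [hN12] at hKdvd
      have hKle12 : Nat.card N.normalCore ≤ 12 := Nat.le_of_dvd (by norm_num) hKdvd
      have hKne1 : Nat.card N.normalCore ≠ 1 := by
        intro h1
        exact hbot (Subgroup.eq_bot_of_card_eq _ h1)
      have hKpos : 0 < Nat.card N.normalCore := Nat.card_pos
      obtain ⟨c, hc⟩ : ∃ c, c = Nat.card N.normalCore := ⟨_, rfl⟩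
      rw [← hc] at hKdvd hKle12 hKne1 hKpos
      have hcases : c = 2 ∨ c = 3 ∨ c = 4 ∨ c = 6 ∨ c = 12 := by
        clear hc
        interval_cases c <;> omega
      rcases hcases with h2 | h3 | h4 | h6 | h12
      · exact no_normal_two h hab N.normalCore inferInstance (hc.symm.trans h2)
      · exact no_normal_abelian hab N.normalCore inferInstance (Or.inl (hc.symm.trans h3))
      · exact no_normal_abelian hab N.normalCore inferInstance (Or.inr (Or.inl (hc.symm.trans h4)))
      · haveI : Fact (Nat.Prime 3) := ⟨by norm_num⟩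
        obtain ⟨S, hSn, -, hSc⟩ := exists_normal_sylow_of_normal N.normalCore 3 (by
          intro n hn hmod
          rw [← hc, h6] at hn
          have hle : n ≤ 6 := Nat.le_of_dvd (by norm_num) hn
          interval_cases n <;> omega)
        rw [← hc, h6,
          fact_eq_one_of (by norm_num : Nat.Prime 3) (by norm_num) (by norm_num) (by norm_num)] at hSc
        exact no_normal_abelian hab S hSn (Or.inl (by simpa using hSc))
      · have hKN : N.normalCore = N :=
          Subgroup.eq_of_le_of_card_ge hKle (le_of_eq (by rw [hN12, ← hc, h12]))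
        have hNn : N.Normal := by
          rw [← hKN]
          infer_instance
        have h1 : Subgroup.normalizer (N : Set G) = ⊤ := Subgroup.normalizer_eq_top_iff.mpr hNn
        have h2 := Sylow.normalizer_normalizer P
        rw [← hN, h1] at h2
        exact hNtop h2.symm
  · exfalso
    have hN4 : Nat.card N = 4 := by
      rw [hk] at hNcard
      omega
    have hNP : (P : Subgroup G) = N := Subgroup.eq_of_le_of_card_ge hPN (by rw [hN4, hP4])
    have hcomm := IsPGroup.commutative_of_card_eq_prime_sq (p := 2) (G := (P : Subgroup G))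
      (by rw [hP4]; norm_num)
    have hP : Subgroup.normalizer (P : Set G) ≤ Subgroup.centralizer (P : Set G) := by
      rw [← hN, ← hNP]
      intro x hx
      rw [Subgroup.mem_centralizer_iff]
      intro y hy
      have := hcomm ⟨y, hy⟩ ⟨x, hx⟩
      exact congrArg Subtype.val this
    have hK := MonoidHom.ker_transferSylow_isComplement' P hP
    have hKcard' := hK.card_mul_card
    rw [hP4, h] at hKcard'
    have hK15 : Nat.card (MonoidHom.transferSylow P hP).ker = 15 := by omega
    haveI : Fact (Nat.Prime 5) := ⟨by norm_num⟩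
    obtain ⟨S, hSn, -, hSc⟩ := exists_normal_sylow_of_normal (MonoidHom.transferSylow P hP).ker 5 (by
      intro n hn hmod
      rw [hK15] at hn
      have hle : n ≤ 15 := Nat.le_of_dvd (by norm_num) hn
      interval_cases n <;> omega)
    rw [hK15, fact_eq_one_of (by norm_num : Nat.Prime 5) (by norm_num) (by norm_num) (by norm_num)] at hSc
    exact no_normal_abelian hab S hSn (Or.inr (Or.inr (by simpa using hSc)))

set_option maxRecDepth 100000 in
theorem a5_card_irr : Nat.card (IrrCharacter (alternatingGroup (Fin 5))) = 5 := by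
  rw [Helper24.card_irr_eq_card_conjClasses, Nat.card_eq_fintype_card]
  decide +kernel

set_option maxRecDepth 100000 in
theorem a5_card : Nat.card (alternatingGroup (Fin 5)) = 60 := by
  rw [Nat.card_eq_fintype_card]
  decide +kernel

theorem a5_degrees :
    (∃ χ : IrrCharacter (alternatingGroup (Fin 5)),
      charDegree (χ : alternatingGroup (Fin 5) → ℂ) = 5) ∧
    (∃ χ : IrrCharacter (alternatingGroup (Fin 5)),
      charDegree (χ : alternatingGroup (Fin 5) → ℂ) = 3) ∧
    (∃ χ : IrrCharacter (alternatingGroup (Fin 5)),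
      charDegree (χ : alternatingGroup (Fin 5) → ℂ) = 4) := by
  classical
  have e : IrrCharacter (alternatingGroup (Fin 5)) ≃ Fin 5 := Finite.equivFinOfCardEq a5_card_irr
  have hsum := Helper5.sum_charDegree_sq (alternatingGroup (Fin 5))
  rw [a5_card] at hsum
  have hsumF : ∑ i : Fin 5, charDegree
      ((e.symm i : IrrCharacter (alternatingGroup (Fin 5))) : alternatingGroup (Fin 5) → ℂ) ^ 2
      = 60 := by
    rw [← hsum]
    exact Fintype.sum_equiv e.symm _ _ (fun i => rfl)
  have hpos : ∀ i : Fin 5, 0 < charDegree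
      ((e.symm i : IrrCharacter (alternatingGroup (Fin 5))) : alternatingGroup (Fin 5) → ℂ) :=
    fun i => (Helper22.charDegree_irr (e.symm i)).2
  obtain ⟨d, hd⟩ : ∃ d : Fin 5 → ℕ, ∀ i, d i = charDegree
      ((e.symm i : IrrCharacter (alternatingGroup (Fin 5))) : alternatingGroup (Fin 5) → ℂ) :=
    ⟨_, fun i => rfl⟩
  simp only [← hd] at hsumF hpos
  have hlt : ∀ i : Fin 5, d i < 8 := by
    intro i
    by_contra hc
    push_neg at hc
    have h64 : 8 ^ 2 ≤ d i ^ 2 := Nat.pow_le_pow_left hc 2
    have h1 : d i ^ 2 ≤ ∑ j : Fin 5, d j ^ 2 :=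
      Finset.single_le_sum (f := fun j : Fin 5 => d j ^ 2) (fun j _ => Nat.zero_le _)
        (Finset.mem_univ i)
    rw [hsumF] at h1
    omega
  have hsum5 := hsumF
  rw [Fin.sum_univ_five] at hsum5
  obtain ⟨k5, k3, k4⟩ := five_sq_sum (d 0) (d 1) (d 2) (d 3) (d 4) (hlt 0) (hlt 1) (hlt 2) (hlt 3)
    (hlt 4) (hpos 0) (hpos 1) (hpos 2) (hpos 3) (hpos 4) hsum5
  refine ⟨?_, ?_, ?_⟩
  · rcases k5 with h | h | h | h | h
    exacts [⟨e.symm 0, (hd 0).symm.trans h⟩, ⟨e.symm 1, (hd 1).symm.trans h⟩,
      ⟨e.symm 2, (hd 2).symm.trans h⟩, ⟨e.symm 3, (hd 3).symm.trans h⟩,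
      ⟨e.symm 4, (hd 4).symm.trans h⟩]
  · rcases k3 with h | h | h | h | h
    exacts [⟨e.symm 0, (hd 0).symm.trans h⟩, ⟨e.symm 1, (hd 1).symm.trans h⟩,
      ⟨e.symm 2, (hd 2).symm.trans h⟩, ⟨e.symm 3, (hd 3).symm.trans h⟩,
      ⟨e.symm 4, (hd 4).symm.trans h⟩]
  · rcases k4 with h | h | h | h | h
    exacts [⟨e.symm 0, (hd 0).symm.trans h⟩, ⟨e.symm 1, (hd 1).symm.trans h⟩,
      ⟨e.symm 2, (hd 2).symm.trans h⟩, ⟨e.symm 3, (hd 3).symm.trans h⟩,
      ⟨e.symm 4, (hd 4).symm.trans h⟩]

theorem ord60_of_degrees {G : Type*} [Group G] [Finite G] (hcard : Nat.card G = 60)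
    (χ5 χ3 χ2 : IrrCharacter G) (hd5 : 5 ∣ charDegree (χ5 : G → ℂ))
    (hd3 : 3 ∣ charDegree (χ3 : G → ℂ)) (hd2 : 2 ∣ charDegree (χ2 : G → ℂ)) :
    Nonempty (G ≃* alternatingGroup (Fin 5)) := by
  classical
  apply ord60_iso hcard
  intro A hA hab
  haveI := hA
  have key : ∀ χ : IrrCharacter G, charDegree (χ : G → ℂ) ∣ A.index := by
    intro χ
    obtain ⟨d, hd, hdvd⟩ := Helper22.ito χ.2 A hab
    have e1 : charDegree (χ : G → ℂ) = d := by
      rw [Cfsg.charDegree, hd, Complex.natCast_re, Nat.floor_natCast]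
    rw [e1]
    exact hdvd
  have a5 := dvd_trans hd5 (key χ5)
  have a3 := dvd_trans hd3 (key χ3)
  have a2 := dvd_trans hd2 (key χ2)
  have hidx := Subgroup.card_mul_index A
  rw [hcard] at hidx
  obtain ⟨i, hi⟩ : ∃ i, i = A.index := ⟨_, rfl⟩
  rw [← hi] at a5 a3 a2 hidx
  have h30 : 30 ∣ i := by omega
  obtain ⟨k, rfl⟩ := h30
  have hk : 30 * (Nat.card A * k) = 60 := by rw [← hidx]; ring
  have hk2 : Nat.card A * k = 2 := by omega
  have hkpos : 0 < k := by
    rcases Nat.eq_zero_or_pos k with h0 | h0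
    · rw [h0] at hk2
      omega
    · exact h0
  calc Nat.card A ≤ Nat.card A * k := Nat.le_mul_of_pos_right _ hkpos
    _ = 2 := hk2

end Cfsg.Agent.Helper12
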