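import Mathlib

set_option autoImplicit false
open scoped Pointwise

namespace Cfsg.Agent.Helper12.S2486a

theorem mem_conj_smul {G : Type*} [Group G] (c : G) (K : Subgroup G) (y : G) :
    y ∈ MulAut.conj c • K ↔ c⁻¹ * y * c ∈ K := by
  rw [Subgroup.mem_pointwise_smul_iff_inv_smul_mem, MulAut.smul_def, MulAut.conj_inv_apply]

/-- Abstract part of S2486: `N` of index 2 in `G`, `N ≅ S`, and `S` has a Sylow 2-subgroup `T`
with a "big cell" `T w T` containing every `g` with `T ∩ g T g⁻¹ = 1`.  Then any two Sylow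
2-subgroups of `G` meet nontrivially. -/
theorem abs {G : Type*} [Group G] [Finite G] (N : Subgroup G) [hNn : N.Normal]
    (hidx : N.index = 2) {S : Type*} [Group S] (e : N ≃* S)
    (hK : ∃ T : Sylow 2 S, ∃ w : S, ∀ g : S,
      (∀ y ∈ T, g⁻¹ * y * g ∈ T → y = 1) → ∃ u ∈ T, ∃ u' ∈ T, g = u * w * u')
    (H : Sylow 2 G) (x : G) :
    (H : Subgroup G) ⊓ MulAut.conj x • (H : Subgroup G) ≠ ⊥ := by
  classical
  obtain ⟨T, w, hw⟩ := hK
  obtain ⟨T', hT'def⟩ : ∃ T' : Subgroup G,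
      T' = ((T : Subgroup S).comap e.toMonoidHom).map N.subtype := ⟨_, rfl⟩
  have memT' : ∀ z : G, z ∈ T' ↔ ∃ hz : z ∈ N, e ⟨z, hz⟩ ∈ T := by
    intro z
    rw [hT'def]
    constructor
    · rintro ⟨⟨z', hz'⟩, h, rfl⟩
      exact ⟨hz', h⟩
    · rintro ⟨hz, h⟩
      exact ⟨⟨z, hz⟩, h, rfl⟩
  have hT'p : IsPGroup 2 T' := by
    rw [hT'def]
    exact (T.isPGroup'.comap_of_injective e.toMonoidHom e.injective).map N.subtype
  obtain ⟨H₁, hT'H₁⟩ := hT'p.exists_le_sylow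
  have hT'N : ∀ z ∈ T', z ∈ N := fun z hz => ((memT' z).mp hz).1
  have hHN : ∀ z, z ∈ (H₁ : Subgroup G) → z ∈ N → z ∈ T' := by
    have hVp : IsPGroup 2 (((H₁ : Subgroup G).subgroupOf N).map e.toMonoidHom) :=
      (H₁.isPGroup'.comap_of_injective N.subtype N.subtype_injective).map e.toMonoidHom
    have hTV : (T : Subgroup S) ≤ ((H₁ : Subgroup G).subgroupOf N).map e.toMonoidHom := by
      intro s hs
      refine ⟨e.symm s, ?_, e.apply_symm_apply s⟩
      rw [SetLike.mem_coe, Subgroup.mem_subgroupOf]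
      exact hT'H₁ ((memT' _).mpr ⟨(e.symm s).2, by
        rw [Subtype.coe_eta, e.apply_symm_apply]; exact hs⟩)
    have hVT := T.is_maximal' hVp hTV
    intro z hz hzN
    have h1 : e ⟨z, hzN⟩ ∈ ((H₁ : Subgroup G).subgroupOf N).map e.toMonoidHom :=
      ⟨⟨z, hzN⟩, Subgroup.mem_subgroupOf.mpr hz, rfl⟩
    rw [hVT] at h1
    exact (memT' z).mpr ⟨hzN, h1⟩
  obtain ⟨t, htH, htN⟩ : ∃ t, t ∈ (H₁ : Subgroup G) ∧ t ∉ N := by
    by_contra hcon
    have hle : (H₁ : Subgroup G) ≤ N := by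
      intro t ht
      by_contra htn
      exact hcon ⟨t, ht, htn⟩
    have h1 := Subgroup.relIndex_mul_index hle
    rw [hidx] at h1
    exact H₁.not_dvd_index (Dvd.intro_left _ h1)
  have htT : ∀ y ∈ T', t * y * t⁻¹ ∈ T' := fun y hy =>
    hHN _ (mul_mem (mul_mem htH (hT'H₁ hy)) (inv_mem htH)) (hNn.conj_mem y (hT'N y hy) t)
  have trans : ∀ m' (hm' : m' ∈ N), (∀ y ∈ T', m'⁻¹ * y * m' ∈ T' → y = 1) →
      ∃ a ∈ T', ∃ b ∈ T', m' = a * ((e.symm w : N) : G) * b := by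
    intro m' hm' hD
    have hg : ∀ s ∈ T, (e ⟨m', hm'⟩)⁻¹ * s * (e ⟨m', hm'⟩) ∈ T → s = 1 := by
      intro s hs hs'
      have hy : ((e.symm s : N) : G) ∈ T' :=
        (memT' _).mpr ⟨(e.symm s).2, by simpa using hs⟩
      have hy' : m'⁻¹ * ((e.symm s : N) : G) * m' ∈ T' := by
        refine (memT' _).mpr ⟨N.mul_mem (N.mul_mem (N.inv_mem hm') (e.symm s).2) hm', ?_⟩
        show e ((⟨m', hm'⟩ : N)⁻¹ * e.symm s * ⟨m', hm'⟩) ∈ T
        rw [map_mul, map_mul, map_inv, e.apply_symm_apply]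
        exact hs'
      have h1 := hD _ hy hy'
      have h2 : e.symm s = 1 := Subtype.ext h1
      have h3 := congrArg e h2
      rwa [e.apply_symm_apply, map_one] at h3
    obtain ⟨u, hu, u', hu', huw⟩ := hw _ hg
    refine ⟨((e.symm u : N) : G), (memT' _).mpr ⟨(e.symm u).2, by simpa using hu⟩,
      ((e.symm u' : N) : G), (memT' _).mpr ⟨(e.symm u').2, by simpa using hu'⟩, ?_⟩
    have h3 : (⟨m', hm'⟩ : N) = e.symm u * e.symm w * e.symm u' := by
      apply e.injective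
      rw [map_mul, map_mul, e.apply_symm_apply, e.apply_symm_apply, e.apply_symm_apply]
      exact huw
    exact congrArg Subtype.val h3
  have core : ∀ m ∈ N, ∃ h ∈ (H₁ : Subgroup G), h ≠ 1 ∧ m⁻¹ * h * m ∈ (H₁ : Subgroup G) := by
    intro m hm
    by_cases hcase : ∃ y ∈ T', y ≠ 1 ∧ m⁻¹ * y * m ∈ T'
    · obtain ⟨y, hy, hy1, hym⟩ := hcase
      exact ⟨y, hT'H₁ hy, hy1, hT'H₁ hym⟩
    · have hD : ∀ y ∈ T', m⁻¹ * y * m ∈ T' → y = 1 := by
        intro y hy hym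
        by_contra hy1
        exact hcase ⟨y, hy, hy1, hym⟩
      have hm2 : t⁻¹ * m * t ∈ N := by
        have h0 := hNn.conj_mem m hm t⁻¹
        rwa [inv_inv] at h0
      have hD2 : ∀ y ∈ T', (t⁻¹ * m * t)⁻¹ * y * (t⁻¹ * m * t) ∈ T' → y = 1 := by
        intro y hy hy2
        have h1 : m⁻¹ * (t * y * t⁻¹) * m ∈ T' := by
          have h2 := htT _ hy2
          have h3 : t * ((t⁻¹ * m * t)⁻¹ * y * (t⁻¹ * m * t)) * t⁻¹ =
              m⁻¹ * (t * y * t⁻¹) * m := by group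
          rwa [h3] at h2
        have h4 := hD _ (htT y hy) h1
        have h5 : y = t⁻¹ * (t * y * t⁻¹) * t := by group
        rw [h5, h4]
        group
      obtain ⟨a, ha, b, hb, hab⟩ := trans m hm hD
      obtain ⟨a₁, ha₁, b₁, hb₁, hab₁⟩ := trans _ hm2 hD2
      have hkey : t⁻¹ * m * t = (a₁ * a⁻¹) * m * (b⁻¹ * b₁) := by
        rw [hab₁]
        conv_rhs => rw [hab]
        group
      have hp : a₁ * a⁻¹ ∈ T' := T'.mul_mem ha₁ (T'.inv_mem ha)
      have hq : b⁻¹ * b₁ ∈ T' := T'.mul_mem (T'.inv_mem hb) hb₁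
      refine ⟨t * (a₁ * a⁻¹), mul_mem htH (hT'H₁ hp), ?_, ?_⟩
      · intro h1
        apply htN
        have h2 : t = (a₁ * a⁻¹)⁻¹ := eq_inv_of_mul_eq_one_left h1
        rw [h2]
        exact N.inv_mem (hT'N _ hp)
      · have h1 : m⁻¹ * (t * (a₁ * a⁻¹)) * m = t * (b⁻¹ * b₁)⁻¹ := by
          have h2 : (a₁ * a⁻¹) * m = t⁻¹ * m * t * (b⁻¹ * b₁)⁻¹ := by
            rw [hkey]
            group
          calc m⁻¹ * (t * (a₁ * a⁻¹)) * m = m⁻¹ * t * ((a₁ * a⁻¹) * m) := by group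
            _ = m⁻¹ * t * (t⁻¹ * m * t * (b⁻¹ * b₁)⁻¹) := by rw [h2]
            _ = t * (b⁻¹ * b₁)⁻¹ := by group
        rw [h1]
        exact mul_mem htH (inv_mem (hT'H₁ hq))
  have gen : ∀ x' : G, ∃ h ∈ (H₁ : Subgroup G), h ≠ 1 ∧
      x'⁻¹ * h * x' ∈ (H₁ : Subgroup G) := by
    intro x'
    by_cases hx' : x' ∈ N
    · exact core x' hx'
    · have hm : x' * t⁻¹ ∈ N := by
        rw [Subgroup.mul_mem_iff_of_index_two hidx]
        constructor
        · intro h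
          exact absurd h hx'
        · intro h
          exact absurd (inv_mem_iff.mp h) htN
      obtain ⟨h, hh, hh1, hhm⟩ := core _ hm
      refine ⟨h, hh, hh1, ?_⟩
      have h1 : x'⁻¹ * h * x' = t⁻¹ * ((x' * t⁻¹)⁻¹ * h * (x' * t⁻¹)) * t := by group
      rw [h1]
      exact mul_mem (mul_mem (inv_mem htH) hhm) htH
  obtain ⟨c, hc⟩ := MulAction.exists_smul_eq G H₁ H
  have hHc : (H : Subgroup G) = MulAut.conj c • (H₁ : Subgroup G) := by
    rw [← hc, Sylow.coe_subgroup_smul]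
  obtain ⟨h, hh, hh1, hhx⟩ := gen (c⁻¹ * x * c)
  intro hbot
  have hz : c * h * c⁻¹ ∈ (H : Subgroup G) ⊓ MulAut.conj x • (H : Subgroup G) := by
    refine ⟨?_, ?_⟩
    · rw [hHc]
      refine (mem_conj_smul c _ _).mpr ?_
      have h0 : c⁻¹ * (c * h * c⁻¹) * c = h := by group
      rw [h0]
      exact hh
    · refine (mem_conj_smul x _ _).mpr ?_
      rw [hHc]
      refine (mem_conj_smul c _ _).mpr ?_
      have h0 : c⁻¹ * (x⁻¹ * (c * h * c⁻¹) * x) * c =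
          (c⁻¹ * x * c)⁻¹ * h * (c⁻¹ * x * c) := by group
      rw [h0]
      exact hhx
  rw [hbot, Subgroup.mem_bot] at hz
  apply hh1
  have h0 : h = c⁻¹ * (c * h * c⁻¹) * c := by group
  rw [h0, hz]
  group

end Cfsg.Agent.Helper12.S2486a
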