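import Mathlib

set_option autoImplicit false
open Matrix

namespace Cfsg.Agent.Helper12.S2486k

theorem ut_inv {n : ℕ} (u : Matrix.SpecialLinearGroup (Fin n) (ZMod 2))
    (hu : (u : Matrix (Fin n) (Fin n) (ZMod 2)).BlockTriangular id) :
    ((u⁻¹ : Matrix.SpecialLinearGroup (Fin n) (ZMod 2)) :
      Matrix (Fin n) (Fin n) (ZMod 2)).BlockTriangular id := by
  have h1 : ((u⁻¹ : Matrix.SpecialLinearGroup (Fin n) (ZMod 2)) :
      Matrix (Fin n) (Fin n) (ZMod 2)) = (u : Matrix (Fin n) (Fin n) (ZMod 2))⁻¹ := by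
    rw [Matrix.SpecialLinearGroup.coe_inv, Matrix.inv_def, u.det_coe, Ring.inverse_one, one_smul]
  rw [h1]
  haveI : Invertible (u : Matrix (Fin n) (Fin n) (ZMod 2)) :=
    Matrix.invertibleOfIsUnitDet _ (by rw [u.det_coe]; exact isUnit_one)
  exact Matrix.blockTriangular_inv_of_blockTriangular hu

theorem perm_det {n : ℕ} (σ : Equiv.Perm (Fin n)) :
    (Equiv.Perm.permMatrix (ZMod 2) σ).det = 1 := by
  rw [Matrix.det_permutation]
  rcases Int.units_eq_one_or (Equiv.Perm.sign σ) with h | h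
  · rw [h]; simp
  · rw [h]
    have h2 : ((((-1 : ℤˣ) : ℤ)) : ZMod 2) = 1 := by decide
    exact h2

/-- (K0) glue of Bruhat and the non-opposite lemma: the big cell. -/
theorem key0 (n : ℕ)
    (hB1 : ∀ g : Matrix.SpecialLinearGroup (Fin n) (ZMod 2),
      ∃ (u u' : Matrix.SpecialLinearGroup (Fin n) (ZMod 2)) (σ : Equiv.Perm (Fin n)),
      (u : Matrix (Fin n) (Fin n) (ZMod 2)).BlockTriangular id ∧
      (u' : Matrix (Fin n) (Fin n) (ZMod 2)).BlockTriangular id ∧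
      (g : Matrix (Fin n) (Fin n) (ZMod 2)) =
        (u : Matrix (Fin n) (Fin n) (ZMod 2)) * Equiv.Perm.permMatrix (ZMod 2) σ *
          (u' : Matrix (Fin n) (Fin n) (ZMod 2)))
    (hB2 : ∀ σ : Equiv.Perm (Fin n), σ ≠ Fin.revPerm →
      ∃ y : Matrix.SpecialLinearGroup (Fin n) (ZMod 2), y ≠ 1 ∧
      (y : Matrix (Fin n) (Fin n) (ZMod 2)).BlockTriangular id ∧
      ((Equiv.Perm.permMatrix (ZMod 2) σ)ᵀ * (y : Matrix (Fin n) (Fin n) (ZMod 2)) *
        Equiv.Perm.permMatrix (ZMod 2) σ).BlockTriangular id) :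
    ∃ w : Matrix.SpecialLinearGroup (Fin n) (ZMod 2),
      ∀ g : Matrix.SpecialLinearGroup (Fin n) (ZMod 2),
        (∀ y : Matrix.SpecialLinearGroup (Fin n) (ZMod 2),
          (y : Matrix (Fin n) (Fin n) (ZMod 2)).BlockTriangular id →
          ((g⁻¹ * y * g : Matrix.SpecialLinearGroup (Fin n) (ZMod 2)) :
            Matrix (Fin n) (Fin n) (ZMod 2)).BlockTriangular id → y = 1) →
        ∃ u u' : Matrix.SpecialLinearGroup (Fin n) (ZMod 2),
          (u : Matrix (Fin n) (Fin n) (ZMod 2)).BlockTriangular id ∧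
          (u' : Matrix (Fin n) (Fin n) (ZMod 2)).BlockTriangular id ∧ g = u * w * u' := by
  classical
  refine ⟨⟨Equiv.Perm.permMatrix (ZMod 2) (Fin.revPerm : Equiv.Perm (Fin n)), perm_det _⟩,
    fun g hg => ?_⟩
  obtain ⟨u, u', σ, hu, hu', hguu⟩ := hB1 g
  by_cases hσ : σ = Fin.revPerm
  · refine ⟨u, u', hu, hu', ?_⟩
    apply Subtype.ext
    rw [hguu, hσ]
    rfl
  · exfalso
    obtain ⟨y₀, hy1, hyUT, hyP⟩ := hB2 σ hσ
    obtain ⟨p, hp⟩ : ∃ p : Matrix.SpecialLinearGroup (Fin n) (ZMod 2),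
        (p : Matrix (Fin n) (Fin n) (ZMod 2)) = Equiv.Perm.permMatrix (ZMod 2) σ :=
      ⟨⟨_, perm_det σ⟩, rfl⟩
    have hdetT : ((Equiv.Perm.permMatrix (ZMod 2) σ)ᵀ).det = 1 := by
      rw [Matrix.det_transpose]
      exact perm_det σ
    obtain ⟨q, hq⟩ : ∃ q : Matrix.SpecialLinearGroup (Fin n) (ZMod 2),
        (q : Matrix (Fin n) (Fin n) (ZMod 2)) = (Equiv.Perm.permMatrix (ZMod 2) σ)ᵀ :=
      ⟨⟨(Equiv.Perm.permMatrix (ZMod 2) σ)ᵀ, hdetT⟩, rfl⟩
    have hqp : q * p = 1 := by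
      apply Subtype.ext
      rw [Matrix.SpecialLinearGroup.coe_mul, hq, hp, Matrix.transpose_permMatrix,
        ← Matrix.permMatrix_mul, mul_inv_cancel, Matrix.permMatrix_one]
      rfl
    have hqinv : q = p⁻¹ := eq_inv_of_mul_eq_one_left hqp
    have hgeq : g = u * p * u' := by
      apply Subtype.ext
      rw [hguu, Matrix.SpecialLinearGroup.coe_mul, Matrix.SpecialLinearGroup.coe_mul, hp]
    have hUT1 : ((u * y₀ * u⁻¹ : Matrix.SpecialLinearGroup (Fin n) (ZMod 2)) :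
        Matrix (Fin n) (Fin n) (ZMod 2)).BlockTriangular id := by
      rw [Matrix.SpecialLinearGroup.coe_mul, Matrix.SpecialLinearGroup.coe_mul]
      exact (hu.mul hyUT).mul (ut_inv u hu)
    have hconj : g⁻¹ * (u * y₀ * u⁻¹) * g = u'⁻¹ * (q * y₀ * p) * u' := by
      rw [hgeq, hqinv]
      group
    have hUT2 : ((g⁻¹ * (u * y₀ * u⁻¹) * g : Matrix.SpecialLinearGroup (Fin n) (ZMod 2)) :
        Matrix (Fin n) (Fin n) (ZMod 2)).BlockTriangular id := by
      rw [hconj, Matrix.SpecialLinearGroup.coe_mul, Matrix.SpecialLinearGroup.coe_mul,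
        Matrix.SpecialLinearGroup.coe_mul, Matrix.SpecialLinearGroup.coe_mul, hq, hp]
      exact ((ut_inv u' hu').mul hyP).mul hu'
    have h1 := hg (u * y₀ * u⁻¹) hUT1 hUT2
    apply hy1
    have h2 : y₀ = u⁻¹ * (u * y₀ * u⁻¹) * u := by group
    rw [h2, h1]
    group

end Cfsg.Agent.Helper12.S2486k
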