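import Mathlib
import Cfsg.Agent.Helper12.S2486k

set_option autoImplicit false
open Matrix

namespace Cfsg.Agent.Helper12.S2486c

theorem exists_lt_lt {n : ℕ} (σ : Equiv.Perm (Fin n)) (hσ : σ ≠ Fin.revPerm) :
    ∃ c d : Fin n, c < d ∧ σ c < σ d := by
  by_contra hcon
  apply hσ
  have hanti : ∀ c d : Fin n, c < d → σ d < σ c := by
    intro c d hcd
    rcases lt_trichotomy (σ c) (σ d) with h | h | h
    · exact absurd ⟨c, d, hcd, h⟩ hcon
    · exact absurd (σ.injective h) (ne_of_lt hcd)
    · exact h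
  have hmono : StrictMono (fun i : Fin n => Fin.rev (σ i)) := by
    intro a b hab
    exact Fin.rev_lt_rev.mpr (hanti a b hab)
  have hsurj : Function.Surjective (fun i : Fin n => Fin.rev (σ i)) := by
    intro j
    exact ⟨σ.symm (Fin.rev j), by simp⟩
  have hiso : StrictMono.orderIsoOfSurjective _ hmono hsurj = OrderIso.refl (Fin n) :=
    Subsingleton.elim _ _
  apply Equiv.ext
  intro i
  have h1 : Fin.rev (σ i) = i := by
    have h2 := congrArg (fun e : Fin n ≃o Fin n => e i) hiso
    simpa using h2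
  rw [Fin.revPerm_apply]
  apply Fin.rev_injective
  rw [h1, Fin.rev_rev]

/-- (B2) a non-opposite Weyl element leaves a common transvection. -/
theorem nonopp (n : ℕ) (σ : Equiv.Perm (Fin n)) (hσ : σ ≠ Fin.revPerm) :
    ∃ y : Matrix.SpecialLinearGroup (Fin n) (ZMod 2), y ≠ 1 ∧
      (y : Matrix (Fin n) (Fin n) (ZMod 2)).BlockTriangular id ∧
      ((Equiv.Perm.permMatrix (ZMod 2) σ)ᵀ * (y : Matrix (Fin n) (Fin n) (ZMod 2)) *
        Equiv.Perm.permMatrix (ZMod 2) σ).BlockTriangular id := by
  classical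
  obtain ⟨c, d, hcd, hσcd⟩ := exists_lt_lt σ hσ
  have hne : c ≠ d := ne_of_lt hcd
  refine ⟨⟨Matrix.transvection c d (1 : ZMod 2), Matrix.det_transvection_of_ne c d hne 1⟩,
    ?_, ?_, ?_⟩
  · intro h
    have h1 := congrArg (fun z : Matrix.SpecialLinearGroup (Fin n) (ZMod 2) =>
      (z : Matrix (Fin n) (Fin n) (ZMod 2)) c d) h
    simp [Matrix.transvection, hne] at h1
  · intro i j hji
    show (Matrix.transvection c d (1 : ZMod 2)) i j = 0
    have hij : i ≠ j := (ne_of_lt hji).symm
    rw [Matrix.transvection, Matrix.add_apply, Matrix.one_apply_ne hij, zero_add,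
      Matrix.single_apply, if_neg]
    rintro ⟨rfl, rfl⟩
    exact absurd hji (not_lt.mpr hcd.le)
  · intro a b hba
    rw [Matrix.transpose_permMatrix]
    show ((((σ⁻¹).toPEquiv.toMatrix * Matrix.transvection c d (1 : ZMod 2)) *
      σ.toPEquiv.toMatrix : Matrix (Fin n) (Fin n) (ZMod 2))) a b = 0
    rw [PEquiv.toMatrix_toPEquiv_mul, PEquiv.mul_toMatrix_toPEquiv, Matrix.submatrix_apply,
      Matrix.submatrix_apply, id, id]
    have hab : (σ⁻¹ : Equiv.Perm (Fin n)) a ≠ σ.symm b := by
      intro h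
      exact (ne_of_lt hba) (σ.symm.injective h).symm
    rw [Matrix.transvection, Matrix.add_apply, Matrix.one_apply_ne hab, zero_add,
      Matrix.single_apply, if_neg]
    rintro ⟨h1, h2⟩
    have ha : a = σ c := by rw [h1]; simp
    have hb : b = σ d := by rw [h2]; simp
    rw [ha, hb] at hba
    exact absurd hba (not_lt.mpr hσcd.le)

theorem ut_pow_eq_one {n : ℕ} (g : Matrix.SpecialLinearGroup (Fin n) (ZMod 2))
    (hg : (g : Matrix (Fin n) (Fin n) (ZMod 2)).BlockTriangular id) : g ^ 2 ^ n = 1 := by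
  rcases Nat.eq_zero_or_pos n with h0 | hpos
  · subst h0
    apply Subtype.ext
    exact Subsingleton.elim _ _
  · haveI : Nonempty (Fin n) := ⟨⟨0, hpos⟩⟩
    obtain ⟨A, hA⟩ : ∃ A : Matrix (Fin n) (Fin n) (ZMod 2),
        A = (g : Matrix (Fin n) (Fin n) (ZMod 2)) := ⟨_, rfl⟩
    have hAU : A.BlockTriangular id := by rw [hA]; exact hg
    have hdiag : ∀ i, A i i = 1 := by
      intro i
      have hdet : A.det = 1 := by rw [hA]; exact g.det_coe
      rw [Matrix.det_of_upperTriangular hAU] at hdet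
      have hne : A i i ≠ 0 := by
        intro h0
        have hz : ∏ j, A j j = 0 := Finset.prod_eq_zero (Finset.mem_univ i) h0
        rw [hz] at hdet
        exact zero_ne_one hdet
      have key : ∀ a : ZMod 2, a ≠ 0 → a = 1 := by decide
      exact key _ hne
    have hchar : A.charpoly = (Polynomial.X - Polynomial.C (1 : ZMod 2)) ^ n := by
      rw [Matrix.charpoly_of_upperTriangular A hAU]
      simp [hdiag]
    have hnil : (A - 1) ^ n = 0 := by
      have h1 := Matrix.aeval_self_charpoly A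
      rw [hchar] at h1
      simpa using h1
    have hpow : A ^ 2 ^ n = 1 := by
      have h2 : (A - 1) ^ 2 ^ n = A ^ 2 ^ n - 1 ^ 2 ^ n :=
        sub_pow_char_pow_of_commute 2 n (Commute.one_right A)
      have h3 : (A - 1) ^ 2 ^ n = 0 := by
        have hle : n ≤ 2 ^ n := Nat.lt_two_pow_self.le
        rw [← Nat.sub_add_cancel hle, pow_add, hnil, mul_zero]
      rw [h3, one_pow] at h2
      exact sub_eq_zero.mp h2.symm
    apply Subtype.ext
    rw [Matrix.SpecialLinearGroup.coe_pow, ← hA, hpow]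
    rfl

/-- (B3) the upper triangular subgroup of `SL_n(2)` is a 2-group. -/
theorem ut_pgroup (n : ℕ) : ∃ T₀ : Subgroup (Matrix.SpecialLinearGroup (Fin n) (ZMod 2)),
    (∀ g, g ∈ T₀ ↔ (g : Matrix (Fin n) (Fin n) (ZMod 2)).BlockTriangular id) ∧
      IsPGroup 2 T₀ := by
  refine ⟨{ carrier := {g | (g : Matrix (Fin n) (Fin n) (ZMod 2)).BlockTriangular id}
            mul_mem' := fun {a b} ha hb => by
              show ((a * b : Matrix.SpecialLinearGroup (Fin n) (ZMod 2)) :
                Matrix (Fin n) (Fin n) (ZMod 2)).BlockTriangular id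
              rw [Matrix.SpecialLinearGroup.coe_mul]
              exact Matrix.BlockTriangular.mul ha hb
            one_mem' := by
              show ((1 : Matrix.SpecialLinearGroup (Fin n) (ZMod 2)) :
                Matrix (Fin n) (Fin n) (ZMod 2)).BlockTriangular id
              rw [Matrix.SpecialLinearGroup.coe_one]
              exact Matrix.blockTriangular_one
            inv_mem' := fun {a} ha => Cfsg.Agent.Helper12.S2486k.ut_inv a ha },
    fun g => Iff.rfl, ?_⟩
  rintro ⟨g, hg⟩
  refine ⟨n, ?_⟩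
  apply Subtype.ext
  rw [Subgroup.coe_pow]
  exact ut_pow_eq_one g hg

end Cfsg.Agent.Helper12.S2486c
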