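import Mathlib
import Cfsg.Prelude.Def_Solvable
import Cfsg.Prelude.Def_Transfer
import Cfsg.Agent.S0081
import Cfsg.Agent.Helper7.PComp

set_option autoImplicit false

namespace Cfsg.Agent.Helper12.S4172b

/-- (piece b of S4172) With `O_{p'}(G) = 1` and trivial core of `Φ(P)`, no nontrivial normal
subgroup `K` has `K ∩ P ≤ Φ(P)`. -/
theorem normal_not_le {G : Type*} [Group G] [Finite G] (p : ℕ) [Fact p.Prime] (P : Sylow p G)
    (hcore : Cfsg.pPrimeCore p G = ⊥)
    (hfrat : ((frattini ↥(P : Subgroup G)).map (P : Subgroup G).subtype).normalCore = ⊥)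
    (K : Subgroup G) (hK : K.Normal) (hK1 : K ≠ ⊥) :
    ¬ (K ⊓ (P : Subgroup G) ≤ (frattini ↥(P : Subgroup G)).map (P : Subgroup G).subtype) := by
  intro h
  haveI := hK
  obtain ⟨Q, M, hMn, hMQ⟩ := Cfsg.Agent.S0081.result P K h
  have hsub : (M.map K.subtype).IsSubnormal := by
    refine Subgroup.IsSubnormal.step _ K ?_ hK.isSubnormal ?_
    · rintro x ⟨y, _, rfl⟩
      exact y.2
    · show ((M.map K.subtype).comap K.subtype).Normal
      rw [Subgroup.comap_map_eq_self_of_injective (Subgroup.subtype_injective K)]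
      exact hMn
  have hcard : (Nat.card (M.map K.subtype)).Coprime p := by
    rw [Subgroup.card_map_of_injective (Subgroup.subtype_injective K)]
    have h1 : (Q : Subgroup K).index = Nat.card M := hMQ.index_eq_card
    rw [← h1]
    exact ((Nat.Prime.coprime_iff_not_dvd (Fact.out : p.Prime)).mpr Q.not_dvd_index).symm
  have hM' : M.map K.subtype = ⊥ := by
    have h1 := Cfsg.Agent.Helper7.subnormal_pprime_le_pPrimeCore p hsub hcard
    rw [hcore] at h1
    exact le_bot_iff.mp h1
  have hMbot : M = ⊥ := by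
    rw [← Subgroup.map_eq_bot_iff_of_injective M (Subgroup.subtype_injective K)]
    exact hM'
  rw [hMbot] at hMQ
  have hQtop : (Q : Subgroup K) = ⊤ := Subgroup.isComplement'_bot_left.mp hMQ
  have hKp : IsPGroup p K := by
    have h1 : IsPGroup p (Q : Subgroup K) := Q.isPGroup'
    rw [hQtop] at h1
    exact h1.of_equiv Subgroup.topEquiv
  have hKP : K ≤ (P : Subgroup G) := Cfsg.Agent.Helper23.le_sylow_of_normal hK hKp P
  have hKΦ : K ≤ (frattini ↥(P : Subgroup G)).map (P : Subgroup G).subtype := by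
    intro k hk
    exact h ⟨hk, hKP hk⟩
  have hKc : K ≤ ((frattini ↥(P : Subgroup G)).map (P : Subgroup G).subtype).normalCore :=
    Subgroup.normal_le_normalCore.mpr hKΦ
  rw [hfrat] at hKc
  exact hK1 (le_bot_iff.mp hKc)

end Cfsg.Agent.Helper12.S4172b
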