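import Mathlib

/-!
# Counting for the action of `SL_n(F)` on non-zero vectors (`n ≥ 3`)
-/

set_option autoImplicit false

namespace Cfsg.Agent.Helper12.SLn

open Matrix

section Fiber

variable {G : Type*} [Group G] [Fintype G] {Y : Type*} [MulAction G Y] [DecidableEq Y]

theorem fiber_card (S : Finset Y) (hinv : ∀ g : G, ∀ y ∈ S, g • y ∈ S)
    (htr : ∀ y ∈ S, ∀ z ∈ S, ∃ g : G, g • y = z) (hne : S.Nonempty) :
    ∃ t : ℕ, S.card * t = Fintype.card G ∧
      ∀ y ∈ S, ∀ z ∈ S, (Finset.univ.filter (fun g : G => g • y = z)).card = t := by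
  obtain ⟨y₀, hy₀⟩ := hne
  have h1 : ∀ y ∈ S, ∀ z ∈ S, (Finset.univ.filter (fun g : G => g • y = z)).card =
      (Finset.univ.filter (fun g : G => g • y₀ = y₀)).card := by
    intro y hy z hz
    obtain ⟨a, ha⟩ := htr y₀ hy₀ y hy
    obtain ⟨b, hb⟩ := htr y₀ hy₀ z hz
    refine Finset.card_bij (fun g _ => b⁻¹ * g * a) ?_ ?_ ?_
    · intro g hg
      simp only [Finset.mem_filter, Finset.mem_univ, true_and] at hg ⊢
      rw [mul_smul, mul_smul, ha, hg, ← hb, inv_smul_smul]
    · intro g₁ _ g₂ _ h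
      simpa using h
    · intro g hg
      simp only [Finset.mem_filter, Finset.mem_univ, true_and] at hg
      refine ⟨b * g * a⁻¹, ?_, by group⟩
      simp only [Finset.mem_filter, Finset.mem_univ, true_and]
      rw [mul_smul, mul_smul, ← ha, inv_smul_smul, hg, hb]
  refine ⟨_, ?_, h1⟩
  have h2 := Finset.card_eq_sum_card_fiberwise (f := fun g : G => g • y₀) (s := Finset.univ)
    (t := S) (fun g _ => hinv g y₀ hy₀)
  rw [Finset.card_univ] at h2
  rw [h2, ← smul_eq_mul, ← Finset.sum_const]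
  exact (Finset.sum_congr rfl (fun z hz => h1 y₀ hy₀ z hz)).symm

theorem sum_card_swap {α β : Type*} (s : Finset α) (t : Finset β) (r : α → β → Prop)
    [∀ a b, Decidable (r a b)] :
    ∑ a ∈ s, (t.filter (r a)).card = ∑ b ∈ t, (s.filter (fun a => r a b)).card :=
  Finset.sum_card_bipartiteAbove_eq_sum_card_bipartiteBelow r

end Fiber

open Classical

section SLn

variable {F : Type*} [Field F] [Fintype F] {n : ℕ}

theorem exists_smul_basis (hn : 3 ≤ n) (v w : Fin n → F) (hv : v ≠ 0)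
    (hw : ∀ e : F, w ≠ e • v) :
    ∃ g : Matrix.SpecialLinearGroup (Fin n) F,
      g • (Pi.single (⟨0, by omega⟩ : Fin n) (1 : F) : Fin n → F) = v ∧
      g • (Pi.single (⟨1, by omega⟩ : Fin n) (1 : F) : Fin n → F) = w := by
  obtain ⟨i0, hi0⟩ : ∃ i : Fin n, i = ⟨0, by omega⟩ := ⟨_, rfl⟩
  obtain ⟨i1, hi1⟩ : ∃ i : Fin n, i = ⟨1, by omega⟩ := ⟨_, rfl⟩
  obtain ⟨i2, hi2⟩ : ∃ i : Fin n, i = ⟨2, by omega⟩ := ⟨_, rfl⟩
  rw [← hi0, ← hi1]
  have h01 : i0 ≠ i1 := by rw [hi0, hi1]; simp [Fin.ext_iff]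
  have h02 : i0 ≠ i2 := by rw [hi0, hi2]; simp [Fin.ext_iff]
  have h12 : i1 ≠ i2 := by rw [hi1, hi2]; simp [Fin.ext_iff]
  have hw0 : w ≠ 0 := by simpa using hw 0
  have he0 : (Pi.single i0 (1 : F) : Fin n → F) ≠ 0 := by
    intro h; have := congrFun h i0; simp at this
  have he1 : (Pi.single i1 (1 : F) : Fin n → F) ≠ 0 := by
    intro h; have := congrFun h i1; simp at this
  have hne1 : Projectivization.mk F _ he0 ≠ Projectivization.mk F _ he1 := by
    intro h
    rw [Projectivization.mk_eq_mk_iff] at h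
    obtain ⟨a, ha⟩ := h
    have := congrFun ha i0
    simp [Units.smul_def, h01] at this
  have hne2 : Projectivization.mk F v hv ≠ Projectivization.mk F w hw0 := by
    intro h
    rw [Projectivization.mk_eq_mk_iff] at h
    obtain ⟨a, ha⟩ := h
    exact hw ((a⁻¹ : Fˣ) : F) (by rw [← ha, Units.smul_def, smul_smul, Units.inv_mul, one_smul])
  obtain ⟨g, hg0, hg1⟩ := (MulAction.is_two_pretransitive_iff
    (G := Matrix.SpecialLinearGroup (Fin n) F)
    (α := Projectivization F (Fin n → F))).mp inferInstance hne1 hne2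
  rw [Projectivization.smul_mk, Projectivization.mk_eq_mk_iff] at hg0 hg1
  obtain ⟨a, ha⟩ := hg0
  obtain ⟨b, hb⟩ := hg1
  let d : Fin n → F := fun i => (if i = i0 then ((a⁻¹ : Fˣ) : F) else 1) *
    (if i = i1 then ((b⁻¹ : Fˣ) : F) else 1) * (if i = i2 then ((a * b : Fˣ) : F) else 1)
  have hd : ∏ i, d i = 1 := by
    simp only [d, Finset.prod_mul_distrib, Finset.prod_ite_eq', Finset.mem_univ, if_true]
    have : a⁻¹ * b⁻¹ * (a * b) = 1 := by rw [mul_comm a b]; group
    rw [← Units.val_mul, ← Units.val_mul, this, Units.val_one]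
  let Dg : Matrix.SpecialLinearGroup (Fin n) F :=
    ⟨Matrix.diagonal d, by rw [Matrix.det_diagonal]; exact hd⟩
  have hD0 : Dg • (Pi.single i0 (1 : F) : Fin n → F) =
      ((a⁻¹ : Fˣ) : F) • (Pi.single i0 (1 : F) : Fin n → F) := by
    rw [Matrix.SpecialLinearGroup.smul_def]
    show Matrix.diagonal d *ᵥ _ = _
    rw [Matrix.diagonal_mulVec_single]
    ext k
    by_cases hk : k = i0
    · simp [d, hk, h01, h02]
    · simp [hk]
  have hD1 : Dg • (Pi.single i1 (1 : F) : Fin n → F) =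
      ((b⁻¹ : Fˣ) : F) • (Pi.single i1 (1 : F) : Fin n → F) := by
    rw [Matrix.SpecialLinearGroup.smul_def]
    show Matrix.diagonal d *ᵥ _ = _
    rw [Matrix.diagonal_mulVec_single]
    ext k
    by_cases hk : k = i1
    · simp [d, hk, h01.symm, h12]
    · simp [hk]
  refine ⟨g * Dg, ?_, ?_⟩
  · rw [mul_smul, hD0, smul_comm, ← ha, Units.smul_def, smul_smul, Units.inv_mul, one_smul]
  · rw [mul_smul, hD1, smul_comm, ← hb, Units.smul_def, smul_smul, Units.inv_mul, one_smul]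

theorem exists_indep (hn : 3 ≤ n) (v : Fin n → F) (hv : v ≠ 0) :
    ∃ w : Fin n → F, ∀ e : F, w ≠ e • v := by
  obtain ⟨i, hi⟩ : ∃ i, v i ≠ 0 := by
    by_contra h
    push Not at h
    exact hv (funext h)
  obtain ⟨j, hj⟩ : ∃ j : Fin n, j ≠ i := by
    by_cases h0 : i = ⟨0, by omega⟩
    · exact ⟨⟨1, by omega⟩, by rw [h0]; simp [Fin.ext_iff]⟩
    · exact ⟨⟨0, by omega⟩, fun h => h0 h.symm⟩
  refine ⟨Pi.single j 1, fun e h => ?_⟩
  have h1 := congrFun h i
  have h2 := congrFun h j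
  simp [Pi.single_apply, hj.symm] at h1
  simp [Pi.single_apply] at h2
  rcases h1 with h1 | h1
  · rw [h1] at h2; simp at h2
  · exact hi h1

theorem trans2 (hn : 3 ≤ n) (p q : (Fin n → F) × (Fin n → F))
    (hp : p.1 ≠ 0 ∧ ∀ e : F, p.2 ≠ e • p.1) (hq : q.1 ≠ 0 ∧ ∀ e : F, q.2 ≠ e • q.1) :
    ∃ g : Matrix.SpecialLinearGroup (Fin n) F, g • p = q := by
  obtain ⟨g, hg0, hg1⟩ := exists_smul_basis hn p.1 p.2 hp.1 hp.2
  obtain ⟨h, hh0, hh1⟩ := exists_smul_basis hn q.1 q.2 hq.1 hq.2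
  refine ⟨h * g⁻¹, Prod.ext ?_ ?_⟩
  · show (h * g⁻¹) • p.1 = q.1
    rw [mul_smul, ← hh0]
    congr 1
    rw [inv_smul_eq_iff, hg0]
  · show (h * g⁻¹) • p.2 = q.2
    rw [mul_smul, ← hh1]
    congr 1
    rw [inv_smul_eq_iff, hg1]

theorem trans1 (hn : 3 ≤ n) (v v' : Fin n → F) (hv : v ≠ 0) (hv' : v' ≠ 0) :
    ∃ g : Matrix.SpecialLinearGroup (Fin n) F, g • v = v' := by
  obtain ⟨w, hw⟩ := exists_indep hn v hv
  obtain ⟨w', hw'⟩ := exists_indep hn v' hv'
  obtain ⟨g, hg⟩ := trans2 hn (v, w) (v', w') ⟨hv, hw⟩ ⟨hv', hw'⟩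
  exact ⟨g, congrArg Prod.fst hg⟩

/-- Nonzero vectors. -/
noncomputable def S1 (F : Type*) [Field F] [Fintype F] (n : ℕ) : Finset (Fin n → F) :=
  Finset.univ.filter (fun v => v ≠ 0)

/-- Independent pairs. -/
noncomputable def S2 (F : Type*) [Field F] [Fintype F] (n : ℕ) :
    Finset ((Fin n → F) × (Fin n → F)) :=
  Finset.univ.filter (fun p => p.1 ≠ 0 ∧ ∀ e : F, p.2 ≠ e • p.1)

/-- Nonzero multiples of a vector. -/
noncomputable def L (v : Fin n → F) : Finset (Fin n → F) :=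
  Finset.univ.image (fun c : Fˣ => (c : F) • v)

theorem mem_S1 {v : Fin n → F} : v ∈ S1 F n ↔ v ≠ 0 := by simp [S1]

theorem mem_S2 {p : (Fin n → F) × (Fin n → F)} :
    p ∈ S2 F n ↔ p.1 ≠ 0 ∧ ∀ e : F, p.2 ≠ e • p.1 := by simp [S2]

theorem mem_L {v w : Fin n → F} : w ∈ L v ↔ ∃ c : Fˣ, (c : F) • v = w := by simp [L]

theorem card_L (v : Fin n → F) (hv : v ≠ 0) : (L v).card = Fintype.card F - 1 := by
  unfold L
  rw [Finset.card_image_of_injective, Finset.card_univ, ← Nat.card_eq_fintype_card,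
    Nat.card_units, Nat.card_eq_fintype_card]
  intro c c' h
  exact Units.ext (smul_left_injective F hv h)

theorem smul_mem_S2 (c d : Fˣ) {p : (Fin n → F) × (Fin n → F)} (hp : p ∈ S2 F n) :
    ((c : F) • p.1, (d : F) • p.2) ∈ S2 F n := by
  rw [mem_S2] at hp ⊢
  refine ⟨smul_ne_zero c.ne_zero hp.1, fun e h => hp.2 (((d⁻¹ : Fˣ) : F) * e * (c : F)) ?_⟩
  simp only at h
  rw [mul_smul, mul_smul, ← h, smul_smul, Units.inv_mul, one_smul]

theorem fib1 (hn : 3 ≤ n) :
    ∃ t : ℕ, (S1 F n).card * t = Fintype.card (Matrix.SpecialLinearGroup (Fin n) F) ∧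
      ∀ v : Fin n → F, v ≠ 0 → ∀ v' : Fin n → F, v' ≠ 0 →
        (Finset.univ.filter
          (fun g : Matrix.SpecialLinearGroup (Fin n) F => g • v = v')).card = t := by
  obtain ⟨t, ht, h⟩ := fiber_card (G := Matrix.SpecialLinearGroup (Fin n) F) (S1 F n)
    (fun g y hy => mem_S1.mpr ((smul_ne_zero_iff_ne g).mpr (mem_S1.mp hy)))
    (fun y hy z hz => trans1 hn y z (mem_S1.mp hy) (mem_S1.mp hz))
    ⟨Pi.single (⟨0, by omega⟩ : Fin n) (1 : F), mem_S1.mpr (by
      intro h; have := congrFun h ⟨0, by omega⟩; simp at this)⟩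
  exact ⟨t, ht, fun v hv v' hv' => h v (mem_S1.mpr hv) v' (mem_S1.mpr hv')⟩

theorem fib2 (hn : 3 ≤ n) :
    ∃ t : ℕ, (S2 F n).card * t = Fintype.card (Matrix.SpecialLinearGroup (Fin n) F) ∧
      ∀ p ∈ S2 F n, ∀ p' ∈ S2 F n,
        (Finset.univ.filter
          (fun g : Matrix.SpecialLinearGroup (Fin n) F => g • p = p')).card = t := by
  have he : (Pi.single (⟨0, by omega⟩ : Fin n) (1 : F) : Fin n → F) ≠ 0 := by
    intro h; have := congrFun h ⟨0, by omega⟩; simp at this
  obtain ⟨w, hw⟩ := exists_indep hn _ he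
  refine fiber_card (G := Matrix.SpecialLinearGroup (Fin n) F) (S2 F n) ?_
    (fun y hy z hz => trans2 hn y z (mem_S2.mp hy) (mem_S2.mp hz))
    ⟨(_, w), mem_S2.mpr ⟨he, hw⟩⟩
  intro g p hp
  rw [mem_S2] at hp ⊢
  refine ⟨(smul_ne_zero_iff_ne g).mpr hp.1, fun e h => hp.2 e ?_⟩
  have h' : g • p.2 = g • (e • p.1) := by rw [smul_comm]; exact h
  exact MulAction.injective g h'

/-- Number of nonzero `c`-eigenvectors of `g`. -/
noncomputable def Nn (g : Matrix.SpecialLinearGroup (Fin n) F) (c : Fˣ) : ℕ :=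
  (Finset.univ.filter (fun v : Fin n → F => v ≠ 0 ∧ g • v = (c : F) • v)).card

theorem sum_Nn (hn : 3 ≤ n) (c : Fˣ) :
    ∑ g : Matrix.SpecialLinearGroup (Fin n) F, Nn g c =
      Fintype.card (Matrix.SpecialLinearGroup (Fin n) F) := by
  obtain ⟨t, ht, hfib⟩ := fib1 (F := F) hn
  have h1 : ∀ g : Matrix.SpecialLinearGroup (Fin n) F,
      Nn g c = ((S1 F n).filter (fun v => g • v = (c : F) • v)).card := by
    intro g; unfold Nn S1; rw [Finset.filter_filter]
  calc ∑ g : Matrix.SpecialLinearGroup (Fin n) F, Nn g c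
      = ∑ g : Matrix.SpecialLinearGroup (Fin n) F,
          ((S1 F n).filter (fun v => g • v = (c : F) • v)).card :=
        Finset.sum_congr rfl (fun g _ => h1 g)
    _ = ∑ v ∈ S1 F n, (Finset.univ.filter
          (fun g : Matrix.SpecialLinearGroup (Fin n) F => g • v = (c : F) • v)).card :=
        sum_card_swap _ _
          (fun (g : Matrix.SpecialLinearGroup (Fin n) F) (v : Fin n → F) => g • v = (c : F) • v)
    _ = ∑ v ∈ S1 F n, t := Finset.sum_congr rfl (fun v hv =>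
        hfib v (mem_S1.mp hv) _ (smul_ne_zero c.ne_zero (mem_S1.mp hv)))
    _ = Fintype.card (Matrix.SpecialLinearGroup (Fin n) F) := by
        rw [Finset.sum_const, smul_eq_mul, ht]

theorem Nn_mul (g : Matrix.SpecialLinearGroup (Fin n) F) (c d : Fˣ) :
    Nn g c * Nn g d =
      ((S2 F n).filter (fun p => g • p = ((c : F) • p.1, (d : F) • p.2))).card +
        Nn g c * (if c = d then Fintype.card F - 1 else 0) := by
  obtain ⟨A, hA⟩ : ∃ A : Finset (Fin n → F),
      A = Finset.univ.filter (fun v : Fin n → F => v ≠ 0 ∧ g • v = (c : F) • v) := ⟨_, rfl⟩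
  obtain ⟨B, hB⟩ : ∃ B : Finset (Fin n → F),
      B = Finset.univ.filter (fun v : Fin n → F => v ≠ 0 ∧ g • v = (d : F) • v) := ⟨_, rfl⟩
  have hNc : Nn g c = A.card := by rw [hA]; rfl
  have hNd : Nn g d = B.card := by rw [hB]; rfl
  have e1 : Nn g c * Nn g d = (A ×ˢ B).card := by rw [Finset.card_product, hNc, hNd]
  have e2 : (A ×ˢ B).card = ((A ×ˢ B).filter (fun p => p ∈ S2 F n)).card +
      ((A ×ˢ B).filter (fun p => ¬ p ∈ S2 F n)).card :=
    (Finset.card_filter_add_card_filter_not _).symm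
  have e3 : (A ×ˢ B).filter (fun p => p ∈ S2 F n) =
      (S2 F n).filter (fun p => g • p = ((c : F) • p.1, (d : F) • p.2)) := by
    ext ⟨v, w⟩
    simp only [Finset.mem_filter, Finset.mem_product, hA, hB, Finset.mem_univ, true_and, mem_S2,
      Prod.smul_mk, Prod.mk.injEq]
    constructor
    · rintro ⟨⟨⟨_, h1⟩, ⟨_, h2⟩⟩, h3⟩; exact ⟨h3, h1, h2⟩
    · rintro ⟨h3, h1, h2⟩
      exact ⟨⟨⟨h3.1, h1⟩, ⟨by simpa using h3.2 0, h2⟩⟩, h3⟩
  have e4 : ((A ×ˢ B).filter (fun p => ¬ p ∈ S2 F n)).card =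
      Nn g c * (if c = d then Fintype.card F - 1 else 0) := by
    rw [Finset.card_filter, Finset.sum_product]
    have hv : ∀ v ∈ A, ∑ w ∈ B, (if ¬ (v, w) ∈ S2 F n then 1 else 0) =
        (if c = d then Fintype.card F - 1 else 0) := by
      intro v hv
      rw [hA, Finset.mem_filter] at hv
      obtain ⟨-, hv0, hgv⟩ := hv
      rw [← Finset.card_filter]
      have hiff : ∀ w, (w ∈ B ∧ ¬ (v, w) ∈ S2 F n) ↔ (c = d ∧ w ∈ L v) := by
        intro w
        constructor
        · rintro ⟨hwB, hnot⟩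
          simp only [hB, Finset.mem_filter, Finset.mem_univ, true_and] at hwB
          obtain ⟨hw0, hgw⟩ := hwB
          have hex : ∃ e : F, w = e • v := by
            by_contra hcon
            push Not at hcon
            exact hnot (mem_S2.mpr ⟨hv0, hcon⟩)
          obtain ⟨e, rfl⟩ := hex
          have he : e ≠ 0 := by rintro rfl; exact hw0 (zero_smul _ _)
          have hcd : c = d := by
            rw [smul_comm g e v, hgv] at hgw
            have h3 : ((c : F) * e) • v = ((d : F) * e) • v := by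
              rw [mul_smul, mul_smul, smul_comm (c : F) e v]; exact hgw
            have h4 := smul_left_injective F hv0 h3
            exact Units.ext (mul_right_cancel₀ he h4)
          exact ⟨hcd, mem_L.mpr ⟨Units.mk0 e he, rfl⟩⟩
        · rintro ⟨hcd, hw⟩
          obtain ⟨e, rfl⟩ := mem_L.mp hw
          refine ⟨?_, ?_⟩
          · simp only [hB, Finset.mem_filter, Finset.mem_univ, true_and]
            refine ⟨smul_ne_zero e.ne_zero hv0, ?_⟩
            rw [smul_comm g (e : F) v, hgv, ← hcd, smul_comm (e : F) (c : F) v]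
          · intro h; exact (mem_S2.mp h).2 e rfl
      by_cases hcd : c = d
      · have : B.filter (fun w => ¬ (v, w) ∈ S2 F n) = L v := by
          ext w; rw [Finset.mem_filter, hiff]; simp [hcd]
        rw [this, card_L v hv0, if_pos hcd]
      · have : B.filter (fun w => ¬ (v, w) ∈ S2 F n) = ∅ := by
          ext w; rw [Finset.mem_filter, hiff]; simp [hcd]
        rw [this, if_neg hcd, Finset.card_empty]
    rw [Finset.sum_congr rfl hv, Finset.sum_const, smul_eq_mul, hNc]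
  rw [e1, e2, e3, e4]

theorem sum_Nn_mul (hn : 3 ≤ n) (c d : Fˣ) :
    ∑ g : Matrix.SpecialLinearGroup (Fin n) F, Nn g c * Nn g d =
      Fintype.card (Matrix.SpecialLinearGroup (Fin n) F) *
        ((if c = d then Fintype.card F - 1 else 0) + 1) := by
  obtain ⟨t, ht, hfib⟩ := fib2 (F := F) hn
  have hI : ∑ g : Matrix.SpecialLinearGroup (Fin n) F,
      ((S2 F n).filter (fun p => g • p = ((c : F) • p.1, (d : F) • p.2))).card =
      Fintype.card (Matrix.SpecialLinearGroup (Fin n) F) := by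
    calc ∑ g : Matrix.SpecialLinearGroup (Fin n) F,
          ((S2 F n).filter (fun p => g • p = ((c : F) • p.1, (d : F) • p.2))).card
        = ∑ p ∈ S2 F n, (Finset.univ.filter
            (fun g : Matrix.SpecialLinearGroup (Fin n) F =>
              g • p = ((c : F) • p.1, (d : F) • p.2))).card :=
          sum_card_swap _ _ (fun (g : Matrix.SpecialLinearGroup (Fin n) F)
            (p : (Fin n → F) × (Fin n → F)) => g • p = ((c : F) • p.1, (d : F) • p.2))
      _ = ∑ p ∈ S2 F n, t :=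
          Finset.sum_congr rfl (fun p hp => hfib p hp _ (smul_mem_S2 c d hp))
      _ = Fintype.card (Matrix.SpecialLinearGroup (Fin n) F) := by
          rw [Finset.sum_const, smul_eq_mul, ht]
  rw [Finset.sum_congr rfl (fun g _ => Nn_mul g c d), Finset.sum_add_distrib, ← Finset.sum_mul,
    sum_Nn hn c, hI]
  ring

end SLn

end Cfsg.Agent.Helper12.SLn
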