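import Mathlib
import Cfsg.Agent.Helper12.SLnPerm
import Cfsg.Agent.Helper12.SL2IndInner
import Cfsg.Agent.Helper12.IndFun
import Cfsg.Agent.Helper24.CharInd
import Cfsg.Agent.Helper24.CharDecomp

/-!
# The permutation character of `SL_n(F)` on non-zero vectors (`n ≥ 3`)
-/

set_option autoImplicit false

namespace Cfsg.Agent.Helper12.SLn

open Matrix Cfsg
open Classical
open scoped ComplexConjugate

variable {F : Type*} [Field F] [Fintype F] {n : ℕ}

/-- The first basis vector. -/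
noncomputable def e0 (F : Type*) [Field F] (n : ℕ) (hn : 3 ≤ n) : Fin n → F :=
  Pi.single (⟨0, by omega⟩ : Fin n) 1

omit [Fintype F] in
theorem e0_ne (hn : 3 ≤ n) : e0 F n hn ≠ 0 := by
  intro h; have := congrFun h ⟨0, by omega⟩; simp [e0] at this

omit [Fintype F] in
theorem smul_e0_inj (hn : 3 ≤ n) {c d : Fˣ}
    (h : (c : F) • e0 F n hn = (d : F) • e0 F n hn) : c = d :=
  Units.ext (smul_left_injective F (e0_ne hn) h)

/-- The stabilizer of the line through the first basis vector. -/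
def P (F : Type*) [Field F] [Fintype F] (n : ℕ) (hn : 3 ≤ n) :
    Subgroup (Matrix.SpecialLinearGroup (Fin n) F) where
  carrier := {y | ∃ c : Fˣ, y • e0 F n hn = (c : F) • e0 F n hn}
  one_mem' := ⟨1, by simp⟩
  mul_mem' := by
    rintro a b ⟨c, hc⟩ ⟨d, hd⟩
    exact ⟨d * c, by rw [mul_smul, hd, smul_comm, hc, smul_smul, Units.val_mul]⟩
  inv_mem' := by
    rintro a ⟨c, hc⟩
    refine ⟨c⁻¹, ?_⟩
    rw [inv_smul_eq_iff, smul_comm, hc, smul_smul, Units.inv_mul, one_smul]

theorem mem_P (hn : 3 ≤ n) {y : Matrix.SpecialLinearGroup (Fin n) F} :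
    y ∈ P F n hn ↔ ∃ c : Fˣ, y • e0 F n hn = (c : F) • e0 F n hn := Iff.rfl

/-- The eigenvalue on the first basis vector. -/
noncomputable def evf (hn : 3 ≤ n) (y : P F n hn) : Fˣ := Classical.choose ((mem_P hn).mp y.2)

theorem evf_spec (hn : 3 ≤ n) (y : P F n hn) :
    (y : Matrix.SpecialLinearGroup (Fin n) F) • e0 F n hn = (evf hn y : F) • e0 F n hn :=
  Classical.choose_spec ((mem_P hn).mp y.2)

theorem evf_eq (hn : 3 ≤ n) (y : P F n hn) (c : Fˣ)
    (h : (y : Matrix.SpecialLinearGroup (Fin n) F) • e0 F n hn = (c : F) • e0 F n hn) :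
    evf hn y = c :=
  smul_e0_inj hn ((evf_spec hn y).symm.trans h)

/-- The eigenvalue homomorphism. -/
noncomputable def ev (hn : 3 ≤ n) : P F n hn →* Fˣ where
  toFun := evf hn
  map_one' := evf_eq hn 1 1 (by simp)
  map_mul' := by
    intro a b
    apply evf_eq hn
    rw [Subgroup.coe_mul, mul_smul, evf_spec hn b, smul_comm, evf_spec hn a, smul_smul,
      Units.val_mul, mul_comm]

/-- The linear character of `P` attached to a multiplicative character. -/
noncomputable def theta (hn : 3 ≤ n) (χ : MulChar F ℂ) : P F n hn → ℂ :=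
  fun y => (((χ.toUnitHom.comp (ev hn)) y : ℂˣ) : ℂ)

theorem theta_isCharacter (hn : 3 ≤ n) (χ : MulChar F ℂ) :
    IsCharacter (P F n hn) (theta hn χ) :=
  Helper24.isCharacter_of_isIrrCharacter (isIrrCharacter_of_hom' (χ.toUnitHom.comp (ev hn)))

theorem theta_apply (hn : 3 ≤ n) (χ : MulChar F ℂ) (y : P F n hn) (c : Fˣ)
    (h : (y : Matrix.SpecialLinearGroup (Fin n) F) • e0 F n hn = (c : F) • e0 F n hn) :
    theta hn χ y = χ (c : F) := by
  unfold theta
  rw [MonoidHom.comp_apply, MulChar.coe_toUnitHom]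
  have : ev hn y = c := evf_eq hn y c h
  rw [this]

theorem ext_theta (hn : 3 ≤ n) (χ : MulChar F ℂ) (y : Matrix.SpecialLinearGroup (Fin n) F) :
    extendByZero (P F n hn) (theta hn χ) y =
      ∑ c : Fˣ, if y • e0 F n hn = (c : F) • e0 F n hn then χ (c : F) else 0 := by
  by_cases hy : y ∈ P F n hn
  · obtain ⟨c₀, hc₀⟩ := (mem_P hn).mp hy
    rw [Helper24.extendByZero_apply_mem _ _ hy, theta_apply hn χ ⟨y, hy⟩ c₀ hc₀,
      Finset.sum_eq_single c₀, if_pos hc₀]
    · intro c _ hc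
      rw [if_neg]
      intro h
      exact hc (smul_e0_inj hn (h.symm.trans hc₀))
    · intro h; exact absurd (Finset.mem_univ _) h
  · rw [Helper24.extendByZero_apply_not_mem _ _ hy]
    symm
    apply Finset.sum_eq_zero
    intro c _
    rw [if_neg]
    intro h
    exact hy ((mem_P hn).mpr ⟨c, h⟩)

theorem Q_ne : ((Fintype.card F - 1 : ℕ) : ℂ) ≠ 0 := by
  have h : 1 < Fintype.card F := Fintype.one_lt_card
  exact Nat.cast_ne_zero.mpr (by omega)

theorem Q_eq : ((Fintype.card F - 1 : ℕ) : ℂ) = (Fintype.card F : ℂ) - 1 := by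
  rw [Nat.cast_sub Fintype.card_pos, Nat.cast_one]

theorem indFun_theta (hn : 3 ≤ n) (χ : MulChar F ℂ)
    (g : Matrix.SpecialLinearGroup (Fin n) F) :
    indFun (P F n hn) (theta hn χ) g =
      ((Fintype.card F - 1 : ℕ) : ℂ)⁻¹ * ∑ c : Fˣ, χ (c : F) * (Nn g c : ℂ) := by
  obtain ⟨t, ht, hfib⟩ := fib1 (F := F) hn
  have ht0 : t ≠ 0 := by
    rintro rfl
    rw [mul_zero] at ht
    exact Fintype.card_ne_zero ht.symm
  have hcount : ∀ c : Fˣ, (Finset.univ.filter
      (fun x : Matrix.SpecialLinearGroup (Fin n) F =>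
        (x⁻¹ * g * x) • e0 F n hn = (c : F) • e0 F n hn)).card = Nn g c * t := by
    intro c
    have hmaps : ∀ x ∈ Finset.univ.filter
        (fun x : Matrix.SpecialLinearGroup (Fin n) F =>
          (x⁻¹ * g * x) • e0 F n hn = (c : F) • e0 F n hn),
        x • e0 F n hn ∈ Finset.univ.filter
          (fun v : Fin n → F => v ≠ 0 ∧ g • v = (c : F) • v) := by
      intro x hx
      simp only [Finset.mem_filter, Finset.mem_univ, true_and] at hx ⊢
      refine ⟨(smul_ne_zero_iff_ne x).mpr (e0_ne hn), ?_⟩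
      rw [mul_smul, mul_smul, inv_smul_eq_iff, smul_comm x (c : F) (e0 F n hn)] at hx
      exact hx
    rw [Finset.card_eq_sum_card_fiberwise
      (f := fun x : Matrix.SpecialLinearGroup (Fin n) F => x • e0 F n hn) hmaps]
    unfold Nn
    rw [← smul_eq_mul, ← Finset.sum_const]
    refine Finset.sum_congr rfl (fun v hv => ?_)
    simp only [Finset.mem_filter, Finset.mem_univ, true_and] at hv
    rw [← hfib (e0 F n hn) (e0_ne hn) v hv.1]
    congr 1
    ext x
    simp only [Finset.mem_filter, Finset.mem_univ, true_and]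
    constructor
    · exact fun h => h.2
    · intro h
      refine ⟨?_, h⟩
      rw [mul_smul, mul_smul, inv_smul_eq_iff, smul_comm x (c : F) (e0 F n hn), h]
      exact hv.2
  have hP : Nat.card (P F n hn) = (Fintype.card F - 1) * t := by
    rw [Nat.card_eq_fintype_card, Fintype.card_of_subtype
      (Finset.univ.filter (fun x : Matrix.SpecialLinearGroup (Fin n) F => x ∈ P F n hn))
      (by simp)]
    have hmaps : ∀ x ∈ Finset.univ.filter
        (fun x : Matrix.SpecialLinearGroup (Fin n) F => x ∈ P F n hn),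
        x • e0 F n hn ∈ L (e0 F n hn) := by
      intro x hx
      simp only [Finset.mem_filter, Finset.mem_univ, true_and] at hx
      obtain ⟨c, hc⟩ := (mem_P hn).mp hx
      exact mem_L.mpr ⟨c, hc.symm⟩
    rw [Finset.card_eq_sum_card_fiberwise
      (f := fun x : Matrix.SpecialLinearGroup (Fin n) F => x • e0 F n hn) hmaps,
      ← card_L _ (e0_ne hn), ← smul_eq_mul, ← Finset.sum_const]
    refine Finset.sum_congr rfl (fun v hv => ?_)
    obtain ⟨c, rfl⟩ := mem_L.mp hv
    rw [← hfib (e0 F n hn) (e0_ne hn) ((c : F) • e0 F n hn)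
      (smul_ne_zero c.ne_zero (e0_ne hn))]
    congr 1
    ext x
    simp only [Finset.mem_filter, Finset.mem_univ, true_and]
    exact ⟨fun h => h.2, fun h => ⟨(mem_P hn).mpr ⟨c, h⟩, h⟩⟩
  show (Nat.card (P F n hn) : ℂ)⁻¹ * ∑ x : Matrix.SpecialLinearGroup (Fin n) F,
    extendByZero (P F n hn) (theta hn χ) (x⁻¹ * g * x) = _
  simp only [ext_theta]
  rw [Finset.sum_comm]
  have h3 : ∀ c : Fˣ, ∑ x : Matrix.SpecialLinearGroup (Fin n) F,
      (if (x⁻¹ * g * x) • e0 F n hn = (c : F) • e0 F n hn then χ (c : F) else 0) =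
      χ (c : F) * ((Nn g c : ℂ) * (t : ℂ)) := by
    intro c
    rw [← Finset.sum_filter, Finset.sum_const, nsmul_eq_mul, hcount c]
    push_cast; ring
  rw [Finset.sum_congr rfl (fun c _ => h3 c), hP]
  have hq : ((Fintype.card F - 1 : ℕ) : ℂ) ≠ 0 := Q_ne
  have htc : (t : ℂ) ≠ 0 := Nat.cast_ne_zero.mpr ht0
  rw [Nat.cast_mul, Finset.mul_sum, Finset.mul_sum]
  refine Finset.sum_congr rfl (fun c _ => ?_)
  field_simp

/-! ### Multiplicative characters -/

theorem sum_units_char (χ : MulChar F ℂ) :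
    ∑ c : Fˣ, χ (c : F) = if χ = 1 then ((Fintype.card F - 1 : ℕ) : ℂ) else 0 := by
  rw [sum_units_eq (fun a => χ a) (MulChar.map_zero χ)]
  split_ifs with h
  · rw [h, Q_eq]; simpa using mulChar_sum_self (1 : MulChar F ℂ)
  · exact MulChar.sum_eq_zero_of_ne_one h

theorem sum_units_char_conj (χ ψ : MulChar F ℂ) :
    ∑ c : Fˣ, χ (c : F) * (starRingEnd ℂ) (ψ (c : F)) =
      if χ = ψ then ((Fintype.card F - 1 : ℕ) : ℂ) else 0 := by
  have h1 : ∀ c : Fˣ, χ (c : F) * (starRingEnd ℂ) (ψ (c : F)) = (χ * ψ⁻¹) (c : F) := by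
    intro c
    rw [MulChar.mul_apply, starRingEnd_apply, MulChar.star_apply']
  rw [Finset.sum_congr rfl (fun c _ => h1 c), sum_units_char (χ * ψ⁻¹)]
  by_cases h : χ = ψ
  · rw [if_pos h, if_pos (by rw [h, mul_inv_cancel])]
  · rw [if_neg h, if_neg (fun h' => h (mul_inv_eq_one.mp h'))]

theorem exists_equiv : Nonempty (Fin (Fintype.card F - 1) ≃ MulChar F ℂ) := by
  haveI : NeZero (Monoid.exponent Fˣ) := ⟨Monoid.exponent_ne_zero_of_finite⟩
  haveI := Fintype.ofFinite (MulChar F ℂ)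
  have hcard : Fintype.card (MulChar F ℂ) = Fintype.card F - 1 := by
    rw [← Nat.card_eq_fintype_card, MulChar.card_eq_card_units_of_hasEnoughRootsOfUnity F ℂ,
      Nat.card_units, Nat.card_eq_fintype_card]
  exact ⟨(Fintype.equivFinOfCardEq hcard).symm⟩

theorem sum_chars (e : Fin (Fintype.card F - 1) ≃ MulChar F ℂ) (c : Fˣ) :
    ∑ i, (e i) (c : F) = if c = 1 then ((Fintype.card F - 1 : ℕ) : ℂ) else 0 := by
  haveI : NeZero (Monoid.exponent Fˣ) := ⟨Monoid.exponent_ne_zero_of_finite⟩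
  split_ifs with h
  · rw [h]; simp
  · haveI := Fintype.ofFinite (MulChar F ℂ)
    refine (Equiv.sum_comp e (fun χ : MulChar F ℂ => χ (c : F))).trans ?_
    have hc : (c : F) ≠ 1 := fun h' => h (Units.ext h')
    obtain ⟨χ, hχ⟩ := MulChar.exists_apply_ne_one_of_hasEnoughRootsOfUnity F ℂ hc
    refine eq_zero_of_mul_eq_self_left hχ ?_
    simp only [Finset.mul_sum, ← MulChar.mul_apply]
    exact Fintype.sum_bijective _ (Group.mulLeft_bijective χ) _ _ fun χ' ↦ rfl

/-! ### The constituents -/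

/-- The constituents of the permutation character minus the trivial character. -/
noncomputable def psi (χ : MulChar F ℂ) (g : Matrix.SpecialLinearGroup (Fin n) F) : ℂ :=
  ((Fintype.card F - 1 : ℕ) : ℂ)⁻¹ * ∑ c : Fˣ, χ (c : F) * ((Nn g c : ℂ) - 1)

theorem sum_Nn_cast (hn : 3 ≤ n) (c : Fˣ) :
    ∑ g : Matrix.SpecialLinearGroup (Fin n) F, (Nn g c : ℂ) =
      (Fintype.card (Matrix.SpecialLinearGroup (Fin n) F) : ℂ) := by
  exact_mod_cast sum_Nn hn c

theorem sum_Nn_mul_cast (hn : 3 ≤ n) (c d : Fˣ) :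
    ∑ g : Matrix.SpecialLinearGroup (Fin n) F, (Nn g c : ℂ) * (Nn g d : ℂ) =
      (Fintype.card (Matrix.SpecialLinearGroup (Fin n) F) : ℂ) *
        ((if c = d then ((Fintype.card F - 1 : ℕ) : ℂ) else 0) + 1) := by
  have h := congrArg (Nat.cast : ℕ → ℂ) (sum_Nn_mul hn c d)
  rw [Nat.cast_sum, Nat.cast_mul, Nat.cast_add, Nat.cast_one] at h
  rw [← Finset.sum_congr rfl (fun g _ => Nat.cast_mul (Nn g c) (Nn g d)), h]
  by_cases hcd : c = d
  · rw [if_pos hcd, if_pos hcd]
  · rw [if_neg hcd, if_neg hcd, Nat.cast_zero]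

theorem sum_Nn_sub (hn : 3 ≤ n) (c : Fˣ) :
    ∑ g : Matrix.SpecialLinearGroup (Fin n) F, ((Nn g c : ℂ) - 1) = 0 := by
  rw [Finset.sum_sub_distrib, sum_Nn_cast hn c, Finset.sum_const, Finset.card_univ,
    nsmul_eq_mul, mul_one, sub_self]

theorem sum_Nn_sub_mul (hn : 3 ≤ n) (c d : Fˣ) :
    ∑ g : Matrix.SpecialLinearGroup (Fin n) F, ((Nn g c : ℂ) - 1) * ((Nn g d : ℂ) - 1) =
      (Fintype.card (Matrix.SpecialLinearGroup (Fin n) F) : ℂ) *
        (if c = d then ((Fintype.card F - 1 : ℕ) : ℂ) else 0) := by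
  have h : ∀ g : Matrix.SpecialLinearGroup (Fin n) F,
      ((Nn g c : ℂ) - 1) * ((Nn g d : ℂ) - 1) =
        (Nn g c : ℂ) * (Nn g d : ℂ) - (Nn g c : ℂ) - (Nn g d : ℂ) + 1 := fun g => by ring
  rw [Finset.sum_congr rfl (fun g _ => h g), Finset.sum_add_distrib, Finset.sum_sub_distrib,
    Finset.sum_sub_distrib, sum_Nn_mul_cast hn c d, sum_Nn_cast hn c, sum_Nn_cast hn d,
    Finset.sum_const, Finset.card_univ, nsmul_eq_mul, mul_one]
  ring

theorem psi_eq (hn : 3 ≤ n) (χ : MulChar F ℂ) :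
    (psi χ : Matrix.SpecialLinearGroup (Fin n) F → ℂ) =
      indFun (P F n hn) (theta hn χ) - (if χ = 1 then (1 : ℂ) else 0) • (fun _ => (1 : ℂ)) := by
  funext g
  rw [Pi.sub_apply, Pi.smul_apply, smul_eq_mul, mul_one, indFun_theta hn χ g]
  have h : (if χ = 1 then (1 : ℂ) else 0) =
      ((Fintype.card F - 1 : ℕ) : ℂ)⁻¹ * ∑ c : Fˣ, χ (c : F) := by
    rw [sum_units_char χ]
    split_ifs
    · rw [inv_mul_cancel₀ Q_ne]
    · rw [mul_zero]
  rw [h, ← mul_sub, ← Finset.sum_sub_distrib]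
  unfold psi
  congr 1
  refine Finset.sum_congr rfl (fun c _ => by ring)

theorem psi_inner (hn : 3 ≤ n) (χ ψ : MulChar F ℂ) :
    classInner (psi χ : Matrix.SpecialLinearGroup (Fin n) F → ℂ) (psi ψ) =
      if χ = ψ then 1 else 0 := by
  have hconj : ∀ g : Matrix.SpecialLinearGroup (Fin n) F, (starRingEnd ℂ) (psi ψ g) =
      ((Fintype.card F - 1 : ℕ) : ℂ)⁻¹ *
        ∑ d : Fˣ, (starRingEnd ℂ) (ψ (d : F)) * ((Nn g d : ℂ) - 1) := by
    intro g
    unfold psi
    rw [map_mul, map_inv₀, map_natCast, map_sum]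
    congr 1
    refine Finset.sum_congr rfl (fun d _ => ?_)
    rw [map_mul, map_sub, map_natCast, map_one]
  have hprod : ∀ g : Matrix.SpecialLinearGroup (Fin n) F,
      psi χ g * (starRingEnd ℂ) (psi ψ g) =
        ((Fintype.card F - 1 : ℕ) : ℂ)⁻¹ * ((Fintype.card F - 1 : ℕ) : ℂ)⁻¹ *
          ∑ c : Fˣ, ∑ d : Fˣ, (χ (c : F) * (starRingEnd ℂ) (ψ (d : F))) *
            (((Nn g c : ℂ) - 1) * ((Nn g d : ℂ) - 1)) := by
    intro g
    rw [hconj g]
    unfold psi
    rw [mul_mul_mul_comm, Finset.sum_mul_sum]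
    congr 1
    exact Finset.sum_congr rfl (fun c _ => Finset.sum_congr rfl (fun d _ => by ring))
  have hin : ∀ c : Fˣ, ∑ g : Matrix.SpecialLinearGroup (Fin n) F, ∑ d : Fˣ,
      (χ (c : F) * (starRingEnd ℂ) (ψ (d : F))) *
        (((Nn g c : ℂ) - 1) * ((Nn g d : ℂ) - 1)) =
      (Fintype.card (Matrix.SpecialLinearGroup (Fin n) F) : ℂ) *
        ((Fintype.card F - 1 : ℕ) : ℂ) * (χ (c : F) * (starRingEnd ℂ) (ψ (c : F))) := by
    intro c
    rw [Finset.sum_comm]
    simp only [← Finset.mul_sum]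
    rw [Finset.sum_congr rfl (fun d _ => by rw [sum_Nn_sub_mul hn c d])]
    simp only [mul_ite, mul_zero, Finset.sum_ite_eq, Finset.mem_univ, if_true]
    ring
  unfold classInner
  rw [Finset.sum_congr rfl (fun g _ => hprod g), ← Finset.mul_sum, Finset.sum_comm,
    Finset.sum_congr rfl (fun c _ => hin c), ← Finset.mul_sum, sum_units_char_conj χ ψ,
    Nat.card_eq_fintype_card]
  have hG : (Fintype.card (Matrix.SpecialLinearGroup (Fin n) F) : ℂ) ≠ 0 :=
    Nat.cast_ne_zero.mpr Fintype.card_ne_zero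
  have hq : ((Fintype.card F - 1 : ℕ) : ℂ) ≠ 0 := Q_ne
  split_ifs
  · field_simp
  · simp

theorem psi_inner_one (hn : 3 ≤ n) (χ : MulChar F ℂ) :
    classInner (psi χ : Matrix.SpecialLinearGroup (Fin n) F → ℂ) (fun _ => (1 : ℂ)) = 0 := by
  have h : ∑ g : Matrix.SpecialLinearGroup (Fin n) F, psi χ g = 0 := by
    unfold psi
    rw [← Finset.mul_sum, Finset.sum_comm]
    simp only [← Finset.mul_sum]
    rw [Finset.sum_eq_zero (fun c _ => by rw [sum_Nn_sub hn c, mul_zero]), mul_zero]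
  unfold classInner
  simp only [map_one, mul_one]
  rw [h, mul_zero]

theorem psi_isCharacter (hn : 3 ≤ n) (χ : MulChar F ℂ) :
    IsCharacter (Matrix.SpecialLinearGroup (Fin n) F) (psi χ) := by
  have hind : IsCharacter (Matrix.SpecialLinearGroup (Fin n) F)
      (indFun (P F n hn) (theta hn χ)) :=
    Helper24.isCharacter_induced _ _ (theta_isCharacter hn χ)
  apply Helper24.isCharacter_of_classFunction_of_inner_nat
  · intro g h
    rw [psi_eq hn χ]
    simp only [Pi.sub_apply, Pi.smul_apply]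
    rw [Helper24.indFun_isClassFunction (P F n hn) (theta hn χ) g h]
  · intro ξ
    by_cases h1 : (ξ : Matrix.SpecialLinearGroup (Fin n) F → ℂ) = fun _ => 1
    · refine ⟨0, ?_⟩
      rw [h1, psi_inner_one hn χ, Nat.cast_zero]
    · obtain ⟨k, hk⟩ := Helper24.isCharacter_inner_irr hind ξ
      refine ⟨k, ?_⟩
      rw [psi_eq hn χ, Helper24.classInner_sub_left, Helper24.classInner_smul_left, hk]
      have h0 : classInner (fun _ : Matrix.SpecialLinearGroup (Fin n) F => (1 : ℂ))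
          (ξ : Matrix.SpecialLinearGroup (Fin n) F → ℂ) = 0 := by
        have := Helper24.irr_orthonormal
          (⟨fun _ => 1, Helper24.isIrrCharacter_one⟩ :
            IrrCharacter (Matrix.SpecialLinearGroup (Fin n) F)) ξ
        rw [if_neg (fun h => h1 (congrArg Subtype.val h).symm)] at this
        exact this
      rw [h0, mul_zero, sub_zero]

theorem main (n : ℕ) (hn : 3 ≤ n) :
    ∃ χ : Fin (Fintype.card F - 1) → (Matrix.SpecialLinearGroup (Fin n) F → ℂ),
      (∀ i, Cfsg.IsIrrCharacter (Matrix.SpecialLinearGroup (Fin n) F) (χ i)) ∧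
      Function.Injective χ ∧
      ∀ g : Matrix.SpecialLinearGroup (Fin n) F,
        (Nat.card {v : Fin n → F // v ≠ 0 ∧ (g : Matrix (Fin n) (Fin n) F).mulVec v = v} : ℂ) =
          1 + ∑ i, χ i g := by
  obtain ⟨e⟩ := exists_equiv (F := F)
  refine ⟨fun i => psi (e i), ?_, ?_, ?_⟩
  · intro i
    exact Helper24.isIrrCharacter_of_inner_self (psi_isCharacter hn (e i))
      (by rw [psi_inner hn, if_pos rfl])
  · intro i j hij
    by_contra hne
    have h1 := psi_inner (n := n) hn (e i) (e j)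
    rw [if_neg (fun h => hne (e.injective h))] at h1
    have h2 := psi_inner (n := n) hn (e i) (e i)
    rw [if_pos rfl] at h2
    have hij' : (psi (e i) : Matrix.SpecialLinearGroup (Fin n) F → ℂ) = psi (e j) := hij
    rw [← hij', h2] at h1
    exact one_ne_zero h1
  · intro g
    have hN : (Nat.card {v : Fin n → F // v ≠ 0 ∧
        (g : Matrix (Fin n) (Fin n) F).mulVec v = v} : ℂ) = (Nn g 1 : ℂ) := by
      congr 1
      unfold Nn
      rw [Nat.card_eq_fintype_card]
      refine Fintype.card_of_subtype _ (fun v => ?_)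
      simp [Matrix.SpecialLinearGroup.smul_def]
    rw [hN]
    simp only [psi]
    rw [← Finset.mul_sum, Finset.sum_comm]
    simp only [← Finset.sum_mul]
    rw [Finset.sum_congr rfl (fun c _ => by rw [sum_chars e c])]
    simp only [ite_mul, zero_mul, Finset.sum_ite_eq', Finset.mem_univ, if_true]
    rw [← mul_assoc, inv_mul_cancel₀ Q_ne, one_mul]
    ring

end Cfsg.Agent.Helper12.SLn
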