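import Mathlib
import Cfsg.Prelude.Def_Solvable
import Cfsg.Agent.Helper23.PSolv

/-!
# A solvable group with trivial `O_2`: involutions act nontrivially on a normal subgroup of odd order
-/

set_option autoImplicit false

namespace Cfsg.Agent.Helper12.TV

open scoped commutatorElement

theorem exists_odd_normal {S : Type*} [Group S] [Finite S] [hsol : Group.IsSolvable S]
    (hO2 : Cfsg.pCore 2 S = ⊥) (t : S) (ht : t ≠ 1) (ht2 : t * t = 1) :
    ∃ F : Subgroup S, F.Normal ∧ Odd (Nat.card F) ∧ ∃ x ∈ F, t * x ≠ x * t := by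
  classical
  set K := Cfsg.pPrimeCore 2 S with hK
  have hKn : K.Normal := (Cfsg.Agent.Helper23.pPrimeCore_mem 2).1
  have hKc : (Nat.card K).Coprime 2 := (Cfsg.Agent.Helper23.pPrimeCore_mem 2).2
  have hKodd : Odd (Nat.card K) := Nat.coprime_two_right.mp hKc
  by_contra hcon
  push_neg at hcon
  have htK : ∀ x ∈ K, t * x = x * t := hcon K hKn hKodd
  set C := Subgroup.centralizer (K : Set S) with hC
  haveI : K.Normal := hKn
  have hCn : C.Normal := inferInstance
  have htC : t ∈ C := by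
    rw [hC, Subgroup.mem_centralizer_iff]
    intro x hx
    exact (htK x hx).symm
  have ht_order : orderOf t = 2 := orderOf_eq_prime (by rw [pow_two]; exact ht2) ht
  have htK' : t ∉ K := by
    intro h
    have h1 : orderOf t ∣ Nat.card K := by
      have h2 := orderOf_dvd_natCard (⟨t, h⟩ : K)
      rwa [Subgroup.orderOf_mk] at h2
    rw [ht_order] at h1
    exact (Nat.not_even_iff_odd.mpr hKodd) (even_iff_two_dvd.mpr h1)
  let 𝓜 : Set (Subgroup S) := {M | M.Normal ∧ M ≤ C ∧ ¬ M ≤ K}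
  have hCM : C ∈ 𝓜 := ⟨hCn, le_refl _, fun h => htK' (h htC)⟩
  obtain ⟨M, hM, hMmin⟩ := (Set.toFinite 𝓜).exists_minimal ⟨C, hCM⟩
  obtain ⟨hMn, hMC, hMK⟩ := hM
  haveI := hMn
  have hMne : M ≠ ⊥ := fun h => hMK (h ▸ bot_le)
  have hder : ⁅M, M⁆ < M := Group.IsSolvable.commutator_lt_of_ne_bot hMne
  have hderK : ⁅M, M⁆ ≤ K := by
    by_contra h
    have hmem : ⁅M, M⁆ ∈ 𝓜 := ⟨inferInstance, hder.le.trans hMC, h⟩
    exact lt_irrefl _ (lt_of_lt_of_le hder (hMmin hmem hder.le))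
  have hMKcomm : ∀ m ∈ M, ∀ k ∈ K, k * m = m * k := by
    intro m hm k hk
    exact (Subgroup.mem_centralizer_iff.mp (hMC hm)) k hk
  have hcent : ∀ q ∈ M, (∃ n : ℕ, q ^ (2 ^ n) = 1) → ∀ m ∈ M, m * q = q * m := by
    rintro q hq ⟨n, hn⟩ m hm
    set c := q⁻¹ * (m * q * m⁻¹) with hc
    have hcK : c ∈ K := by
      apply hderK
      have hce : c = ⁅q⁻¹, m⁆ := by rw [hc, commutatorElement_def]; group
      rw [hce]
      exact Subgroup.commutator_mem_commutator (M.inv_mem hq) hm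
    have hcq : c * q = q * c := hMKcomm q hq c hcK
    have hconj : m * q * m⁻¹ = q * c := by rw [hc]; group
    have hpow : (q * c) ^ (2 ^ n) = 1 := by
      rw [← hconj, conj_pow, hn]; group
    have hc1 : c ^ (2 ^ n) = 1 := by
      have hcomm : Commute q c := hcq.symm
      rw [hcomm.mul_pow, hn, one_mul] at hpow
      exact hpow
    have hc2 : c ^ Nat.card K = 1 := by
      have h3 := pow_card_eq_one' (G := K) (x := ⟨c, hcK⟩)
      have h4 := congrArg Subtype.val h3
      rwa [Subgroup.coe_pow] at h4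
    have hcone : c = 1 := by
      have h1 : orderOf c ∣ 2 ^ n := orderOf_dvd_of_pow_eq_one hc1
      have h2 : orderOf c ∣ Nat.card K := orderOf_dvd_of_pow_eq_one hc2
      have h3 : Nat.Coprime (2 ^ n) (Nat.card K) := Nat.Coprime.pow_left n hKc.symm
      have h4 : orderOf c ∣ 1 := by
        have h5 := Nat.dvd_gcd h1 h2
        rwa [Nat.Coprime.gcd_eq_one h3] at h5
      exact orderOf_eq_one_iff.mp (Nat.dvd_one.mp h4)
    rw [hcone, mul_one] at hconj
    calc m * q = (m * q * m⁻¹) * m := by group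
      _ = q * m := by rw [hconj]
  let Q₀ : Subgroup S :=
    { carrier := {q | q ∈ M ∧ ∃ n : ℕ, q ^ (2 ^ n) = 1}
      one_mem' := ⟨M.one_mem, 0, one_pow _⟩
      mul_mem' := by
        rintro a b ⟨ha, na, hna⟩ ⟨hb, nb, hnb⟩
        refine ⟨M.mul_mem ha hb, na + nb, ?_⟩
        have hab : Commute a b := hcent b hb ⟨nb, hnb⟩ a ha
        rw [hab.mul_pow, pow_add, pow_mul, hna, one_pow, mul_comm (2 ^ na) (2 ^ nb), pow_mul,
          hnb, one_pow, one_mul]
      inv_mem' := by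
        rintro a ⟨ha, na, hna⟩
        exact ⟨M.inv_mem ha, na, by rw [inv_pow, hna, inv_one]⟩ }
  have hQn : Q₀.Normal := by
    constructor
    rintro q ⟨hq, n, hn⟩ g
    refine ⟨hMn.conj_mem q hq g, n, ?_⟩
    rw [conj_pow, hn]; group
  have hQp : IsPGroup 2 Q₀ := by
    rintro ⟨q, hq, n, hn⟩
    exact ⟨n, Subtype.ext (by rw [Subgroup.coe_pow]; exact hn)⟩
  have hQbot : Q₀ = ⊥ := le_bot_iff.mp (hO2 ▸ Cfsg.Agent.Helper23.le_pCore hQn hQp)
  have hModd : Odd (Nat.card M) := by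
    by_contra hev
    rw [Nat.not_odd_iff_even, even_iff_two_dvd] at hev
    haveI : Fact (Nat.Prime 2) := ⟨Nat.prime_two⟩
    obtain ⟨y, hy⟩ := exists_prime_orderOf_dvd_card' 2 hev
    have hy1 : (y : S) ∈ Q₀ := ⟨y.2, 1, by
      have h3 := pow_orderOf_eq_one y
      rw [hy] at h3
      have h4 := congrArg Subtype.val h3
      rwa [Subgroup.coe_pow] at h4⟩
    rw [hQbot, Subgroup.mem_bot] at hy1
    have hy2 : y = 1 := Subtype.ext hy1
    rw [hy2, orderOf_one] at hy
    omega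
  exact hMK (Cfsg.Agent.Helper23.le_pPrimeCore hMn (Nat.coprime_two_right.mpr hModd))

end Cfsg.Agent.Helper12.TV
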