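import Mathlib

/-!
# Transvection-like involutions over `𝔽₂` normalising an odd-order group
-/

set_option autoImplicit false

namespace Cfsg.Agent.Helper12.TV

variable {V : Type*} [AddCommGroup V] [Module (ZMod 2) V]

theorem add_self2 (v : V) : v + v = 0 := by
  have h : (2 : ZMod 2) = 0 := by decide
  rw [← two_smul (ZMod 2) v, h, zero_smul]

theorem cancel_l (a b : V) : a + (a + b) = b := by rw [← add_assoc, add_self2, zero_add]

theorem eq_of_add_eq_zero2 {x y : V} (h : x + y = 0) : x = y := by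
  have h2 : x = x + y + y := by
    simp only [add_assoc, add_left_comm, add_comm, add_self2, cancel_l, add_zero, zero_add]
  rw [h2, h, zero_add]

theorem four_le [Finite V] (R : Submodule (ZMod 2) V) (a r : V) (ha : a ∈ R) (hr : r ∈ R)
    (ha0 : a ≠ 0) (hr0 : r ≠ 0) (hra : r ≠ a) : 4 ≤ Nat.card R := by
  classical
  haveI := Fintype.ofFinite V
  have hsub : ({0, a, r, a + r} : Finset V) ⊆ Finset.univ.filter (· ∈ R) := by
    intro y hy
    simp only [Finset.mem_insert, Finset.mem_singleton] at hy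
    simp only [Finset.mem_filter, Finset.mem_univ, true_and]
    rcases hy with rfl | rfl | rfl | rfl
    · exact R.zero_mem
    · exact ha
    · exact hr
    · exact R.add_mem ha hr
  have hcard : ({0, a, r, a + r} : Finset V).card = 4 := by
    have h1 : (0 : V) ≠ a := ha0.symm
    have h2 : (0 : V) ≠ r := hr0.symm
    have h3 : (0 : V) ≠ a + r := fun h => hra (eq_of_add_eq_zero2 h.symm).symm
    have h4 : a ≠ r := fun h => hra h.symm
    have h5 : a ≠ a + r := fun h => hr0 (by simpa using h)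
    have h6 : r ≠ a + r := fun h => ha0 (by simpa using h)
    rw [Finset.card_insert_of_notMem (by simp [h1, h2, h3]),
      Finset.card_insert_of_notMem (by simp [h4, h5]),
      Finset.card_insert_of_notMem (by simp [h6]), Finset.card_singleton]
  have h7 := Finset.card_le_card hsub
  rw [hcard] at h7
  have e : (Finset.univ.filter (· ∈ R)).card = Nat.card R := (Nat.subtype_card _ (by simp)).symm
  omega

/-- `T` is a transvection-like involution with centre `c`. -/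
def IsTv (T : V ≃ₗ[ZMod 2] V) (c : V) : Prop :=
  (∀ v, T (T v) = v) ∧ (∀ v, T v = v ∨ T v = v + c) ∧ T c = c ∧ c ≠ 0 ∧ ∃ u, T u = u + c

theorem mul_app (A B : V ≃ₗ[ZMod 2] V) (v : V) : (A * B) v = A (B v) := rfl

theorem inv_app (A : V ≃ₗ[ZMod 2] V) (v : V) : A⁻¹ (A v) = v := by
  rw [← mul_app, inv_mul_cancel]; rfl

theorem app_inv (A : V ≃ₗ[ZMod 2] V) (v : V) : A (A⁻¹ v) = v := by
  rw [← mul_app, mul_inv_cancel]; rfl

theorem IsTv.mul_self {T : V ≃ₗ[ZMod 2] V} {c : V} (h : IsTv T c) : T * T = 1 := by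
  apply LinearEquiv.ext
  intro v
  rw [mul_app, h.1]
  rfl

theorem IsTv.conj {T : V ≃ₗ[ZMod 2] V} {c : V} (h : IsTv T c) (Y : V ≃ₗ[ZMod 2] V) :
    IsTv (Y * T * Y⁻¹) (Y c) := by
  obtain ⟨h1, h2, h3, h4, u, hu⟩ := h
  refine ⟨?_, ?_, ?_, ?_, Y u, ?_⟩
  · intro v
    simp only [mul_app, inv_app, h1, app_inv]
  · intro v
    simp only [mul_app]
    rcases h2 (Y⁻¹ v) with h | h
    · left; rw [h, app_inv]
    · right; rw [h, map_add, app_inv]
  · simp only [mul_app, inv_app, h3]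
  · intro h0
    exact h4 (by simpa using h0)
  · simp only [mul_app, inv_app, hu, map_add]

theorem pow4 {T : V ≃ₗ[ZMod 2] V} {c : V} (h : IsTv T c) (Y : V ≃ₗ[ZMod 2] V)
    (hb : T (Y c) = Y c) : (T * (Y * T * Y⁻¹)) ^ 4 = 1 := by
  have h' := h.conj Y
  obtain ⟨h1, h2, h3, h4, u, hu⟩ := h
  obtain ⟨k1, k2, k3, k4, -⟩ := h'
  have hsv : ∀ v, (T * (Y * T * Y⁻¹)) v = T ((Y * T * Y⁻¹) v) := fun v => rfl
  have hsb : (T * (Y * T * Y⁻¹)) (Y c) = Y c := by rw [hsv, k3, hb]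
  have hsa : (T * (Y * T * Y⁻¹)) c = c ∨ (T * (Y * T * Y⁻¹)) c = c + Y c := by
    rcases k2 c with h | h
    · left; rw [hsv, h, h3]
    · right; rw [hsv, h, map_add, h3, hb]
  have hs2 : ∀ v, (T * (Y * T * Y⁻¹)) ((T * (Y * T * Y⁻¹)) v) = v ∨
      (T * (Y * T * Y⁻¹)) ((T * (Y * T * Y⁻¹)) v) = v + Y c := by
    intro v
    rcases h2 v with e1 | e1 <;> rcases k2 v with e2 | e2
    · left
      have hv : (T * (Y * T * Y⁻¹)) v = v := by rw [hsv, e2, e1]
      rw [hv, hv]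
    · left
      have hv : (T * (Y * T * Y⁻¹)) v = v + Y c := by rw [hsv, e2, map_add, e1, hb]
      rw [hv, map_add, hv, hsb]
      simp only [add_assoc, add_left_comm, add_comm, add_self2, cancel_l, add_zero, zero_add]
    · have hv : (T * (Y * T * Y⁻¹)) v = v + c := by rw [hsv, e2, e1]
      rcases hsa with e3 | e3
      · left
        rw [hv, map_add, hv, e3]
        simp only [add_assoc, add_left_comm, add_comm, add_self2, cancel_l, add_zero, zero_add]
      · right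
        rw [hv, map_add, hv, e3]
        simp only [add_assoc, add_left_comm, add_comm, add_self2, cancel_l, add_zero, zero_add]
    · have hv : (T * (Y * T * Y⁻¹)) v = v + c + Y c := by rw [hsv, e2, map_add, e1, hb]
      rcases hsa with e3 | e3
      · left
        rw [hv, map_add, map_add, hv, e3, hsb]
        simp only [add_assoc, add_left_comm, add_comm, add_self2, cancel_l, add_zero, zero_add]
      · right
        rw [hv, map_add, map_add, hv, e3, hsb]
        simp only [add_assoc, add_left_comm, add_comm, add_self2, cancel_l, add_zero, zero_add]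
  have e4 : (T * (Y * T * Y⁻¹)) ^ 4 = (T * (Y * T * Y⁻¹)) * (T * (Y * T * Y⁻¹)) *
      (T * (Y * T * Y⁻¹)) * (T * (Y * T * Y⁻¹)) := by
    rw [pow_succ, pow_succ, pow_succ, pow_one]
  rw [e4]
  apply LinearEquiv.ext
  intro v
  show (T * (Y * T * Y⁻¹)) ((T * (Y * T * Y⁻¹)) ((T * (Y * T * Y⁻¹)) ((T * (Y * T * Y⁻¹)) v))) = v
  rcases hs2 v with e | e
  · rw [e, e]
  · rw [e, map_add, map_add, e, hsb, hsb]
    simp only [add_assoc, add_left_comm, add_comm, add_self2, cancel_l, add_zero, zero_add]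

theorem conj_eq_of_prod_one {T : V ≃ₗ[ZMod 2] V} {c : V} (h : IsTv T c) (Y : V ≃ₗ[ZMod 2] V)
    (hs1 : T * (Y * T * Y⁻¹) = 1) : Y * T = T * Y := by
  have hTT := h.mul_self
  have e0 : Y * T * Y⁻¹ = T⁻¹ := eq_inv_of_mul_eq_one_right hs1
  have e1 : T⁻¹ = T := inv_eq_of_mul_eq_one_left hTT
  rw [e1] at e0
  calc Y * T = (Y * T * Y⁻¹) * Y := by group
    _ = T * Y := by rw [e0]

theorem fix_of_commute {T : V ≃ₗ[ZMod 2] V} {c : V} (h : IsTv T c) (Y : V ≃ₗ[ZMod 2] V)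
    (hc : Y * T = T * Y) : Y c = c := by
  obtain ⟨h1, h2, h3, h4, u, hu⟩ := h
  have e : Y (T u) = T (Y u) := by rw [← mul_app, hc, mul_app]
  rw [hu, map_add] at e
  rcases h2 (Y u) with h | h
  · exfalso
    rw [h] at e
    have hz : Y c = 0 := by simpa using e
    exact h4 (by simpa using hz)
  · rw [h] at e
    exact add_left_cancel e

theorem tv_key {T : V ≃ₗ[ZMod 2] V} {c : V} (h : IsTv T c) (Y : V ≃ₗ[ZMod 2] V)
    (hodd : (T * (Y * T * Y⁻¹)) ^ 4 = 1 → T * (Y * T * Y⁻¹) = 1) :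
    Y c = c ∨ T (Y c) = Y c + c := by
  rcases h.2.1 (Y c) with hb | hb
  · left
    exact fix_of_commute h Y (conj_eq_of_prod_one h Y (hodd (pow4 h Y hb)))
  · right; exact hb

theorem main_abs (S F : Subgroup (V ≃ₗ[ZMod 2] V)) (hFS : F ≤ S)
    (hnorm : ∀ s ∈ S, ∀ y ∈ F, s * y * s⁻¹ ∈ F) (hO : ∀ w ∈ F, w ^ 4 = 1 → w = 1)
    (P : V ≃ₗ[ZMod 2] V) (hPS : P ∈ S) (a : V) (hTv : IsTv (P * P) a) (hPa : P a = a)
    (X : V ≃ₗ[ZMod 2] V) (hX : X ∈ F) (hXT : (P * P) * X ≠ X * (P * P)) : False := by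
  have hTS : P * P ∈ S := S.mul_mem hPS hPS
  have hprod : ∀ (T₁ : V ≃ₗ[ZMod 2] V) (c₁ : V), IsTv T₁ c₁ → T₁ ∈ S → ∀ Y ∈ F,
      T₁ * (Y * T₁ * Y⁻¹) ∈ F := by
    intro T₁ c₁ h1 hS1 Y hY
    have hinv : T₁⁻¹ = T₁ := inv_eq_of_mul_eq_one_left h1.mul_self
    have e : T₁ * (Y * T₁ * Y⁻¹) = (T₁ * Y * T₁⁻¹) * Y⁻¹ := by rw [hinv]; group
    rw [e]
    exact F.mul_mem (hnorm T₁ hS1 Y hY) (F.inv_mem hY)
  have key : ∀ (T₁ : V ≃ₗ[ZMod 2] V) (c₁ : V), IsTv T₁ c₁ → T₁ ∈ S → ∀ Y ∈ F,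
      Y c₁ = c₁ ∨ T₁ (Y c₁) = Y c₁ + c₁ :=
    fun T₁ c₁ h1 hS1 Y hY => tv_key h1 Y (hO _ (hprod T₁ c₁ h1 hS1 Y hY))
  obtain ⟨h1, h2, h3, h4, u, hu⟩ := id hTv
  have hTb : (P * P) (X a) = X a + a := by
    rcases h2 (X a) with h | h
    · exfalso
      apply hXT
      exact (conj_eq_of_prod_one hTv X (hO _ (hprod _ a hTv hTS X hX) (pow4 hTv X h))).symm
    · exact h
  have hba : X a ≠ a := by
    intro h
    rw [h, h3] at hTb
    rw [add_self2] at hTb
    exact h4 hTb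
  have hTvx : IsTv (X * (P * P) * X⁻¹) (X a) := hTv.conj X
  have hTxS : X * (P * P) * X⁻¹ ∈ S :=
    S.mul_mem (S.mul_mem (hFS hX) hTS) (S.inv_mem (hFS hX))
  have hTxa : (X * (P * P) * X⁻¹) a = a + X a := by
    rcases key _ (X a) hTvx hTxS X⁻¹ (F.inv_mem hX) with h | h
    · exfalso
      rw [inv_app] at h
      exact hba h.symm
    · rw [inv_app] at h
      exact h
  have hTxb : (X * (P * P) * X⁻¹) (X a) = X a := hTvx.2.2.1
  have hX' : P * X * P⁻¹ ∈ F := hnorm P hPS X hX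
  have hPinv : P⁻¹ a = a := by
    have h5 := inv_app P a
    rw [hPa] at h5
    exact h5
  have hX'a : (P * X * P⁻¹) a = P (X a) := by
    rw [mul_app, mul_app, hPinv]
  have A1 := key _ a hTv hTS (P * X * P⁻¹) hX'
  rw [hX'a] at A1
  have A2 := key _ (X a) hTvx hTxS ((P * X * P⁻¹) * X⁻¹) (F.mul_mem hX' (F.inv_mem hX))
  have hY2 : ((P * X * P⁻¹) * X⁻¹) (X a) = P (X a) := by
    rw [mul_app, inv_app, hX'a]
  rw [hY2] at A2
  have hTinv : (P * P)⁻¹ = P * P := inv_eq_of_mul_eq_one_left hTv.mul_self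
  have hTvg : IsTv ((P * P) * (X * (P * P) * X⁻¹) * (P * P)⁻¹) ((P * P) (X a)) :=
    hTvx.conj (P * P)
  rw [hTb] at hTvg
  have hgS : (P * P) * (X * (P * P) * X⁻¹) * (P * P)⁻¹ ∈ S :=
    S.mul_mem (S.mul_mem hTS hTxS) (S.inv_mem hTS)
  have hfF : (P * P) * (X * (P * P) * X⁻¹) ∈ F := hprod _ a hTv hTS X hX
  have hfX : (((P * P) * (X * (P * P) * X⁻¹)) * X) a = X a + a := by
    rw [mul_app, mul_app, hTxb, hTb]
  have hY3mem : (P * X * P⁻¹) * (((P * P) * (X * (P * P) * X⁻¹)) * X)⁻¹ ∈ F :=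
    F.mul_mem hX' (F.inv_mem (F.mul_mem hfF hX))
  have hY3 : ((P * X * P⁻¹) * (((P * P) * (X * (P * P) * X⁻¹)) * X)⁻¹) (X a + a) =
      P (X a) := by
    rw [mul_app, ← hfX, inv_app, hX'a]
  have A3 := key _ (X a + a) hTvg hgS _ hY3mem
  rw [hY3] at A3
  rcases A1 with e1 | e1
  · exact hba (P.injective (e1.trans hPa.symm))
  rcases A2 with e2 | e2
  · have h6 : (P * P) (X a) = X a := by rw [mul_app, e2, e2]
    rw [hTb] at h6
    apply h4
    have h7 : a = X a + (X a + a) := by rw [cancel_l]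
    rw [h7, h6, add_self2]
  rcases A3 with e3 | e3
  · have h6 : (P * P) (X a) = X a := by
      rw [mul_app, e3, map_add, e3, hPa]
      simp only [add_assoc, add_left_comm, add_comm, add_self2, cancel_l, add_zero, zero_add]
    rw [hTb] at h6
    apply h4
    have h7 : a = X a + (X a + a) := by rw [cancel_l]
    rw [h7, h6, add_self2]
  · have hg : ((P * P) * (X * (P * P) * X⁻¹) * (P * P)⁻¹) (P (X a)) = P (X a) := by
      rw [hTinv, mul_app, mul_app, e1, map_add, e2, hTxa, map_add, map_add, map_add, e1, hTb, h3]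
      simp only [add_assoc, add_left_comm, add_comm, add_self2, cancel_l, add_zero, zero_add]
    rw [hg] at e3
    have h8 : X a + a = 0 := by
      have h9 : X a + a = P (X a) + (P (X a) + (X a + a)) := by rw [cancel_l]
      rw [h9, ← e3, add_self2]
    exact hba (eq_of_add_eq_zero2 h8)

end Cfsg.Agent.Helper12.TV
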